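import Cfsg.Agent.H450.Ux.YcFour
import Cfsg.Agent.H50.RG.Fin_m3
import Cfsg.Agent.H883.Root
import Cfsg.Agent.H914.Sub
import Cfsg.Agent.H925.OrthBasic
import Cfsg.Agent.SM.Ti.Box
import Cfsg.Agent.H510.CS.Irr_m3
import Cfsg.Agent.H881.Bs.HermMinus_m3
import Cfsg.Agent.H24.Bs.GenSp
import Cfsg.Agent.LieClassical.OrthFinite
import Mathlib
import Cfsg.Agent.H365.Zsig
import Cfsg.Agent.H105.SzU2_m3
import Cfsg.Agent.H450.Bs.Herm
import Cfsg.Agent.H91.PointOrb
import Cfsg.Agent.H450.Bs.GenU_m3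
import Cfsg.Agent.H440.Bs.Rec_m3
import Cfsg.Agent.H450.UF.Sub
import Cfsg.Agent.ClassicalGeometry.WittQuad
import Cfsg.Agent.H826.Geo.Minus
import Cfsg.Agent.H377.OddThree_m3
import Cfsg.Agent.H262.Rx.RedSL
import Cfsg.Agent.H765.Bs.Kap
import Cfsg.Agent.S0756
import Cfsg.Agent.S0752
import Cfsg.Agent.H105.SLExt
import Cfsg.Agent.H847.Bs.Stmts
import Cfsg.Agent.ClassicalGeometry.TwoFamilies
import Cfsg.Agent.FastGrp
import Cfsg.Agent.Prune
set_option linter.all false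

section
prune_inst 0x7ffca8f8abb8a1dfdfff7e7fa698cdfc39901fffa6dff943bfe029cf8b9f030209c5638509e010fc0e02401410a87803f97ecfffe06bd87fe3fd1df41ffbee0ff5f7b50811948c340f380ff603f0470c6f3ffffe7ffcffffffffffffffffffbeffbdffffffff

-- part: H141/Ux/Stmts
section
set_option linter.all false

/-!
# UX (S5716, unbounded rank): the exact statements of the tasks (helper141)

A task `Uxx` is done when a theorem `… : H141.Ux.Uxx` is proved. All spaces are in `Type`. Plan: `tools/plans/S5716_unb.md`.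
-/

set_option autoImplicit false

namespace Cfsg.Agent.H141.Ux

open Module Cfsg.Agent.H847.Bs Cfsg.Agent.LieClassical.OrthCore
open Cfsg.Agent.H440.Bs (perp mem_perp)
open Cfsg Subgroup

/-! ### Final results per family -/

/-- all but `ε |G|` elements `y ∈ G` generate `G` together with the non-scalar `x ∈ G` -/
def Xsl : Prop := ∀ ε : ℝ, 0 < ε → ∃ n₀ Q₀ : ℕ, ∀ (F V : Type) [Field F] [Finite F] [AddCommGroup V] [Module F V]
  [Module.Finite F V], n₀ ≤ finrank F V → Q₀ ≤ Nat.card F → ∀ x ∈ slV F V, ¬ Sca x →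
  (cnt (slV F V) (fun y => closure {x, y} ≠ slV F V) : ℝ) ≤ ε * Nat.card (slV F V)

/-- forms -/
def Xf : Prop := ∀ ε : ℝ, 0 < ε → ∃ n₀ Q₀ : ℕ, ∀ (F V : Type) [Field F] [Finite F] [AddCommGroup V] [Module F V]
  [Module.Finite F V] (Φ : Frm F V) (G : Subgroup (V ≃ₗ[F] V)) (N t : ℕ), Kl Φ G N t → n₀ ≤ finrank F V → Q₀ ≤ t →
  ∀ x ∈ G, ¬ Sca x → (cnt G (fun y => closure {x, y} ≠ G) : ℝ) ≤ ε * Nat.card G

/-- UA: transfer to the simple groups -/
def UA : Prop := Xsl → Xf → H262.Rx.UX H262.Rx.IsCl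

/-! ### Reducible subgroups (helper262's `red_sl`, `red_su`, `red_om`, `red_sp`, translated) -/

/-- UR1 -/
def UR1 : Prop := ∃ (C : ℝ) (n₀ : ℕ), ∀ (F V : Type) [Field F] [Finite F] [AddCommGroup V] [Module F V] [Module.Finite F V],
  n₀ ≤ finrank F V → 4 ≤ Nat.card F → ∀ x ∈ slV F V, ¬ Sca x →
  (cnt (slV F V) (fun y => ¬ IrrG (closure {x, y})) : ℝ) * Nat.card F ≤ C * Nat.card (slV F V)

/-- UR2 -/
def UR2 : Prop := ∃ (C : ℝ) (n₀ : ℕ), ∀ (F V : Type) [Field F] [Finite F] [AddCommGroup V] [Module F V] [Module.Finite F V]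
  (Φ : Frm F V) (G : Subgroup (V ≃ₗ[F] V)) (N t : ℕ), Kl Φ G N t → n₀ ≤ finrank F V → 4 ≤ t → ∀ x ∈ G, ¬ Sca x →
  (cnt G (fun y => ¬ IrrG (closure {x, y})) : ℝ) * t ≤ C * Nat.card G

/-! ### Index sets (numerics) -/

/-- the numerical conditions on the dimension `e` of a block (`p ^ f` elements in the field, `dim V = n`) -/
structure Num (η : ℝ) (n p f e : ℕ) : Prop where
  le : 40 * e + 40 ≤ n
  ge : 20 ≤ e
  nd : ¬ e ∣ n ∧ ¬ e ∣ (n - 1) / 2 ∧ ¬ e ∣ (n + 1) / 2
  sum : ∑ j ∈ Finset.range n, 1 / (((j + 1) * e : ℕ) : ℝ) ≤ η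
  small : (e : ℝ)⁻¹ ≤ η
  big : 16 * e * (2 * e + 2) ^ 2 ≤ (p ^ f) ^ e.totient
  bigp : 64 * (e * f) * (2 * e + 2) ^ 2 * e ≤ p ^ (e * f).totient

/-- UI: the index sets. `a = 1, b = 2` for `Sp`, `Ω`; `a = 2, b = 1` for `SL`, `SU`; `I` : dimensions of the blocks `A`,
`J` : dimensions of the blocks `E`. -/
def UI : Prop := ∀ (K η : ℝ) (a b : ℕ), 0 < η → 1 ≤ K → (a = 1 ∧ b = 2 ∨ a = 2 ∧ b = 1) → ∃ N₀ : ℕ, ∀ n p f : ℕ, N₀ ≤ n →
  p.Prime → 1 ≤ f → ∃ I J : Finset ℕ,
    (∀ e ∈ I ∪ J, Num η n p f e) ∧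
    (∀ e ∈ I, ∃ l, l.Prime ∧ Odd l ∧ e = a * l) ∧ (∀ e ∈ J, ∃ l, l.Prime ∧ Odd l ∧ e = b * l) ∧
    (∀ e ∈ J, ∀ d ∈ I, 4 * d < e ∧ Nat.Coprime e (if a = 1 then d else 2 * d)) ∧
    K ≤ ∑ e ∈ I, 1 / (e : ℝ) ∧ ∑ e ∈ I, 1 / (e : ℝ) ≤ K + 1 ∧ K ≤ ∑ e ∈ J, 1 / (e : ℝ) ∧ ∑ e ∈ J, 1 / (e : ℝ) ≤ K + 1


/-! ### Typical elements -/

/-- UT1: blocks `A ⊕ A'` (from `noG_sp`, `noG_su`, `noG_om` and `L14`) -/
def UT1 : Prop := ∀ ε : ℝ, 0 < ε → ∃ K η : ℝ, 1 ≤ K ∧ 0 < η ∧ ∀ (F V : Type) [Field F] [Finite F] [AddCommGroup V]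
  [Module F V] [Module.Finite F V] (Φ : Frm F V) (G : Subgroup (V ≃ₗ[F] V)) (N t p f : ℕ), Kl Φ G N t → p.Prime →
  Nat.card F = p ^ f → ∀ I : Finset ℕ, (∀ e ∈ I, Num η (finrank F V) p f e ∧ ParA Φ e) → K ≤ ∑ e ∈ I, 1 / (e : ℝ) →
  (cnt G (fun y => ¬ ∃ e ∈ I, ∃ A A' z, StA Φ e y A A' z) : ℝ) ≤ ε * Nat.card G

/-- UT2: nondegenerate blocks (second moment; hub below) -/
def UT2 : Prop := ∀ ε : ℝ, 0 < ε → ∃ K η : ℝ, 1 ≤ K ∧ 0 < η ∧ ∀ (F V : Type) [Field F] [Finite F] [AddCommGroup V]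
  [Module F V] [Module.Finite F V] (Φ : Frm F V) (G : Subgroup (V ≃ₗ[F] V)) (N t p f : ℕ), Kl Φ G N t → p.Prime →
  Nat.card F = p ^ f → ∀ I : Finset ℕ, (∀ e ∈ I, Num η (finrank F V) p f e ∧ ParE Φ e) → K ≤ ∑ e ∈ I, 1 / (e : ℝ) →
  (cnt G (fun y => ¬ ∃ e ∈ I, ∃ E z, StE Φ e y E z) : ℝ) ≤ ε * Nat.card G

/-- UT3: linear case (from `noG_sl`, plus the first moment of the blocks whose order has no large `p`-primitive part) -/
def UT3 : Prop := ∀ ε : ℝ, 0 < ε → ∃ K η : ℝ, 1 ≤ K ∧ 0 < η ∧ ∀ (F V : Type) [Field F] [Finite F] [AddCommGroup V]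
  [Module F V] [Module.Finite F V] (p f : ℕ), p.Prime → Nat.card F = p ^ f →
  ∀ I : Finset ℕ, (∀ e ∈ I, Num η (finrank F V) p f e) → K ≤ ∑ e ∈ I, 1 / (e : ℝ) →
  (cnt (slV F V) (fun y => ¬ ∃ e ∈ I, ∃ E C z, StL e y E C z ∧ Pp F e (orderOf z)) : ℝ) ≤ ε * Nat.card (slV F V)

/-! ### First moments of pairs of blocks in bad position -/

section

variable {F V : Type*} [Field F] [AddCommGroup V] [Module F V]

/-- the standard position of the blocks -/
structure Cfg (Φ : Frm F V) (e d : ℕ) (E A A' : Submodule F V) : Prop where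
  nd : Φ.NdOn E
  dim : finrank F E = e
  ti : Φ.TI A
  ti' : Φ.TI A'
  dimA : finrank F A = d
  dimA' : finrank F A' = d
  disj : Disjoint A A'
  ndA : Φ.NdOn (A ⊔ A')
  orth : Φ.Orth E (A ⊔ A')

end

/-- UM1 -/
def UM1 : Prop := ∃ C : ℝ, ∀ (F V : Type) [Field F] [Finite F] [AddCommGroup V] [Module F V] [Module.Finite F V]
  (Φ : Frm F V) (G : Subgroup (V ≃ₗ[F] V)) (N t e d : ℕ), Kl Φ G N t → 2 * (e + 2 * d) + 3 ≤ finrank F V → 3 ≤ d → d < e →
  ∀ y₀ ∈ G, ∀ E₀ A₀ A₀' z₀ z₀', StE Φ e y₀ E₀ z₀ → StA Φ d y₀ A₀ A₀' z₀' → Cfg Φ e d E₀ A₀ A₀' ∧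
  ∀ Bad : Submodule F V → Submodule F V → Submodule F V → Prop,
  (cnt G (fun y => ∃ E A A' z z', StE Φ e y E z ∧ StA Φ d y A A' z' ∧ Bad E A A') : ℝ) * (e * d) ≤
    C * cnt G (fun g => Bad (E₀.map (g : V →ₗ[F] V)) (A₀.map (g : V →ₗ[F] V)) (A₀'.map (g : V →ₗ[F] V)))

/-- UM2 -/
def UM2 : Prop := ∀ (F V : Type) [Field F] [Finite F] [AddCommGroup V] [Module F V] [Module.Finite F V]
  (e d : ℕ), e + d < finrank F V → 3 ≤ d → d < e →
  ∀ E₀ E₀' C₀ : Submodule F V, finrank F E₀ = e → finrank F E₀' = d → Disjoint E₀ E₀' → IsCompl (E₀ ⊔ E₀') C₀ →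
  ∀ Bad : Submodule F V → Submodule F V → Submodule F V → Prop,
  cnt (slV F V) (fun y => ∃ E C E' C' z z', StL e y E C z ∧ StL d y E' C' z' ∧
      Bad E E' (C ⊓ C')) * (e * d) ≤
    cnt (slV F V) (fun g => Bad (E₀.map (g : V →ₗ[F] V)) (E₀'.map (g : V →ₗ[F] V)) (C₀.map (g : V →ₗ[F] V)))

/-! ### General position -/

/-- UG1 -/
def UG1 : Prop := ∃ C : ℝ, ∀ (F V : Type) [Field F] [Finite F] [AddCommGroup V] [Module F V] [Module.Finite F V]
  (Φ : Frm F V) (G : Subgroup (V ≃ₗ[F] V)) (N t e d : ℕ), Kl Φ G N t → 4 ≤ t → 10 ≤ e → 3 ≤ d → 2 * d < e →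
  8 * (e + 2 * d) + 40 ≤ finrank F V → ∀ E₀ A₀ A₀', Cfg Φ e d E₀ A₀ A₀' → ∀ x ∈ G, ¬ Sca x →
  (cnt G (fun g => ¬ GPF Φ x (E₀.map (g : V →ₗ[F] V)) (A₀.map (g : V →ₗ[F] V)) (A₀'.map (g : V →ₗ[F] V))) : ℝ) * t ≤
    C * Nat.card G

/-- UG2 -/
def UG2 : Prop := ∃ C : ℝ, ∀ (F V : Type) [Field F] [Finite F] [AddCommGroup V] [Module F V] [Module.Finite F V]
  (e d : ℕ), 4 ≤ Nat.card F → 10 ≤ e → 3 ≤ d → d < e → 8 * (e + d) + 40 ≤ finrank F V →
  ∀ E₀ E₀' C₀ : Submodule F V, finrank F E₀ = e → finrank F E₀' = d → Disjoint E₀ E₀' → IsCompl (E₀ ⊔ E₀') C₀ →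
  ∀ x ∈ slV F V, ¬ Sca x →
  (cnt (slV F V) (fun g => ¬ GPL x (E₀.map (g : V →ₗ[F] V)) (E₀'.map (g : V →ₗ[F] V)) (C₀.map (g : V →ₗ[F] V))) : ℝ) *
    Nat.card F ≤ C * Nat.card (slV F V)

/-! ### S5948 with the normaliser -/

section

variable {F V : Type*} [Field F] [AddCommGroup V] [Module F V]

/-- similitudes -/
def Sim (Φ : Frm F V) (g : V ≃ₗ[F] V) : Prop := ∃ c : F, ∀ u v, Φ.B (g u) (g v) = c * Φ.B u v

end

/-- UN -/
def UN : Prop := ∀ (F U : Type) [Field F] [Finite F] [AddCommGroup U] [Module F U] [Module.Finite F U]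
  (K : Subgroup (U ≃ₗ[F] U)) (k : ℕ) (g : U ≃ₗ[F] U) (C : Submodule F U), 10 ≤ finrank F U → finrank F U < 2 * k → IrrG K →
  g ∈ K → Pp F k (orderOf g) → C ≠ ⊥ → finrank F C + k = finrank F U → (∀ v ∈ C, g v = v) →
  (∃ (r : ℕ) (T : Subalgebra F (Module.End F U)), r.Prime ∧ r ∣ Nat.gcd (finrank F U) k ∧ IsField T ∧ finrank F T = r ∧
    ∀ h ∈ K, ∀ a ∈ T, (h : U →ₗ[F] U) * a * ((h⁻¹ : U ≃ₗ[F] U) : U →ₗ[F] U) ∈ T) ∨
  slV F U ≤ K ∨
  (∃ Φ : Frm F U, IsSp Φ ∧ Φ.Iso ≤ K ∧ ∀ h ∈ K, Sim Φ h) ∨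
  (∃ (r : ℕ) (Φ : Frm F U), IsHerm r Φ ∧ Φ.Iso ⊓ slV F U ≤ K ∧ ∀ h ∈ K, Sim Φ h) ∨
  (∃ Q : QuadraticForm F U, (∀ v, Q v = 0 → (∀ w, QuadraticMap.polar Q v w = 0) → v = 0) ∧ E Q ≤ K ∧
    ∀ h ∈ K, ∃ c : F, ∀ v, Q (h v) = c * Q v)

/-! ### The group generated by the two blocks -/

/-- UK1 -/
def UK1 : Prop := ∀ (F V : Type) [Field F] [Finite F] [AddCommGroup V] [Module F V] [Module.Finite F V]
  (Φ : Frm F V) (e d : ℕ), Φ.Nd → ∀ x ∈ Φ.Iso, ∀ y ∈ Φ.Iso, ∀ E A A' z z', StE Φ e y E z → StA Φ d y A A' z' →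
  GPF Φ x E A A' → ∀ Y ≤ E ⊔ (A ⊔ A').map (x : V →ₗ[F] V), Inv z Y → Inv (x * z' * x⁻¹) Y →
    Y = ⊥ ∨ Y = E ⊔ (A ⊔ A').map (x : V →ₗ[F] V)

/-- UK2: linear case -/
def UK2 : Prop := ∀ (F V : Type) [Field F] [Finite F] [AddCommGroup V] [Module F V] [Module.Finite F V]
  (e d : ℕ) (x y z z' : V ≃ₗ[F] V) (E C E' C' : Submodule F V), e ≠ d → StL e y E C z → StL d y E' C' z' →
  (Disjoint E E' ∧ IsCompl (E ⊔ E') (C ⊓ C') ∧ C = E' ⊔ (C ⊓ C') ∧ C' = E ⊔ (C ⊓ C')) ∧
  (GPL x E E' (C ⊓ C') → ∀ Y ≤ E ⊔ E'.map (x : V →ₗ[F] V), Inv z Y → Inv (x * z' * x⁻¹) Y →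
    Y = ⊥ ∨ Y = E ⊔ E'.map (x : V →ₗ[F] V))

section

variable {F V : Type*} [Field F] [AddCommGroup V] [Module F V]

/-- the hypotheses of the deterministic part -/
structure Hyp (Φ : Frm F V) (G : Subgroup (V ≃ₗ[F] V)) (e d : ℕ) (x y : V ≃ₗ[F] V) (E A A' : Submodule F V)
    (z z' : V ≃ₗ[F] V) : Prop where
  kl : ∃ N t, Kl Φ G N t
  hx : x ∈ G
  hy : y ∈ G
  sE : StE Φ e y E z
  sA : StA Φ d y A A' z'
  pE : ParE Φ e
  pA : ParA Φ d
  lt : 2 * d < e
  ten : 10 ≤ e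
  pos : 3 ≤ d
  cop : Nat.Coprime e (2 * d) ∨ (Odd d ∧ Nat.Coprime e d)
  gp : GPF Φ x E A A'

end

/-- UK3: the group generated by `z` and `x z' x⁻¹` contains the classical group of the space
`W = E + x (A + A')` (uses `UN`, `UK1`) -/
def UK3 : Prop := ∀ (F V : Type) [Field F] [Finite F] [AddCommGroup V] [Module F V] [Module.Finite F V]
  (Φ : Frm F V) (G : Subgroup (V ≃ₗ[F] V)) (e d : ℕ) (x y z z' : V ≃ₗ[F] V) (E A A' W : Submodule F V)
  (H : Subgroup (V ≃ₗ[F] V)), Hyp Φ G e d x y E A A' z z' → W = E ⊔ (A ⊔ A').map (x : V →ₗ[F] V) → z ∈ H →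
  x * z' * x⁻¹ ∈ H →
  (IsSp Φ → (2 : F) ≠ 0 → HasOn Φ.Iso H W (perp Φ W)) ∧
  (∀ r, IsHerm r Φ → HasOn (Φ.Iso ⊓ slV F V) H W (perp Φ W)) ∧
  (∀ Q : QuadraticForm F V, Φ = frmQ Q → ∀ u ∈ W, ∀ w ∈ W, Q u = 0 → QuadraticMap.polar Q u w = 0 →
    H883.Root.Has Q H u w) ∧
  (IsSp Φ → (2 : F) = 0 → ∃ q : V → F, HasS Φ q H W)

/-- UK4: linear case (uses `UN`, `UK2`) -/
def UK4 : Prop := ∀ (F V : Type) [Field F] [Finite F] [AddCommGroup V] [Module F V] [Module.Finite F V]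
  (e d : ℕ) (x y z z' : V ≃ₗ[F] V) (E C E' C' : Submodule F V) (H : Subgroup (V ≃ₗ[F] V)),
  y ∈ slV F V → Odd e → Even d → 3 ≤ d → d < e → Nat.Coprime e d → 10 ≤ e → StL e y E C z → Pp F e (orderOf z) →
  StL d y E' C' z' → GPL x E E' (C ⊓ C') → z ∈ H → x * z' * x⁻¹ ∈ H →
  HasOn (slV F V) H (E ⊔ E'.map (x : V →ₗ[F] V)) (C ⊓ C'.map (x : V →ₗ[F] V))

/-! ### No blocks -/

/-- UB1: `closure {x, y}` has no orthogonal decomposition -/
def UB1 : Prop := ∀ (F V : Type) [Field F] [Finite F] [AddCommGroup V] [Module F V] [Module.Finite F V]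
  (Φ : Frm F V) (e : ℕ), Φ.Nd → ∀ x ∈ Φ.Iso, ∀ y ∈ Φ.Iso, ∀ E z, StE Φ e y E z →
  (∃ a ∈ E, ∃ b ∈ E, Φ.B (x a) b ≠ 0) → IrrG (closure {x, y}) → ∀ D : Submodule F V, Blk Φ (closure {x, y}) D →
  ¬ 3 ≤ finrank F D

/-- UB2: linear case -/
def UB2 : Prop := ∀ (F V : Type) [Field F] [Finite F] [AddCommGroup V] [Module F V] [Module.Finite F V]
  (e : ℕ) (x y z : V ≃ₗ[F] V) (E C : Submodule F V), StL e y E C z → Pp F e (orderOf z) → (∃ a ∈ E, x a ∉ C) →
  IrrG (closure {x, y}) → ∀ D : Submodule F V, BlkL (closure {x, y}) D → ¬ 3 ≤ finrank F D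

/-! ### Symplectic groups in characteristic two -/

section

variable {F V : Type*} [Field F] [AddCommGroup V] [Module F V]

/-- `x` and `y` fix a common quadratic form with polar form `Φ.B` -/
def ComQ (Φ : Frm F V) (x y : V ≃ₗ[F] V) : Prop :=
  ∃ Q : QuadraticForm F V, (∀ u v, QuadraticMap.polar Q u v = Φ.B u v) ∧ (∀ v, Q (x v) = Q v) ∧ ∀ v, Q (y v) = Q v

end

/-- UF1: growth -/
def UF1 : Prop := ∀ (F V : Type) [Field F] [Finite F] [AddCommGroup V] [Module F V] [Module.Finite F V]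
  (Φ : Frm F V) (q : V → F) (H : Subgroup (V ≃ₗ[F] V)) (W : Submodule F V), IsSp Φ → (2 : F) = 0 → H ≤ Φ.Iso → IrrG H →
  Φ.NdOn W → 12 ≤ finrank F W → HasS Φ q H W →
  (∃ Q : QuadraticForm F V, (∀ u v, QuadraticMap.polar Q u v = Φ.B u v) ∧ E Q ≤ H) ∨
    ∃ D : Submodule F V, Blk Φ H D ∧ 3 ≤ finrank F D

/-- UF2: `Ω(Q) ≤ H ≤ Sp(V)` -/
def UF2 : Prop := ∀ (F V : Type) [Field F] [Finite F] [AddCommGroup V] [Module F V] [Module.Finite F V]
  (Φ : Frm F V) (Q : QuadraticForm F V) (H : Subgroup (V ≃ₗ[F] V)), IsSp Φ → (2 : F) = 0 → 8 ≤ finrank F V → H ≤ Φ.Iso →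
  (∀ u v, QuadraticMap.polar Q u v = Φ.B u v) → E Q ≤ H → (∀ g ∈ H, ∀ v, Q (g v) = Q v) ∨ H = Φ.Iso

/-- UF3: common quadratic forms are rare -/
def UF3 : Prop := ∃ (C : ℝ) (n₀ : ℕ), ∀ (F V : Type) [Field F] [Finite F] [AddCommGroup V] [Module F V] [Module.Finite F V]
  (Φ : Frm F V), IsSp Φ → (2 : F) = 0 → n₀ ≤ finrank F V → ∀ x ∈ Φ.Iso, x ≠ 1 →
  (cnt Φ.Iso (fun y => ComQ Φ x y) : ℝ) * Nat.card F ≤ C * Nat.card Φ.Iso

/-! ### The deterministic part -/

/-- UD1: linear case (from `UK2`, `UK4`, `S30`, `UB2`) -/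
def UD1 : Prop := ∀ (F V : Type) [Field F] [Finite F] [AddCommGroup V] [Module F V] [Module.Finite F V]
  (e d : ℕ) (x y z z' : V ≃ₗ[F] V) (E C E' C' : Submodule F V), x ∈ slV F V →
  y ∈ slV F V → Odd e → Even d → 3 ≤ d → d < e → Nat.Coprime e d → 10 ≤ e → StL e y E C z → Pp F e (orderOf z) →
  StL d y E' C' z' → GPL x E E' (C ⊓ C') → IrrG (closure {x, y}) → closure {x, y} = slV F V

/-- UD2: forms (from `UK3`, `S31`-`S33`, `UB1`, `UF1`, `UF2`) -/
def UD2 : Prop := ∀ (F V : Type) [Field F] [Finite F] [AddCommGroup V] [Module F V] [Module.Finite F V]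
  (Φ : Frm F V) (G : Subgroup (V ≃ₗ[F] V)) (e d : ℕ) (x y z z' : V ≃ₗ[F] V) (E A A' : Submodule F V),
  Hyp Φ G e d x y E A A' z z' → IrrG (closure {x, y}) → (IsSp Φ → (2 : F) = 0 → ¬ ComQ Φ x y) → closure {x, y} = G

end Cfsg.Agent.H141.Ux
end

-- part: H141/Ux/Asm
section
prune_inst 0x3570514075e0000000000516322000647c00010200408400ec6307460b49c26289c2a8400e8024175a2288810805002812000020004001c0042004000004000000801606b108000840009600038c210000001800300000000000000000000000200000000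
set_option linter.all false
open scoped Cfsg.Agent.FastGrp

/-!
# UX (S5716, unbounded rank): assembly (helper141)

* `xf : UR2 → UI → UT1 → UT2 → UM1 → UG1 → UF3 → UD2 → Xf`;
* `xsl : UR1 → UI → UT3 → UM2 → UG2 → UK2 → UD1 → Xsl`.
-/

set_option autoImplicit false
set_option linter.unusedSectionVars false

namespace Cfsg.Agent.H141.Ux

open Module Cfsg.Agent.H847.Bs Cfsg.Agent.LieClassical.OrthCore
open Cfsg.Agent.H440.Bs (perp mem_perp)
open Cfsg Subgroup

section cnt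

variable {F V : Type*} [Field F] [AddCommGroup V] [Module F V]

theorem fin_gl [Finite F] [Module.Finite F V] : Finite (V ≃ₗ[F] V) := by
  have : Finite V := Module.finite_of_finite F
  exact Finite.of_injective (fun g : V ≃ₗ[F] V => (g : V → V)) DFunLike.coe_injective

variable [Finite F] [Module.Finite F V] (G : Subgroup (V ≃ₗ[F] V))

theorem cnt_mono {P P' : (V ≃ₗ[F] V) → Prop} (h : ∀ y ∈ G, P y → P' y) : cnt G P ≤ cnt G P' := by
  have : Finite (V ≃ₗ[F] V) := fin_gl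
  exact Nat.card_le_card_of_injective (fun y : {y // y ∈ G ∧ P y} => (⟨y.1, y.2.1, h _ y.2.1 y.2.2⟩ : {y // y ∈ G ∧ P' y}))
    fun a b hab => Subtype.ext (congrArg (fun z : {y // y ∈ G ∧ P' y} => z.1) hab)

theorem cnt_or (P P' : (V ≃ₗ[F] V) → Prop) : cnt G (fun y => P y ∨ P' y) ≤ cnt G P + cnt G P' := by
  classical
  have : Finite (V ≃ₗ[F] V) := fin_gl
  have := Fintype.ofFinite (V ≃ₗ[F] V)
  unfold cnt
  rw [Nat.card_eq_fintype_card, Nat.card_eq_fintype_card, Nat.card_eq_fintype_card, Fintype.card_subtype,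
    Fintype.card_subtype, Fintype.card_subtype]
  refine (Finset.card_le_card ?_).trans (Finset.card_union_le _ _)
  intro y hy
  simp only [Finset.mem_filter, Finset.mem_univ, true_and, Finset.mem_union] at hy ⊢
  tauto

theorem cnt_exists {α : Type*} (s : Finset α) (P : α → (V ≃ₗ[F] V) → Prop) :
    cnt G (fun y => ∃ a ∈ s, P a y) ≤ ∑ a ∈ s, cnt G (P a) := by
  classical
  induction s using Finset.induction_on with
  | empty =>
    rw [Finset.sum_empty, Nat.le_zero]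
    unfold cnt
    have : IsEmpty {y : V ≃ₗ[F] V // y ∈ G ∧ ∃ a ∈ (∅ : Finset α), P a y} := ⟨fun y => by
      obtain ⟨a, ha, -⟩ := y.2.2
      exact absurd ha (Finset.notMem_empty a)⟩
    exact Nat.card_of_isEmpty
  | insert a s ha ih =>
    rw [Finset.sum_insert ha]
    refine (cnt_mono G (P' := fun y => P a y ∨ ∃ a ∈ s, P a y) ?_).trans ((cnt_or G _ _).trans (Nat.add_le_add_left ih _))
    rintro y - ⟨b, hb, hP⟩
    rcases Finset.mem_insert.1 hb with rfl | hb
    · exact Or.inl hP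
    · exact Or.inr ⟨b, hb, hP⟩

theorem cnt_false {P : (V ≃ₗ[F] V) → Prop} (h : ∀ y ∈ G, ¬ P y) : cnt G P = 0 := by
  unfold cnt
  have : IsEmpty {y : V ≃ₗ[F] V // y ∈ G ∧ P y} := ⟨fun y => h _ y.2.1 y.2.2⟩
  exact Nat.card_of_isEmpty

end cnt

section basic

variable {F : Type*} [Field F] [Finite F]

theorem exists_pf (F : Type*) [Field F] [Finite F] : ∃ p f : ℕ, p.Prime ∧ 1 ≤ f ∧ Nat.card F = p ^ f ∧ p = ringChar F := by
  have := Fintype.ofFinite F
  obtain ⟨p, hp⟩ := CharP.exists F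
  obtain ⟨f, hpp, hf⟩ := FiniteField.card F p
  refine ⟨p, f, hpp, f.2, ?_, (ringChar.eq F p).symm ▸ rfl⟩
  rw [Nat.card_eq_fintype_card, hf]

end basic

/-- the double sum -/
theorem sum_sum (I J : Finset ℕ) (K : ℝ) (hK : 1 ≤ K) (hI : ∑ e ∈ I, 1 / (e : ℝ) ≤ K + 1)
    (hJ : ∑ e ∈ J, 1 / (e : ℝ) ≤ K + 1) :
    ∑ e ∈ J, ∑ d ∈ I, 1 / ((e : ℝ) * d) ≤ (K + 1) ^ 2 := by
  have h : ∑ e ∈ J, ∑ d ∈ I, 1 / ((e : ℝ) * d) = (∑ e ∈ J, 1 / (e : ℝ)) * ∑ d ∈ I, 1 / (d : ℝ) := by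
    rw [Finset.sum_mul_sum]
    refine Finset.sum_congr rfl fun e _ => Finset.sum_congr rfl fun d _ => ?_
    rw [one_div_mul_one_div]
  rw [h, sq]
  have h0 : 0 ≤ ∑ d ∈ I, 1 / (d : ℝ) := Finset.sum_nonneg fun d _ => by positivity
  exact mul_le_mul hJ hI h0 (by linarith only [hK])

theorem xf (hR : UR2) (hI : UI) (h1 : UT1) (h2 : UT2) (hM : UM1) (hG : UG1) (hQ : UF3) (hD : UD2) : Xf := by
  intro ε hε
  obtain ⟨K1, η1, hK1, hη1, h1⟩ := h1 (ε / 5) (by positivity)
  obtain ⟨K2, η2, hK2, hη2, h2⟩ := h2 (ε / 5) (by positivity)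
  obtain ⟨CM, hM⟩ := hM
  obtain ⟨CG, hG⟩ := hG
  obtain ⟨CR, nR, hR⟩ := hR
  obtain ⟨CQ, nQ, hQ⟩ := hQ
  set K := max K1 K2 with hKdef
  set η := min η1 η2 with hηdef
  have hK : 1 ≤ K := hK1.trans (le_max_left _ _)
  have hη : 0 < η := lt_min hη1 hη2
  obtain ⟨Na, ha⟩ := hI K η 1 2 hη hK (Or.inl ⟨rfl, rfl⟩)
  obtain ⟨Nb, hb⟩ := hI K η 2 1 hη hK (Or.inr ⟨rfl, rfl⟩)
  set B : ℝ := |CR| + |CQ| + |CM| * |CG| * (K + 1) ^ 2 + 1 with hB
  have hB0 : 0 < B := by (clear * - hK1; positivity)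
  obtain ⟨Q1, hQ1⟩ := exists_nat_ge (5 * B / ε)
  refine ⟨max (max Na Nb) (max nR nQ), max Q1 4, ?_⟩
  intro F V _ _ _ _ _ Φ G N t hKl hn ht x hx hxs
  have hfin : Finite (V ≃ₗ[F] V) := fin_gl
  have ht4 : 4 ≤ t := (le_max_right _ _).trans ht
  have htQ : (5 * B / ε : ℝ) ≤ t := hQ1.trans (by exact_mod_cast (le_max_left _ _).trans ht)
  have ht0 : (0 : ℝ) < t := by
    have : (4 : ℝ) ≤ t := by exact_mod_cast ht4
    linarith only [this]
  have hBt : B / t ≤ ε / 5 := by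
    rw [div_le_iff₀ hε] at htQ
    rw [div_le_div_iff₀ ht0 (by norm_num)]
    linarith only [htQ]
  obtain ⟨p, f, hp, hf, hpf, -⟩ := exists_pf F
  have hnNa : Na ≤ finrank F V := ((le_max_left _ _).trans (le_max_left _ _)).trans hn
  have hnNb : Nb ≤ finrank F V := ((le_max_right _ _).trans (le_max_left _ _)).trans hn
  have hnR : nR ≤ finrank F V := ((le_max_left _ _).trans (le_max_right _ _)).trans hn
  have hnQ : nQ ≤ finrank F V := ((le_max_right _ _).trans (le_max_right _ _)).trans hn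
  -- the index sets
  obtain ⟨I, J, hNum, hIA, hJE, hlt, hcop, hI1, hI2, hJ1, hJ2⟩ : ∃ I J : Finset ℕ,
      (∀ e ∈ I ∪ J, Num η (finrank F V) p f e) ∧ (∀ e ∈ I, ParA Φ e) ∧ (∀ e ∈ J, ParE Φ e) ∧
      (∀ e ∈ J, ∀ d ∈ I, 4 * d < e) ∧
      (∀ e ∈ J, ∀ d ∈ I, Nat.Coprime e (2 * d) ∨ (Odd d ∧ Nat.Coprime e d)) ∧
      K ≤ ∑ e ∈ I, 1 / (e : ℝ) ∧ ∑ e ∈ I, 1 / (e : ℝ) ≤ K + 1 ∧ K ≤ ∑ e ∈ J, 1 / (e : ℝ) ∧
        ∑ e ∈ J, 1 / (e : ℝ) ≤ K + 1 := by
    by_cases hher : ∃ r, IsHerm r Φ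
    · obtain ⟨I, J, h1, h2, h3, h4, h5⟩ := hb (finrank F V) p f hnNb hp hf
      refine ⟨I, J, h1, fun e he => ?_, fun e he => ?_, fun e he d hd => (h4 e he d hd).1, fun e he d hd => ?_, h5⟩
      · obtain ⟨l, -, -, rfl⟩ := h2 e he
        exact Or.inr ⟨hher, even_two_mul l⟩
      · obtain ⟨l, -, hl, rfl⟩ := h3 e he
        exact Or.inr ⟨hher, by rwa [one_mul]⟩
      · have := (h4 e he d hd).2
        simp only [OfNat.ofNat_ne_one, if_false] at this
        exact Or.inl this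
    · have hcl : IsSp Φ ∨ ∃ Q : QuadraticForm F V, Φ = frmQ Q := by
        rcases hKl with h | ⟨r, h, -⟩ | ⟨Q, -, h, -⟩
        · exact Or.inl h.1
        · exact absurd ⟨r, h⟩ hher
        · exact Or.inr ⟨Q, h⟩
      obtain ⟨I, J, h1, h2, h3, h4, h5⟩ := ha (finrank F V) p f hnNa hp hf
      refine ⟨I, J, h1, fun e he => ?_, fun e he => ?_, fun e he d hd => (h4 e he d hd).1, fun e he d hd => ?_, h5⟩
      · obtain ⟨l, -, hl, rfl⟩ := h2 e he
        exact Or.inl ⟨hcl, by rwa [one_mul]⟩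
      · obtain ⟨l, -, hl, rfl⟩ := h3 e he
        exact Or.inl ⟨hcl, even_two_mul l⟩
      · have := (h4 e he d hd).2
        simp only [if_true] at this
        obtain ⟨l, -, hl, rfl⟩ := h2 d hd
        exact Or.inr ⟨by rwa [one_mul], this⟩
  -- the bounds
  have numI : ∀ {η' : ℝ}, η ≤ η' → ∀ e ∈ I, Num η' (finrank F V) p f e := fun hη' e he => by
    have h := hNum e (Finset.mem_union_left _ he)
    exact ⟨h.le, h.ge, h.nd, h.sum.trans hη', h.small.trans hη', h.big, h.bigp⟩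
  have numJ : ∀ {η' : ℝ}, η ≤ η' → ∀ e ∈ J, Num η' (finrank F V) p f e := fun hη' e he => by
    have h := hNum e (Finset.mem_union_right _ he)
    exact ⟨h.le, h.ge, h.nd, h.sum.trans hη', h.small.trans hη', h.big, h.bigp⟩
  have b1 := h1 F V Φ G N t p f hKl hp hpf I (fun e he => ⟨numI (min_le_left _ _) e he, hIA e he⟩)
    ((le_max_left _ _).trans hI1)
  have b2 := h2 F V Φ G N t p f hKl hp hpf J (fun e he => ⟨numJ (min_le_right _ _) e he, hJE e he⟩)
    ((le_max_right _ _).trans hJ1)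
  have g0 : (0 : ℝ) ≤ Nat.card G := Nat.cast_nonneg _
  have b3 : (cnt G (fun y => ¬ IrrG (_root_.Subgroup.closure {x, y})) : ℝ) ≤ |CR| / t * Nat.card G := by
    have h := hR F V Φ G N t hKl hnR ht4 x hx hxs
    rw [div_mul_eq_mul_div, le_div_iff₀ ht0]
    exact h.trans (mul_le_mul_of_nonneg_right (le_abs_self _) g0)
  have b4 : (cnt G (fun y => IsSp Φ ∧ (2 : F) = 0 ∧ ComQ Φ x y) : ℝ) ≤ |CQ| / t * Nat.card G := by
    by_cases hsp : IsSp Φ ∧ (2 : F) = 0
    · have hKl' : G = Φ.Iso ∧ t = Nat.card F := by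
        rcases hKl with ⟨-, h2, -, h4⟩ | ⟨r, h, -⟩ | ⟨Q, hQn, h, -⟩
        · exact ⟨h2, h4⟩
        · exfalso
          have hc := h.card
          have h1 := h.s
          have h2 := hsp.1.s
          have hr : ∀ a : F, a ^ r = a := fun a => by rw [← h1, h2]
          have hr2 : 2 ≤ r := by
            by_contra hr2
            have : r = 0 ∨ r = 1 := by omega
            have h3 : 1 < Nat.card F := Finite.one_lt_card
            rcases this with rfl | rfl
            · rw [hc] at h3; norm_num at h3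
            · rw [hc] at h3; norm_num at h3
          have := Fintype.ofFinite F
          classical
          have h3 : (Finset.univ : Finset F) ⊆ (Polynomial.X ^ r - Polynomial.X : Polynomial F).roots.toFinset := by
            intro a _
            rw [Multiset.mem_toFinset, Polynomial.mem_roots (FiniteField.X_pow_card_sub_X_ne_zero F (by omega))]
            simp [hr a]
          have h4 := (Finset.card_le_card h3).trans ((Multiset.toFinset_card_le _).trans (Polynomial.card_roots' _))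
          rw [FiniteField.X_pow_card_sub_X_natDegree_eq F (by omega), Finset.card_univ, ← Nat.card_eq_fintype_card, hc] at h4
          nlinarith only [hr2, h4]
        · exfalso
          have hq0 : ∀ v, Q v = 0 := fun v => by
            have := hsp.1.q v
            rw [h] at this
            exact this
          have hz : ∀ u v, Φ.B u v = 0 := fun u v => by
            rw [h]
            change QuadraticMap.polar Q u v = 0
            rw [QuadraticMap.polar, hq0, hq0, hq0]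
            simp
          have hV : ∀ v : V, v = 0 := fun v => hsp.1.nd v fun w => hz v w
          exact hxs ⟨1, fun v => by rw [hV v, map_zero, smul_zero]⟩
      have hx1 : x ≠ 1 := fun h => hxs ⟨1, fun v => by rw [h, one_smul]; rfl⟩
      have h := hQ F V Φ hsp.1 hsp.2 hnQ x (hKl'.1 ▸ hx) hx1
      rw [div_mul_eq_mul_div, le_div_iff₀ ht0]
      have h' : (cnt G (fun y => IsSp Φ ∧ (2 : F) = 0 ∧ ComQ Φ x y) : ℝ) ≤ cnt G (fun y => ComQ Φ x y) := by
        exact_mod_cast cnt_mono G (P := fun y => IsSp Φ ∧ (2 : F) = 0 ∧ ComQ Φ x y) (P' := fun y => ComQ Φ x y)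
          fun y _ h => h.2.2
      rw [← hKl'.1, ← hKl'.2] at h
      calc _ ≤ (cnt G (fun y => ComQ Φ x y) : ℝ) * t := mul_le_mul_of_nonneg_right h' ht0.le
        _ ≤ CQ * Nat.card G := h
        _ ≤ _ := mul_le_mul_of_nonneg_right (le_abs_self _) g0
    · rw [cnt_false G (P := fun y => IsSp Φ ∧ (2 : F) = 0 ∧ ComQ Φ x y) fun y _ h => hsp ⟨h.1, h.2.1⟩]
      push_cast
      (clear * -; positivity)
  have b5 : ∀ e ∈ J, ∀ d ∈ I, (cnt G (fun y => ∃ E A A' z z', StE Φ e y E z ∧ StA Φ d y A A' z' ∧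
      ¬ GPF Φ x E A A') : ℝ) ≤ |CM| * |CG| / t * Nat.card G * (1 / ((e : ℝ) * d)) := by
    intro e he d hd
    have he1 := hNum e (Finset.mem_union_right _ he)
    have hd1 := hNum d (Finset.mem_union_left _ hd)
    have hed := hlt e he d hd
    have he0 : (0 : ℝ) < e := by
      have := he1.ge
      exact_mod_cast (by omega : 0 < e)
    have hd0 : (0 : ℝ) < d := by
      have := hd1.ge
      exact_mod_cast (by omega : 0 < d)
    by_cases hex : ∃ y₀ ∈ G, ∃ E₀ A₀ A₀' z₀ z₀', StE Φ e y₀ E₀ z₀ ∧ StA Φ d y₀ A₀ A₀' z₀'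
    · obtain ⟨y₀, hy₀, E₀, A₀, A₀', z₀, z₀', hE, hA⟩ := hex
      have hle := he1.le
      have hge := he1.ge
      have hgd := hd1.ge
      obtain ⟨hc, hm⟩ := hM F V Φ G N t e d hKl (by omega) (by omega) (by omega) y₀ hy₀ E₀ A₀ A₀' z₀ z₀' hE hA
      have hm := hm (fun E A A' => ¬ GPF Φ x E A A')
      have hg := hG F V Φ G N t e d hKl ht4 (by omega) (by omega) (by omega) (by omega) E₀ A₀ A₀' hc x hx hxs
      set X : ℝ := (cnt G (fun y => ∃ E A A' z z', StE Φ e y E z ∧ StA Φ d y A A' z' ∧ ¬ GPF Φ x E A A') : ℝ) with hX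
      set Y : ℝ := (cnt G (fun g => ¬ GPF Φ x (E₀.map (g : V →ₗ[F] V)) (A₀.map (g : V →ₗ[F] V))
        (A₀'.map (g : V →ₗ[F] V))) : ℝ) with hY
      have hY0 : 0 ≤ Y := Nat.cast_nonneg _
      have h3 : X * (e * d) ≤ |CM| * Y := hm.trans (mul_le_mul_of_nonneg_right (le_abs_self _) hY0)
      have h4 : Y ≤ |CG| * Nat.card G / t := by
        rw [le_div_iff₀ ht0]
        exact hg.trans (mul_le_mul_of_nonneg_right (le_abs_self _) g0)
      have h5 : X * (e * d) ≤ |CM| * (|CG| * Nat.card G / t) :=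
        h3.trans (mul_le_mul_of_nonneg_left h4 (abs_nonneg _))
      rw [mul_one_div, le_div_iff₀ (by (clear * - hge hgd; positivity))]
      calc X * (e * d) ≤ |CM| * (|CG| * Nat.card G / t) := h5
        _ = _ := by ring
    · rw [cnt_false G fun y hy h => hex ⟨y, hy, by
        obtain ⟨E, A, A', z, z', h1, h2, -⟩ := h
        exact ⟨E, A, A', z, z', h1, h2⟩⟩]
      push_cast
      (clear * -; positivity)
  -- the union
  have hun : cnt G (fun y => _root_.Subgroup.closure {x, y} ≠ G) ≤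
      cnt G (fun y => ¬ ∃ e ∈ I, ∃ A A' z, StA Φ e y A A' z) + (cnt G (fun y => ¬ ∃ e ∈ J, ∃ E z, StE Φ e y E z) +
      (cnt G (fun y => ¬ IrrG (closure {x, y})) + (cnt G (fun y => IsSp Φ ∧ (2 : F) = 0 ∧ ComQ Φ x y) +
      ∑ e ∈ J, ∑ d ∈ I, cnt G (fun y => ∃ E A A' z z', StE Φ e y E z ∧ StA Φ d y A A' z' ∧ ¬ GPF Φ x E A A')))) := by
    refine (cnt_mono G (P' := fun y => (¬ ∃ e ∈ I, ∃ A A' z, StA Φ e y A A' z) ∨ ((¬ ∃ e ∈ J, ∃ E z, StE Φ e y E z) ∨
      ((¬ IrrG (closure {x, y})) ∨ ((IsSp Φ ∧ (2 : F) = 0 ∧ ComQ Φ x y) ∨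
      ∃ e ∈ J, ∃ d ∈ I, ∃ E A A' z z', StE Φ e y E z ∧ StA Φ d y A A' z' ∧ ¬ GPF Φ x E A A')))) ?_).trans ?_
    · intro y hy hne
      by_contra hcon
      have hc1 := not_or.1 hcon
      have hc2 := not_or.1 hc1.2
      have hc3 := not_or.1 hc2.2
      have hc4 := not_or.1 hc3.2
      obtain ⟨d, hd, A, A', z', hA⟩ := not_not.1 hc1.1
      obtain ⟨e, he, E, z, hE⟩ := not_not.1 hc2.1
      have hirr := not_not.1 hc3.1
      have hcom := hc4.1
      have hgp : GPF Φ x E A A' := by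
        by_contra hg
        exact hc4.2 ⟨e, he, d, hd, E, A, A', z, z', hE, hA, hg⟩
      have he1 := hNum e (Finset.mem_union_right _ he)
      have hd1 := hNum d (Finset.mem_union_left _ hd)
      have hed := hlt e he d hd
      refine hne (hD F V Φ G e d x y z z' E A A' ⟨⟨N, t, hKl⟩, hx, hy, hE, hA, hJE e he, hIA d hd, by omega, by
        have := he1.ge; omega, by have := hd1.ge; omega, hcop e he d hd, hgp⟩ hirr fun h1 h2 h3 => hcom ⟨h1, h2, h3⟩)
    · refine (cnt_or G _ _).trans (Nat.add_le_add_left ?_ _)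
      refine (cnt_or G _ _).trans (Nat.add_le_add_left ?_ _)
      refine (cnt_or G _ _).trans (Nat.add_le_add_left ?_ _)
      refine (cnt_or G _ _).trans (Nat.add_le_add_left ?_ _)
      refine (cnt_exists G J _).trans (Finset.sum_le_sum fun e _ => ?_)
      exact cnt_exists G I _
  have hun' : (cnt G (fun y => _root_.Subgroup.closure {x, y} ≠ G) : ℝ) ≤
      cnt G (fun y => ¬ ∃ e ∈ I, ∃ A A' z, StA Φ e y A A' z) + (cnt G (fun y => ¬ ∃ e ∈ J, ∃ E z, StE Φ e y E z) +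
      (cnt G (fun y => ¬ IrrG (closure {x, y})) + (cnt G (fun y => IsSp Φ ∧ (2 : F) = 0 ∧ ComQ Φ x y) +
      ∑ e ∈ J, ∑ d ∈ I, (cnt G (fun y => ∃ E A A' z z', StE Φ e y E z ∧ StA Φ d y A A' z' ∧
        ¬ GPF Φ x E A A') : ℝ)))) := by
    exact_mod_cast hun
  have b6 : ∑ e ∈ J, ∑ d ∈ I, (cnt G (fun y => ∃ E A A' z z', StE Φ e y E z ∧ StA Φ d y A A' z' ∧
      ¬ GPF Φ x E A A') : ℝ) ≤ |CM| * |CG| / t * Nat.card G * (K + 1) ^ 2 := by
    calc _ ≤ ∑ e ∈ J, ∑ d ∈ I, |CM| * |CG| / t * Nat.card G * (1 / ((e : ℝ) * d)) :=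
          Finset.sum_le_sum fun e he => Finset.sum_le_sum fun d hd => b5 e he d hd
      _ = |CM| * |CG| / t * Nat.card G * ∑ e ∈ J, ∑ d ∈ I, 1 / ((e : ℝ) * d) := by
          rw [Finset.mul_sum]
          exact Finset.sum_congr rfl fun e _ => by rw [Finset.mul_sum]
      _ ≤ _ := mul_le_mul_of_nonneg_left (sum_sum I J K hK hI2 hJ2) (by (clear * -; positivity))
  have hfinal : |CR| / t * Nat.card G + (|CQ| / t * Nat.card G + |CM| * |CG| / t * Nat.card G * (K + 1) ^ 2) ≤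
      ε / 5 * (Nat.card G : ℝ) := by
    have h7 : |CR| / t * Nat.card G + (|CQ| / t * Nat.card G + |CM| * |CG| / t * Nat.card G * (K + 1) ^ 2) =
        (B - 1) / t * Nat.card G := by
      rw [hB]
      field_simp
      ring
    rw [h7]
    refine mul_le_mul_of_nonneg_right (le_trans ?_ hBt) g0
    exact div_le_div_of_nonneg_right (by linarith only []) ht0.le
  have : ε / 5 * (Nat.card G : ℝ) ≤ ε * Nat.card G := mul_le_mul_of_nonneg_right (by linarith only [hε]) g0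
  linarith only [b1, b2, b3, b4, hun', b6, hfinal]

theorem xsl (hR : UR1) (hI : UI) (h3 : UT3) (hM : UM2) (hG : UG2) (hK2 : UK2) (hD : UD1) : Xsl := by
  intro ε hε
  obtain ⟨K, η, hK, hη, h3⟩ := h3 (ε / 5) (by positivity)
  obtain ⟨CG, hG⟩ := hG
  obtain ⟨CR, nR, hR⟩ := hR
  obtain ⟨Nb, hb⟩ := hI K η 2 1 hη hK (Or.inr ⟨rfl, rfl⟩)
  set B : ℝ := |CR| + |CG| * (K + 1) ^ 2 + 1 with hB
  have hB0 : 0 < B := by (clear * - hK; positivity)
  obtain ⟨Q1, hQ1⟩ := exists_nat_ge (5 * B / ε)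
  refine ⟨max Nb nR, max Q1 4, ?_⟩
  intro F V _ _ _ _ _ hn ht x hx hxs
  have hfin : Finite (V ≃ₗ[F] V) := fin_gl
  set t := Nat.card F with ht_def
  set G := slV F V with hGdef
  have ht4 : 4 ≤ t := (le_max_right _ _).trans ht
  have htQ : (5 * B / ε : ℝ) ≤ t := hQ1.trans (by exact_mod_cast (le_max_left _ _).trans ht)
  have ht0 : (0 : ℝ) < t := by
    have : (4 : ℝ) ≤ t := by exact_mod_cast ht4
    linarith only [this]
  have hBt : B / t ≤ ε / 5 := by
    rw [div_le_iff₀ hε] at htQ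
    rw [div_le_div_iff₀ ht0 (by norm_num)]
    linarith only [htQ]
  obtain ⟨p, f, hp, hf, hpf, -⟩ := exists_pf F
  have hnNb : Nb ≤ finrank F V := (le_max_left _ _).trans hn
  have hnR : nR ≤ finrank F V := (le_max_right _ _).trans hn
  obtain ⟨I, J, hNum, hIA, hJE, hlt, hI1, hI2, hJ1, hJ2⟩ := hb (finrank F V) p f hnNb hp hf
  have evI : ∀ d ∈ I, Even d := fun d hd => by
    obtain ⟨l, -, -, rfl⟩ := hIA d hd
    exact even_two_mul l
  have odJ : ∀ e ∈ J, Odd e := fun e he => by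
    obtain ⟨l, -, hl, rfl⟩ := hJE e he
    rwa [one_mul]
  have cop : ∀ e ∈ J, ∀ d ∈ I, Nat.Coprime e d := fun e he d hd => by
    have := (hlt e he d hd).2
    simp only [OfNat.ofNat_ne_one, if_false] at this
    exact Nat.Coprime.coprime_mul_left_right this
  have numI : ∀ e ∈ I, Num η (finrank F V) p f e := fun e he => hNum e (Finset.mem_union_left _ he)
  have numJ : ∀ e ∈ J, Num η (finrank F V) p f e := fun e he => hNum e (Finset.mem_union_right _ he)
  have b1 := h3 F V p f hp hpf I numI hI1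
  have b2 := h3 F V p f hp hpf J numJ hJ1
  have g0 : (0 : ℝ) ≤ Nat.card G := Nat.cast_nonneg _
  have b3 : (cnt G (fun y => ¬ IrrG (_root_.Subgroup.closure {x, y})) : ℝ) ≤ |CR| / t * Nat.card G := by
    have h := hR F V hnR ht4 x hx hxs
    rw [div_mul_eq_mul_div, le_div_iff₀ ht0]
    exact h.trans (mul_le_mul_of_nonneg_right (le_abs_self _) g0)
  have b5 : ∀ e ∈ J, ∀ d ∈ I, (cnt G (fun y => ∃ E C E' C' z z', StL e y E C z ∧ StL d y E' C' z' ∧
      ¬ GPL x E E' (C ⊓ C')) : ℝ) ≤ |CG| / t * Nat.card G * (1 / ((e : ℝ) * d)) := by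
    intro e he d hd
    have he1 := numJ e he
    have hd1 := numI d hd
    have hed := (hlt e he d hd).1
    have he0 : (0 : ℝ) < e := by
      have := he1.ge
      exact_mod_cast (by omega : 0 < e)
    have hd0 : (0 : ℝ) < d := by
      have := hd1.ge
      exact_mod_cast (by omega : 0 < d)
    by_cases hex : ∃ y₀ ∈ G, ∃ E₀ C E₀' C' z₀ z₀', StL e y₀ E₀ C z₀ ∧ StL d y₀ E₀' C' z₀'
    · obtain ⟨y₀, hy₀, E₀, C, E₀', C', z₀, z₀', hE, hA⟩ := hex
      have hle := he1.le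
      have hge := he1.ge
      have hgd := hd1.ge
      obtain ⟨⟨hk1, hk2, -, -⟩, -⟩ := hK2 F V e d x y₀ z₀ z₀' E₀ C E₀' C' (by omega) hE hA
      have hm := hM F V e d (by omega) (by omega) (by omega) E₀ E₀' (C ⊓ C') hE.dim hA.dim hk1 hk2
        (fun E E' C => ¬ GPL x E E' C)
      have hg := hG F V e d ht4 (by omega) (by omega) (by omega) (by omega) E₀ E₀' (C ⊓ C') hE.dim hA.dim hk1 hk2 x hx hxs
      set X : ℝ := (cnt G (fun y => ∃ E C E' C' z z', StL e y E C z ∧ StL d y E' C' z' ∧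
        ¬ GPL x E E' (C ⊓ C')) : ℝ) with hX
      set Y : ℝ := (cnt G (fun g => ¬ GPL x (E₀.map (g : V →ₗ[F] V)) (E₀'.map (g : V →ₗ[F] V))
        ((C ⊓ C').map (g : V →ₗ[F] V))) : ℝ) with hY
      have hm' : X * (e * d) ≤ Y := by
        rw [hX, hY]
        exact_mod_cast hm
      have h4 : Y ≤ |CG| * Nat.card G / t := by
        rw [le_div_iff₀ ht0]
        exact hg.trans (mul_le_mul_of_nonneg_right (le_abs_self _) g0)
      rw [mul_one_div, le_div_iff₀ (by (clear * - hge hgd; positivity))]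
      calc X * (e * d) ≤ |CG| * Nat.card G / t := hm'.trans h4
        _ = _ := by ring
    · rw [cnt_false G (P := fun y => ∃ E C E' C' z z', StL e y E C z ∧ StL d y E' C' z' ∧
        ¬ GPL x E E' (C ⊓ C')) fun y hy h => hex ⟨y, hy, by
          obtain ⟨E, C, E', C', z, z', h1, h2, -⟩ := h
          exact ⟨E, C, E', C', z, z', h1, h2⟩⟩]
      push_cast
      (clear * -; positivity)
  have hun : cnt G (fun y => _root_.Subgroup.closure {x, y} ≠ G) ≤
      cnt G (fun y => ¬ ∃ e ∈ I, ∃ E C z, StL e y E C z ∧ Pp F e (orderOf z)) +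
      (cnt G (fun y => ¬ ∃ e ∈ J, ∃ E C z, StL e y E C z ∧ Pp F e (orderOf z)) +
      (cnt G (fun y => ¬ IrrG (closure {x, y})) +
      ∑ e ∈ J, ∑ d ∈ I, cnt G (fun y => ∃ E C E' C' z z', StL e y E C z ∧ StL d y E' C' z' ∧
        ¬ GPL x E E' (C ⊓ C')))) := by
    refine (cnt_mono G (P' := fun y => (¬ ∃ e ∈ I, ∃ E C z, StL e y E C z ∧ Pp F e (orderOf z)) ∨
      ((¬ ∃ e ∈ J, ∃ E C z, StL e y E C z ∧ Pp F e (orderOf z)) ∨
      ((¬ IrrG (closure {x, y})) ∨ 
      ∃ e ∈ J, ∃ d ∈ I, ∃ E C E' C' z z', StL e y E C z ∧ StL d y E' C' z' ∧ ¬ GPL x E E' (C ⊓ C')))) ?_).trans ?_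
    · intro y hy hne
      by_contra hcon
      have hc1 := not_or.1 hcon
      have hc2 := not_or.1 hc1.2
      have hc3 := not_or.1 hc2.2
      obtain ⟨d, hd, E', C', z', hE', -⟩ := not_not.1 hc1.1
      obtain ⟨e, he, E, C, z, hE, hPp⟩ := not_not.1 hc2.1
      have hirr := not_not.1 hc3.1
      have hgp : GPL x E E' (C ⊓ C') := by
        by_contra hg
        exact hc3.2 ⟨e, he, d, hd, E, C, E', C', z, z', hE, hE', hg⟩
      have he1 := numJ e he
      have hd1 := numI d hd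
      have hed := (hlt e he d hd).1
      exact hne (hD F V e d x y z z' E C E' C' hx hy (odJ e he) (evI d hd) (by have := hd1.ge; omega) (by omega)
        (cop e he d hd) (by have := he1.ge; omega) hE hPp hE' hgp hirr)
    · refine (cnt_or G _ _).trans (Nat.add_le_add_left ?_ _)
      refine (cnt_or G _ _).trans (Nat.add_le_add_left ?_ _)
      refine (cnt_or G _ _).trans (Nat.add_le_add_left ?_ _)
      refine (cnt_exists G J _).trans (Finset.sum_le_sum fun e _ => ?_)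
      exact cnt_exists G I _
  have hun' : (cnt G (fun y => _root_.Subgroup.closure {x, y} ≠ G) : ℝ) ≤
      cnt G (fun y => ¬ ∃ e ∈ I, ∃ E C z, StL e y E C z ∧ Pp F e (orderOf z)) +
      (cnt G (fun y => ¬ ∃ e ∈ J, ∃ E C z, StL e y E C z ∧ Pp F e (orderOf z)) +
      (cnt G (fun y => ¬ IrrG (closure {x, y})) +
      ∑ e ∈ J, ∑ d ∈ I, (cnt G (fun y => ∃ E C E' C' z z', StL e y E C z ∧ StL d y E' C' z' ∧
        ¬ GPL x E E' (C ⊓ C')) : ℝ))) := by
    exact_mod_cast hun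
  have b6 : ∑ e ∈ J, ∑ d ∈ I, (cnt G (fun y => ∃ E C E' C' z z', StL e y E C z ∧ StL d y E' C' z' ∧
      ¬ GPL x E E' (C ⊓ C')) : ℝ) ≤ |CG| / t * Nat.card G * (K + 1) ^ 2 := by
    calc _ ≤ ∑ e ∈ J, ∑ d ∈ I, |CG| / t * Nat.card G * (1 / ((e : ℝ) * d)) :=
          Finset.sum_le_sum fun e he => Finset.sum_le_sum fun d hd => b5 e he d hd
      _ = |CG| / t * Nat.card G * ∑ e ∈ J, ∑ d ∈ I, 1 / ((e : ℝ) * d) := by
          rw [Finset.mul_sum]
          exact Finset.sum_congr rfl fun e _ => by rw [Finset.mul_sum]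
      _ ≤ _ := mul_le_mul_of_nonneg_left (sum_sum I J K hK hI2 hJ2) (by (clear * -; positivity))
  have hfinal : |CR| / t * Nat.card G + |CG| / t * Nat.card G * (K + 1) ^ 2 ≤ ε / 5 * (Nat.card G : ℝ) := by
    have h7 : |CR| / t * Nat.card G + |CG| / t * Nat.card G * (K + 1) ^ 2 = (B - 1) / t * Nat.card G := by
      rw [hB]
      field_simp
      ring
    rw [h7]
    refine mul_le_mul_of_nonneg_right (le_trans ?_ hBt) g0
    exact div_le_div_of_nonneg_right (by linarith only []) ht0.le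
  have : ε / 5 * (Nat.card G : ℝ) ≤ ε * Nat.card G := mul_le_mul_of_nonneg_right (by linarith only [hε]) g0
  linarith only [b1, b2, b3, hun', b6, hfinal]

end Cfsg.Agent.H141.Ux
end

-- part: H917/Ux/Coord
section
prune_inst 0x1800300000000000000000000000000000000
set_option linter.all false
open scoped Cfsg.Agent.FastGrp

/-!
# UN3 of UX (S5716, unbounded rank), part 1: coordinates, numbers, subfield groups (helper917)
-/

set_option autoImplicit false
set_option linter.unusedSectionVars false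

namespace Cfsg.Agent.H917.Ux

open Module Matrix Cfsg.Geo
open Cfsg.Agent.H847.Bs Cfsg.Agent.H141.Ux
open Cfsg.Agent.LieClassical.OrthFinite (glEquiv glEquiv_apply)

section coord

variable {F U : Type*} [Field F] [AddCommGroup U] [Module F U] {n : ℕ} (φ : U ≃ₗ[F] (Fin n → F))

/-- conjugation by a coordinate system -/
def cjE : (U ≃ₗ[F] U) ≃* ((Fin n → F) ≃ₗ[F] (Fin n → F)) where
  toFun g := (φ.symm.trans g).trans φ
  invFun g := (φ.trans g).trans φ.symm
  left_inv g := by ext x; simp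
  right_inv g := by ext x; simp
  map_mul' g h := by ext x; simp [LinearEquiv.mul_apply]

/-- linear automorphisms as invertible matrices -/
noncomputable def gl : (U ≃ₗ[F] U) ≃* GL (Fin n) F := (cjE φ).trans (glEquiv (Fin n) F).symm

theorem gl_mulVec (g : U ≃ₗ[F] U) (v : U) : (gl φ g : Matrix (Fin n) (Fin n) F) *ᵥ φ v = φ (g v) := by
  rw [← glEquiv_apply, gl, MulEquiv.trans_apply, MulEquiv.apply_symm_apply]
  show φ (g (φ.symm (φ v))) = _
  rw [LinearEquiv.symm_apply_apply]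

theorem gl_mulVec' (g : U ≃ₗ[F] U) (v : Fin n → F) :
    (gl φ g : Matrix (Fin n) (Fin n) F) *ᵥ v = φ (g (φ.symm v)) := by
  rw [← gl_mulVec, LinearEquiv.apply_symm_apply]

theorem gl_symm_apply (A : GL (Fin n) F) (v : U) :
    (gl φ).symm A v = φ.symm ((A : Matrix (Fin n) (Fin n) F) *ᵥ φ v) := by
  obtain ⟨g, rfl⟩ := (gl φ).surjective A
  rw [MulEquiv.symm_apply_apply, gl_mulVec, LinearEquiv.symm_apply_apply]

/-- the matrix group of a linear group -/
noncomputable def mat (K : Subgroup (U ≃ₗ[F] U)) : Subgroup (GL (Fin n) F) := K.map (gl φ).toMonoidHom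

theorem mem_mat {K : Subgroup (U ≃ₗ[F] U)} {A : GL (Fin n) F} : A ∈ mat φ K ↔ (gl φ).symm A ∈ K :=
  Subgroup.mem_map_equiv

theorem gl_mem_mat {K : Subgroup (U ≃ₗ[F] U)} {g : U ≃ₗ[F] U} : gl φ g ∈ mat φ K ↔ g ∈ K := by
  rw [mem_mat, MulEquiv.symm_apply_apply]

theorem irr_mat {K : Subgroup (U ≃ₗ[F] U)} (h : IrrG K) : ActsIrreducibly (matrixSet (mat φ K)) := by
  intro W hW
  have h1 := h (W.comap (φ : U →ₗ[F] (Fin n → F))) (by
    intro g hg v hv
    show φ (g v) ∈ W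
    rw [← gl_mulVec]
    apply hW _ ⟨gl φ g, (gl_mem_mat φ).2 hg, rfl⟩
    exact ⟨φ v, hv, Matrix.toLin'_apply _ _⟩)
  rcases h1 with h1 | h1
  · left
    rw [eq_bot_iff]
    intro x hx
    have h2 : φ.symm x ∈ W.comap (φ : U →ₗ[F] (Fin n → F)) := by
      show φ (φ.symm x) ∈ W
      rwa [LinearEquiv.apply_symm_apply]
    rw [h1, Submodule.mem_bot] at h2
    rw [Submodule.mem_bot]
    simpa using congrArg φ h2
  · right
    rw [eq_top_iff]
    intro x _
    have h2 : φ.symm x ∈ W.comap (φ : U →ₗ[F] (Fin n → F)) := by rw [h1]; exact Submodule.mem_top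
    have h3 : φ (φ.symm x) ∈ W := h2
    rwa [LinearEquiv.apply_symm_apply] at h3

theorem det_gl (g : U ≃ₗ[F] U) : (gl φ g : Matrix (Fin n) (Fin n) F).det = LinearMap.det (g : U →ₗ[F] U) := by
  have h1 : Matrix.toLin' (gl φ g : Matrix (Fin n) (Fin n) F) =
      (φ : U →ₗ[F] (Fin n → F)) ∘ₗ (g : U →ₗ[F] U) ∘ₗ (φ.symm : (Fin n → F) →ₗ[F] U) := by
    ext v : 1
    refine LinearMap.ext fun x => ?_
    show Matrix.toLin' (gl φ g : Matrix (Fin n) (Fin n) F) (LinearMap.single F (fun _ : Fin n => F) v x) = _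
    rw [Matrix.toLin'_apply, gl_mulVec']
    rfl
  rw [← LinearMap.det_toLin', h1]
  exact LinearMap.det_conj (g : U →ₗ[F] U) φ

theorem det_gl_eq_one {g : U ≃ₗ[F] U} : Matrix.GeneralLinearGroup.det (gl φ g) = 1 ↔ g ∈ slV F U := by
  have h1 : (Matrix.GeneralLinearGroup.det (gl φ g) : F) = LinearMap.det (g : U →ₗ[F] U) := det_gl φ g
  constructor
  · intro h
    rw [h] at h1
    exact h1.symm
  · intro h
    apply Units.ext
    rw [h1]
    exact h

end coord

/-! ### numbers -/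

section num

variable {F : Type*} [Field F] [Finite F] {k m : ℕ}

theorem exists_f : ∃ f : ℕ, 0 < f ∧ Nat.card F = ringChar F ^ f ∧ (ringChar F).Prime := by
  have hc : CharP F (ringChar F) := ringChar.charP F
  have hft := Fintype.ofFinite F
  obtain ⟨f, hp, hf⟩ := FiniteField.card F (ringChar F)
  exact ⟨f, f.pos, by rw [Nat.card_eq_fintype_card, hf], hp⟩

theorem dvd_sub_one_iff {r q i : ℕ} (hq : 0 < q) : r ∣ q ^ i - 1 ↔ ((q : ℕ) : ZMod r) ^ i = 1 := by
  rw [← ZMod.natCast_eq_zero_iff, Nat.cast_sub (Nat.one_le_pow _ _ hq), Nat.cast_pow, Nat.cast_one, sub_eq_zero]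

theorem pp_dvd {f r i : ℕ} (h : Pp F k m) (hf : Nat.card F = ringChar F ^ f) (hr : r.Prime) (hrm : r ∣ m)
    (hi : r ∣ ringChar F ^ i - 1) (hp : 0 < ringChar F) : k * f ∣ i := by
  rw [← h.2.2 r hr hrm f hf]
  exact orderOf_dvd_of_pow_eq_one ((dvd_sub_one_iff hp).1 hi)

theorem pp_cop (h : Pp F k m) : ∀ i : ℕ, 1 ≤ i → i < k → Nat.Coprime m (Nat.card F ^ i - 1) := by
  intro i hi hik
  obtain ⟨f, hf0, hf, hp⟩ := exists_f (F := F)
  rw [Nat.coprime_iff_gcd_eq_one]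
  by_contra hne
  obtain ⟨r, hr, hrd⟩ := Nat.exists_prime_and_dvd hne
  have h1 : r ∣ ringChar F ^ (f * i) - 1 := by
    rw [pow_mul, ← hf]
    exact hrd.trans (Nat.gcd_dvd_right _ _)
  have h2 := pp_dvd h hf hr (hrd.trans (Nat.gcd_dvd_left _ _)) h1 hp.pos
  rw [mul_comm f i] at h2
  have h3 := Nat.le_of_dvd (by omega) (Nat.dvd_of_mul_dvd_mul_right hf0 h2)
  omega

/-- **Subfield groups of prime index contain no element of primitive order.** -/
theorem subfield_false {n : ℕ} (hk : n < 2 * k) (hk1 : 1 < k) {g : GL (Fin n) F} (h : Pp F k (orderOf g)) (F₀ : Subfield F)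
    {r : ℕ} (hr : r.Prime) (P : GL (Fin n) F) (hc : Nat.card F = Nat.card F₀ ^ r)
    (hg : g ∈ subfieldSubgroup F₀ P) : False := by
  obtain ⟨f, hf0, hf, hp⟩ := exists_f (F := F)
  have hkpos : 0 < k := by
    by_contra h0
    omega
  have hm1 : orderOf g ≠ 1 := by have := h.1; omega
  obtain ⟨l, hl, hlm⟩ := Nat.exists_prime_and_dvd hm1
  have hl0 : ¬ l ∣ ringChar F := by
    intro hlp
    have h1 : l ∣ Nat.card F ^ k := by
      rw [hf]
      exact dvd_pow (dvd_pow hlp hf0.ne') hkpos.ne'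
    have h2 : l ∣ Nat.card F ^ k - 1 := hlm.trans h.2.1
    have h3 : 1 ≤ Nat.card F ^ k := Nat.one_le_pow _ _ Nat.card_pos
    have h4 := Nat.dvd_sub h1 h2
    have h5 : Nat.card F ^ k - (Nat.card F ^ k - 1) = 1 := by omega
    rw [h5] at h4
    exact hl.one_lt.ne' (Nat.dvd_one.1 h4)
  -- the subfield
  obtain ⟨f₀, hf₀⟩ : ∃ f₀ : ℕ, Nat.card F₀ = ringChar F ^ f₀ := by
    have h1 : Nat.card F₀ ∣ ringChar F ^ f := by
      rw [← hf, hc]
      exact dvd_pow_self _ hr.ne_zero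
    obtain ⟨f₀, -, h2⟩ := (Nat.dvd_prime_pow hp).1 h1
    exact ⟨f₀, h2⟩
  have hff : f = f₀ * r := by
    rw [hf, hf₀, ← pow_mul] at hc
    exact Nat.pow_right_injective hp.two_le hc
  -- a power of `g` over the subfield
  rw [Cfsg.Agent.H914.mem_subfieldSubgroup_iff] at hg
  obtain ⟨c, hc0, hcg⟩ := hg
  set M : GL (Fin n) F := P⁻¹ * g * P with hM
  let A₀ : Matrix (Fin n) (Fin n) F₀ := fun i j => ⟨c * (M : Matrix (Fin n) (Fin n) F) i j, hcg i j⟩
  have hA : (F₀.subtype : F₀ →+* F).mapMatrix A₀ = c • (M : Matrix (Fin n) (Fin n) F) := by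
    ext i j
    rfl
  have hdet : A₀.det ≠ 0 := by
    intro h0
    have h2 := RingHom.map_det (F₀.subtype : F₀ →+* F) A₀
    rw [h0, map_zero, hA, Matrix.det_smul] at h2
    have h3 : (M : Matrix (Fin n) (Fin n) F).det ≠ 0 := by
      have : IsUnit (M : Matrix (Fin n) (Fin n) F) := ⟨M, rfl⟩
      exact ((Matrix.isUnit_iff_isUnit_det _).mp this).ne_zero
    exact (mul_ne_zero (pow_ne_zero _ hc0) h3) h2.symm
  let A : GL (Fin n) F₀ := Matrix.GeneralLinearGroup.mkOfDetNeZero A₀ hdet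
  have hft := Fintype.ofFinite F
  have hA1 : Matrix.GeneralLinearGroup.map (F₀.subtype : F₀ →+* F) (A ^ (Nat.card F - 1)) = M ^ (Nat.card F - 1) := by
    apply Units.ext
    have h1 : ((Matrix.GeneralLinearGroup.map (F₀.subtype : F₀ →+* F) A : GL (Fin n) F) :
        Matrix (Fin n) (Fin n) F) = c • (M : Matrix (Fin n) (Fin n) F) := by
      rw [← hA]
      rfl
    rw [map_pow, Units.val_pow_eq_pow_val, Units.val_pow_eq_pow_val, h1, smul_pow, Nat.card_eq_fintype_card,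
      FiniteField.pow_card_sub_one_eq_one c hc0, one_smul]
  have hinj : Function.Injective (Matrix.GeneralLinearGroup.map (n := Fin n) (F₀.subtype : F₀ →+* F)) := by
    intro X Y hXY
    apply Units.ext
    ext i j
    have h1 : ((Matrix.GeneralLinearGroup.map (F₀.subtype : F₀ →+* F) X : GL (Fin n) F) :
      Matrix (Fin n) (Fin n) F) i j = ((Matrix.GeneralLinearGroup.map (F₀.subtype : F₀ →+* F) Y : GL (Fin n) F) :
      Matrix (Fin n) (Fin n) F) i j := by rw [hXY]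
    exact h1
  have hord : orderOf (A ^ (Nat.card F - 1)) = orderOf g := by
    rw [← orderOf_injective _ hinj, hA1]
    have h1 : orderOf M = orderOf g := by
      have h2 : M = MulAut.conj P⁻¹ g := by
        rw [hM, MulAut.conj_apply, inv_inv]
      rw [h2]
      exact MulEquiv.orderOf_eq (MulAut.conj P⁻¹) g
    rw [← h1]
    apply Nat.Coprime.orderOf_pow
    rw [h1]
    have h2 := pp_cop h 1 le_rfl hk1
    rwa [pow_one] at h2
  have hfin₀ : Finite F₀ := inferInstance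
  have hft₀ := Fintype.ofFinite F₀
  have hlc : l ∣ Nat.card (GL (Fin n) F₀) := by
    rw [← hord] at hlm
    exact hlm.trans (orderOf_dvd_natCard _)
  rw [Matrix.card_GL_field, ← Nat.card_eq_fintype_card] at hlc
  obtain ⟨i, -, hi⟩ := (Prime.dvd_finsetProd_iff (Nat.prime_iff.1 hl) _).1 hlc
  have hin : (i : ℕ) < n := i.2
  have h5 : Nat.card F₀ ^ n - Nat.card F₀ ^ (i : ℕ) = Nat.card F₀ ^ (i : ℕ) * (Nat.card F₀ ^ (n - i) - 1) := by
    rw [Nat.mul_sub, mul_one, ← pow_add]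
    congr 2
    omega
  rw [h5] at hi
  have h6 : ¬ l ∣ Nat.card F₀ ^ (i : ℕ) := by
    intro h7
    apply hl0
    have h8 := hl.dvd_of_dvd_pow h7
    rw [hf₀] at h8
    exact hl.dvd_of_dvd_pow h8
  have h7 := (hl.dvd_mul.1 hi).resolve_left h6
  rw [hf₀, ← pow_mul] at h7
  have h8 := pp_dvd h hf hl hlm h7 hp.pos
  rw [hff] at h8
  have hf₀0 : 0 < f₀ := by
    rcases Nat.eq_zero_or_pos f₀ with h0 | h0
    · rw [h0, zero_mul] at hff
      omega
    · exact h0
  have h9 : k * r ∣ n - i := by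
    have h10 : f₀ * (k * r) ∣ f₀ * (n - i) := by
      have : f₀ * (k * r) = k * (f₀ * r) := by ring
      rw [this]
      exact h8
    exact Nat.dvd_of_mul_dvd_mul_left hf₀0 h10
  have h10 := Nat.le_of_dvd (by omega) h9
  have h12 : k * 2 ≤ k * r := Nat.mul_le_mul_left k hr.two_le
  omega

end num

end Cfsg.Agent.H917.Ux

private theorem dce_df10aadfd13b : _root_.True := by
  try have : _root_.True := by simp only [_root_.Cfsg.Agent.H917.Ux.gl.eq_1]
  exact _root_.True.intro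
end

-- part: H261/Ux/Prim
section
set_option linter.all false
open scoped Cfsg.Agent.FastGrp

/-!
# S5716, unbounded rank: few irreducible matrices have order with a small `p`-primitive part

* `Bp p d M o` : `o` has a divisor `k ≥ M` all prime divisors `r` of which satisfy `ord_r(p) = d`;
* `card_small_Bp` : in a cyclic group of order `N N'`, all prime divisors `r` of `N` with `ord_r(p) = d`, at most `N' M ^ 2`
  elements have order without `Bp`;
* `card_bad` : `16 e² #{g ∈ GL_e(F) irreducible, ¬ Bp p (e f) M (orderOf g)} ≤ |GL_e(F)|`.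
-/

set_option autoImplicit false

namespace Cfsg.Agent.H261.Ux

open Module Cfsg.Agent.H50.RG

/-- `o` has a divisor `k ≥ M` all prime divisors `r` of which satisfy `ord_r(p) = d` -/
def Bp (p d M o : ℕ) : Prop := ∃ k : ℕ, M ≤ k ∧ (∀ r : ℕ, r.Prime → r ∣ k → orderOf ((p : ℕ) : ZMod r) = d) ∧ k ∣ o

theorem card_small_Bp (C : Type*) [CommGroup C] [Finite C] [IsCyclic C] {p d M N N' : ℕ} (hC : N * N' = Nat.card C)
    (hN : ∀ r : ℕ, r.Prime → r ∣ N → orderOf ((p : ℕ) : ZMod r) = d) :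
    Nat.card {u : C // ¬ Bp p d M (orderOf u)} ≤ N' * M ^ 2 := by
  have hN'0 : 0 < N' := by
    rcases Nat.eq_zero_or_pos N' with h0 | h0
    · rw [h0, mul_zero] at hC
      exact absurd hC.symm Nat.card_pos.ne'
    · exact h0
  have key : ∀ u : C, ¬ Bp p d M (orderOf u) → orderOf (u ^ N') < M := by
    intro u hu
    by_contra hlt
    rw [not_lt] at hlt
    have hmN : orderOf (u ^ N') ∣ N := by
      apply orderOf_dvd_of_pow_eq_one
      rw [← pow_mul, mul_comm, hC]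
      exact pow_card_eq_one'
    exact hu ⟨orderOf (u ^ N'), hlt, fun r hr hrm => hN r hr (hrm.trans hmN), orderOf_pow_dvd N'⟩
  refine le_trans (Nat.card_le_card_of_injective (β := {u : C // orderOf (u ^ N') < M})
    (fun u => ⟨u.1, key u.1 u.2⟩) ?_) (H961.RG.card_small C N' M hN'0)
  intro u v huv
  simpa [Subtype.ext_iff] using huv

/-- few irreducible matrices have order with a small `p`-primitive part -/
theorem card_bad (F : Type) [Field F] [Finite F] {p f e M : ℕ} (hp : p.Prime) (hF : Nat.card F = p ^ f) (he : 3 ≤ e)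
    (h : 64 * (e * f) * M ^ 2 * e ≤ p ^ (e * f).totient) :
    16 * e ^ 2 * Nat.card {g : GL (Fin e) F // IrrM F g ∧ ¬ Bp p (e * f) M (orderOf g)} ≤ Nat.card (GL (Fin e) F) := by
  have hq : 2 ≤ Nat.card F := Finite.one_lt_card
  have hf : 1 ≤ f := by
    by_contra h0
    have h1 : f = 0 := by omega
    rw [hF, h1, pow_zero] at hq
    omega
  have hef : 3 ≤ e * f := by nlinarith
  obtain ⟨N, N', hNN, hNr, hN⟩ := H961.RG.exists_prim hef hp.two_le
  have hNM : 16 * e * M ^ 2 ≤ N := by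
    have h1 : (4 * (e * f)) * (16 * e * M ^ 2) ≤ (4 * (e * f)) * N := by
      calc (4 * (e * f)) * (16 * e * M ^ 2) = 64 * (e * f) * M ^ 2 * e := by ring
        _ ≤ _ := h
        _ ≤ _ := hN
    exact Nat.le_of_mul_le_mul_left h1 (by omega)
  have hqe : 1 < Nat.card F ^ e := Nat.one_lt_pow (by omega) (by omega)
  have hNN' : N * N' = Nat.card F ^ e - 1 := by
    rw [hNN, hF, ← pow_mul, mul_comm f e]
  have hpp : Fact p.Prime := ⟨hp⟩
  have hcp : CharP F p := by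
    obtain ⟨p', hp'⟩ := CharP.exists F
    have hpr : p'.Prime := CharP.char_is_prime F p'
    have : Fintype F := Fintype.ofFinite F
    have : Fact p'.Prime := ⟨hpr⟩
    obtain ⟨n, _, hn⟩ := FiniteField.card F p'
    rw [← Nat.card_eq_fintype_card, hF] at hn
    have h1 : p' ∣ p ^ f := by
      rw [hn]
      exact dvd_pow_self p' n.ne_zero
    have h2 := (Nat.prime_dvd_prime_iff_eq hpr hp).1 (hpr.dvd_of_dvd_pow h1)
    rwa [← h2]
  have : NeZero e := ⟨by omega⟩
  let K := FiniteField.Extension F p e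
  have hd : finrank F K = e := FiniteField.finrank_extension F p e
  have hcK : Nat.card Kˣ = Nat.card F ^ e - 1 := by
    have := Fintype.ofFinite K
    rw [Nat.card_units, ← hd, ← Module.natCard_eq_pow_finrank]
  have h1 := card_small_Bp Kˣ (M := M) (hNN'.trans hcK.symm) hNr
  have h2 := H383.RG.rg_L25 F K e (by omega) hd (fun k => ¬ Bp p (e * f) M k)
  have h3 : Nat.card {u : Kˣ // Algebra.adjoin F {(u : K)} = ⊤ ∧ ¬ Bp p (e * f) M (orderOf u)} ≤ N' * M ^ 2 := by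
    refine le_trans (Nat.card_le_card_of_injective (fun u => ⟨u.1, u.2.2⟩) ?_) h1
    intro u v huv
    simpa [Subtype.ext_iff] using huv
  refine Nat.le_of_mul_le_mul_right (c := Nat.card F ^ e - 1) ?_ (by omega)
  calc 16 * e ^ 2 * Nat.card {g : GL (Fin e) F // IrrM F g ∧ ¬ Bp p (e * f) M (orderOf g)} * (Nat.card F ^ e - 1)
      = 16 * e * (e * Nat.card {g : GL (Fin e) F // IrrM F g ∧ ¬ Bp p (e * f) M (orderOf g)} *
        (Nat.card F ^ e - 1)) := by ring
    _ = 16 * e * (Nat.card (GL (Fin e) F) *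
        Nat.card {u : Kˣ // Algebra.adjoin F {(u : K)} = ⊤ ∧ ¬ Bp p (e * f) M (orderOf u)}) := by rw [h2]
    _ ≤ 16 * e * (Nat.card (GL (Fin e) F) * (N' * M ^ 2)) := Nat.mul_le_mul_left _ (Nat.mul_le_mul_left _ h3)
    _ = Nat.card (GL (Fin e) F) * ((16 * e * M ^ 2) * N') := by ring
    _ ≤ Nat.card (GL (Fin e) F) * (N * N') := Nat.mul_le_mul_left _ (Nat.mul_le_mul_right _ hNM)
    _ = _ := by rw [hNN']

end Cfsg.Agent.H261.Ux
end

-- part: H948/Ux/NatE
section
prune_inst 0x1800300000000000000000000000000000000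
set_option linter.all false

/-!
# UN1 of UX (S5716, unbounded rank): the outcome `NatE` of S5948 with the exact form (helper948)

* `NatE P` : `P` contains `SL_n`, or `P` fixes a symplectic form (a unitary form, a nondegenerate quadratic form) and
  contains all isometries (all isometries of determinant one, `Ω`);
* `NatE.nat' : NatE P → Nat' P`.
-/

set_option autoImplicit false

namespace Cfsg.Agent.H948.Ux

open Cfsg Cfsg.Geo Matrix
open Cfsg.Agent.H100.Ppd

universe u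

variable {n : ℕ} {F : Type u} [Field F]

/-- **The outcome, with the invariant form.** -/
def NatE (P : Subgroup (GL (Fin n) F)) : Prop :=
  specialLinear (Fin n) F ≤ P ∨
  (∃ f : (Fin n → F) → (Fin n → F) → F, IsSymplecticForm f ∧
    (∀ x ∈ P, FixesForm {(x : Matrix (Fin n) (Fin n) F)} f) ∧
    ∀ x : GL (Fin n) F, FixesForm {(x : Matrix (Fin n) (Fin n) F)} f → x ∈ P) ∨
  (∃ (τ : F ≃+* F) (f : (Fin n → F) → (Fin n → F) → F), IsUnitaryForm τ f ∧
    (∀ x ∈ P, FixesForm {(x : Matrix (Fin n) (Fin n) F)} f) ∧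
    ∀ x : GL (Fin n) F, FixesForm {(x : Matrix (Fin n) (Fin n) F)} f →
      Matrix.GeneralLinearGroup.det x = 1 → x ∈ P) ∨
  (∃ Q : (Fin n → F) → F, IsNondegenerateQuadraticForm Q ∧
    (∀ x ∈ P, ∀ v, Q ((x : Matrix (Fin n) (Fin n) F) *ᵥ v) = Q v) ∧ omegaGL Q ≤ P)

theorem NatE.nat' [Finite F] {P : Subgroup (GL (Fin n) F)} (h : NatE P) : Nat' P := by
  rcases h with h | ⟨f, hf, -, h⟩ | ⟨τ, f, hf, -, h⟩ | ⟨Q, hQ, -, h⟩
  · exact Or.inl h
  · exact Or.inr (Or.inl ⟨f, hf, h⟩)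
  · exact Or.inr (Or.inr (Or.inl ⟨τ, f, hf, h⟩))
  · exact Or.inr (Or.inr (Or.inr ⟨Q, hQ, h⟩))

end Cfsg.Agent.H948.Ux
end

-- part: H917/Ux/UN
section
prune_inst 0x3050754435e2020000180506702000203000040000408000a04102440b018042a94388400220211b502290802804006813000020424001c00e2004000005002080801600b008000c46009f800388210000001800300000000000000000000000200000000
set_option linter.all false
open scoped Cfsg.Agent.FastGrp

/-!
# UN3 of UX (S5716, unbounded rank): `UN` from the matrix statement (helper917)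
-/

set_option autoImplicit false
set_option linter.unusedSectionVars false

namespace Cfsg.Agent.H917.Ux

open Module Matrix Cfsg.Geo QuadraticMap
open Cfsg.Agent.H847.Bs Cfsg.Agent.H141.Ux
open Cfsg.Agent.LieClassical.OrthCore (E siegel siegelSet siegel_apply)
open Cfsg.Agent.H914 (IsSesq le_similarityGroup_of_fixes)

/-- the input `un2` (helper887) -/
def UN2 : Prop := ∀ (F : Type) [Field F] [Finite F] (n k : ℕ), 10 ≤ n → n < 2 * k → ∀ g : GL (Fin n) F,
  2 * k + 1 < orderOf g → orderOf g ∣ Nat.card F ^ k - 1 →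
  (∀ i : ℕ, 1 ≤ i → i < k → Nat.Coprime (orderOf g) (Nat.card F ^ i - 1)) →
  ∀ H : Subgroup (GL (Fin n) F), g ∈ H → ActsIrreducibly (matrixSet H) →
  (∃ (F₀ : Subfield F) (r : ℕ) (P : GL (Fin n) F), r.Prime ∧ Nat.card F = Nat.card F₀ ^ r ∧
      H ≤ subfieldSubgroup F₀ P) ∨
  (∃ (r : ℕ) (E : Subalgebra F (Matrix (Fin n) (Fin n) F)), r.Prime ∧ r ∣ Nat.gcd n k ∧
      IsFieldSubalgebra r E ∧ H ≤ subalgebraNormalizer E) ∨
  ∃ P ≤ H, (∀ h ∈ H, ∀ x ∈ P, h * x * h⁻¹ ∈ P) ∧ ActsAbsolutelyIrreducibly (matrixSet P) ∧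
    Cfsg.Agent.H948.Ux.NatE P

section

variable {F U : Type*} [Field F] [AddCommGroup U] [Module F U] {n : ℕ} (φ : U ≃ₗ[F] (Fin n → F))

/-! ### the field case -/

theorem field_case {K : Subgroup (U ≃ₗ[F] U)} {r : ℕ} {A : Subalgebra F (Matrix (Fin n) (Fin n) F)}
    (hA : IsFieldSubalgebra r A) (hn : 0 < n) (hK : mat φ K ≤ subalgebraNormalizer A) :
    ∃ T : Subalgebra F (Module.End F U), IsField T ∧ finrank F T = r ∧
      ∀ h ∈ K, ∀ a ∈ T, (h : U →ₗ[F] U) * a * ((h⁻¹ : U ≃ₗ[F] U) : U →ₗ[F] U) ∈ T := by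
  have : Nonempty (Fin n) := ⟨⟨0, hn⟩⟩
  let ψ : Matrix (Fin n) (Fin n) F ≃ₐ[F] Module.End F U :=
    Matrix.toLinAlgEquiv'.trans (LinearEquiv.conjAlgEquiv F φ.symm)
  have hψ : ∀ (M : Matrix (Fin n) (Fin n) F) (u : U), ψ M u = φ.symm (M *ᵥ φ u) := by
    intro M u
    rfl
  have hψg : ∀ h : U ≃ₗ[F] U, ψ (gl φ h : Matrix (Fin n) (Fin n) F) = (h : U →ₗ[F] U) := by
    intro h
    refine LinearMap.ext fun u => ?_
    rw [hψ, gl_mulVec, LinearEquiv.symm_apply_apply]
    rfl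
  refine ⟨A.map (ψ : Matrix (Fin n) (Fin n) F →ₐ[F] Module.End F U), ?_, ?_, ?_⟩
  · refine ⟨⟨0, 1, ?_⟩, ?_, ?_⟩
    · intro h01
      have h1 : (0 : Module.End F U) = 1 := congrArg Subtype.val h01
      have h2 : (0 : Matrix (Fin n) (Fin n) F) = 1 := by
        apply ψ.injective
        rw [map_zero, map_one]
        exact h1
      exact zero_ne_one h2
    · rintro ⟨_, x, hx, rfl⟩ ⟨_, y, hy, rfl⟩
      apply Subtype.ext
      show ψ x * ψ y = ψ y * ψ x
      rw [← map_mul, ← map_mul, hA.comm x hx y hy]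
    · rintro ⟨_, x, hx, rfl⟩ hne
      have hx0 : x ≠ 0 := by
        rintro rfl
        apply hne
        apply Subtype.ext
        exact map_zero ψ
      obtain ⟨y, hy, hxy⟩ := hA.inv x hx hx0
      refine ⟨⟨ψ y, y, hy, rfl⟩, ?_⟩
      apply Subtype.ext
      show ψ x * ψ y = 1
      rw [← map_mul, hxy, map_one]
  · rw [← hA.finrank_eq]
    exact (AlgEquiv.subalgebraMap ψ A).symm.toLinearEquiv.finrank_eq
  · rintro h hh _ ⟨x, hx, rfl⟩
    refine ⟨(gl φ h : Matrix (Fin n) (Fin n) F) * x * ((gl φ h)⁻¹ : GL (Fin n) F), ?_, ?_⟩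
    · exact (hK ((gl_mem_mat φ).2 hh) x).1 hx
    · show ψ _ = (h : U →ₗ[F] U) * ψ x * ((h⁻¹ : U ≃ₗ[F] U) : U →ₗ[F] U)
      rw [map_mul, map_mul, hψg, ← map_inv, hψg]

/-! ### forms -/

theorem card_sq [Finite F] {τ : F ≃+* F} {f : (Fin n → F) → (Fin n → F) → F} (hf : IsUnitaryForm τ f) :
    ∃ r : ℕ, Nat.card F = r ^ 2 ∧ ∀ x, τ x = x ^ r := by
  have := Fintype.ofFinite F
  obtain ⟨r, h1, h2⟩ := Cfsg.Agent.H895.SLT.unitary_sigma hf.involutive hf.ne_refl
  exact ⟨r, by rw [Nat.card_eq_fintype_card, h1], h2⟩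

/-- a form on `F ^ n` as a form on `U` -/
def frm {σ : F ≃+* F} {f : (Fin n → F) → (Fin n → F) → F} (hf : IsSesq σ f)
    (hr : ∀ x y, f x y = 0 → f y x = 0) : Frm F U where
  B x y := f (φ x) (φ y)
  q _ := 0
  s := σ
  add_left x y z := by rw [map_add, hf.add_left]
  add_right x y z := by rw [map_add, hf.add_right]
  smul_left a x y := by rw [map_smul, hf.smul_left]
  smul_right a x y := by rw [map_smul, hf.smul_right]
  refl x y h := hr _ _ h
  q_add x y h := by rw [add_zero]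

theorem nd_frm {σ : F ≃+* F} {f : (Fin n → F) → (Fin n → F) → F} (hf : IsSesq σ f)
    (hr : ∀ x y, f x y = 0 → f y x = 0) (hn : IsNondegenerateForm f) : (frm φ hf hr).Nd := by
  intro x hx
  by_contra h0
  obtain ⟨-, y, hy⟩ := hn (φ x) (by simpa using h0)
  apply hy
  have h1 : f (φ x) (φ (φ.symm y)) = 0 := hx (φ.symm y)
  rwa [LinearEquiv.apply_symm_apply] at h1

theorem fixes_of_iso {σ : F ≃+* F} {f : (Fin n → F) → (Fin n → F) → F} (hf : IsSesq σ f)
    (hr : ∀ x y, f x y = 0 → f y x = 0) {g : U ≃ₗ[F] U} (hg : g ∈ (frm φ hf hr).Iso) :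
    FixesForm {((gl φ g : GL (Fin n) F) : Matrix (Fin n) (Fin n) F)} f := by
  rintro _ rfl u v
  rw [gl_mulVec', gl_mulVec']
  have h1 : f (φ (g (φ.symm u))) (φ (g (φ.symm v))) = f (φ (φ.symm u)) (φ (φ.symm v)) := hg.1 _ _
  rw [h1, LinearEquiv.apply_symm_apply, LinearEquiv.apply_symm_apply]

theorem sim_frm {σ : F ≃+* F} {f : (Fin n → F) → (Fin n → F) → F} (hf : IsSesq σ f)
    (hr : ∀ x y, f x y = 0 → f y x = 0) {K : Subgroup (U ≃ₗ[F] U)} (hK : mat φ K ≤ similarityGroup f) :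
    ∀ h ∈ K, Sim (frm φ hf hr) h := by
  intro h hh
  obtain ⟨c, hc⟩ := hK ((gl_mem_mat φ).2 hh)
  refine ⟨c, fun u v => ?_⟩
  show f (φ (h u)) (φ (h v)) = c * f (φ u) (φ v)
  rw [← gl_mulVec, ← gl_mulVec, hc]

/-! ### quadratic forms -/

/-- a quadratic form on `F ^ n` as a quadratic form on `U` -/
noncomputable def qU {Q : (Fin n → F) → F} (hQ : IsNondegenerateQuadraticForm Q) : QuadraticForm F U :=
  (Cfsg.Agent.H925.qf hQ).comp (φ : U →ₗ[F] (Fin n → F))

theorem qU_apply {Q : (Fin n → F) → F} (hQ : IsNondegenerateQuadraticForm Q) (u : U) : qU φ hQ u = Q (φ u) := rfl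

theorem polar_qU {Q : (Fin n → F) → F} (hQ : IsNondegenerateQuadraticForm Q) (u v : U) :
    polar (qU φ hQ) u v = polar Q (φ u) (φ v) := by
  show Q (φ (u + v)) - Q (φ u) - Q (φ v) = Q (φ u + φ v) - Q (φ u) - Q (φ v)
  rw [map_add]

theorem E_le [Finite F] {Q : (Fin n → F) → F} (hQ : IsNondegenerateQuadraticForm Q) (hn : 5 ≤ n)
    {K : Subgroup (U ≃ₗ[F] U)} (hK : omegaGL Q ≤ mat φ K) : E (qU φ hQ) ≤ K := by
  show Subgroup.closure (siegelSet (qU φ hQ)) ≤ K
  rw [Subgroup.closure_le]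
  rintro _ ⟨u, w, hu, hw, rfl⟩
  obtain ⟨g, hg, h⟩ := Cfsg.Agent.H925.exists_siegel hQ (by rwa [Fintype.card_fin]) (u := φ u) (w := φ w)
    (by rw [← hu]; rfl) (by rw [← hw, polar_qU])
  have h1 : siegel (qU φ hQ) u w hu hw = (gl φ).symm g := by
    refine LinearEquiv.ext fun v => ?_
    rw [gl_symm_apply, h, siegel_apply, polar_qU, polar_qU, qU_apply]
    simp only [map_add, map_sub, map_smul, LinearEquiv.symm_apply_apply]
  rw [SetLike.mem_coe, h1]
  exact (mem_mat φ).1 (hK hg)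

/-- A group normalising an absolutely irreducible group of isometries of `Q` consists of similarities of `Q`. -/
theorem quad_sim [Finite F] (hn : 2 ≤ n) {P H : Subgroup (GL (Fin n) F)} (hPn : ∀ h ∈ H, ∀ x ∈ P, h * x * h⁻¹ ∈ P)
    (hirr : ActsAbsolutelyIrreducibly (matrixSet P)) {Q : (Fin n → F) → F} (hQ : IsNondegenerateQuadraticForm Q)
    (hPQ : ∀ x ∈ P, ∀ v, Q ((x : Matrix (Fin n) (Fin n) F) *ᵥ v) = Q v) :
    ∀ h ∈ H, ∃ c : F, ∀ v, Q ((h : Matrix (Fin n) (Fin n) F) *ᵥ v) = c * Q v := by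
  intro h hh
  have hfP : FixesForm (matrixSet P) (polar Q) := by
    rintro _ ⟨x, hx, rfl⟩ u v
    show Q (_ + _) - Q _ - Q _ = Q (u + v) - Q u - Q v
    rw [← Matrix.mulVec_add, hPQ x hx, hPQ x hx, hPQ x hx]
  obtain ⟨c, hc⟩ := le_similarityGroup_of_fixes hPn hirr (IsSesq.of_bilinear hQ.polar_bilinear)
    hQ.nondegenerate hfP hh
  refine ⟨c, ?_⟩
  set D : (Fin n → F) → F := fun v => Q ((h : Matrix (Fin n) (Fin n) F) *ᵥ v) - c * Q v with hD
  have hadd : ∀ u v, D (u + v) = D u + D v := by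
    intro u v
    have h1 : Q ((h : Matrix (Fin n) (Fin n) F) *ᵥ u + (h : Matrix (Fin n) (Fin n) F) *ᵥ v) -
        Q ((h : Matrix (Fin n) (Fin n) F) *ᵥ u) - Q ((h : Matrix (Fin n) (Fin n) F) *ᵥ v) =
        (c : F) * (Q (u + v) - Q u - Q v) := hc u v
    simp only [hD]
    rw [Matrix.mulVec_add]
    linear_combination h1
  have hsmul : ∀ (a : F) v, D (a • v) = a ^ 2 * D v := by
    intro a v
    simp only [hD]
    rw [Matrix.mulVec_smul, hQ.smul, hQ.smul]
    ring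
  have hinv : ∀ x ∈ P, ∀ v, D ((x : Matrix (Fin n) (Fin n) F) *ᵥ v) = D v := by
    intro x hx v
    have h1 : (h : Matrix (Fin n) (Fin n) F) *ᵥ ((x : Matrix (Fin n) (Fin n) F) *ᵥ v) =
        ((h * x * h⁻¹ : GL (Fin n) F) : Matrix (Fin n) (Fin n) F) *ᵥ ((h : Matrix (Fin n) (Fin n) F) *ᵥ v) := by
      rw [Matrix.mulVec_mulVec, Matrix.mulVec_mulVec, ← Units.val_mul, ← Units.val_mul, inv_mul_cancel_right]
    simp only [hD]
    rw [h1, hPQ _ (hPn h hh x hx), hPQ x hx]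
  let W : Submodule F (Fin n → F) :=
    { carrier := {v | D v = 0}
      zero_mem' := by
        show D 0 = 0
        have := hsmul 0 0
        rwa [zero_smul, zero_pow (by norm_num), zero_mul] at this
      add_mem' := by
        intro u v hu hv
        show D (u + v) = 0
        rw [hadd, show D u = 0 from hu, show D v = 0 from hv, add_zero]
      smul_mem' := by
        intro a v hv
        show D (a • v) = 0
        rw [hsmul, show D v = 0 from hv, mul_zero] }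
  rcases hirr.1 W (by
    rintro _ ⟨x, hx, rfl⟩ _ ⟨v, hv, rfl⟩
    show D (Matrix.toLin' (x : Matrix (Fin n) (Fin n) F) v) = 0
    rw [Matrix.toLin'_apply, hinv x hx]
    exact hv) with h1 | h1
  · exfalso
    have hinj : Function.Injective D := by
      intro u v huv
      have h2 : u - v ∈ W := by
        show D (u - v) = 0
        have h3 := hadd (u - v) v
        rw [sub_add_cancel] at h3
        linear_combination h3.symm + huv
      rw [h1, Submodule.mem_bot, sub_eq_zero] at h2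
      exact h2
    have h2 := Nat.card_le_card_of_injective D hinj
    rw [Nat.card_pi, Finset.prod_const, Finset.card_univ, Fintype.card_fin] at h2
    have h3 : 1 < Nat.card F := Finite.one_lt_card
    have h4 : Nat.card F ^ 2 ≤ Nat.card F ^ n := Nat.pow_le_pow_right (by omega) hn
    nlinarith
  · intro v
    have h2 : v ∈ W := by rw [h1]; exact Submodule.mem_top
    exact sub_eq_zero.1 h2

end

open Classical in
/-- **UN3**: the statement `UN` from the matrix statement `un2`. -/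
theorem un3 (h2 : UN2) : UN := by
  intro F U _ _ _ _ _ K k g C hn hk hirr hg hPp hC hCk hCg
  set n := finrank F U with hn'
  let φ : U ≃ₗ[F] (Fin n → F) := (Module.finBasis F U).equivFun
  have hord : orderOf (gl φ g) = orderOf g := MulEquiv.orderOf_eq (gl φ) g
  have hPp' : Pp F k (orderOf (gl φ g)) := by rwa [hord]
  rcases h2 F n k hn hk (gl φ g) hPp'.1 hPp'.2.1 (pp_cop hPp') (mat φ K) ((gl_mem_mat φ).2 hg)
    (irr_mat φ hirr) with ⟨F₀, r, P, hr, hc, hle⟩ | ⟨r, A, hr, hrd, hA, hle⟩ | ⟨P, hPK, hPn, hPirr, hE⟩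
  · exact (subfield_false hk (by omega) hPp' F₀ hr P hc (hle ((gl_mem_mat φ).2 hg))).elim
  · obtain ⟨T, h3, h4, h5⟩ := field_case φ hA (by omega) hle
    exact Or.inl ⟨r, T, hr, hrd, h3, h4, h5⟩
  right
  rcases hE with hE | ⟨f, hf, hfP, hE⟩ | ⟨τ, f, hf, hfP, hE⟩ | ⟨Q, hQ, hPQ, hE⟩
  · left
    intro x hx
    rw [← gl_mem_mat φ]
    apply hPK
    apply hE
    exact (det_gl_eq_one φ).2 hx
  · right; left
    have hs := IsSesq.of_bilinear hf.bilinear
    have hr : ∀ x y, f x y = 0 → f y x = 0 := fun x y h => by rw [hf.skew, h, neg_zero]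
    refine ⟨frm φ hs hr, ⟨nd_frm φ hs hr hf.nondegenerate, fun _ => rfl, fun _ => rfl,
      fun x => hf.alternating _⟩, ?_, ?_⟩
    · intro x hx
      rw [← gl_mem_mat φ]
      exact hPK (hE _ (fixes_of_iso φ hs hr hx))
    · apply sim_frm
      apply le_similarityGroup_of_fixes hPn hPirr hs hf.nondegenerate
      rintro _ ⟨x, hx, rfl⟩
      exact hfP x hx _ rfl
  · right; right; left
    have hs := IsSesq.of_unitary hf
    have hr : ∀ x y, f x y = 0 → f y x = 0 := fun x y h => by rw [hf.herm, h, map_zero]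
    obtain ⟨r, hrc, hrτ⟩ := card_sq hf
    refine ⟨r, frm φ hs hr, ⟨nd_frm φ hs hr hf.nondegenerate, hrc, hrτ, fun _ => rfl,
      fun x y => ?_⟩, ?_, ?_⟩
    · show f (φ y) (φ x) = f (φ x) (φ y) ^ r
      rw [hf.herm, hrτ]
    · rintro x ⟨hx, hx1⟩
      rw [← gl_mem_mat φ]
      exact hPK (hE _ (fixes_of_iso φ hs hr hx) ((det_gl_eq_one φ).2 hx1))
    · apply sim_frm
      apply le_similarityGroup_of_fixes hPn hPirr hs hf.nondegenerate
      rintro _ ⟨x, hx, rfl⟩
      exact hfP x hx _ rfl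
  · right; right; right
    refine ⟨qU φ hQ, ?_, E_le φ hQ (by omega) (hE.trans hPK), ?_⟩
    · intro v _ hv
      by_contra h0
      obtain ⟨-, y, hy⟩ := hQ.nondegenerate (φ v) (by simpa using h0)
      apply hy
      have h3 := hv (φ.symm y)
      rwa [polar_qU, LinearEquiv.apply_symm_apply] at h3
    · intro h hh
      obtain ⟨c, hc⟩ := quad_sim (by omega) hPn hPirr hQ hPQ (gl φ h) ((gl_mem_mat φ).2 hh)
      refine ⟨c, fun v => ?_⟩
      rw [qU_apply, qU_apply, ← gl_mulVec, hc]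

end Cfsg.Agent.H917.Ux
end

-- part: H124/UX/UF1Fin_mg
section
prune_inst 0x34700100658000000000001020200020780004000000040024230502010900228982a0000a8004075a000001000500000200002000000000002000000004000000001404a1080008400090000100000000000000300000000000000000000000200000000
set_option linter.all false
open scoped Cfsg.Agent.FastGrp

-- part: H124/UX/Gen
section
/-!
# UX (S5716), UF1: growth in orthogonal groups with an arbitrary quadratic form (helper124)

The lemmas `four`, `five`, `side`, `block` of `H984/Bs/OmegaGen` (helper984) for an arbitrary quadratic form `Q`; only the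
subspace `W` is nondegenerate.
-/

set_option autoImplicit false

namespace Cfsg.Agent.H124.UX

open QuadraticMap Cfsg.Agent.LieClassical.OrthCore Cfsg.Agent.LieClassical.OrthTrans
  Cfsg.Agent.LieClassical.OrthFinite Cfsg.Agent.H883.Root Cfsg.Agent.H883.Sub Cfsg.Agent.H847.Bs
open Cfsg.Agent.H984.Bs (Lr HasW PP mem_PP mem_PP_of_one comp_PP resG has_resG has_of_resG hasW_sup isotropic_of iso_of_max
  RR mem_RR RR_conj sing_avoid finrank_span_pair_le finrank_span_single_le exists_compl)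

section sing

variable {F V : Type*} [Field F] [AddCommGroup V] [Module F V] [FiniteDimensional F V] {Q : QuadraticForm F V}

theorem finrank_inf_perpG (W T : Submodule F V) :
    Module.finrank F W ≤ Module.finrank F (W ⊓ perp Q T : Submodule F V) + Module.finrank F T := by
  let f : W →ₗ[F] Module.Dual F T := T.subtype.dualMap ∘ₗ (polarBilin Q).flip ∘ₗ W.subtype
  have hf : ∀ (w : W) (t : T), f w t = polar Q (t : V) (w : V) := fun w t => rfl
  have h1 := LinearMap.finrank_range_add_finrank_ker f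
  have h2 : Module.finrank F (LinearMap.range f) ≤ Module.finrank F T := by
    rw [← Subspace.dual_finrank_eq (K := F) (V := T)]
    exact Submodule.finrank_le _
  have h3 : Module.finrank F (LinearMap.ker f) ≤ Module.finrank F (W ⊓ perp Q T : Submodule F V) := by
    rw [← Submodule.finrank_map_subtype_eq W (LinearMap.ker f)]
    refine Submodule.finrank_mono ?_
    rintro _ ⟨w, hw, rfl⟩
    refine ⟨w.2, mem_perp.2 fun t ht => ?_⟩
    have := congrArg (fun g => g ⟨t, ht⟩) (LinearMap.mem_ker.1 hw)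
    exact this
  omega

/-- singular vectors orthogonal to `T` and outside `T'` -/
theorem ex_singG [Finite F] (W T T' : Submodule F V)
    (h : Module.finrank F T + Module.finrank F T' + 3 ≤ Module.finrank F W) :
    ∃ w ∈ W, (∀ t ∈ T, polar Q t w = 0) ∧ w ∉ T' ∧ Q w = 0 := by
  have h1 := finrank_inf_perpG (Q := Q) W T
  obtain ⟨w, hw, hw', hQw⟩ := sing_avoid (Q := Q) (W ⊓ perp Q T) T' (by omega)
  exact ⟨w, hw.1, fun t ht => mem_perp.1 hw.2 t ht, hw', hQw⟩

/-- separation inside a nondegenerate subspace -/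
theorem sepG {W T : Submodule F V} (hW : NondegOn Q W) (hTW : T ≤ W) {x : V} (hx : x ∈ W) (hxT : x ∉ T) :
    ∃ n ∈ W, (∀ t ∈ T, polar Q t n = 0) ∧ polar Q x n ≠ 0 := by
  have hQ' : Nondeg (res Q W) := hW.res
  obtain ⟨n, -, hn, hxn⟩ := Cfsg.Agent.H984.Bs.sep hQ' (W := ⊤) (T := T.comap W.subtype) (fun y _ hy => hQ' y fun z =>
    hy z Submodule.mem_top) le_top (x := ⟨x, hx⟩) Submodule.mem_top hxT
  exact ⟨n, n.2, fun t ht => hn ⟨t, hTW ht⟩ ht, hxn⟩

/-- a singular vector orthogonal to `a` and not to `c` -/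
theorem ex_moveG [Finite F] {W : Submodule F V} (hW : NondegOn Q W) (hd : 8 ≤ Module.finrank F W)
    {a c : V} (ha : a ∈ W) (hc : c ∈ W) (hac : c ∉ Submodule.span F {a}) :
    ∃ x ∈ W, Q x = 0 ∧ polar Q a x = 0 ∧ polar Q c x ≠ 0 := by
  have hT : Submodule.span F {a, c} ≤ W := by
    rw [Submodule.span_le]
    rintro z (rfl | hz)
    · exact ha
    · rw [Set.mem_singleton_iff] at hz
      rw [hz]; exact hc
  have haT : a ∈ Submodule.span F {a, c} := Submodule.subset_span (by simp)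
  have hcT : c ∈ Submodule.span F {a, c} := Submodule.subset_span (by simp)
  have hf := finrank_span_pair_le (F := F) a c
  obtain ⟨x0, hx0W, hx0, hx0T, hQx0⟩ := ex_singG W (Submodule.span F {a, c}) (Submodule.span F {a, c}) (by omega)
  obtain ⟨n, hnW, hn, hnx⟩ := sepG hW hT hx0W hx0T
  obtain ⟨z, hzW, hz, hzc⟩ := sepG hW (T := Submodule.span F {a})
    (by rw [Submodule.span_le, Set.singleton_subset_iff]; exact ha) hc hac
  obtain ⟨z', hz'W, hz'a, hz'c, hz'x⟩ : ∃ z' ∈ W, polar Q a z' = 0 ∧ polar Q c z' ≠ 0 ∧ polar Q x0 z' ≠ 0 := by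
    by_cases h : polar Q x0 z = 0
    · refine ⟨z + n, W.add_mem hzW hnW, ?_, ?_, ?_⟩
      · rw [polar_add_right, hz a (Submodule.mem_span_singleton_self a), hn a haT, add_zero]
      · rw [polar_add_right, hn c hcT, add_zero]; exact hzc
      · rw [polar_add_right, h, zero_add]; exact hnx
    · exact ⟨z, hzW, hz a (Submodule.mem_span_singleton_self a), hzc, h⟩
  have e1 : polar Q z' x0 ≠ 0 := by rwa [polar_comm]
  refine ⟨z' + (-(Q z' * (polar Q z' x0)⁻¹)) • x0, W.add_mem hz'W (W.smul_mem _ hx0W), ?_, ?_, ?_⟩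
  · rw [Q_add, QuadraticMap.map_smul, hQx0, polar_smul_right, smul_eq_mul, smul_eq_mul]
    field_simp
    ring
  · rw [polar_add_right, hz'a, polar_smul_right, hx0 a haT, smul_zero, add_zero]
  · rw [polar_add_right, polar_smul_right, hx0 c hcT, smul_zero, add_zero]
    exact hz'c

/-- a totally singular line orthogonal to `a` and not to `c` -/
theorem ex_lineG [Finite F] {W : Submodule F V} (hW : NondegOn Q W) (hd : 8 ≤ Module.finrank F W)
    {a c : V} (ha : a ∈ W) (hc : c ∈ W) (hac : c ∉ Submodule.span F {a}) :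
    ∃ x ∈ W, ∃ y ∈ W, Q x = 0 ∧ Q y = 0 ∧ polar Q x y = 0 ∧ y ∉ Submodule.span F {x} ∧ polar Q a x = 0 ∧
      polar Q a y = 0 ∧ polar Q c x ≠ 0 := by
  obtain ⟨x, hxW, hQx, hax, hcx⟩ := ex_moveG hW hd ha hc hac
  have h1 := finrank_span_pair_le (F := F) a x
  have h2 := finrank_span_single_le (F := F) x
  obtain ⟨y, hyW, hy, hyx, hQy⟩ := ex_singG W (Submodule.span F {a, x}) (Submodule.span F {x}) (by omega)
  exact ⟨x, hxW, y, hyW, hQx, hQy, hy x (Submodule.subset_span (by simp)), hyx, hax,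
    hy a (Submodule.subset_span (by simp)), hcx⟩


end sing

variable {F V : Type*} [Field F] [AddCommGroup V] [Module F V] {Q : QuadraticForm F V} {H : Subgroup (V ≃ₗ[F] V)}

section fin

variable [Finite F] [FiniteDimensional F V] {W : Submodule F V}

/-- (4) -/
theorem four (hH : H ≤ O Q) (hW : NondegOn Q W) (hd8 : 8 ≤ Module.finrank F W) (hasW : HasW Q H W)
    {a b c d : V} (ha : a ∈ W) (hb : b ∈ perp Q W) (hc : c ∈ W) (hd : d ∈ perp Q W) (h : Lr Q H (a + b) (c + d))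
    (hac : c ∉ Submodule.span F {a}) : b ∈ PP Q H W := by
  obtain ⟨x, hx, y, hy, hQx, hQy, hxy, hyx, hax, hay, hcx⟩ := ex_lineG hW hd8 ha hc hac
  have hHas := hasW x hx y hy hQx hxy
  have hgH := hHas.mem hQx hxy
  have hax' : polar Q x a = 0 := by rwa [polar_comm]
  have hay' : polar Q y a = 0 := by rwa [polar_comm]
  have hbx : polar Q x b = 0 := mem_perp.1 hb x hx
  have hby : polar Q y b = 0 := mem_perp.1 hb y hy
  have hdx : polar Q x d = 0 := mem_perp.1 hd x hx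
  have hdy : polar Q y d = 0 := mem_perp.1 hd y hy
  have hcx' : polar Q x c ≠ 0 := by rwa [polar_comm]
  set x' : V := polar Q x c • y - polar Q y c • x with hx'
  have e1 : siegel Q x y hQx hxy (a + b) = a + b := by
    rw [siegel_apply, polar_add_right, polar_add_right, hax', hay', hbx, hby]
    simp
  have e2 : siegel Q x y hQx hxy (c + d) = (c + d) + x' := by
    rw [siegel_apply, polar_add_right, polar_add_right, hdx, hdy, hQy, hx']
    simp only [add_zero, zero_mul, zero_smul, sub_zero]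
    abel
  have hQx' : Q x' = 0 := by
    rw [hx', sub_eq_add_neg, Q_add, QuadraticMap.map_neg, QuadraticMap.map_smul, QuadraticMap.map_smul, hQx, hQy,
      polar_neg_right, polar_smul_left, polar_smul_right, polar_comm Q y x, hxy]
    simp
  have hx'W : x' ∈ W := W.sub_mem (W.smul_mem _ hy) (W.smul_mem _ hx)
  have hx'0 : x' ≠ 0 := by
    intro h0
    apply hyx
    rw [Submodule.mem_span_singleton]
    refine ⟨(polar Q x c)⁻¹ * polar Q y c, ?_⟩
    rw [hx', sub_eq_zero] at h0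
    rw [mul_smul, ← h0, smul_smul, inv_mul_cancel₀ hcx', one_smul]
  have h1 := h.map (hH hgH) hgH
  rw [e1, e2] at h1
  have h2 := h1.sub h (by rw [add_sub_cancel_left]; exact hQx')
  rw [add_sub_cancel_left] at h2
  exact comp_PP hH hW (by omega) hasW hx'W hQx' hx'0 ha hb h2.swap.2.2.2

/-- (5) -/
theorem five (hH : H ≤ O Q) (hW : NondegOn Q W) (hd8 : 8 ≤ Module.finrank F W) (hasW : HasW Q H W)
    (hiso : ∀ p ∈ PP Q H W, ∀ p' ∈ PP Q H W, polar Q p p' = 0) {p s t : V} (hp : p ∈ PP Q H W) (h : Lr Q H s t)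
    (hs : polar Q s p ≠ 0) (ht : polar Q t p = 0) : t ∈ PP Q H W := by
  obtain ⟨a, ha, b, hb, rfl⟩ := hW.exists_decomp s
  obtain ⟨c, hc, d, hd, rfl⟩ := hW.exists_decomp t
  have hap : polar Q a p = 0 := mem_perp.1 hp.1 a ha
  have hcp : polar Q c p = 0 := mem_perp.1 hp.1 c hc
  -- the transformations `siegel x p`
  have key : ∀ x ∈ W, Q x = 0 → polar Q x a = 0 → polar Q x c = 0 →
      Lr Q H ((a - polar Q (a + b) p • x) + b) (c + d) := by
    intro x hx hQx hxa hxc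
    have hHas := hp.2 x hx hQx 1
    rw [one_smul] at hHas
    have hxp := hHas.perp
    have hgH := hHas.mem hQx hxp
    have h1 := h.map (hH hgH) hgH
    have e1 : siegel Q x p hQx hxp (a + b) = (a - polar Q (a + b) p • x) + b := by
      rw [siegel_apply, polar_add_right Q x a b, hxa, mem_perp.1 hb x hx, polar_comm Q p (a + b)]
      simp only [add_zero, zero_smul, mul_zero, sub_zero]
      abel
    have e2 : siegel Q x p hQx hxp (c + d) = c + d := by
      rw [siegel_apply, polar_add_right Q x c d, hxc, mem_perp.1 hd x hx, polar_comm Q p (c + d), ht]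
      simp
    rwa [e1, e2] at h1
  have hc0 : c = 0 := by
    by_contra hc0
    have hf := finrank_span_pair_le (F := F) a c
    obtain ⟨x, hx, hxo, hxn, hQx⟩ := ex_singG W (Submodule.span F {a, c}) (Submodule.span F {a, c}) (by omega)
    have h1 := key x hx hQx (by rw [polar_comm]; exact hxo a (Submodule.subset_span (by simp)))
      (by rw [polar_comm]; exact hxo c (Submodule.subset_span (by simp)))
    have h2 : b ∈ PP Q H W := by
      refine four hH hW hd8 hasW (W.sub_mem ha (W.smul_mem _ hx)) hb hc hd h1 ?_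
      intro hmem
      obtain ⟨k, hk⟩ := Submodule.mem_span_singleton.1 hmem
      by_cases hk0 : k = 0
      · rw [hk0, zero_smul] at hk
        exact hc0 hk.symm
      · apply hxn
        rw [Submodule.mem_span_pair]
        refine ⟨(polar Q (a + b) p)⁻¹, -((polar Q (a + b) p)⁻¹ * k⁻¹), ?_⟩
        have h3 : polar Q (a + b) p • x = a - k⁻¹ • c := by
          rw [← hk, smul_smul, inv_mul_cancel₀ hk0, one_smul]
          abel
        have h4 : x = (polar Q (a + b) p)⁻¹ • (polar Q (a + b) p • x) := by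
          rw [smul_smul, inv_mul_cancel₀ hs, one_smul]
        rw [h4, h3]
        module
    have h3 := hiso b h2 p hp
    rw [polar_add_left, hap, h3, add_zero] at hs
    exact hs rfl
  subst hc0
  -- a vector with nonzero first component
  obtain ⟨a', ha', hn, hLr⟩ : ∃ a' ∈ W, a' ≠ 0 ∧ Lr Q H (a' + b) (0 + d) := by
    by_cases ha0 : a = 0
    · obtain ⟨x, hx, -, hxn, hQx⟩ := ex_singG W ⊥ ⊥ (by rw [finrank_bot]; omega)
      have h1 := key x hx hQx (by rw [ha0, polar_zero_right]) (polar_zero_right Q x)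
      refine ⟨_, W.sub_mem ha (W.smul_mem _ hx), ?_, h1⟩
      rw [ha0, zero_sub, neg_ne_zero]
      rw [ha0] at hs
      exact smul_ne_zero hs (fun h0 => hxn (by rw [h0]; exact Submodule.zero_mem _))
    · exact ⟨a, ha, ha0, h⟩
  rw [zero_add]
  refine four hH hW hd8 hasW W.zero_mem hd ha' hb hLr.swap ?_
  rw [Submodule.span_zero_singleton, Submodule.mem_bot]
  exact hn

/-- (5') -/
theorem five' (hH : H ≤ O Q) (hW : NondegOn Q W) (hd8 : 8 ≤ Module.finrank F W) (hasW : HasW Q H W)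
    (hiso : ∀ p ∈ PP Q H W, ∀ p' ∈ PP Q H W, polar Q p p' = 0) {p s t : V} (hp : p ∈ PP Q H W) (h : Lr Q H s t) :
    polar Q s p • t - polar Q t p • s ∈ PP Q H W := by
  have key : ∀ s t : V, Lr Q H s t → polar Q s p ≠ 0 → polar Q s p • t - polar Q t p • s ∈ PP Q H W := by
    intro s t h hs
    have h1 := five hH hW hd8 hasW hiso hp (h.sub_self (polar Q t p * (polar Q s p)⁻¹)) hs (by
      rw [polar_sub_left, polar_smul_left, smul_eq_mul, mul_assoc, inv_mul_cancel₀ hs, mul_one, sub_self])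
    have h2 := (PP Q H W).smul_mem (polar Q s p) h1
    rw [smul_sub, smul_smul, mul_comm (polar Q t p), ← mul_assoc, mul_inv_cancel₀ hs, one_mul] at h2
    exact h2
  by_cases hs : polar Q s p = 0
  · by_cases ht : polar Q t p = 0
    · rw [hs, ht, zero_smul, zero_smul, sub_zero]
      exact Submodule.zero_mem _
    · have h1 := (PP Q H W).neg_mem (key t s h.swap ht)
      rwa [neg_sub] at h1
  · exact key s t h hs


theorem RR_inv_PP (hH : H ≤ O Q) (hW : NondegOn Q W) (hd8 : 8 ≤ Module.finrank F W) (hasW : HasW Q H W)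
    (hiso : ∀ p ∈ PP Q H W, ∀ p' ∈ PP Q H W, polar Q p p' = 0) : ∀ r ∈ RR Q H, _root_.Cfsg.Agent.H847.Bs.Inv r (PP Q H W) := by
  have key : RR Q H ≤ Cfsg.Agent.H883.Bridge.stab (PP Q H W) := by
    rw [RR, Subgroup.closure_le]
    rintro _ ⟨s, t, hs, ht, hL, rfl⟩
    refine Cfsg.Agent.H883.Bridge.mem_stab_of_le fun p hp => ?_
    have h1 := five' hH hW hd8 hasW hiso hp hL
    rw [siegel_apply, hL.2.1, zero_mul, zero_smul, sub_zero, add_sub_assoc]
    exact Submodule.add_mem _ hp h1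
  intro r hr v hv
  exact (Cfsg.Agent.H883.Bridge.mem_stab.1 (key hr) v).1 hv


/-! ### (7) -/

theorem side (hH : H ≤ O Q) (hW : NondegOn Q W) (hd8 : 8 ≤ Module.finrank F W) (hasW : HasW Q H W)
    (hbot : PP Q H W = ⊥) {s t : V} (h : Lr Q H s t) (hs : s ≠ 0) (hst : t ∉ Submodule.span F {s}) :
    (s ∈ W ∧ t ∈ W) ∨ (s ∈ perp Q W ∧ t ∈ perp Q W) := by
  obtain ⟨a, ha, b, hb, rfl⟩ := hW.exists_decomp s
  obtain ⟨c, hc, d, hd, rfl⟩ := hW.exists_decomp t
  have hb0 : c ∉ Submodule.span F {a} → b = 0 := by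
    intro hn
    have := four hH hW hd8 hasW ha hb hc hd h hn
    rwa [hbot, Submodule.mem_bot] at this
  have hd0 : a ∉ Submodule.span F {c} → d = 0 := by
    intro hn
    have := four hH hW hd8 hasW hc hd ha hb h.swap hn
    rwa [hbot, Submodule.mem_bot] at this
  by_cases h1 : c ∈ Submodule.span F {a}
  · by_cases h2 : a ∈ Submodule.span F {c}
    · by_cases ha0 : a = 0
      · right
        have hc0 : c = 0 := by
          rw [ha0, Submodule.span_zero_singleton, Submodule.mem_bot] at h1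
          exact h1
        rw [ha0, hc0, zero_add, zero_add]
        exact ⟨hb, hd⟩
      · exfalso
        obtain ⟨k, hk⟩ := Submodule.mem_span_singleton.1 h1
        have h3 := h.sub_self k
        have e : c + d - k • (a + b) = 0 + (d - k • b) := by
          rw [← hk]; module
        rw [e] at h3
        have h4 := four hH hW hd8 hasW W.zero_mem (Submodule.sub_mem _ hd (Submodule.smul_mem _ k hb)) ha hb h3.swap
          (by rw [Submodule.span_zero_singleton, Submodule.mem_bot]; exact ha0)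
        rw [hbot, Submodule.mem_bot] at h4
        rw [h4, add_zero, sub_eq_zero] at e
        apply hst
        rw [e]
        exact Submodule.smul_mem _ _ (Submodule.mem_span_singleton_self _)
    · -- `a ∉ ⟨c⟩`, `c ∈ ⟨a⟩`: then `c = 0`, `d = 0`, `t = 0`
      exfalso
      have h3 := hd0 h2
      obtain ⟨k, hk⟩ := Submodule.mem_span_singleton.1 h1
      by_cases hk0 : k = 0
      · rw [hk0, zero_smul] at hk
        apply hst
        rw [← hk, h3, add_zero]
        exact Submodule.zero_mem _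
      · apply h2
        rw [Submodule.mem_span_singleton]
        exact ⟨k⁻¹, by rw [← hk, smul_smul, inv_mul_cancel₀ hk0, one_smul]⟩
  · have hb1 := hb0 h1
    by_cases h2 : a ∈ Submodule.span F {c}
    · exfalso
      obtain ⟨k, hk⟩ := Submodule.mem_span_singleton.1 h2
      by_cases hk0 : k = 0
      · rw [hk0, zero_smul] at hk
        apply hs
        rw [← hk, hb1, add_zero]
      · apply h1
        rw [Submodule.mem_span_singleton]
        exact ⟨k⁻¹, by rw [← hk, smul_smul, inv_mul_cancel₀ hk0, one_smul]⟩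
    · left
      rw [hb1, hd0 h2, add_zero, add_zero]
      exact ⟨ha, hc⟩

/-! ### (8) -/

theorem block (hH : H ≤ O Q) (hW : NondegOn Q W) (hd8 : 8 ≤ Module.finrank F W) (hasW : HasW Q H W)
    (hbot : PP Q H W = ⊥) {h : V ≃ₗ[F] V} (hh : h ∈ H) :
    (∀ x ∈ W, h x ∈ W) ∨ (∀ x ∈ W, h x ∈ perp Q W) := by
  have hside : ∀ x ∈ W, ∀ y ∈ W, Q x = 0 → Q y = 0 → polar Q x y = 0 → x ≠ 0 → y ∉ Submodule.span F {x} →
      (h x ∈ W ∧ h y ∈ W) ∨ (h x ∈ perp Q W ∧ h y ∈ perp Q W) := by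
    intro x hx y hy hQx hQy hxy hx0 hxy'
    refine side hH hW hd8 hasW hbot ((hasW.lr hx hy hQx hQy hxy).map (hH hh) hh) ?_ ?_
    · intro h0
      exact hx0 (h.injective (by rw [h0, map_zero]))
    · intro hm
      obtain ⟨k, hk⟩ := Submodule.mem_span_singleton.1 hm
      apply hxy'
      rw [Submodule.mem_span_singleton]
      exact ⟨k, h.injective (by rw [map_smul, hk])⟩
  have hnot : ∀ v : V, v ∈ W → v ∈ perp Q W → v = 0 := fun v hv hv' =>
    hW v hv fun z hz => mem_perp'.1 hv' z hz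
  have hG : Good (res Q W) := good_res hW (by omega)
  obtain ⟨x, x', hxx⟩ := hG.exists_hyp
  have hQx : Q (x : V) = 0 := hxx.left
  have hx0 : (x : V) ≠ 0 := fun h0 => hxx.left_ne (Subtype.ext h0)
  have hall : ∀ y ∈ W, Q y = 0 → (h x ∈ W → h y ∈ W) ∧ (h x ∈ perp Q W → h y ∈ perp Q W) ∧
      (h x ∈ W ∨ h x ∈ perp Q W) := by
    intro y hy hQy
    have hf := finrank_span_pair_le (F := F) (x : V) y
    obtain ⟨z, hz, hzo, hzn, hQz⟩ := ex_singG W (Submodule.span F {(x : V), y}) (Submodule.span F {(x : V), y})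
      (by omega)
    have hxz := hzo x (Submodule.subset_span (by simp))
    have hyz := hzo y (Submodule.subset_span (by simp))
    have hz0 : z ≠ 0 := fun h0 => hzn (by rw [h0]; exact Submodule.zero_mem _)
    have h1 := hside x x.2 z hz hQx hQz hxz hx0 (fun hm => hzn (Submodule.span_mono (by simp) hm))
    have hhz0 : h z ≠ 0 := fun h0 => hz0 (h.injective (by rw [h0, map_zero]))
    have hhx0 : h x ≠ 0 := fun h0 => hx0 (h.injective (by rw [h0, map_zero]))
    by_cases hy0 : y = 0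
    · rw [hy0, map_zero]
      exact ⟨fun _ => W.zero_mem, fun _ => Submodule.zero_mem _, h1.imp And.left And.left⟩
    have h2 := hside y hy z hz hQy hQz hyz hy0 (fun hm => hzn (Submodule.span_mono (by simp) hm))
    refine ⟨fun hxW => ?_, fun hxW => ?_, h1.imp And.left And.left⟩
    · rcases h1 with h1 | h1
      · rcases h2 with h2 | h2
        · exact h2.1
        · exact absurd (hnot _ h1.2 h2.2) hhz0
      · exact absurd (hnot _ hxW h1.1) hhx0
    · rcases h1 with h1 | h1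
      · exact absurd (hnot _ h1.1 hxW) hhx0
      · rcases h2 with h2 | h2
        · exact absurd (hnot _ h2.2 h1.2) hhz0
        · exact h2.1
  rcases (hall 0 W.zero_mem (QuadraticMap.map_zero Q)).2.2 with hx | hx
  · left
    intro v hv
    exact sing_induction hxx (P := fun v : W => h (v : V) ∈ W)
      (fun a c ha hc => by
        show h ((a : V) + (c : V)) ∈ W
        rw [map_add]; exact W.add_mem ha hc)
      (fun a ha => (hall a a.2 ha).1 hx) ⟨v, hv⟩
  · right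
    intro v hv
    exact sing_induction hxx (P := fun v : W => h (v : V) ∈ perp Q W)
      (fun a c ha hc => by
        show h ((a : V) + (c : V)) ∈ perp Q W
        rw [map_add]; exact Submodule.add_mem _ ha hc)
      (fun a ha => (hall a a.2 ha).2.1 hx) ⟨v, hv⟩

end fin

end Cfsg.Agent.H124.UX
end

-- part: H124/UX/LftDefs
section
/-!
# UX (S5716), UF1: the lift of a symplectic space of characteristic two to an orthogonal space (interface)

`Lft Φ H Qt π Ht` : `π : Vt → V` is surjective, the polar form of `Qt` is the pull back of `B`, the kernel is spanned by a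
vector `r` with `Qt r = 1`, and `Ht ≤ O(Qt)` is the full preimage of `H ≤ Sp(V)`.

`ExLft` (helper994): lifts exist.
-/

set_option autoImplicit false

namespace Cfsg.Agent.H124.UX

open QuadraticMap Cfsg.Agent.LieClassical.OrthCore Cfsg.Agent.H847.Bs

structure Lft {F V Vt : Type*} [Field F] [AddCommGroup V] [Module F V] [AddCommGroup Vt] [Module F Vt] (Φ : Frm F V)
    (H : Subgroup (V ≃ₗ[F] V)) (Qt : QuadraticForm F Vt) (π : Vt →ₗ[F] V) (Ht : Subgroup (Vt ≃ₗ[F] Vt)) (r : Vt) :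
    Prop where
  surj : Function.Surjective π
  pol : ∀ x y, polar Qt x y = Φ.B (π x) (π y)
  kr : π r = 0
  Qr : Qt r = 1
  ker : ∀ x, π x = 0 → ∃ c : F, x = c • r
  mem : ∀ g, g ∈ Ht ↔ g ∈ O Qt ∧ ∃ h ∈ H, ∀ x, π (g x) = h (π x)
  ex : ∀ h ∈ H, ∃ g ∈ Ht, ∀ x, π (g x) = h (π x)

/-- lifts exist -/
def ExLft : Prop := ∀ (F V : Type) [Field F] [Finite F] [AddCommGroup V] [Module F V] [Module.Finite F V]
  (Φ : Frm F V) (H : Subgroup (V ≃ₗ[F] V)), IsSp Φ → (2 : F) = 0 → H ≤ Φ.Iso →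
  ∃ (Vt : Type) (_ : AddCommGroup Vt) (_ : Module F Vt) (_ : Module.Finite F Vt) (Qt : QuadraticForm F Vt)
    (π : Vt →ₗ[F] V) (Ht : Subgroup (Vt ≃ₗ[F] Vt)) (r : Vt), Lft Φ H Qt π Ht r

end Cfsg.Agent.H124.UX
end

-- part: H124/UX/UF1
section
/-!
# UX (S5716), UF1: growth, symplectic groups in characteristic two (helper124)

`uf1_of (h : ExLft) : UF1`.
-/

set_option autoImplicit false

namespace Cfsg.Agent.H124.UX

open QuadraticMap Cfsg.Agent.LieClassical.OrthCore Cfsg.Agent.LieClassical.OrthTrans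
  Cfsg.Agent.LieClassical.OrthFinite Cfsg.Agent.H883.Root Cfsg.Agent.H883.Sub Cfsg.Agent.H847.Bs
open Cfsg.Agent.H984.Bs (Lr HasW PP mem_PP mem_PP_of_one comp_PP iso_of_max RR mem_RR RR_conj finrank_span_pair_le
  finrank_span_single_le exists_compl)
open Cfsg.Agent.H24.Bs (Cen Ctr blk_of_max B_zero_left B_zero_right B_swap B_smul_right bil bil_alt bil_apply)

section ctr

variable {F V : Type*} [Field F] [AddCommGroup V] [Module F V] {Φ : Frm F V} {H : Subgroup (V ≃ₗ[F] V)}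

/-- BS31 for a nondegenerate space of centres -/
theorem gen_ctr [FiniteDimensional F V] (hΦ : IsSp Φ) (hH : H ≤ Φ.Iso) (hirr : IrrG H) {W : Submodule F V}
    (hWc : Ctr Φ H W) (hq : 4 ≤ Module.finrank F W) : Φ.Iso ≤ H ∨ ∃ D : Submodule F V, Blk Φ H D ∧ W ≤ D := by
  have hwf : WellFounded (fun a b : Submodule F V => a > b) := wellFounded_gt
  obtain ⟨D, ⟨hWD, hD⟩, hmax⟩ := hwf.has_min {D : Submodule F V | W ≤ D ∧ Ctr Φ H D} ⟨W, le_rfl, hWc⟩
  have hmax' : ∀ D' : Submodule F V, D < D' → ¬ Ctr Φ H D' := fun D' h1 h2 =>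
    hmax D' ⟨hWD.trans h1.le, h2⟩ h1
  have hfin := Submodule.finrank_mono hWD
  have hD0 : D ≠ ⊥ := by
    intro h
    rw [h, finrank_bot] at hfin
    omega
  by_cases hT : D = ⊤
  · left
    intro g hg
    refine Cfsg.Agent.H743.McL.mem_of_isometry (bil hΦ) (bil_alt hΦ) (fun x h => hΦ.nd x h) H (fun a c => ?_) g hg.1
    exact hD.cen a (by rw [hT]; trivial) c
  · right
    exact ⟨D, blk_of_max hΦ hH hirr hD (Or.inr (hq.trans hfin)) hD0 hmax' hT, hWD⟩

end ctr

section lft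

variable {F V Vt : Type*} [Field F] [AddCommGroup V] [Module F V] [AddCommGroup Vt] [Module F Vt] {Φ : Frm F V}
  {H : Subgroup (V ≃ₗ[F] V)} {Qt : QuadraticForm F Vt} {π : Vt →ₗ[F] V} {Ht : Subgroup (Vt ≃ₗ[F] Vt)} {r : Vt}

theorem B_comm (hΦ : IsSp Φ) (h2 : (2 : F) = 0) (x y : V) : Φ.B x y = Φ.B y x := by
  have h := B_swap hΦ x y
  linear_combination h - (Φ.B y x) * h2

theorem sq_surj [Finite F] (h2 : (2 : F) = 0) (c : F) : ∃ d : F, d ^ 2 = c := by
  have : CharP F 2 := CharTwo.of_one_ne_zero_of_two_eq_zero one_ne_zero h2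
  obtain ⟨d, hd⟩ := FiniteField.isSquare_of_char_two (ringChar.eq F 2) c
  exact ⟨d, by rw [hd, pow_two]⟩

theorem Lft.polr (L : Lft Φ H Qt π Ht r) (hΦ : IsSp Φ) (x : Vt) : polar Qt x r = 0 := by
  rw [L.pol, L.kr, B_zero_right hΦ]

theorem Lft.Q_add_r (L : Lft Φ H Qt π Ht r) (hΦ : IsSp Φ) (x : Vt) (c : F) : Qt (x + c • r) = Qt x + c ^ 2 := by
  rw [Q_add, QuadraticMap.map_smul, L.Qr, polar_smul_right, L.polr hΦ, smul_zero, add_zero, smul_eq_mul, mul_one,
    pow_two]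

theorem Lft.exists_lift [Finite F] (L : Lft Φ H Qt π Ht r) (hΦ : IsSp Φ) (h2 : (2 : F) = 0) (v : V) (a : F) :
    ∃ x, π x = v ∧ Qt x = a := by
  obtain ⟨x, rfl⟩ := L.surj v
  obtain ⟨c, hc⟩ := sq_surj h2 (a - Qt x)
  refine ⟨x + c • r, ?_, ?_⟩
  · rw [map_add, map_smul, L.kr, smul_zero, add_zero]
  · rw [L.Q_add_r hΦ, hc]
    ring

theorem Lft.inj (L : Lft Φ H Qt π Ht r) (hΦ : IsSp Φ) {x y : Vt} (h : π x = π y) (hQ : Qt x = Qt y) : x = y := by
  obtain ⟨c, hc⟩ := L.ker (x - y) (by rw [map_sub, h, sub_self])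
  have h1 : x = y + c • r := by rw [← hc]; abel
  rw [h1, L.Q_add_r hΦ] at hQ
  have h3 : c ^ 2 = 0 := by linear_combination hQ
  rw [h1, pow_eq_zero_iff two_ne_zero |>.1 h3, zero_smul, add_zero]

theorem Lft.pi_siegel (L : Lft Φ H Qt π Ht r) {u w : Vt} (hu : Qt u = 0) (hw : polar Qt u w = 0) (x : Vt) :
    π (siegel Qt u w hu hw x) = π x + Φ.B (π u) (π x) • π w - Φ.B (π w) (π x) • π u -
      (Qt w * Φ.B (π u) (π x)) • π u := by
  rw [siegel_apply, map_sub, map_sub, map_add, map_smul, map_smul, map_smul, L.pol, L.pol]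

theorem Lft.has_of (L : Lft Φ H Qt π Ht r) {u w : Vt} (hu : Qt u = 0) (hw : polar Qt u w = 0)
    (h : ∃ g ∈ H, ∀ v, g v = v + Φ.B (π u) v • π w - Φ.B (π w) v • π u - (Qt w * Φ.B (π u) v) • π u) :
    Has Qt Ht u w := by
  obtain ⟨g, hg, h1⟩ := h
  refine ⟨hu, hw, (L.mem _).2 ⟨siegel_mem_O hu hw, g, hg, fun x => ?_⟩⟩
  rw [L.pi_siegel hu hw, h1]

theorem Lft.exists_of (L : Lft Φ H Qt π Ht r) {u w : Vt} (h : Has Qt Ht u w) :
    ∃ g ∈ H, ∀ v, g v = v + Φ.B (π u) v • π w - Φ.B (π w) v • π u - (Qt w * Φ.B (π u) v) • π u := by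
  obtain ⟨hu, hw, hm⟩ := h
  obtain ⟨-, g, hg, h1⟩ := (L.mem _).1 hm
  refine ⟨g, hg, fun v => ?_⟩
  obtain ⟨x, rfl⟩ := L.surj v
  rw [← h1, L.pi_siegel hu hw]

theorem Lft.le_O (L : Lft Φ H Qt π Ht r) : Ht ≤ O Qt := fun g hg => ((L.mem g).1 hg).1

/-- the lift of `(W, q)` -/
def Wt (Qt : QuadraticForm F Vt) (π : Vt →ₗ[F] V) (q : V → F) (W : Submodule F V)
    (h0 : ∀ u ∈ W, ∀ w ∈ W, ∀ x y, π x = u → π y = w → Qt x = q u → Qt y = q w → Qt (x + y) = q (u + w))
    (h1 : ∀ (a : F), ∀ w ∈ W, q (a • w) = a ^ 2 * q w) : Submodule F Vt where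
  carrier := {x | π x ∈ W ∧ Qt x = q (π x)}
  add_mem' := by
    rintro x y ⟨hx, hx'⟩ ⟨hy, hy'⟩
    refine ⟨?_, ?_⟩
    · rw [map_add π x y]; exact W.add_mem hx hy
    · rw [map_add π x y]; exact h0 _ hx _ hy x y rfl rfl hx' hy'
  zero_mem' := by
    refine ⟨?_, ?_⟩
    · rw [map_zero π]; exact W.zero_mem
    · have := h1 0 0 W.zero_mem
      rw [zero_smul] at this
      rw [map_zero π, QuadraticMap.map_zero, this]
      ring
  smul_mem' := by
    rintro a x ⟨hx, hx'⟩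
    refine ⟨?_, ?_⟩
    · rw [map_smul π a x]; exact W.smul_mem _ hx
    · rw [map_smul π a x, QuadraticMap.map_smul, h1 a _ hx, hx', smul_eq_mul, pow_two]

/-- a nondegenerate subspace of `Vt` is mapped injectively -/
theorem Lft.inj_on (L : Lft Φ H Qt π Ht r) {Y : Submodule F Vt} (hY : NondegOn Qt Y) {x : Vt} (hx : x ∈ Y)
    (h : π x = 0) : x = 0 :=
  hY x hx fun z _ => by rw [L.pol, h, B_zero_left]

theorem Lft.finrank_map (L : Lft Φ H Qt π Ht r) {Y : Submodule F Vt} (hY : NondegOn Qt Y) :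
    Module.finrank F (Y.map π) = Module.finrank F Y := by
  have hinj : Function.Injective (π.domRestrict Y) := by
    rw [← LinearMap.ker_eq_bot, eq_bot_iff]
    rintro ⟨x, hx⟩ h
    rw [Submodule.mem_bot]
    exact Subtype.ext (L.inj_on hY hx (LinearMap.mem_ker.1 h))
  have h1 : Y.map π = LinearMap.range (π.domRestrict Y) := by
    rw [LinearMap.range_domRestrict]
  rw [h1]
  exact LinearMap.finrank_range_of_inj hinj

theorem Lft.ndOn (L : Lft Φ H Qt π Ht r) {Y : Submodule F Vt} (hY : NondegOn Qt Y) : Φ.NdOn (Y.map π) := by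
  rintro _ ⟨x, hx, rfl⟩ h
  have : x = 0 := hY x hx fun z hz => by
    rw [L.pol]
    exact h _ ⟨z, hz, rfl⟩
  rw [this]
  exact map_zero π

variable [Finite F] [FiniteDimensional F Vt]

/-- from singular pairs to all Siegel elements -/
theorem hasW_of_sing {Y : Submodule F Vt} (hY : NondegOn Qt Y) (hd : 8 ≤ Module.finrank F Y)
    (h : ∀ u ∈ Y, ∀ w ∈ Y, Qt u = 0 → Qt w = 0 → polar Qt u w = 0 → Has Qt Ht u w) : HasW Qt Ht Y := by
  intro u hu w hw hQu huw
  by_cases hwu : w ∈ Submodule.span F {u}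
  · obtain ⟨c, rfl⟩ := Submodule.mem_span_singleton.1 hwu
    exact has_self hQu c
  · obtain ⟨x, hx, hQx, hux, hwx⟩ := ex_moveG hY hd hu hw hwu
    set c := Qt w * (polar Qt w x)⁻¹ with hc
    have h1 : Qt (w - c • x) = 0 := by
      rw [sub_eq_add_neg, Q_add, QuadraticMap.map_neg, QuadraticMap.map_smul, hQx, polar_neg_right, polar_smul_right,
        smul_eq_mul, smul_eq_mul, hc]
      field_simp
      ring
    have h2 : polar Qt u (w - c • x) = 0 := by
      rw [polar_sub_right, polar_smul_right, huw, hux, smul_zero, sub_zero]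
    have h3 : polar Qt u (c • x) = 0 := by rw [polar_smul_right, hux, smul_zero]
    have h4 : Qt (c • x) = 0 := by rw [QuadraticMap.map_smul, hQx, smul_zero]
    have h5 := (h u hu _ (Y.sub_mem hw (Y.smul_mem c hx)) hQu h1 h2).add (h u hu _ (Y.smul_mem c hx) hQu h4 h3)
    rwa [sub_add_cancel] at h5

/-! ### the case `r ∈ PP` -/

theorem Lft.ctr (L : Lft Φ H Qt π Ht r) (hΦ : IsSp Φ) (h2 : (2 : F) = 0) (hH : H ≤ Φ.Iso) {Y : Submodule F Vt}
    (hY : NondegOn Qt Y) (hd : 8 ≤ Module.finrank F Y) (hr : r ∈ PP Qt Ht Y) : Ctr Φ H (Y.map π) := by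
  -- singular vectors
  have key : ∀ x ∈ Y, Qt x = 0 → Cen Φ H (π x) := by
    intro x hx hQx a
    obtain ⟨c, hc⟩ := sq_surj h2 a
    obtain ⟨g, hg, h1⟩ := L.exists_of (hr.2 x hx hQx c)
    refine ⟨g, hg, fun v => ?_⟩
    rw [h1, map_smul, L.kr, smul_zero, smul_zero, add_zero, B_zero_left, zero_smul, sub_zero, QuadraticMap.map_smul, L.Qr,
      smul_eq_mul, mul_one, ← pow_two, hc, sub_eq_add_neg]
    congr 1
    rw [← neg_smul]
    congr 1
    linear_combination (-(a * Φ.B (π x) v)) * h2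
  refine ⟨L.ndOn hY, ?_⟩
  rintro _ ⟨y, hy, rfl⟩
  by_cases hQy : Qt y = 0
  · exact key y hy hQy
  · have hy0 : y ∉ Submodule.span F {(0 : Vt)} := by
      rw [Submodule.span_zero_singleton, Submodule.mem_bot]
      rintro rfl
      exact hQy (QuadraticMap.map_zero Qt)
    obtain ⟨x, hx, hQx, -, hyx⟩ := ex_moveG hY hd Y.zero_mem hy hy0
    set c := Qt y * (polar Qt y x)⁻¹ with hc
    have hc0 : c ≠ 0 := mul_ne_zero hQy (inv_ne_zero hyx)
    have e : c * polar Qt y x = Qt y := by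
      rw [hc, mul_assoc, inv_mul_cancel₀ hyx, mul_one]
    have h1 : Qt (y + c • x) = 0 := by
      rw [Q_add, QuadraticMap.map_smul, hQx, polar_smul_right, smul_eq_mul, smul_eq_mul, e]
      linear_combination (Qt y) * h2
    have h3 : Qt (c • x) = 0 := by rw [QuadraticMap.map_smul, hQx, smul_zero]
    have h4 := key _ (Y.add_mem hy (Y.smul_mem c hx)) h1
    have h5 := key _ (Y.smul_mem c hx) h3
    have h6 : Φ.B (π (c • x)) (π (y + c • x)) ≠ 0 := by
      rw [← L.pol, polar_add_right, polar_smul_left, polar_comm, polar_self', h3, mul_zero, add_zero, smul_eq_mul]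
      exact mul_ne_zero hc0 hyx
    have h7 := Cen.add hH h4 h5 h6
    rw [← map_add] at h7
    have h8 : y + c • x + c • x = y := by
      rw [add_assoc, ← two_smul F (c • x), h2, zero_smul, add_zero]
    rwa [h8] at h7

/-! ### `PP = 0` -/

/-- the image of the group generated by the root groups -/
def RV (H : Subgroup (V ≃ₗ[F] V)) (Qt : QuadraticForm F Vt) (π : Vt →ₗ[F] V) (Ht : Subgroup (Vt ≃ₗ[F] Vt)) :
    Subgroup (V ≃ₗ[F] V) where
  carrier := {h | h ∈ H ∧ ∃ g ∈ RR Qt Ht, ∀ x, π (g x) = h (π x)}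
  mul_mem' := by
    rintro h h' ⟨hh, g, hg, e⟩ ⟨hh', g', hg', e'⟩
    refine ⟨H.mul_mem hh hh', g * g', Subgroup.mul_mem _ hg hg', fun x => ?_⟩
    show π (g (g' x)) = h (h' (π x))
    rw [e, e']
  one_mem' := ⟨H.one_mem, 1, Subgroup.one_mem _, fun x => rfl⟩
  inv_mem' := by
    rintro h ⟨hh, g, hg, e⟩
    refine ⟨H.inv_mem hh, g⁻¹, Subgroup.inv_mem _ hg, fun x => ?_⟩
    apply h.injective
    have h1 : h (h⁻¹ (π x)) = π x := h.apply_symm_apply _
    have h2 : g (g⁻¹ x) = x := g.apply_symm_apply _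
    rw [h1, ← e, h2]

omit [Finite F] [FiniteDimensional F Vt] in
theorem RV_conj (L : Lft Φ H Qt π Ht r) : ∀ h ∈ H, ∀ k ∈ RV H Qt π Ht, h⁻¹ * k * h ∈ RV H Qt π Ht := by
  rintro h hh k ⟨hk, g, hg, e⟩
  obtain ⟨u, hu, eu⟩ := L.ex h hh
  refine ⟨H.mul_mem (H.mul_mem (H.inv_mem hh) hk) hh, u⁻¹ * g * u, ?_, fun x => ?_⟩
  · have := RR_conj L.le_O (Ht.inv_mem hu) hg
    rwa [inv_inv] at this
  · apply h.injective
    show h (π (u⁻¹ (g (u x)))) = h (h⁻¹ (k (h (π x))))
    have h1 : ∀ v, h (h⁻¹ v) = v := fun v => h.apply_symm_apply _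
    have h2 : ∀ y, u (u⁻¹ y) = y := fun y => u.apply_symm_apply _
    rw [h1, ← eu, h2, e, eu]

theorem Lft.PP_eq_bot [FiniteDimensional F V] (L : Lft Φ H Qt π Ht r) (hirr : IrrG H)
    {W : Submodule F Vt} (hW : NondegOn Qt W) (hd8 : 8 ≤ Module.finrank F W) (hasW : HasW Qt Ht W)
    (hiso : ∀ p ∈ PP Qt Ht W, ∀ p' ∈ PP Qt Ht W, polar Qt p p' = 0) (hr : r ∉ PP Qt Ht W) : PP Qt Ht W = ⊥ := by
  have hmemR : ∀ {s t : Vt} (h : Lr Qt Ht s t), ∃ k ∈ RV H Qt π Ht, ∀ x, π (siegel Qt s t h.1 h.2.2.1 x) = k (π x) := by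
    intro s t h
    have h1 := h.2.2.2 1
    rw [one_smul] at h1
    obtain ⟨-, k, hk, e⟩ := (L.mem _).1 (h1.mem h.1 h.2.2.1)
    exact ⟨k, ⟨hk, _, mem_RR h, e⟩, e⟩
  obtain ⟨C, hC, hcomp⟩ := exists_compl (H := H) (R := RV H Qt π Ht) (RV_conj L) hirr
    (P := (PP Qt Ht W).map π) (by
      rintro k ⟨-, g, hg, e⟩ _ ⟨p, hp, rfl⟩
      exact ⟨g p, RR_inv_PP L.le_O hW hd8 hasW hiso g hg p hp, e p⟩)
  -- singular vectors of `W` are in `C`
  have hsing : ∀ x ∈ W, Qt x = 0 → π x ∈ C := by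
    intro x hx hQx
    by_cases hx0 : x = 0
    · rw [hx0, map_zero]; exact C.zero_mem
    have h1 := finrank_span_single_le (F := F) x
    obtain ⟨y, hy, hyo, hyn, hQy⟩ := ex_singG (Q := Qt) W (Submodule.span F {x}) (Submodule.span F {x}) (by omega)
    have hxy := hyo x (Submodule.mem_span_singleton_self x)
    obtain ⟨n, hn, hnx, hny⟩ := sepG hW (T := Submodule.span F {x})
      (by rw [Submodule.span_le, Set.singleton_subset_iff]; exact hx) hy hyn
    set v : Vt := (polar Qt y n)⁻¹ • n with hv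
    have hxv : polar Qt x v = 0 := by
      rw [hv, polar_smul_right, hnx x (Submodule.mem_span_singleton_self x), smul_zero]
    have hyv : polar Qt y v = 1 := by
      rw [hv, polar_smul_right, smul_eq_mul, inv_mul_cancel₀ hny]
    have hL := hasW.lr hx hy hQx hQy hxy
    obtain ⟨k, hk, ek⟩ := hmemR hL
    obtain ⟨_, ⟨p, hp, rfl⟩, c, hc, e⟩ : ∃ p ∈ (PP Qt Ht W).map π, ∃ c ∈ C, p + c = π v := by
      have : π v ∈ (PP Qt Ht W).map π ⊔ C := by rw [hcomp.sup_eq_top]; exact Submodule.mem_top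
      exact Submodule.mem_sup.1 this
    have hgv : siegel Qt x y hL.1 hL.2.2.1 v = v - x := by
      rw [siegel_apply, hxv, hyv, hQy]
      simp
    have hgp : siegel Qt x y hL.1 hL.2.2.1 p = p :=
      siegel_fix _ _ (mem_perp.1 hp.1 x hx) (mem_perp.1 hp.1 y hy)
    have h3 : k (π p) = π p := by rw [← ek, hgp]
    have h4 : k (π v) = π v - π x := by rw [← ek, hgv, map_sub]
    have hgc := hC k hk c hc
    rw [← e, map_add, h3] at h4
    have h5 : π x = c - k c := by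
      have h6 : k c = c - π x := by
        have h7 : π p + k c = π p + (c - π x) := by rw [h4]; abel
        exact add_left_cancel h7
      rw [h6]; abel
    rw [h5]
    exact C.sub_mem hc hgc
  have hG : Good (res Qt W) := good_res hW (by omega)
  obtain ⟨x, x', hxx⟩ := hG.exists_hyp
  have hWC : ∀ v ∈ W, π v ∈ C := by
    intro v hv
    exact sing_induction hxx (P := fun v : W => π (v : Vt) ∈ C) (fun a c ha hc => by
      show π ((a : Vt) + (c : Vt)) ∈ C
      rw [map_add]; exact C.add_mem ha hc)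
      (fun a ha => hsing a a.2 ha) ⟨v, hv⟩
  obtain ⟨z, w, hzw, hxz, hxw, hx'z, hx'w⟩ := hG.exists_hyp2 hxx
  rw [eq_bot_iff]
  intro p hp
  have hzw1 : polar Qt (z : Vt) (w : Vt) = 1 := hzw.pair
  have hQz : Qt (z : Vt) = 0 := hzw.left
  have hQw : Qt (w : Vt) = 0 := hzw.right
  have hxx1 : polar Qt (x : Vt) (x' : Vt) = 1 := hxx.pair
  have hQx : Qt (x : Vt) = 0 := hxx.left
  have hxz' : polar Qt (x : Vt) (z : Vt) = 0 := hxz
  have hxw' : polar Qt (x : Vt) (w : Vt) = 0 := hxw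
  have hx'z' : polar Qt (x' : Vt) (z : Vt) = 0 := hx'z
  have hx'w' : polar Qt (x' : Vt) (w : Vt) = 0 := hx'w
  set y1 : Vt := (z : Vt) - Qt p • (w : Vt) with hy1
  have hy1W : y1 ∈ W := W.sub_mem z.2 (W.smul_mem _ w.2)
  have hQy1 : Qt y1 = - Qt p := by
    rw [hy1, sub_eq_add_neg, Q_add, QuadraticMap.map_neg, QuadraticMap.map_smul, hQz, hQw, polar_neg_right,
      polar_smul_right, hzw1]
    simp
  have hxy1 : polar Qt (x : Vt) y1 = 0 := by
    rw [hy1, polar_sub_right, polar_smul_right, hxz', hxw', smul_zero, sub_zero]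
  have hxp : polar Qt (x : Vt) p = 0 := mem_perp.1 hp.1 x x.2
  have hL : Lr Qt Ht (x : Vt) (p + y1) := by
    refine ⟨hQx, ?_, ?_, fun c => ?_⟩
    · rw [Q_add, hQy1, polar_comm, mem_perp.1 hp.1 y1 hy1W]
      ring
    · rw [polar_add_right, hxp, hxy1, add_zero]
    · rw [smul_add]
      refine (hp.2 x x.2 hQx c).add (hasW x x.2 _ (W.smul_mem _ hy1W) hQx ?_)
      rw [polar_smul_right, hxy1, smul_zero]
  obtain ⟨k, hk, ek⟩ := hmemR hL
  have h1 := hC k hk (π x') (hWC x' x'.2)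
  rw [← ek, siegel_apply, hL.2.1, zero_mul, zero_smul, sub_zero, hxx1, one_smul, map_sub, map_add, map_add, map_smul] at h1
  have h2 : π p ∈ C := by
    have h3 : π p = (π x' + (π p + π y1) - polar Qt (p + y1) (x' : Vt) • π x) - π x' - π y1 +
        polar Qt (p + y1) (x' : Vt) • π x := by abel
    rw [h3]
    exact C.add_mem (C.sub_mem (C.sub_mem h1 (hWC x' x'.2)) (hWC _ hy1W)) (C.smul_mem _ (hWC x x.2))
  have h3 : π p ∈ (PP Qt Ht W).map π ⊓ C := ⟨⟨p, hp, rfl⟩, h2⟩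
  rw [hcomp.inf_eq_bot, Submodule.mem_bot] at h3
  obtain ⟨c, hc⟩ := L.ker p h3
  by_cases hc0 : c = 0
  · rw [hc, hc0, zero_smul]
    exact Submodule.zero_mem _
  · exfalso
    apply hr
    have h4 := (PP Qt Ht W).smul_mem c⁻¹ hp
    rwa [hc, smul_smul, inv_mul_cancel₀ hc0, one_smul] at h4

end lft

/-- **UF1**, modulo the existence of lifts -/
theorem uf1_of (hex : ExLft) : Cfsg.Agent.H141.Ux.UF1 := by
  intro F V _ _ _ _ _ Φ q H W hΦ h2 hH hirr hWn hd hS
  obtain ⟨Vt, _, _, _, Qt, π, Ht, r, L⟩ := hex F V Φ H hΦ h2 hH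
  obtain ⟨hq1, hq2, hS⟩ := hS
  have hchar : CharP F 2 := CharTwo.of_one_ne_zero_of_two_eq_zero one_ne_zero h2
  -- the lift of `W`
  let Y0 : Submodule F Vt := Wt Qt π q W (by
    rintro u hu w hw x y rfl rfl hx hy
    rw [Q_add, hx, hy, L.pol, hq1 _ hu _ hw]) hq2
  have hY0 : ∀ x, x ∈ Y0 ↔ π x ∈ W ∧ Qt x = q (π x) := fun x => Iff.rfl
  have hmap0 : Y0.map π = W := by
    apply le_antisymm
    · rintro _ ⟨x, hx, rfl⟩
      exact hx.1
    · intro w hw
      obtain ⟨x, hx, hQx⟩ := L.exists_lift hΦ h2 w (q w)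
      exact ⟨x, ⟨by rw [hx]; exact hw, by rw [hQx, hx]⟩, hx⟩
  have hnd0 : NondegOn Qt Y0 := by
    intro x hx h
    have h3 : π x = 0 := by
      refine hWn _ hx.1 fun w hw => ?_
      rw [← hmap0] at hw
      obtain ⟨y, hy, rfl⟩ := hw
      rw [← L.pol]
      exact h y hy
    have h4 : Qt x = Qt 0 := by
      rw [hx.2, h3, QuadraticMap.map_zero]
      have := hq2 0 0 W.zero_mem
      rw [zero_smul] at this
      rw [this]; ring
    exact L.inj hΦ (by rw [h3, map_zero]) h4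
  have hfr0 : 12 ≤ Module.finrank F Y0 := by
    rw [← L.finrank_map hnd0, hmap0]
    exact hd
  have hhas0 : HasW Qt Ht Y0 := by
    refine hasW_of_sing hnd0 (by omega) fun u hu w hw hQu hQw huw => ?_
    refine L.has_of hQu huw ?_
    obtain ⟨g, hg, h3⟩ := hS _ hu.1 _ hw.1 (by rw [← hu.2, hQu]) (by rw [← hw.2, hQw]) (by rw [← L.pol]; exact huw)
    refine ⟨g, hg, fun v => ?_⟩
    have h4 : g v = Cfsg.Agent.H141.Ux.sr Φ (π u) (π w) v := by rw [← h3]; rfl
    have h5 : Cfsg.Agent.H141.Ux.sr Φ (π u) (π w) v = v + Φ.B v (π u) • π w + Φ.B v (π w) • π u := rfl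
    rw [h4, h5, hQw, zero_mul, zero_smul, sub_zero, B_comm hΦ h2 v, B_comm hΦ h2 v, sub_eq_add_neg, ← neg_smul]
    congr 2
    linear_combination (Φ.B (π w) v) * h2
  -- a maximal one
  have wf : WellFounded ((· > ·) : Submodule F Vt → Submodule F Vt → Prop) := wellFounded_gt
  obtain ⟨Y, ⟨hY, hasY, hd12⟩, hmax⟩ := wf.has_min
    {Y : Submodule F Vt | NondegOn Qt Y ∧ HasW Qt Ht Y ∧ 12 ≤ Module.finrank F Y} ⟨Y0, hnd0, hhas0, hfr0⟩
  have hmax' : ∀ Y' : Submodule F Vt, NondegOn Qt Y' → HasW Qt Ht Y' → Y ≤ Y' → Y' = Y := by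
    intro Y' h1 h2 h3
    by_contra hne
    exact hmax Y' ⟨h1, h2, hd12.trans (Submodule.finrank_mono h3)⟩ (lt_of_le_of_ne h3 (Ne.symm hne))
  have hiso := iso_of_max hY (by omega) hasY hmax'
  by_cases hr : r ∈ PP Qt Ht Y
  · -- `H` contains all transvections of `π Y`
    rcases gen_ctr hΦ hH hirr (L.ctr hΦ h2 hH hY (by omega) hr) (by rw [L.finrank_map hY]; omega) with h | ⟨D, hD, hYD⟩
    · left
      obtain ⟨σ, hσ⟩ := π.exists_rightInverse_of_surjective (LinearMap.range_eq_top.2 L.surj)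
      have hσ' : ∀ v, π (σ v) = v := fun v => congrArg (fun f => f v) hσ
      have hpol : ∀ u v, polar (Qt.comp σ) u v = Φ.B u v := by
        intro u v
        have : polar (Qt.comp σ) u v = polar Qt (σ u) (σ v) := by
          simp only [polar, QuadraticMap.comp_apply, map_add]
        rw [this, L.pol, hσ', hσ']
      refine ⟨Qt.comp σ, hpol, fun g hg => h ?_⟩
      have hg' := E_le_O hg
      exact ⟨fun x y => by rw [← hpol, ← hpol, polar_map hg'], fun x => by rw [hΦ.q, hΦ.q]⟩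
    · right
      refine ⟨D, hD, ?_⟩
      have h3 := Submodule.finrank_mono hYD
      rw [L.finrank_map hY] at h3
      omega
  · have hbot := L.PP_eq_bot hirr hY (by omega) hasY hiso hr
    by_cases htop : Y.map π = ⊤
    · -- the lifts form a complement of `r`
      left
      have hinj : Function.Injective (π.domRestrict Y) := by
        rw [← LinearMap.ker_eq_bot, eq_bot_iff]
        rintro ⟨x, hx⟩ h
        rw [Submodule.mem_bot]
        exact Subtype.ext (L.inj_on hY hx (LinearMap.mem_ker.1 h))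
      have hsurj : Function.Surjective (π.domRestrict Y) := by
        intro v
        have : v ∈ Y.map π := by rw [htop]; trivial
        obtain ⟨x, hx, e⟩ := this
        exact ⟨⟨x, hx⟩, e⟩
      let e : Y ≃ₗ[F] V := LinearEquiv.ofBijective (π.domRestrict Y) ⟨hinj, hsurj⟩
      have he : ∀ y : Y, e y = π y := fun y => rfl
      have hes : ∀ v, π ((e.symm v : Y) : Vt) = v := fun v => by rw [← he, LinearEquiv.apply_symm_apply]
      have hpol : ∀ u v, polar ((res Qt Y).comp (e.symm : V →ₗ[F] Y)) u v = Φ.B u v := by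
        intro u v
        have : polar ((res Qt Y).comp (e.symm : V →ₗ[F] Y)) u v = polar Qt ((e.symm u : Y) : Vt) ((e.symm v : Y) : Vt) := by
          simp only [polar, QuadraticMap.comp_apply, map_add]
          rfl
        rw [this, L.pol, hes, hes]
      have hQv : ∀ v, ((res Qt Y).comp (e.symm : V →ₗ[F] Y)) v = Qt ((e.symm v : Y) : Vt) := fun v => rfl
      refine ⟨(res Qt Y).comp (e.symm : V →ₗ[F] Y), hpol, ?_⟩
      rw [E, Subgroup.closure_le]
      rintro _ ⟨u, w, hu, hw, rfl⟩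
      have hu' : Qt ((e.symm u : Y) : Vt) = 0 := by rw [← hQv]; exact hu
      have hw' : polar Qt ((e.symm u : Y) : Vt) ((e.symm w : Y) : Vt) = 0 := by
        rw [L.pol, hes, hes, ← hpol]; exact hw
      obtain ⟨g, hg, h3⟩ := L.exists_of (hasY _ (e.symm u).2 _ (e.symm w).2 hu' hw')
      have h4 : siegel ((res Qt Y).comp (e.symm : V →ₗ[F] Y)) u w hu hw = g := by
        ext v
        rw [siegel_apply, h3, hpol, hpol, hes, hes, hQv]
      rw [h4]
      exact hg
    · right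
      refine ⟨Y.map π, ⟨htop, L.ndOn hY, fun h hh => ?_⟩, by rw [L.finrank_map hY]; omega⟩
      obtain ⟨g, hg, eg⟩ := L.ex h hh
      rcases block L.le_O hY (by omega) hasY hbot hg with h1 | h1
      · left
        refine Submodule.eq_of_le_of_finrank_eq ?_ (LinearEquiv.finrank_map_eq h _)
        rintro _ ⟨_, ⟨x, hx, rfl⟩, rfl⟩
        exact ⟨g x, h1 x hx, eg x⟩
      · right
        rintro _ ⟨_, ⟨x, hx, rfl⟩, rfl⟩ _ ⟨y, hy, rfl⟩
        show Φ.B (h (π x)) (π y) = 0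
        rw [← eg, ← L.pol, polar_comm]
        exact mem_perp.1 (h1 x hx) y hy

end Cfsg.Agent.H124.UX
end

-- part: H994/Ux/Lift
section
/-!
# UX (S5716), UF1: the lift of `Sp(V)` to `O(V ⊥ ⟨1⟩)`, characteristic two (helper994)

`F` finite with `2 = 0`, `Q₀` a quadratic form on `V` with nondegenerate polar form `B`.

* `Qt Q₀ (v, c) = Q₀ v + c ^ 2` on `V × F`; the radical of the polar form is `0 × F`;
* `SpQ Q₀` : the isometries of `B`; `lft h2 : SpQ Q₀ →* GL(V × F)`, `lft h (v, c) = (h v, c + sg h v)`,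
  `sg h v = √(Q₀ v + Q₀ (h v))`; the image is `O (Qt Q₀)` (`lft_mem`, `exists_lft`);
* `Lf h2 H` : the lift of a subgroup `H` of `GL(V)`; `mem_Lf`;
* `siegel_eq` : the Siegel transformation of `(s, a)`, `(t, b)` is the lift of `v ↦ v + B(s, v) t + B(t, v) s + Qt(t, b) B(s, v) s`;
  `siegel_sr` : of `sr Φ s t` if `(t, b)` is singular; `has_sr`;
* `exists_form` : every symplectic form is a polar form (characteristic two);
* `cf Q₀ v` : the unique `c` with `Qt (v, c) = 0`; `exists_section` : a quadratic form `q` on `W` with polar form `B` is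
  `q w = Qt (w, l w)` with `l` linear.
-/

set_option autoImplicit false
set_option linter.unusedSectionVars false

namespace Cfsg.Agent.H994.Ux.Lift

open Module QuadraticMap Cfsg.Agent.LieClassical.OrthCore Cfsg.Agent.H847.Bs

/-! ### square roots -/

section

variable {F : Type*} [Field F]

theorem sq_inj (h2 : (2 : F) = 0) {a b : F} (h : a ^ 2 = b ^ 2) : a = b := by
  have h1 : (a - b) ^ 2 = 0 := by linear_combination h + (b ^ 2 - a * b) * h2
  exact sub_eq_zero.1 (pow_eq_zero_iff (two_ne_zero) |>.1 h1)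

theorem exists_rt [Finite F] (h2 : (2 : F) = 0) (x : F) : ∃ c : F, c ^ 2 = x := by
  have hinj : Function.Injective (fun c : F => c ^ 2) := fun a b h => sq_inj h2 h
  exact (Finite.injective_iff_surjective.1 hinj) x

/-- the square root -/
noncomputable def rt (x : F) : F := Classical.epsilon fun c => c ^ 2 = x

theorem rt_sq [Finite F] (h2 : (2 : F) = 0) (x : F) : rt x ^ 2 = x := Classical.epsilon_spec (exists_rt h2 x)

end

section

variable {F V : Type*} [Field F] [Finite F] [AddCommGroup V] [Module F V]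

/-- the quadratic form on `V × F` -/
noncomputable def Qt (Q₀ : QuadraticForm F V) : QuadraticForm F (V × F) := Q₀.prod QuadraticMap.sq

variable {Q₀ : QuadraticForm F V}

theorem Qt_apply (p : V × F) : Qt Q₀ p = Q₀ p.1 + p.2 ^ 2 := by
  rw [Qt, QuadraticMap.prod_apply, QuadraticMap.sq_apply, pow_two]

theorem polar_Qt (h2 : (2 : F) = 0) (p r : V × F) : polar (Qt Q₀) p r = polar Q₀ p.1 r.1 := by
  unfold polar
  rw [Qt_apply, Qt_apply, Qt_apply, Prod.fst_add, Prod.snd_add]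
  linear_combination p.2 * r.2 * h2

variable (Q₀) in
/-- the isometries of the polar form -/
def SpQ : Subgroup (V ≃ₗ[F] V) where
  carrier := {h | ∀ u v, polar Q₀ (h u) (h v) = polar Q₀ u v}
  mul_mem' := by
    intro g h hg hh u v
    show polar Q₀ (g (h u)) (g (h v)) = _
    rw [hg, hh]
  one_mem' := fun u v => rfl
  inv_mem' := by
    intro g hg u v
    have h1 := hg (g⁻¹ u) (g⁻¹ v)
    have h3 : ∀ w, g (g⁻¹ w) = w := fun w => g.apply_symm_apply w
    rw [h3, h3] at h1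
    exact h1.symm

variable (Q₀) in
/-- the linear form `√(Q₀ v + Q₀ (h v))` -/
noncomputable def sg (h : V ≃ₗ[F] V) (v : V) : F := rt (Q₀ v + Q₀ (h v))

theorem sg_sq (h2 : (2 : F) = 0) (h : V ≃ₗ[F] V) (v : V) : sg Q₀ h v ^ 2 = Q₀ v + Q₀ (h v) := rt_sq h2 _

theorem sg_add (h2 : (2 : F) = 0) {h : V ≃ₗ[F] V} (hh : h ∈ SpQ Q₀) (u v : V) :
    sg Q₀ h (u + v) = sg Q₀ h u + sg Q₀ h v := by
  apply sq_inj h2
  have e1 := sg_sq (Q₀ := Q₀) h2 h u
  have e2 := sg_sq (Q₀ := Q₀) h2 h v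
  rw [sg_sq h2, LinearEquiv.map_add, Q_add, Q_add, hh u v]
  linear_combination -e1 - e2 + (polar Q₀ u v - sg Q₀ h u * sg Q₀ h v) * h2

theorem sg_smul (h2 : (2 : F) = 0) (h : V ≃ₗ[F] V) (a : F) (v : V) : sg Q₀ h (a • v) = a * sg Q₀ h v := by
  apply sq_inj h2
  have e1 := sg_sq (Q₀ := Q₀) h2 h v
  rw [sg_sq h2, LinearEquiv.map_smul, QuadraticMap.map_smul, QuadraticMap.map_smul, smul_eq_mul, smul_eq_mul]
  linear_combination -(a ^ 2) * e1

theorem sg_mul (h2 : (2 : F) = 0) (g h : V ≃ₗ[F] V) (v : V) : sg Q₀ (g * h) v = sg Q₀ h v + sg Q₀ g (h v) := by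
  apply sq_inj h2
  have e1 := sg_sq (Q₀ := Q₀) h2 h v
  have e2 := sg_sq (Q₀ := Q₀) h2 g (h v)
  rw [sg_sq h2]
  show Q₀ v + Q₀ (g (h v)) = _
  linear_combination -e1 - e2 - (Q₀ (h v) + sg Q₀ h v * sg Q₀ g (h v)) * h2

theorem sg_one (h2 : (2 : F) = 0) (v : V) : sg Q₀ (1 : V ≃ₗ[F] V) v = 0 := by
  apply sq_inj h2
  rw [sg_sq h2]
  show Q₀ v + Q₀ v = _
  linear_combination (Q₀ v) * h2

/-- the lift, as a linear map -/
noncomputable def lftLin (h2 : (2 : F) = 0) (h : SpQ Q₀) : (V × F) →ₗ[F] (V × F) where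
  toFun p := ((h : V ≃ₗ[F] V) p.1, p.2 + sg Q₀ h p.1)
  map_add' p r := Prod.ext (map_add _ _ _) (by
    show p.2 + r.2 + sg Q₀ h (p.1 + r.1) = p.2 + sg Q₀ h p.1 + (r.2 + sg Q₀ h r.1)
    rw [sg_add h2 h.2]
    abel)
  map_smul' a p := Prod.ext (map_smul _ _ _) (by
    show a * p.2 + sg Q₀ h (a • p.1) = a * (p.2 + sg Q₀ h p.1)
    rw [sg_smul h2]
    ring)

theorem lftLin_comp (h2 : (2 : F) = 0) (g h : SpQ Q₀) : lftLin h2 g ∘ₗ lftLin h2 h = lftLin h2 (g * h) := by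
  refine LinearMap.ext fun p => Prod.ext rfl ?_
  show p.2 + sg Q₀ h p.1 + sg Q₀ g ((h : V ≃ₗ[F] V) p.1) = p.2 + sg Q₀ (g * h : V ≃ₗ[F] V) p.1
  rw [sg_mul h2, add_assoc]

theorem lftLin_one (h2 : (2 : F) = 0) : lftLin h2 (1 : SpQ Q₀) = LinearMap.id := by
  refine LinearMap.ext fun p => Prod.ext rfl ?_
  show p.2 + sg Q₀ (1 : V ≃ₗ[F] V) p.1 = p.2
  rw [sg_one h2, add_zero]

/-- the lift -/
noncomputable def lft (h2 : (2 : F) = 0) : SpQ Q₀ →* ((V × F) ≃ₗ[F] (V × F)) where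
  toFun h := LinearEquiv.ofLinearMap (lftLin h2 h) (lftLin h2 h⁻¹) (by rw [lftLin_comp, mul_inv_cancel, lftLin_one])
    (by rw [lftLin_comp, inv_mul_cancel, lftLin_one])
  map_one' := LinearEquiv.ext fun p => by
    show lftLin h2 1 p = p
    rw [lftLin_one]
    rfl
  map_mul' g h := LinearEquiv.ext fun p => by
    show lftLin h2 (g * h) p = lftLin h2 g (lftLin h2 h p)
    rw [← lftLin_comp]
    rfl

theorem lft_apply (h2 : (2 : F) = 0) (h : SpQ Q₀) (p : V × F) :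
    lft h2 h p = ((h : V ≃ₗ[F] V) p.1, p.2 + sg Q₀ h p.1) := rfl

theorem lft_fst (h2 : (2 : F) = 0) (h : SpQ Q₀) (p : V × F) : (lft h2 h p).1 = (h : V ≃ₗ[F] V) p.1 := rfl

theorem lft_mem (h2 : (2 : F) = 0) (h : SpQ Q₀) : lft h2 h ∈ O (Qt Q₀) := by
  intro p
  have e1 := sg_sq (Q₀ := Q₀) h2 h p.1
  rw [Qt_apply, Qt_apply, lft_apply]
  show Q₀ ((h : V ≃ₗ[F] V) p.1) + (p.2 + sg Q₀ h p.1) ^ 2 = _
  linear_combination e1 + (Q₀ ((h : V ≃ₗ[F] V) p.1) + p.2 * sg Q₀ h p.1) * h2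

theorem lft_injective (h2 : (2 : F) = 0) : Function.Injective (lft h2 : SpQ Q₀ →* _) := by
  intro g h hgh
  apply Subtype.ext
  apply LinearEquiv.ext
  intro v
  have h1 := congrArg (fun k : (V × F) ≃ₗ[F] (V × F) => (k (v, 0)).1) hgh
  exact h1

/-- isometries of `Qt` over the same isometry are equal -/
theorem lft_unique (h2 : (2 : F) = 0) (h : SpQ Q₀) {g : (V × F) ≃ₗ[F] (V × F)} (hg : g ∈ O (Qt Q₀))
    (hgh : ∀ p, (g p).1 = (h : V ≃ₗ[F] V) p.1) : g = lft h2 h := by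
  apply LinearEquiv.ext
  intro p
  refine Prod.ext (hgh p) (sq_inj h2 ?_)
  have e1 := hg p
  have e2 := lft_mem h2 h p
  rw [Qt_apply, Qt_apply, hgh] at e1
  rw [Qt_apply, Qt_apply, lft_fst] at e2
  linear_combination e1 - e2

/-! ### subgroups -/

/-- the lift of a subgroup -/
noncomputable def Lf (h2 : (2 : F) = 0) (Q₀ : QuadraticForm F V) (H : Subgroup (V ≃ₗ[F] V)) :
    Subgroup ((V × F) ≃ₗ[F] (V × F)) := (H.subgroupOf (SpQ Q₀)).map (lft h2)

theorem mem_Lf (h2 : (2 : F) = 0) {H : Subgroup (V ≃ₗ[F] V)} {g : (V × F) ≃ₗ[F] (V × F)} :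
    g ∈ Lf h2 Q₀ H ↔ ∃ h : SpQ Q₀, (h : V ≃ₗ[F] V) ∈ H ∧ lft h2 h = g := Iff.rfl

theorem lft_mem_Lf (h2 : (2 : F) = 0) {H : Subgroup (V ≃ₗ[F] V)} {h : SpQ Q₀} :
    lft h2 h ∈ Lf h2 Q₀ H ↔ (h : V ≃ₗ[F] V) ∈ H := by
  constructor
  · rintro ⟨k, hk, hkh⟩
    rw [← lft_injective h2 hkh]
    exact hk
  · intro hh
    exact ⟨h, hh, rfl⟩

theorem Lf_le (h2 : (2 : F) = 0) (H : Subgroup (V ≃ₗ[F] V)) : Lf h2 Q₀ H ≤ O (Qt Q₀) := by
  rintro _ ⟨h, -, rfl⟩
  exact lft_mem h2 h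

/-- an isometry of `Qt` over an element of `H` is in the lift of `H` -/
theorem mem_Lf_of (h2 : (2 : F) = 0) {H : Subgroup (V ≃ₗ[F] V)} {g : (V × F) ≃ₗ[F] (V × F)} (hg : g ∈ O (Qt Q₀))
    {h : V ≃ₗ[F] V} (hh : h ∈ H) (hgh : ∀ p, (g p).1 = h p.1) : g ∈ Lf h2 Q₀ H := by
  have h1 : h ∈ SpQ Q₀ := by
    intro u v
    have h3 := polar_map hg (u, 0) (v, 0)
    rw [polar_Qt h2, polar_Qt h2, hgh, hgh] at h3
    exact h3
  rw [lft_unique h2 ⟨h, h1⟩ hg hgh, lft_mem_Lf]
  exact hh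

/-! ### Siegel transformations -/

end

/-! ### symplectic forms -/

section

variable {F V : Type*} [Field F] [Finite F] [AddCommGroup V] [Module F V] {Φ : Frm F V} {Q₀ : QuadraticForm F V}

theorem sp_comm (hs : IsSp Φ) (h2 : (2 : F) = 0) (u v : V) : Φ.B u v = Φ.B v u := by
  have h1 := hs.alt (u + v)
  rw [Φ.add_left, Φ.add_right, Φ.add_right, hs.alt, hs.alt] at h1
  linear_combination h1 - Φ.B v u * h2

theorem mem_Iso_iff (hs : IsSp Φ) (hQ : ∀ u v, polar Q₀ u v = Φ.B u v) {h : V ≃ₗ[F] V} : h ∈ Φ.Iso ↔ h ∈ SpQ Q₀ := by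
  constructor
  · intro hh u v
    rw [hQ, hQ]
    exact hh.1 u v
  · intro hh
    refine ⟨fun u v => ?_, fun x => by rw [hs.q, hs.q]⟩
    rw [← hQ, ← hQ]
    exact hh u v

/-- every symplectic form is a polar form (characteristic two) -/
theorem exists_form [FiniteDimensional F V] (hs : IsSp Φ) (h2 : (2 : F) = 0) :
    ∃ Q : QuadraticForm F V, ∀ u v, polar Q u v = Φ.B u v := by
  let B : V →ₗ[F] V →ₗ[F] F := LinearMap.mk₂ F Φ.B Φ.add_left (fun a x y => by rw [Φ.smul_left, smul_eq_mul])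
    Φ.add_right (fun a x y => by rw [Φ.smul_right, hs.s, smul_eq_mul])
  have hB : ∀ u v, B u v = Φ.B u v := fun u v => rfl
  let b := Module.finBasis F V
  let C : V →ₗ[F] V →ₗ[F] F := b.constr F fun i => b.constr F fun j => if i < j then B (b i) (b j) else 0
  have hC : ∀ i j, C (b i) (b j) = if i < j then B (b i) (b j) else 0 := by
    intro i j
    simp only [C, Basis.constr_basis]
  have hCB : C + C.flip = B := by
    refine b.ext fun i => b.ext fun j => ?_
    rw [LinearMap.add_apply, LinearMap.add_apply, LinearMap.flip_apply, hC, hC]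
    rcases lt_trichotomy i j with h | h | h
    · rw [if_pos h, if_neg (not_lt.2 h.le), add_zero]
    · rw [h, if_neg (lt_irrefl _), add_zero, hB, hs.alt]
    · rw [if_neg (not_lt.2 h.le), if_pos h, zero_add, hB, hB, sp_comm hs h2]
  refine ⟨LinearMap.BilinMap.toQuadraticMap C, fun x y => ?_⟩
  rw [LinearMap.BilinMap.polar_toQuadraticMap, ← hB, ← hCB]
  rfl

end

end Cfsg.Agent.H994.Ux.Lift
end

-- part: H124/UX/UF1Fin
section
/-!
# UX (S5716): UF1 (growth, symplectic groups, characteristic two; helper124 with the lift of helper994)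
-/

set_option autoImplicit false

namespace Cfsg.Agent.H124.UX

open QuadraticMap Cfsg.Agent.LieClassical.OrthCore Cfsg.Agent.H847.Bs Cfsg.Agent.H994.Ux.Lift

theorem exLft : ExLft := by
  intro F V _ _ _ _ _ Φ H hΦ h2 hH
  obtain ⟨Q₀, hQ⟩ := exists_form hΦ h2
  refine ⟨V × F, inferInstance, inferInstance, inferInstance, Qt Q₀, LinearMap.fst F V F, Lf h2 Q₀ H, (0, 1), ?_⟩
  refine
    { surj := LinearMap.fst_surjective
      pol := fun x y => ?_
      kr := rfl
      Qr := ?_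
      ker := fun x hx => ⟨x.2, ?_⟩
      mem := fun g => ?_
      ex := fun h hh => ?_ }
  · rw [polar_Qt h2, hQ]
    rfl
  · rw [Qt_apply, QuadraticMap.map_zero]
    ring
  · refine Prod.ext ?_ ?_
    · show x.1 = x.2 • (0 : V)
      rw [smul_zero]
      exact hx
    · show x.2 = x.2 • (1 : F)
      rw [smul_eq_mul, mul_one]
  · constructor
    · intro hg
      refine ⟨Lf_le h2 H hg, ?_⟩
      obtain ⟨h, hh, rfl⟩ := (mem_Lf h2).1 hg
      exact ⟨h, hh, fun x => rfl⟩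
    · rintro ⟨hg, h, hh, e⟩
      exact mem_Lf_of h2 hg hh e
  · have h1 : h ∈ SpQ Q₀ := (mem_Iso_iff hΦ hQ).1 (hH hh)
    exact ⟨lft h2 ⟨h, h1⟩, (lft_mem_Lf h2).2 hh, fun x => rfl⟩

/-- **UF1** -/
theorem uf1 : Cfsg.Agent.H141.Ux.UF1 := uf1_of exLft

end Cfsg.Agent.H124.UX
end

-- part: H767/Ux/Dye
section
/-!
# UX (S5716), UF2: `Ω(Q) ≤ H ≤ Sp(V)`, characteristic two (helper767)

If `g ∈ H` does not fix `Q`, the Siegel elements of `Q` and of `Q ∘ g` differ by transvections.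
-/

set_option autoImplicit false

namespace Cfsg.Agent.H767.Ux

open Module QuadraticMap Cfsg.Agent.H847.Bs Cfsg.Agent.LieClassical.OrthCore
open Cfsg.Agent.LieClassical.OrthTrans Cfsg.Agent.LieClassical.OrthFinite
open Cfsg.Agent.H24.Bs

section

variable {F V : Type*} [Field F] [AddCommGroup V] [Module F V] {Φ : Frm F V} {Q : QuadraticForm F V}
  {H : Subgroup (V ≃ₗ[F] V)} {g : V ≃ₗ[F] V}

/-- the defect -/
def df (Q : QuadraticForm F V) (g : V ≃ₗ[F] V) (v : V) : F := Q (g v) - Q v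

theorem df_add (hg : g ∈ Φ.Iso) (hpol : ∀ u v, polar Q u v = Φ.B u v) (v w : V) :
    df Q g (v + w) = df Q g v + df Q g w := by
  have h1 : polar Q (g v) (g w) = polar Q v w := by rw [hpol, hpol, hg.1]
  unfold df
  rw [map_add, Q_add, Q_add, h1]
  ring

theorem df_smul (a : F) (v : V) : df Q g (a • v) = a ^ 2 * df Q g v := by
  unfold df
  rw [map_smul, QuadraticMap.map_smul, QuadraticMap.map_smul, smul_eq_mul, smul_eq_mul]
  ring

theorem exists_tv (hΦ : IsSp Φ) (hH : H ≤ Φ.Iso) (hpol : ∀ u v, polar Q u v = Φ.B u v) (hE : E Q ≤ H)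
    (hg : g ∈ H) {u w : V} (hu : Q u = 0) (hf : df Q g u = 0) (hw : Φ.B u w = 0) :
    ∃ t ∈ H, ∀ x, t x = x + (- df Q g w * Φ.B u x) • u := by
  have hgI := hH hg
  have hgu : Q (g u) = 0 := by
    have h : Q (g u) - Q u = 0 := hf
    rw [hu, sub_zero] at h
    exact h
  have hw1 : polar Q u w = 0 := by rw [hpol, hw]
  have hw2 : polar Q (g u) (g w) = 0 := by rw [hpol, hgI.1, hw]
  let S := siegel Q u w hu hw1
  let S' := siegel Q (g u) (g w) hgu hw2
  have hS : S ∈ H := hE (siegel_mem_E hu hw1)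
  have hS' : S' ∈ H := hE (siegel_mem_E hgu hw2)
  have e1 : ∀ x, S x = x + Φ.B u x • w - Φ.B w x • u - (Q w * Φ.B u x) • u := by
    intro x
    rw [siegel_apply, hpol, hpol]
  have e2 : ∀ x, S' (g x) = g (x + Φ.B u x • w - Φ.B w x • u - (Q (g w) * Φ.B u x) • u) := by
    intro x
    rw [siegel_apply, hpol, hpol, hgI.1, hgI.1, map_sub, map_sub, map_add, map_smul, map_smul, map_smul]
  have hwu : Φ.B w u = 0 := by rw [B_swap hΦ, hw, neg_zero]
  have e3 : S u = u := by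
    rw [e1, hΦ.alt, hwu]
    simp
  refine ⟨S⁻¹ * (g⁻¹ * S' * g), H.mul_mem (H.inv_mem hS) (H.mul_mem (H.mul_mem (H.inv_mem hg) hS') hg), fun x => ?_⟩
  have e4 : S (x + (- df Q g w * Φ.B u x) • u) = (g⁻¹ * S' * g) x := by
    have e5 : (g⁻¹ * S' * g) x = g⁻¹ (S' (g x)) := rfl
    have e6 : ∀ y, g⁻¹ (g y) = y := fun y => g.symm_apply_apply y
    rw [e5, e2, e6, map_add, map_smul, e3, e1]
    unfold df
    module
  have e7 : (S⁻¹ * (g⁻¹ * S' * g)) x = S⁻¹ ((g⁻¹ * S' * g) x) := rfl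
  rw [e7, ← e4]
  exact S.symm_apply_apply _

variable [Finite F] [FiniteDimensional F V]

omit [FiniteDimensional F V] in
theorem cen_of (hΦ : IsSp Φ) (h2 : (2 : F) = 0) (hH : H ≤ Φ.Iso) (hpol : ∀ u v, polar Q u v = Φ.B u v) (hE : E Q ≤ H)
    (hg : g ∈ H) {u w : V} (hu : Q u = 0) (hf : df Q g u = 0) (hw : Φ.B u w = 0) (hfw : df Q g w ≠ 0) :
    Cen Φ H u := by
  intro a
  have hchar : ringChar F = 2 := by
    have : CharP F 2 := CharTwo.of_one_ne_zero_of_two_eq_zero one_ne_zero h2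
    exact ringChar.eq F 2
  have := Fintype.ofFinite F
  obtain ⟨l, hl⟩ := FiniteField.isSquare_of_char_two hchar (- a / df Q g w)
  obtain ⟨t, ht, h⟩ := exists_tv hΦ hH hpol hE hg hu hf (w := l • w) (by rw [B_smul_right hΦ, hw, mul_zero])
  refine ⟨t, ht, fun x => ?_⟩
  rw [h, df_smul]
  have h3 : - (l ^ 2 * df Q g w) = a := by
    rw [pow_two, ← hl]
    field_simp
  rw [h3]

theorem exists_good (hΦ : IsSp Φ) (h2 : (2 : F) = 0) (hd : 5 ≤ finrank F V) (hgI : g ∈ Φ.Iso)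
    (hpol : ∀ u v, polar Q u v = Φ.B u v) {v₀ : V} (hv₀ : df Q g v₀ ≠ 0) :
    ∃ u w, u ≠ 0 ∧ Q u = 0 ∧ df Q g u = 0 ∧ Φ.B u w = 0 ∧ df Q g w ≠ 0 := by
  have hchar : ringChar F = 2 := by
    have : CharP F 2 := CharTwo.of_one_ne_zero_of_two_eq_zero one_ne_zero h2
    exact ringChar.eq F 2
  have := Fintype.ofFinite F
  have hnd : Nondeg Q := fun x hx => hΦ.nd x fun y => by rw [← hpol]; exact hx y
  let K : Submodule F V :=
    { carrier := {v | df Q g v = 0}
      add_mem' := by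
        intro v w hv hw
        change df Q g (v + w) = 0
        rw [df_add hgI hpol, show df Q g v = 0 from hv, show df Q g w = 0 from hw, add_zero]
      zero_mem' := by
        change df Q g 0 = 0
        unfold df
        rw [map_zero, sub_self]
      smul_mem' := by
        intro a v hv
        change df Q g (a • v) = 0
        rw [df_smul, show df Q g v = 0 from hv, mul_zero] }
  have hK : K ⊔ F ∙ v₀ = ⊤ := by
    rw [eq_top_iff]
    intro w _
    obtain ⟨l, hl⟩ := FiniteField.isSquare_of_char_two hchar (- df Q g w / df Q g v₀)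
    have h1 : w + l • v₀ ∈ K := by
      change df Q g (w + l • v₀) = 0
      rw [df_add hgI hpol, df_smul, pow_two, ← hl]
      field_simp
      ring
    have h3 : w = (w + l • v₀) + (-l) • v₀ := by module
    rw [h3]
    exact Submodule.add_mem_sup h1 (Submodule.smul_mem _ _ (Submodule.mem_span_singleton_self v₀))
  have hKd : finrank F V ≤ finrank F K + 1 := by
    have h1 := Submodule.finrank_add_le_finrank_add_finrank K (F ∙ v₀)
    rw [hK, finrank_top] at h1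
    have h3 : v₀ ≠ 0 := by
      rintro rfl
      apply hv₀
      unfold df
      rw [map_zero, sub_self]
    rwa [finrank_span_singleton h3] at h1
  obtain ⟨u₁, hu₁K, hu₁0, hu₁⟩ := exists_sing_mem (Q := Q) K (by omega)
  by_cases hex : ∃ w, Φ.B u₁ w = 0 ∧ df Q g w ≠ 0
  · obtain ⟨w, hw, hfw⟩ := hex
    exact ⟨u₁, w, hu₁0, hu₁, hu₁K, hw, hfw⟩
  · push Not at hex
    obtain ⟨y, hy⟩ := exists_hyp hnd hu₁ hu₁0
    have hfy : df Q g y ≠ 0 := by
      intro h
      apply hv₀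
      have h1 : v₀ = (v₀ - Φ.B u₁ v₀ • y) + Φ.B u₁ v₀ • y := by module
      have h3 : Φ.B u₁ y = 1 := by rw [← hpol]; exact hy.pair
      have h4 : df Q g (v₀ - Φ.B u₁ v₀ • y) = 0 := by
        apply hex
        rw [sub_eq_add_neg, Φ.add_right, B_neg_right hΦ, B_smul_right hΦ, h3, mul_one, add_neg_cancel]
      rw [h1, df_add hgI hpol, h4, df_smul, h, mul_zero, add_zero]
    obtain ⟨u₂, hu₂0, hu₂, hp⟩ := exists_sing_perp (Q := Q) ![u₁, y] (by omega)
    have h1 : Φ.B u₁ u₂ = 0 := by rw [← hpol]; exact hp 0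
    have h3 : Φ.B y u₂ = 0 := by rw [← hpol]; exact hp 1
    exact ⟨u₂, y, hu₂0, hu₂, hex u₂ h1, by rw [B_swap hΦ, h3, neg_zero], hfy⟩

theorem dye (hΦ : IsSp Φ) (h2 : (2 : F) = 0) (hd : 5 ≤ finrank F V) (hH : H ≤ Φ.Iso)
    (hpol : ∀ u v, polar Q u v = Φ.B u v) (hE : E Q ≤ H) :
    (∀ g ∈ H, ∀ v, Q (g v) = Q v) ∨ H = Φ.Iso := by
  by_cases hfix : ∀ g ∈ H, ∀ v, Q (g v) = Q v
  · exact Or.inl hfix
  right
  push Not at hfix
  obtain ⟨g, hg, v₀, hv₀⟩ := hfix
  have hnd : Nondeg Q := fun x hx => hΦ.nd x fun y => by rw [← hpol]; exact hx y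
  have hG : Good Q := good_of_finite hnd hd
  obtain ⟨u, w, hu0, hu, hfu, hw, hfw⟩ := exists_good hΦ h2 hd (hH hg) hpol (v₀ := v₀) (sub_ne_zero.2 hv₀)
  have hcu : Cen Φ H u := cen_of hΦ h2 hH hpol hE hg hu hfu hw hfw
  have hsing : ∀ x, Q x = 0 → Cen Φ H x := by
    intro x hx
    by_cases hx0 : x = 0
    · rw [hx0]; exact cen_zero
    · obtain ⟨h, hh, rfl⟩ := hG.trans_sing hu hx hu0 hx0
      exact hcu.map hH (hE hh)
  have hall : ∀ x, Cen Φ H x := by
    intro x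
    by_cases hx0 : x = 0
    · rw [hx0]; exact cen_zero
    obtain ⟨a, b, hab⟩ := hG.exists_hyp
    obtain ⟨s, hs, hsx⟩ := exists_sing_polar_one hnd hab hx0
    obtain ⟨t, ht, h⟩ := hsing s hs (- Q x)
    have h1 : Φ.B s x = 1 := by rw [← hpol]; exact hsx
    have h3 : Q (t x) = 0 := by
      rw [h, h1, mul_one, Q_add, QuadraticMap.map_smul, hs, smul_zero, polar_smul_right, polar_comm, hsx, smul_eq_mul]
      ring
    have h4 := (hsing _ h3).map hH (H.inv_mem ht)
    have h5 : t⁻¹ (t x) = x := t.symm_apply_apply x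
    rwa [h5] at h4
  refine le_antisymm hH fun k hk => ?_
  exact Cfsg.Agent.H743.McL.mem_of_isometry (bil hΦ) (bil_alt hΦ) (fun x h => hΦ.nd x h) H (fun a c => hall a c) k hk.1

end

/-- **UF2.** -/
theorem uf2 : Cfsg.Agent.H141.Ux.UF2 := by
  intro F V _ _ _ _ _ Φ Q H hΦ h2 hd hH hpol hE
  exact dye hΦ h2 (by omega) hH hpol hE

end Cfsg.Agent.H767.Ux
end

-- part: H183/UI/Prime
section
/-!
# Sums of reciprocals of primes, index sets (helper183, for S5716, task UI)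

* `le_S`, `S_le` : `log log N - 1 ≤ ∑_{p < N} 1/p ≤ 1 + (1/2) log N`;
* `exists_T` : the primes in the window `[C (1 + log n), n / 200]` not dividing `n`, `(n-1)/2`, `(n+1)/2` have a large sum of
  reciprocals;
* `exists_sets` : greedy choice of two sets of primes, far apart, with prescribed sums.
-/

set_option autoImplicit false

namespace Cfsg.Agent.H183.UI

open Finset

/-- the sum of the reciprocals of the primes below `N` -/
noncomputable def S (N : ℕ) : ℝ := ∑ p ∈ N.primesBelow, 1 / (p : ℝ)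

/-- `n ↦ 1 / n` as a homomorphism -/
noncomputable def invH : ℕ →* ℝ where
  toFun n := (n : ℝ)⁻¹
  map_one' := by simp
  map_mul' m n := by push_cast; rw [mul_inv]

theorem harmonic_real (n : ℕ) : ((harmonic n : ℚ) : ℝ) = ∑ m ∈ Finset.range n, ((m + 1 : ℕ) : ℝ)⁻¹ := by
  rw [harmonic]
  push_cast
  rfl

/-- the partial harmonic sum is bounded by the Euler product -/
theorem harmonic_le_prod (N : ℕ) : ((harmonic (N - 1) : ℚ) : ℝ) ≤ ∏ p ∈ N.primesBelow, (1 - (p : ℝ)⁻¹)⁻¹ := by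
  have h := (EulerProduct.summable_and_hasSum_smoothNumbers_prod_primesBelow_geometric (f := invH) (by
    intro p hp
    change ‖((p : ℕ) : ℝ)⁻¹‖ < 1
    rw [norm_inv, Real.norm_natCast]
    exact inv_lt_one_of_one_lt₀ (by exact_mod_cast hp.one_lt)) N).2
  rw [harmonic_real]
  have hmem : ∀ m ∈ Finset.range (N - 1), (m + 1) ∈ N.smoothNumbers := by
    intro m hm
    rw [Finset.mem_range] at hm
    exact Nat.mem_smoothNumbers_of_lt (Nat.succ_pos m) (by omega)
  let g : Finset (N.smoothNumbers) := (Finset.range (N - 1)).attach.image (fun m => ⟨m.1 + 1, hmem m.1 m.2⟩)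
  have h1 := sum_le_hasSum g (fun i _ => (by
    change (0 : ℝ) ≤ ((i : ℕ) : ℝ)⁻¹
    positivity)) h
  refine le_trans (le_of_eq ?_) h1
  rw [Finset.sum_image (by
    intro a _ b _ hab
    apply Subtype.ext
    have := congrArg Subtype.val hab
    simpa using this)]
  rw [← Finset.sum_attach]
  rfl

/-- Mertens' lower bound -/
theorem le_S {N : ℕ} (hN : 3 ≤ N) : Real.log (Real.log N) - 1 ≤ S N := by
  have h1 := harmonic_le_prod N
  have h2 : Real.log N ≤ harmonic (N - 1) := by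
    have := log_add_one_le_harmonic (N - 1)
    rwa [Nat.sub_add_cancel (by omega)] at this
  have hN1 : (1 : ℝ) < N := by exact_mod_cast (by omega : 1 < N)
  have hlog : 0 < Real.log N := Real.log_pos hN1
  have hp : ∀ p ∈ N.primesBelow, 0 < (1 - (p : ℝ)⁻¹)⁻¹ := by
    intro p hp
    have hpp := Nat.prime_of_mem_primesBelow hp
    have : (p : ℝ)⁻¹ < 1 := inv_lt_one_of_one_lt₀ (by exact_mod_cast hpp.one_lt)
    have : 0 < 1 - (p : ℝ)⁻¹ := by linarith only [this]
    positivity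
  have h3 : Real.log (Real.log N) ≤ ∑ p ∈ N.primesBelow, Real.log ((1 - (p : ℝ)⁻¹)⁻¹) := by
    rw [← Real.log_prod (fun p hp' => (hp p hp').ne')]
    exact Real.log_le_log hlog (h2.trans h1)
  have h4 : ∀ p ∈ N.primesBelow, Real.log ((1 - (p : ℝ)⁻¹)⁻¹) ≤ 1 / (p : ℝ) + (1 / ((p : ℝ) - 1) - 1 / (p : ℝ)) := by
    intro p hp'
    have hpp := Nat.prime_of_mem_primesBelow hp'
    have hp1 : (1 : ℝ) < p := by exact_mod_cast hpp.one_lt
    have h5 := Real.log_le_sub_one_of_pos (hp p hp')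
    have h6 : (1 - (p : ℝ)⁻¹)⁻¹ - 1 = 1 / ((p : ℝ) - 1) := by
      have : (p : ℝ) - 1 ≠ 0 := by linarith only [hp1]
      have h7 : (p : ℝ) ≠ 0 := by linarith only [hp1]
      have h8 : 1 - (p : ℝ)⁻¹ = ((p : ℝ) - 1) / p := by field_simp
      rw [h8, inv_div]
      field_simp
      ring
    linarith only [h5, h6]
  have h5 : ∑ p ∈ N.primesBelow, (1 / ((p : ℝ) - 1) - 1 / (p : ℝ)) ≤ 1 := by
    have hsub : N.primesBelow ⊆ (Finset.range N).filter (fun m => 2 ≤ m) := by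
      intro p hp'
      rw [Finset.mem_filter, Finset.mem_range]
      exact ⟨Nat.lt_of_mem_primesBelow hp', (Nat.prime_of_mem_primesBelow hp').two_le⟩
    have h6 : ∑ p ∈ N.primesBelow, (1 / ((p : ℝ) - 1) - 1 / (p : ℝ)) ≤
        ∑ m ∈ (Finset.range N).filter (fun m => 2 ≤ m), (1 / ((m : ℝ) - 1) - 1 / (m : ℝ)) := by
      apply Finset.sum_le_sum_of_subset_of_nonneg hsub
      intro m hm _
      rw [Finset.mem_filter] at hm
      have : (2 : ℝ) ≤ m := by exact_mod_cast hm.2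
      rw [sub_nonneg]
      apply one_div_le_one_div_of_le <;> linarith only [this]
    refine h6.trans ?_
    have h7 : ∀ M : ℕ, ∑ m ∈ (Finset.range (M + 2)).filter (fun m => 2 ≤ m), (1 / ((m : ℝ) - 1) - 1 / (m : ℝ)) =
        1 - 1 / ((M : ℝ) + 1) := by
      intro M
      induction M with
      | zero =>
        rw [show (Finset.range (0 + 2)).filter (fun m => 2 ≤ m) = ∅ by decide]
        simp
      | succ M ih =>
        rw [show M + 1 + 2 = (M + 2) + 1 from rfl, Finset.range_add_one, Finset.filter_insert, if_pos (by omega),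
          Finset.sum_insert (by simp), ih]
        push_cast
        have : (M : ℝ) + 1 ≠ 0 := by (clear * -; positivity)
        have : (M : ℝ) + 2 ≠ 0 := by (clear * -; positivity)
        have e1 : (M : ℝ) + 2 - 1 = M + 1 := by ring
        have e2 : (M : ℝ) + 1 + 1 = M + 2 := by ring
        rw [e1, e2]
        ring
    obtain ⟨M, rfl⟩ : ∃ M, N = M + 2 := ⟨N - 2, by omega⟩
    rw [h7]
    have : 0 ≤ 1 / ((M : ℝ) + 1) := by (clear * -; positivity)
    linarith only [this]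
  have h6 : ∑ p ∈ N.primesBelow, Real.log ((1 - (p : ℝ)⁻¹)⁻¹) ≤ S N + 1 := by
    refine (Finset.sum_le_sum h4).trans ?_
    rw [Finset.sum_add_distrib, S]
    linarith only [h5]
  linarith only [h3, h6]

/-- the trivial upper bound -/
theorem S_le {M : ℕ} (hM : 2 ≤ M) : S M ≤ 1 + (1 / 2) * Real.log M := by
  have hsub : M.primesBelow ⊆ insert 2 ((Finset.Icc 1 (M / 2)).image (fun k => 2 * k + 1)) := by
    intro p hp
    have h1 := Nat.lt_of_mem_primesBelow hp
    have h2 := Nat.prime_of_mem_primesBelow hp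
    rw [Finset.mem_insert]
    rcases h2.eq_two_or_odd with h | h
    · exact Or.inl h
    · right
      rw [Finset.mem_image]
      have := h2.two_le
      refine ⟨p / 2, ?_, by omega⟩
      rw [Finset.mem_Icc]
      omega
  have h1 : S M ≤ ∑ m ∈ (insert 2 ((Finset.Icc 1 (M / 2)).image (fun k => 2 * k + 1)) : Finset ℕ), 1 / ((m : ℕ) : ℝ) :=
    Finset.sum_le_sum_of_subset_of_nonneg hsub (fun m _ _ => by positivity)
  have h2 : (2 : ℕ) ∉ (Finset.Icc 1 (M / 2)).image (fun k => 2 * k + 1) := by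
    rw [Finset.mem_image]
    rintro ⟨k, -, hk⟩
    omega
  rw [Finset.sum_insert h2, Finset.sum_image (by intro a _ b _ h; simp only at h; omega)] at h1
  have h3 : ∑ k ∈ Finset.Icc 1 (M / 2), 1 / ((2 * k + 1 : ℕ) : ℝ) ≤ ∑ k ∈ Finset.Icc 1 (M / 2), (1 / 2) * ((k : ℝ)⁻¹) := by
    apply Finset.sum_le_sum
    intro k hk
    rw [Finset.mem_Icc] at hk
    have hk1 : (1 : ℝ) ≤ k := by exact_mod_cast hk.1
    push_cast
    rw [show (1 / 2 : ℝ) * (k : ℝ)⁻¹ = 1 / (2 * k) by field_simp]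
    apply one_div_le_one_div_of_le <;> linarith only [hk1]
  have h4 : ∑ k ∈ Finset.Icc 1 (M / 2), ((k : ℝ)⁻¹) ≤ 1 + Real.log M := by
    have h5 := harmonic_le_one_add_log (M / 2)
    rw [harmonic_eq_sum_Icc] at h5
    push_cast at h5
    refine h5.trans ?_
    have h6 : Real.log ((M / 2 : ℕ) : ℝ) ≤ Real.log M := by
      apply Real.log_le_log
      · have : 1 ≤ M / 2 := by omega
        exact_mod_cast this
      · exact_mod_cast Nat.div_le_self M 2
    linarith only [h6]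
  rw [← Finset.mul_sum] at h3
  norm_num only [_root_.Nat.cast_add, _root_.Nat.cast_mul, _root_.one_div] at h1
  have h5 : (1 : ℝ) / 2 = 2⁻¹ := by norm_num
  norm_num only [_root_.Nat.cast_add, _root_.Nat.cast_mul, _root_.one_div] at h3
  linarith

/-- the admissible primes -/
structure Adm (C : ℝ) (n l : ℕ) : Prop where
  prime : l.Prime
  odd : Odd l
  ge : C * (1 + Real.log n) ≤ l
  le : 200 * l ≤ n
  nd : ¬ l ∣ n ∧ ¬ l ∣ (n - 1) / 2 ∧ ¬ l ∣ (n + 1) / 2

theorem card_primeFactors_mul_log {m n : ℕ} (hm : 0 < m) (hmn : m ≤ n) :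
    (m.primeFactors.card : ℝ) * Real.log 2 ≤ Real.log n := by
  have h1 : 2 ^ m.primeFactors.card ≤ m := by
    calc 2 ^ m.primeFactors.card ≤ ∏ p ∈ m.primeFactors, p :=
          Finset.pow_card_le_prod _ _ _ (fun p hp => (Nat.prime_of_mem_primeFactors hp).two_le)
      _ ≤ m := Nat.le_of_dvd hm (Nat.prod_primeFactors_dvd m)
  have h2 : (2 : ℝ) ^ m.primeFactors.card ≤ n := by exact_mod_cast h1.trans hmn
  have h3 := Real.log_le_log (by positivity) h2
  rwa [Real.log_pow] at h3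

theorem bad_le {C : ℝ} (hC : 200 ≤ C) {n m : ℕ} (hm : 0 < m) (hmn : m ≤ n) (X : Finset ℕ)
    (hX : ∀ p ∈ X, p.Prime) :
    ∑ p ∈ X.filter (fun p : ℕ => C * (1 + Real.log n) ≤ (p : ℝ) ∧ p ∣ m), 1 / (p : ℝ) ≤ 1 := by
  have hn1 : (1 : ℝ) ≤ n := by exact_mod_cast (by omega : 1 ≤ n)
  have hlog : 0 ≤ Real.log n := Real.log_nonneg hn1
  have hpos : 0 < C * (1 + Real.log n) := by positivity
  have h1 : ∑ p ∈ X.filter (fun p : ℕ => C * (1 + Real.log n) ≤ (p : ℝ) ∧ p ∣ m), 1 / (p : ℝ) ≤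
      ∑ _p ∈ X.filter (fun p : ℕ => C * (1 + Real.log n) ≤ (p : ℝ) ∧ p ∣ m), 1 / (C * (1 + Real.log n)) := by
    apply Finset.sum_le_sum
    intro p hp
    rw [Finset.mem_filter] at hp
    exact one_div_le_one_div_of_le hpos hp.2.1
  rw [Finset.sum_const, nsmul_eq_mul] at h1
  have h2 : (X.filter (fun p : ℕ => C * (1 + Real.log n) ≤ (p : ℝ) ∧ p ∣ m)).card ≤ m.primeFactors.card := by
    apply Finset.card_le_card
    intro p hp
    rw [Finset.mem_filter] at hp
    exact Nat.mem_primeFactors.2 ⟨hX p hp.1, hp.2.2, by omega⟩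
  have h3 := card_primeFactors_mul_log hm hmn
  have hl2 : (1 / 2 : ℝ) ≤ Real.log 2 := by have := Real.log_two_gt_d9; linarith only [this]
  have h4 : (m.primeFactors.card : ℝ) ≤ 2 * Real.log n := by
    have : (m.primeFactors.card : ℝ) * (1 / 2) ≤ m.primeFactors.card * Real.log 2 :=
      mul_le_mul_of_nonneg_left hl2 (by (clear * -; positivity))
    linarith only [h3, this]
  have h5 : ((X.filter (fun p : ℕ => C * (1 + Real.log n) ≤ (p : ℝ) ∧ p ∣ m)).card : ℝ) ≤ C * (1 + Real.log n) := by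
    have h6 : ((X.filter (fun p : ℕ => C * (1 + Real.log n) ≤ (p : ℝ) ∧ p ∣ m)).card : ℝ) ≤ m.primeFactors.card := by
      exact_mod_cast h2
    nlinarith only [hC, h4, h6]
  refine h1.trans ?_
  rw [mul_one_div]
  exact (div_le_one hpos).2 h5

theorem exists_T (C R : ℝ) (hC : 200 ≤ C) : ∃ N₀ : ℕ, ∀ n : ℕ, N₀ ≤ n → ∃ T : Finset ℕ, (∀ l ∈ T, Adm C n l) ∧
    R ≤ ∑ l ∈ T, 1 / (l : ℝ) := by
  have hlim : Filter.Tendsto (fun n : ℕ => Real.log (Real.log n)) Filter.atTop Filter.atTop :=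
    Real.tendsto_log_atTop.comp (Real.tendsto_log_atTop.comp tendsto_natCast_atTop_atTop)
  obtain ⟨N₀, hN₀⟩ := Filter.eventually_atTop.1
    ((hlim.eventually_ge_atTop (2 * (R + 7) + Real.log (3 * C))).and (Filter.eventually_ge_atTop 40000))
  refine ⟨N₀, fun n hn => ?_⟩
  obtain ⟨h1, h2⟩ := hN₀ n hn
  classical
  set X : Finset ℕ := (n / 200 + 1).primesBelow with hX
  set c : ℝ := C * (1 + Real.log n) with hc
  have hnR : (40000 : ℝ) ≤ n := by exact_mod_cast h2
  have hlog1 : 1 ≤ Real.log n := by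
    rw [Real.le_log_iff_exp_le (by linarith only [hnR])]
    have := Real.exp_one_lt_d9
    linarith only [hnR, this]
  let T : Finset ℕ := X.filter (fun p : ℕ => c ≤ (p : ℝ) ∧ ¬ (p ∣ n ∨ p ∣ (n - 1) / 2 ∨ p ∣ (n + 1) / 2))
  have hcpos : 200 ≤ c := by nlinarith only [hC, hlog1]
  refine ⟨T, ?_, ?_⟩
  · intro l hl
    rw [Finset.mem_filter] at hl
    obtain ⟨hl1, hl2, hl3⟩ := hl
    push Not at hl3
    have hlp := Nat.prime_of_mem_primesBelow hl1
    have hlt := Nat.lt_of_mem_primesBelow hl1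
    have h200 : (200 : ℝ) ≤ l := hcpos.trans hl2
    have h200' : 200 ≤ l := by exact_mod_cast h200
    exact ⟨hlp, hlp.odd_of_ne_two (by omega), hl2, by omega, hl3⟩
  · -- the sums
    have hX' : ∀ p ∈ X, p.Prime := fun p hp => Nat.prime_of_mem_primesBelow hp
    have e1 : S (n / 200 + 1) = ∑ p ∈ X.filter (fun p : ℕ => c ≤ (p : ℝ)), 1 / (p : ℝ) +
        ∑ p ∈ X.filter (fun p : ℕ => ¬ c ≤ (p : ℝ)), 1 / (p : ℝ) := (Finset.sum_filter_add_sum_filter_not _ _ _).symm
    have e2 : ∑ p ∈ X.filter (fun p : ℕ => ¬ c ≤ (p : ℝ)), 1 / (p : ℝ) ≤ S ⌈c⌉₊ := by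
      apply Finset.sum_le_sum_of_subset_of_nonneg
      · intro p hp
        rw [Finset.mem_filter] at hp
        rw [Nat.primesBelow, Finset.mem_filter, Finset.mem_range]
        refine ⟨?_, hX' p hp.1⟩
        rw [Nat.lt_ceil]
        exact not_le.1 hp.2
      · intro p _ _
        (clear * -; positivity)
    have e3 : ∑ p ∈ X.filter (fun p : ℕ => c ≤ (p : ℝ)), 1 / (p : ℝ) ≤ ∑ l ∈ T, 1 / (l : ℝ) + 3 := by
      have hsub : X.filter (fun p : ℕ => c ≤ (p : ℝ)) ⊆ T ∪ ((X.filter (fun p : ℕ => c ≤ (p : ℝ) ∧ p ∣ n)) ∪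
          ((X.filter (fun p : ℕ => c ≤ (p : ℝ) ∧ p ∣ (n - 1) / 2)) ∪ (X.filter (fun p : ℕ => c ≤ (p : ℝ) ∧ p ∣ (n + 1) / 2)))) := by
        intro p hp
        rw [Finset.mem_filter] at hp
        simp only [Finset.mem_union, Finset.mem_filter, T]
        (clear * - hp; tauto)
      have hun : ∀ A B : Finset ℕ, ∑ p ∈ A ∪ B, 1 / (p : ℝ) ≤ ∑ p ∈ A, 1 / (p : ℝ) + ∑ p ∈ B, 1 / (p : ℝ) := by
        intro A B
        rw [← Finset.sum_union_inter]
        have : 0 ≤ ∑ p ∈ A ∩ B, 1 / (p : ℝ) := Finset.sum_nonneg (fun p _ => by (clear * -; positivity))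
        linarith only [this]
      have b1 := bad_le hC (n := n) (m := n) (by omega) le_rfl X hX'
      have b2 := bad_le hC (n := n) (m := (n - 1) / 2) (by omega) (by omega) X hX'
      have b3 := bad_le hC (n := n) (m := (n + 1) / 2) (by omega) (by omega) X hX'
      refine (Finset.sum_le_sum_of_subset_of_nonneg hsub (fun p _ _ => by (clear * -; positivity))).trans ?_
      refine (hun _ _).trans ?_
      have u1 := hun (X.filter (fun p : ℕ => c ≤ (p : ℝ) ∧ p ∣ n))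
          ((X.filter (fun p : ℕ => c ≤ (p : ℝ) ∧ p ∣ (n - 1) / 2)) ∪ (X.filter (fun p : ℕ => c ≤ (p : ℝ) ∧ p ∣ (n + 1) / 2)))
      have u2 := hun (X.filter (fun p : ℕ => c ≤ (p : ℝ) ∧ p ∣ (n - 1) / 2)) (X.filter (fun p : ℕ => c ≤ (p : ℝ) ∧ p ∣ (n + 1) / 2))
      linarith only [b1, b2, b3, u1, u2]
    have hN3 : 3 ≤ n / 200 + 1 := by omega
    have e4 := le_S hN3
    have hceil : (⌈c⌉₊ : ℝ) ≤ c + 1 := (Nat.ceil_lt_add_one (by linarith only [hcpos])).le
    have hceil2 : 2 ≤ ⌈c⌉₊ := by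
      have : (200 : ℝ) ≤ (⌈c⌉₊ : ℝ) := hcpos.trans (Nat.le_ceil c)
      have : 200 ≤ ⌈c⌉₊ := by exact_mod_cast this
      omega
    have e5 := S_le hceil2
    -- asymptotics
    have f1 : Real.log (⌈c⌉₊ : ℝ) ≤ Real.log (3 * C) + Real.log (Real.log n) := by
      rw [← Real.log_mul (by positivity) (by positivity)]
      apply Real.log_le_log
      · have : (2 : ℝ) ≤ (⌈c⌉₊ : ℝ) := by exact_mod_cast hceil2
        linarith only [this]
      · refine hceil.trans ?_
        rw [hc]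
        nlinarith only [hC, hlog1]
    have f2 : Real.log n / 2 ≤ Real.log ((n / 200 + 1 : ℕ) : ℝ) := by
      have g1 : (n : ℝ) / 200 ≤ ((n / 200 + 1 : ℕ) : ℝ) := by
        rw [div_le_iff₀ (by norm_num)]
        have : n ≤ (n / 200 + 1) * 200 := by omega
        exact_mod_cast this
      have g2 : Real.sqrt n ≤ (n : ℝ) / 200 := by
        rw [le_div_iff₀ (by norm_num)]
        have g3 : (200 : ℝ) ≤ Real.sqrt n := by
          rw [show (200 : ℝ) = Real.sqrt (200 ^ 2) by rw [Real.sqrt_sq (by norm_num)]]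
          apply Real.sqrt_le_sqrt
          linarith only [hnR]
        have g4 : Real.sqrt n * Real.sqrt n = n := Real.mul_self_sqrt (by positivity)
        nlinarith only [hnR, g3, g4]
      rw [← Real.log_sqrt (by positivity)]
      apply Real.log_le_log _ (g2.trans g1)
      apply Real.sqrt_pos.2
      linarith only [hnR]
    have f3 : Real.log (Real.log n) - 1 ≤ Real.log (Real.log ((n / 200 + 1 : ℕ) : ℝ)) := by
      have g1 : Real.log (Real.log n / 2) ≤ Real.log (Real.log ((n / 200 + 1 : ℕ) : ℝ)) :=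
        Real.log_le_log (by linarith only [hlog1]) f2
      rw [Real.log_div (by linarith only [hlog1]) (by norm_num)] at g1
      have := Real.log_two_lt_d9
      linarith only [g1, this]
    linarith only [h1, e1, e2, e3, e4, e5, f1, f3]

/-- greedy choice -/
theorem sel (T : Finset ℕ) (c : ℕ) (hc : 1 ≤ c) (hT : ∀ l ∈ T, 1 ≤ l) (K : ℝ) (hK : 0 < K)
    (h : K ≤ ∑ l ∈ T, 1 / ((c * l : ℕ) : ℝ)) : ∃ t : ℕ, K ≤ ∑ l ∈ T.filter (fun l => l < t), 1 / ((c * l : ℕ) : ℝ) ∧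
      ∑ l ∈ T.filter (fun l => l < t), 1 / ((c * l : ℕ) : ℝ) ≤ K + 1 := by
  classical
  have hex : ∃ t : ℕ, K ≤ ∑ l ∈ T.filter (fun l => l < t), 1 / ((c * l : ℕ) : ℝ) := by
    refine ⟨T.sup id + 1, ?_⟩
    have : T.filter (fun l => l < T.sup id + 1) = T := by
      apply Finset.filter_true_of_mem
      intro l hl
      have : l ≤ T.sup id := Finset.le_sup (f := id) hl
      omega
    rw [this]
    exact h
  refine ⟨Nat.find hex, Nat.find_spec hex, ?_⟩
  have h0 : Nat.find hex ≠ 0 := by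
    intro h0
    have := Nat.find_spec hex
    rw [h0] at this
    simp only [_root_.not_lt_zero, _root_.Finset.filter_false, _root_.Nat.cast_mul, _root_.one_div, _root_.mul_inv_rev, _root_.Finset.sum_empty] at this
    linarith only [hK, this]
  obtain ⟨u, hu⟩ : ∃ u, Nat.find hex = u + 1 := ⟨Nat.find hex - 1, by omega⟩
  have h1 : ¬ K ≤ ∑ l ∈ T.filter (fun l => l < u), 1 / ((c * l : ℕ) : ℝ) := Nat.find_min hex (by omega)
  rw [hu]
  have h2 : T.filter (fun l => l < u + 1) ⊆ insert u (T.filter (fun l => l < u)) := by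
    intro l hl
    rw [Finset.mem_filter] at hl
    rw [Finset.mem_insert, Finset.mem_filter]
    rcases Nat.lt_succ_iff_lt_or_eq.1 hl.2 with h | h
    · exact Or.inr ⟨hl.1, h⟩
    · exact Or.inl h
  by_cases huT : u ∈ T
  · have h3 : ∑ l ∈ T.filter (fun l => l < u + 1), 1 / ((c * l : ℕ) : ℝ) ≤
        ∑ l ∈ insert u (T.filter (fun l => l < u)), 1 / ((c * l : ℕ) : ℝ) :=
      Finset.sum_le_sum_of_subset_of_nonneg h2 (fun _ _ _ => by (clear * -; positivity))
    rw [Finset.sum_insert (by simp)] at h3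
    have h4 : 1 / ((c * u : ℕ) : ℝ) ≤ 1 := by
      have : 1 ≤ c * u := Nat.mul_pos hc (hT u huT)
      have : (1 : ℝ) ≤ ((c * u : ℕ) : ℝ) := by exact_mod_cast this
      rw [div_le_one (by linarith only [this])]
      exact this
    linarith only [h1, h3, h4]
  · have h3 : T.filter (fun l => l < u + 1) = T.filter (fun l => l < u) := by
      apply Finset.filter_congr
      intro l hl
      have : l ≠ u := fun h => huT (h ▸ hl)
      omega
    rw [h3]
    linarith only [h1]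

/-- two sets of primes, far apart -/
theorem exists_sets (T : Finset ℕ) (hT : ∀ l ∈ T, 1 ≤ l) (K : ℝ) (hK : 0 < K) (a b : ℕ) (ha : 1 ≤ a) (hb : 1 ≤ b)
    (hs : a * (K + 1) + 16 + b * K ≤ ∑ l ∈ T, 1 / (l : ℝ)) : ∃ P Q : Finset ℕ, P ⊆ T ∧ Q ⊆ T ∧
      (∀ l ∈ P, ∀ l' ∈ Q, 16 * l < l') ∧
      K ≤ ∑ l ∈ P, 1 / ((a * l : ℕ) : ℝ) ∧ ∑ l ∈ P, 1 / ((a * l : ℕ) : ℝ) ≤ K + 1 ∧
      K ≤ ∑ l ∈ Q, 1 / ((b * l : ℕ) : ℝ) ∧ ∑ l ∈ Q, 1 / ((b * l : ℕ) : ℝ) ≤ K + 1 := by
  classical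
  have hscale : ∀ (c : ℕ) (_ : 1 ≤ c) (A : Finset ℕ), ∑ l ∈ A, 1 / (l : ℝ) = c * ∑ l ∈ A, 1 / ((c * l : ℕ) : ℝ) := by
    intro c hc A
    rw [Finset.mul_sum]
    apply Finset.sum_congr rfl
    intro l _
    have hc0 : (c : ℝ) ≠ 0 := by positivity
    push_cast
    by_cases hl : (l : ℝ) = 0
    · rw [hl]; simp
    · field_simp
  have haR : (0 : ℝ) < a := by exact_mod_cast ha
  have hbR : (0 : ℝ) < b := by exact_mod_cast hb
  have h1 : K ≤ ∑ l ∈ T, 1 / ((a * l : ℕ) : ℝ) := by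
    have h := hscale a ha T
    have : (a : ℝ) * K ≤ a * ∑ l ∈ T, 1 / ((a * l : ℕ) : ℝ) := by
      rw [← h]
      nlinarith only [hK, hs]
    exact le_of_mul_le_mul_left this haR
  obtain ⟨t, ht1, ht2⟩ := sel T a ha hT K hK h1
  have ht0 : 1 ≤ t := by
    by_contra h0
    have : t = 0 := by omega
    subst this
    simp only [_root_.not_lt_zero, _root_.Finset.filter_false, _root_.Nat.cast_mul, _root_.one_div, _root_.mul_inv_rev, _root_.Finset.sum_empty] at ht1
    linarith only [hK, ht1]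
  set T' := T.filter (fun l => 16 * t ≤ l) with hT'
  have h2 : ∑ l ∈ T, 1 / (l : ℝ) ≤ ∑ l ∈ T.filter (fun l => l < t), 1 / (l : ℝ) + (16 + ∑ l ∈ T', 1 / (l : ℝ)) := by
    have hsub : T ⊆ T.filter (fun l => l < t) ∪ (T.filter (fun l => t ≤ l ∧ l < 16 * t) ∪ T') := by
      intro l hl
      simp only [Finset.mem_union, Finset.mem_filter, hT']
      have : l < t ∨ (t ≤ l ∧ l < 16 * t) ∨ 16 * t ≤ l := by omega
      (clear * - hl this; tauto)
    have hun : ∀ A B : Finset ℕ, ∑ p ∈ A ∪ B, 1 / (p : ℝ) ≤ ∑ p ∈ A, 1 / (p : ℝ) + ∑ p ∈ B, 1 / (p : ℝ) := by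
      intro A B
      rw [← Finset.sum_union_inter]
      have : 0 ≤ ∑ p ∈ A ∩ B, 1 / (p : ℝ) := Finset.sum_nonneg (fun p _ => by positivity)
      linarith only [this]
    have hmid : ∑ l ∈ T.filter (fun l => t ≤ l ∧ l < 16 * t), 1 / (l : ℝ) ≤ 16 := by
      have htR : (0 : ℝ) < t := by exact_mod_cast ht0
      calc ∑ l ∈ T.filter (fun l => t ≤ l ∧ l < 16 * t), 1 / (l : ℝ)
          ≤ ∑ _l ∈ T.filter (fun l => t ≤ l ∧ l < 16 * t), 1 / (t : ℝ) := by
            apply Finset.sum_le_sum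
            intro l hl
            rw [Finset.mem_filter] at hl
            exact one_div_le_one_div_of_le htR (by exact_mod_cast hl.2.1)
        _ = (T.filter (fun l => t ≤ l ∧ l < 16 * t)).card * (1 / (t : ℝ)) := by rw [Finset.sum_const, nsmul_eq_mul]
        _ ≤ (16 * t : ℕ) * (1 / (t : ℝ)) := by
            apply mul_le_mul_of_nonneg_right _ (by positivity)
            have h3 : T.filter (fun l => t ≤ l ∧ l < 16 * t) ⊆ Finset.range (16 * t) := by
              intro l hl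
              rw [Finset.mem_filter] at hl
              exact Finset.mem_range.2 hl.2.2
            have := Finset.card_le_card h3
            rw [Finset.card_range] at this
            exact_mod_cast this
        _ = 16 := by
            push_cast
            field_simp
    refine (Finset.sum_le_sum_of_subset_of_nonneg hsub (fun _ _ _ => by (clear * -; positivity))).trans ?_
    refine (hun _ _).trans ?_
    have := hun (T.filter (fun l => t ≤ l ∧ l < 16 * t)) T'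
    linarith only [hmid, this]
  have h3 : K ≤ ∑ l ∈ T', 1 / ((b * l : ℕ) : ℝ) := by
    have h4 := hscale a ha (T.filter (fun l => l < t))
    have h5 := hscale b hb T'
    have h6 : (a : ℝ) * ∑ l ∈ T.filter (fun l => l < t), 1 / ((a * l : ℕ) : ℝ) ≤ a * (K + 1) :=
      mul_le_mul_of_nonneg_left ht2 haR.le
    have h7 : (b : ℝ) * K ≤ b * ∑ l ∈ T', 1 / ((b * l : ℕ) : ℝ) := by
      rw [← h5]
      linarith only [hs, h2, h4, h6]
    exact le_of_mul_le_mul_left h7 hbR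
  obtain ⟨u, hu1, hu2⟩ := sel T' b hb (fun l hl => hT l (Finset.mem_filter.1 hl).1) K hK h3
  refine ⟨T.filter (fun l => l < t), T'.filter (fun l => l < u), Finset.filter_subset _ _,
    (Finset.filter_subset _ _).trans (Finset.filter_subset _ _), ?_, ht1, ht2, hu1, hu2⟩
  intro l hl l' hl'
  rw [Finset.mem_filter] at hl hl'
  have := (Finset.mem_filter.1 hl'.1).2
  omega

end Cfsg.Agent.H183.UI
end

-- part: H183/UI/Index
section
/-!
# S5716, task UI: the index sets (helper183)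
-/

set_option autoImplicit false

namespace Cfsg.Agent.H183.UI

open Finset Cfsg.Agent.H141.Ux

/-! ### the numerical conditions -/

theorem four_pow {k : ℕ} (hk : 1 ≤ k) : k ^ 2 ≤ 4 ^ (k - 1) := by
  induction k, hk using Nat.le_induction with
  | base => norm_num
  | succ k hk ih =>
    have e1 : k + 1 - 1 = (k - 1) + 1 := by omega
    rw [e1, pow_succ]
    have : (k + 1) ^ 2 ≤ k ^ 2 * 4 := by nlinarith only [hk]
    exact this.trans (Nat.mul_le_mul_right _ ih)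

theorem two_pow_quart {l : ℕ} (hl : 200 ≤ l) : l ^ 4 * 2 ^ 15 ≤ 2 ^ (l - 1) := by
  induction l, hl using Nat.le_induction with
  | base => norm_num
  | succ l hl ih =>
    have e1 : l + 1 - 1 = (l - 1) + 1 := by omega
    rw [e1, pow_succ]
    have h1 : (l + 1) ^ 4 ≤ l ^ 4 * 2 := by
      have h2 : (l + 1) ^ 2 ≤ l ^ 2 + 3 * l := by linarith only [hl]
      calc (l + 1) ^ 4 = ((l + 1) ^ 2) ^ 2 := by ring
        _ ≤ (l ^ 2 + 3 * l) ^ 2 := Nat.pow_le_pow_left h2 2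
        _ = l ^ 2 * (l ^ 2 + 6 * l + 9) := by ring
        _ ≤ l ^ 2 * (l ^ 2 * 2) := by
          apply Nat.mul_le_mul_left
          nlinarith only [hl]
        _ = l ^ 4 * 2 := by ring
    calc (l + 1) ^ 4 * 2 ^ 15 ≤ l ^ 4 * 2 * 2 ^ 15 := Nat.mul_le_mul_right _ h1
      _ = l ^ 4 * 2 ^ 15 * 2 := by ring
      _ ≤ _ := Nat.mul_le_mul_right _ ih

theorem num_aux {l : ℕ} (hl : 200 ≤ l) : 512 * l ^ 2 * (4 * l + 2) ^ 2 ≤ 2 ^ (l - 1) := by
  have h1 : 4 * l + 2 ≤ 5 * l := by omega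
  calc 512 * l ^ 2 * (4 * l + 2) ^ 2 ≤ 512 * l ^ 2 * (5 * l) ^ 2 :=
        Nat.mul_le_mul_left _ (Nat.pow_le_pow_left h1 2)
    _ = l ^ 4 * 12800 := by ring
    _ ≤ l ^ 4 * 2 ^ 15 := Nat.mul_le_mul_left _ (by norm_num)
    _ ≤ _ := two_pow_quart hl

theorem totient_mul_prime {l c : ℕ} (hl : l.Prime) (ho : Odd l) (hc : c = 1 ∨ c = 2) : (c * l).totient = l - 1 := by
  rcases hc with rfl | rfl
  · rw [one_mul, Nat.totient_prime hl]
  · rw [Nat.totient_mul (Nat.coprime_two_left.2 ho), Nat.totient_two, one_mul, Nat.totient_prime hl]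

theorem num_of {C η : ℝ} (hC : 200 ≤ C) (hη : 0 < η) (hCη : 1 / η ≤ C) {n p f l c : ℕ} (hp : p.Prime) (hf : 1 ≤ f)
    (h : Adm C n l) (hc : c = 1 ∨ c = 2) : Num η n p f (c * l) := by
  have hl1 := h.prime.two_le
  have hn1 : 1 ≤ n := by have := h.le; omega
  have hnR : (1 : ℝ) ≤ n := by exact_mod_cast hn1
  have hlog : 0 ≤ Real.log n := Real.log_nonneg hnR
  have h200 : 200 ≤ l := by
    have h1 : (200 : ℝ) ≤ l := by
      have := h.ge
      nlinarith only [hC, hlog, this]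
    exact_mod_cast h1
  have hlel : l ≤ c * l := Nat.le_mul_of_pos_left _ (by omega)
  have hle2 : c * l ≤ 2 * l := Nat.mul_le_mul_right _ (by omega)
  have hη1 : (1 + Real.log n) ≤ η * (l : ℝ) := by
    have h1 : (1 / η) * (1 + Real.log n) ≤ l := by
      have : (1 / η) * (1 + Real.log n) ≤ C * (1 + Real.log n) := mul_le_mul_of_nonneg_right hCη (by linarith only [hlog])
      exact this.trans h.ge
    have h2 := mul_le_mul_of_nonneg_left h1 hη.le
    have h3 : η * ((1 / η) * (1 + Real.log n)) = 1 + Real.log n := by field_simp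
    linarith only [h2, h3]
  have hclR : (l : ℝ) ≤ ((c * l : ℕ) : ℝ) := by exact_mod_cast hlel
  have hclR0 : (0 : ℝ) < ((c * l : ℕ) : ℝ) := by
    have : (200 : ℝ) ≤ l := by exact_mod_cast h200
    linarith only [hclR, this]
  have hη2 : (1 + Real.log n) ≤ η * ((c * l : ℕ) : ℝ) := hη1.trans (mul_le_mul_of_nonneg_left hclR hη.le)
  have htot := totient_mul_prime h.prime h.odd hc
  have hpf : 2 ≤ p ^ f := by
    calc 2 ≤ p := hp.two_le
      _ = p ^ 1 := (pow_one p).symm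
      _ ≤ p ^ f := Nat.pow_le_pow_right hp.pos hf
  refine ⟨by have := h.le; omega, by omega, ⟨fun hd => h.nd.1 ((Dvd.intro_left c rfl).trans hd),
    fun hd => h.nd.2.1 ((Dvd.intro_left c rfl).trans hd), fun hd => h.nd.2.2 ((Dvd.intro_left c rfl).trans hd)⟩, ?_, ?_, ?_, ?_⟩
  · have h1 : ∑ j ∈ Finset.range n, 1 / (((j + 1) * (c * l) : ℕ) : ℝ) = (harmonic n : ℝ) * (1 / ((c * l : ℕ) : ℝ)) := by
      rw [harmonic_real, Finset.sum_mul]
      apply Finset.sum_congr rfl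
      intro j _
      push_cast
      rw [one_div, one_div, mul_inv]
    rw [h1, mul_one_div, div_le_iff₀ hclR0]
    exact (harmonic_le_one_add_log n).trans hη2
  · rw [inv_le_comm₀ hclR0 hη]
    rw [inv_le_iff_one_le_mul₀' hη]
    linarith only [hlog, hη2]
  · rw [htot]
    calc 16 * (c * l) * (2 * (c * l) + 2) ^ 2 ≤ 16 * (2 * l) * (2 * (2 * l) + 2) ^ 2 := by
          apply Nat.mul_le_mul (Nat.mul_le_mul_left _ hle2)
          apply Nat.pow_le_pow_left
          omega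
      _ = 32 * l * (4 * l + 2) ^ 2 := by ring
      _ ≤ 512 * l ^ 2 * (4 * l + 2) ^ 2 := by
          apply Nat.mul_le_mul_right
          nlinarith only []
      _ ≤ 2 ^ (l - 1) := num_aux h200
      _ ≤ _ := Nat.pow_le_pow_left hpf _
  · have hk1 : 1 ≤ f.totient := Nat.totient_pos.2 hf
    have hfk : f ≤ 2 * f.totient ^ 2 := Cfsg.Agent.H365.Zsig.le_two_mul_totient_sq hf
    have hsm : (l - 1) * f.totient ≤ (c * l * f).totient := by
      have := Nat.totient_super_multiplicative (c * l) f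
      rwa [htot] at this
    set k := f.totient with hk
    have hA := num_aux h200
    have hA4 : 4 ≤ 2 ^ (l - 1) := by
      calc 4 = 2 ^ 2 := by norm_num
        _ ≤ 2 ^ (l - 1) := Nat.pow_le_pow_right (by norm_num) (by omega)
    calc 64 * (c * l * f) * (2 * (c * l) + 2) ^ 2 * (c * l)
        ≤ 64 * (2 * l * (2 * k ^ 2)) * (2 * (2 * l) + 2) ^ 2 * (2 * l) := by
          apply Nat.mul_le_mul _ hle2
          apply Nat.mul_le_mul
          · apply Nat.mul_le_mul_left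
            exact Nat.mul_le_mul hle2 hfk
          · apply Nat.pow_le_pow_left
            omega
      _ = (512 * l ^ 2 * (4 * l + 2) ^ 2) * k ^ 2 := by ring
      _ ≤ 2 ^ (l - 1) * (2 ^ (l - 1)) ^ (k - 1) := by
          apply Nat.mul_le_mul hA
          exact (four_pow hk1).trans (Nat.pow_le_pow_left hA4 _)
      _ = 2 ^ ((l - 1) * k) := by
          rw [← pow_succ', Nat.sub_add_cancel hk1, ← pow_mul]
      _ ≤ 2 ^ (c * l * f).totient := Nat.pow_le_pow_right (by norm_num) hsm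
      _ ≤ _ := Nat.pow_le_pow_left hp.two_le _

/-- **UI** -/
theorem ui : UI := by
  classical
  intro K η a b hη hK hab
  set C : ℝ := max 200 (1 / η) with hC
  have hC1 : 200 ≤ C := le_max_left _ _
  have hC2 : 1 / η ≤ C := le_max_right _ _
  have ha : a = 1 ∨ a = 2 := by omega
  have hb : b = 1 ∨ b = 2 := by omega
  obtain ⟨N₀, hN₀⟩ := exists_T C (a * (K + 1) + 16 + b * K) hC1
  refine ⟨N₀, fun n p f hn hp hf => ?_⟩
  obtain ⟨T, hT, hsum⟩ := hN₀ n hn
  obtain ⟨P, Q, hPT, hQT, hPQ, h1, h2, h3, h4⟩ := exists_sets T (fun l hl => (hT l hl).prime.one_lt.le) K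
    (by linarith only [hK]) a b (by omega) (by omega) hsum
  have himg : ∀ (c : ℕ) (_ : 1 ≤ c) (A : Finset ℕ), ∑ e ∈ A.image (fun l => c * l), 1 / (e : ℝ) =
      ∑ l ∈ A, 1 / ((c * l : ℕ) : ℝ) := by
    intro c hc A
    rw [Finset.sum_image]
    intro x _ y _ hxy
    exact Nat.eq_of_mul_eq_mul_left hc hxy
  refine ⟨P.image (fun l => a * l), Q.image (fun l => b * l), ?_, ?_, ?_, ?_, ?_⟩
  · intro e he
    rw [Finset.mem_union, Finset.mem_image, Finset.mem_image] at he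
    rcases he with ⟨l, hl, rfl⟩ | ⟨l, hl, rfl⟩
    · exact num_of hC1 hη hC2 hp hf (hT l (hPT hl)) ha
    · exact num_of hC1 hη hC2 hp hf (hT l (hQT hl)) hb
  · intro e he
    obtain ⟨l, hl, rfl⟩ := Finset.mem_image.1 he
    exact ⟨l, (hT l (hPT hl)).prime, (hT l (hPT hl)).odd, rfl⟩
  · intro e he
    obtain ⟨l, hl, rfl⟩ := Finset.mem_image.1 he
    exact ⟨l, (hT l (hQT hl)).prime, (hT l (hQT hl)).odd, rfl⟩
  · intro e he d hd
    obtain ⟨l', hl', rfl⟩ := Finset.mem_image.1 he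
    obtain ⟨l, hl, rfl⟩ := Finset.mem_image.1 hd
    have hlt := hPQ l hl l' hl'
    have hpl := (hT l (hPT hl)).prime
    have hpl' := (hT l' (hQT hl')).prime
    have hol := (hT l (hPT hl)).odd
    have hol' := (hT l' (hQT hl')).odd
    have hcop : Nat.Coprime l' l := (Nat.coprime_primes hpl' hpl).2 (by omega)
    rcases hab with ⟨rfl, rfl⟩ | ⟨rfl, rfl⟩
    · refine ⟨by omega, ?_⟩
      rw [if_pos rfl, one_mul]
      exact Nat.Coprime.mul_left (Nat.coprime_two_left.2 hol) hcop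
    · refine ⟨by omega, ?_⟩
      rw [if_neg (by norm_num), one_mul]
      have h2' : Nat.Coprime l' 2 := Nat.coprime_two_right.2 hol'
      exact h2'.mul_right (h2'.mul_right hcop)
  · rw [himg a (by omega), himg b (by omega)]
    exact ⟨h1, h2, h3, h4⟩

end Cfsg.Agent.H183.UI
end

private theorem dce_ce2c9a8ca884 : _root_.True := by
  try have : _root_.True := by simp only [_root_.Cfsg.Agent.H994.Ux.Lift.Qt.eq_1]
  try have : _root_.True := by simp only [_root_.Cfsg.Agent.H183.UI.S.eq_1]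
  exact _root_.True.intro
end

-- part: H847/Ux/Norm
section
prune_inst 0x3470550075e20200001805944320002078000002004084002c2307060349006289c2a8410a802515522698010805002813000020424001c00e200000000600000000160431000100200098000208210000001800300000000000000000000000200000000
set_option linter.all false
open scoped Cfsg.Agent.FastGrp

/-!
# S5716, unbounded rank: norm counts and orbits of pairs (helper847)

`Kl Φ G N` : `G = Sp(V)`, `SU(V)`, `Ω(V)` with its form `Φ`; `N` the number of norms of vectors (`1`, `r`, `q`).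

* `n1`, `n2` : the number of vectors of a given norm in a subspace, in a coset (upper bounds);
* `witt` : Witt's theorem for families (`n3` for pairs);
* `n4`, `n4'` : lower bounds for the lengths of orbits of vectors and pairs.
-/

set_option autoImplicit false
set_option linter.unusedSectionVars false

namespace Cfsg.Agent.H847.Ux

open Module QuadraticMap Cfsg.Agent.LieClassical.OrthCore Cfsg.Agent.LieClassical.OrthTrans
open Cfsg.Agent.LieClassical.OrthFinite Cfsg.Agent.H847.Bs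

variable {F V : Type*} [Field F] [AddCommGroup V] [Module F V]

/-- `G` is the group `Sp(V)`, `SU(V)` or `Ω(V)` of the form `Φ`; `N` is the number of norms -/
def Kl (Φ : Frm F V) (G : Subgroup (V ≃ₗ[F] V)) (N : ℕ) : Prop :=
  (IsSp Φ ∧ G = Φ.Iso ∧ N = 1) ∨ (∃ r, IsHerm r Φ ∧ G = Φ.Iso ⊓ slV F V ∧ N = r) ∨
    (∃ Q : QuadraticForm F V, (frmQ Q).Nd ∧ Φ = frmQ Q ∧ G = E Q ∧ N = Nat.card F)

/-! ### double counting along lines -/

/-- double counting along the lines in the direction `ρ` -/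
theorem dc [Finite F] [Finite V] (ρ : V) (T S : Set V) (hT : ∀ w ∈ T, ∀ t : F, w + t • ρ ∈ T) [Fintype {w // w ∈ T}] :
    Nat.card F * Nat.card {w // w ∈ T ∧ w ∈ S} = ∑ w : {w // w ∈ T}, Nat.card {t : F // (w : V) + t • ρ ∈ S} := by
  have e1 : F × {w // w ∈ T ∧ w ∈ S} ≃ {p : V × F // p.1 ∈ T ∧ p.1 + p.2 • ρ ∈ S} :=
    { toFun := fun p => ⟨(p.2.1 + (-p.1) • ρ, p.1), hT _ p.2.2.1 _, by
        show p.2.1 + (-p.1) • ρ + p.1 • ρ ∈ S
        have : p.2.1 + (-p.1) • ρ + p.1 • ρ = p.2.1 := by module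
        rw [this]; exact p.2.2.2⟩
      invFun := fun p => (p.1.2, ⟨p.1.1 + p.1.2 • ρ, hT _ p.2.1 _, p.2.2⟩)
      left_inv := fun p => by
        refine Prod.ext rfl (Subtype.ext ?_)
        show p.2.1 + (-p.1) • ρ + p.1 • ρ = p.2.1
        module
      right_inv := fun p => by
        refine Subtype.ext (Prod.ext ?_ rfl)
        show p.1.1 + p.1.2 • ρ + (-p.1.2) • ρ = p.1.1
        module }
  have e2 : {p : V × F // p.1 ∈ T ∧ p.1 + p.2 • ρ ∈ S} ≃ Σ w : {w // w ∈ T}, {t : F // (w : V) + t • ρ ∈ S} :=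
    { toFun := fun p => ⟨⟨p.1.1, p.2.1⟩, ⟨p.1.2, p.2.2⟩⟩
      invFun := fun s => ⟨(s.1.1, s.2.1), s.1.2, s.2.2⟩
      left_inv := fun _ => rfl
      right_inv := fun _ => rfl }
  rw [← Nat.card_prod, Nat.card_congr (e1.trans e2), Nat.card_sigma]

theorem dc_le [Finite F] [Finite V] (ρ : V) (T S : Set V) (hT : ∀ w ∈ T, ∀ t : F, w + t • ρ ∈ T) (N k : ℕ)
    (h : ∀ w ∈ T, N * Nat.card {t : F // w + t • ρ ∈ S} ≤ k * Nat.card F) :
    N * Nat.card {w // w ∈ T ∧ w ∈ S} ≤ k * Nat.card {w // w ∈ T} := by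
  classical
  have := Fintype.ofFinite {w // w ∈ T}
  have h1 := dc (F := F) ρ T S hT
  have h2 : N * ∑ w : {w // w ∈ T}, Nat.card {t : F // (w : V) + t • ρ ∈ S} ≤
      k * Nat.card F * Nat.card {w // w ∈ T} := by
    rw [Finset.mul_sum]
    refine (Finset.sum_le_card_nsmul _ _ (k * Nat.card F) fun (w : {w // w ∈ T}) _ => h w.1 w.2).trans ?_
    rw [Finset.card_univ, Nat.card_eq_fintype_card (α := {w // w ∈ T}), smul_eq_mul, mul_comm]
  rw [← h1] at h2
  have h3 : 0 < Nat.card F := Nat.card_pos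
  refine Nat.le_of_mul_le_mul_left ?_ h3
  calc Nat.card F * (N * Nat.card {w // w ∈ T ∧ w ∈ S}) = N * (Nat.card F * Nat.card {w // w ∈ T ∧ w ∈ S}) := by ring
    _ ≤ _ := h2
    _ = _ := by ring

theorem dc_ge [Finite F] [Finite V] (ρ : V) (T S : Set V) (hT : ∀ w ∈ T, ∀ t : F, w + t • ρ ∈ T) (N : ℕ)
    (h : ∀ w ∈ T, Nat.card F ≤ N * Nat.card {t : F // w + t • ρ ∈ S}) :
    Nat.card {w // w ∈ T} ≤ N * Nat.card {w // w ∈ T ∧ w ∈ S} := by
  classical
  have := Fintype.ofFinite {w // w ∈ T}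
  have h1 := dc (F := F) ρ T S hT
  have h2 : Nat.card F * Nat.card {w // w ∈ T} ≤ N * ∑ w : {w // w ∈ T}, Nat.card {t : F // (w : V) + t • ρ ∈ S} := by
    rw [Finset.mul_sum]
    refine le_trans ?_ (Finset.card_nsmul_le_sum _ _ (Nat.card F) fun (w : {w // w ∈ T}) _ => h w.1 w.2)
    rw [Finset.card_univ, Nat.card_eq_fintype_card (α := {w // w ∈ T}), smul_eq_mul, mul_comm]
  rw [← h1] at h2
  have h3 : 0 < Nat.card F := Nat.card_pos
  refine Nat.le_of_mul_le_mul_left ?_ h3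
  calc Nat.card F * Nat.card {w // w ∈ T} ≤ _ := h2
    _ = _ := by ring

/-! ### roots of polynomials -/

theorem card_roots_le [Finite F] (p : Polynomial F) (hp : p ≠ 0) (S : Set F) (h : ∀ t ∈ S, p.eval t = 0) :
    Nat.card {t : F // t ∈ S} ≤ p.natDegree := by
  classical
  have h1 : Nat.card {t : F // t ∈ S} ≤ Nat.card {t : F // t ∈ p.roots.toFinset} := by
    refine Nat.card_mono (Set.toFinite _) ?_
    intro t ht
    show t ∈ p.roots.toFinset
    rw [Multiset.mem_toFinset, Polynomial.mem_roots hp]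
    exact h t ht
  refine h1.trans ?_
  rw [Nat.card_eq_fintype_card, Fintype.card_coe]
  exact (Multiset.toFinset_card_le _).trans (Polynomial.card_roots' p)

section herm

open Cfsg.Agent.LieClassical.HermBasic

variable {r : ℕ}

theorem card_trace_zero [Fintype F] (hF : Fintype.card F = r ^ 2) : Nat.card {x : F // x + x ^ r = 0} = r := by
  obtain ⟨c0, hc0, hc⟩ := exists_trace_zero_ne hF
  have hcq : c0 ^ r = -c0 := by linear_combination hc
  refine (Nat.card_congr ?_).trans (card_fixed hF)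
  exact
    { toFun := fun x => ⟨c0⁻¹ * x.1, by
        have h1 : x.1 ^ r = -x.1 := by linear_combination x.2
        rw [mul_pow, inv_pow, hcq, h1, inv_neg, neg_mul_neg]⟩
      invFun := fun x => ⟨c0 * x.1, by rw [mul_pow, hcq, x.2]; ring⟩
      left_inv := fun x => Subtype.ext (mul_inv_cancel_left₀ hc0 _)
      right_inv := fun x => Subtype.ext (inv_mul_cancel_left₀ hc0 _) }

theorem card_trace_eq [Fintype F] (hF : Fintype.card F = r ^ 2) {t : F} (ht : t ^ r = t) :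
    Nat.card {x : F // x + x ^ r = t} = r := by
  obtain ⟨y, hy⟩ := exists_trace_eq hF ht
  refine (Nat.card_congr ?_).trans (card_trace_zero hF)
  exact
    { toFun := fun x => ⟨x.1 - y, by rw [sub_pow_q hF]; linear_combination x.2 - hy⟩
      invFun := fun x => ⟨x.1 + y, by rw [add_pow_q hF]; linear_combination x.2 + hy⟩
      left_inv := fun x => Subtype.ext (sub_add_cancel _ _)
      right_inv := fun x => Subtype.ext (add_sub_cancel_right _ _) }

end herm

/-! ### norms along a line -/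

theorem herm_line {Φ : Frm F V} {r : ℕ} (h : IsHerm r Φ) (w ρ : V) (t : F) :
    Φ.B (w + t • ρ) (w + t • ρ) = Φ.B ρ ρ * t ^ (r + 1) + Φ.B w ρ * t ^ r + Φ.B ρ w * t + Φ.B w w := by
  rw [Φ.add_left, Φ.add_right, Φ.add_right, Φ.smul_left, Φ.smul_left, Φ.smul_right, Φ.smul_right, h.s]
  ring

theorem polar_self_eq {Q : QuadraticForm F V} (x : V) : polar Q x x = 2 * Q x := by
  rw [polar, ← two_smul F x, QuadraticMap.map_smul, smul_eq_mul]
  ring

/-- upper bound for the number of vectors of a given norm on a line with nonsingular direction -/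
theorem line_le [Finite F] {Φ : Frm F V} {G : Subgroup (V ≃ₗ[F] V)} {N : ℕ} (h : Kl Φ G N) {ρ : V}
    (hρ : N = 1 ∨ Φ.B ρ ρ ≠ 0 ∨ Φ.q ρ ≠ 0) (a c : F) (w : V) :
    N * Nat.card {t : F // w + t • ρ ∈ {v : V | Φ.B v v = a ∧ Φ.q v = c}} ≤ 2 * Nat.card F := by
  have := Fintype.ofFinite F
  rcases h with ⟨h, -, rfl⟩ | ⟨r, h, -, rfl⟩ | ⟨Q, h, rfl, -, rfl⟩
  · rw [one_mul]
    exact (Finite.card_subtype_le _).trans (Nat.le_mul_of_pos_left _ two_pos)
  · have hc : Nat.card F = N ^ 2 := h.card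
    have hF : Fintype.card F = N ^ 2 := by rw [← Nat.card_eq_fintype_card]; exact hc
    have h2 : 2 ≤ N := Cfsg.Agent.LieClassical.HermBasic.two_le hF
    have hρ' : Φ.B ρ ρ ≠ 0 := by
      rcases hρ with h1 | h1 | h1
      · omega
      · exact h1
      · exact absurd (h.q ρ) h1
    let p : Polynomial F := Polynomial.C (Φ.B ρ ρ) * Polynomial.X ^ (N + 1) + Polynomial.C (Φ.B w ρ) * Polynomial.X ^ N +
      Polynomial.C (Φ.B ρ w) * Polynomial.X + Polynomial.C (Φ.B w w - a)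
    have hp : p ≠ 0 := by
      intro h0
      have : p.coeff (N + 1) = 0 := by rw [h0, Polynomial.coeff_zero]
      apply hρ'
      simpa [p, Polynomial.coeff_X, Polynomial.coeff_C, show (1 : ℕ) ≠ N + 1 by omega, show N ≠ 0 by omega,
        Polynomial.coeff_X_pow] using this
    have hdeg : p.natDegree ≤ N + 1 := by
      refine Polynomial.natDegree_add_le_of_degree_le (Polynomial.natDegree_add_le_of_degree_le
        (Polynomial.natDegree_add_le_of_degree_le (Polynomial.natDegree_C_mul_X_pow_le _ _)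
          ((Polynomial.natDegree_C_mul_X_pow_le _ _).trans (by omega)))
        ((Polynomial.natDegree_C_mul_le _ _).trans (Polynomial.natDegree_X_le.trans (by omega)))) (by rw [Polynomial.natDegree_C]; omega)
    have h3 := card_roots_le p hp {t : F | w + t • ρ ∈ {v : V | Φ.B v v = a ∧ Φ.q v = c}} (by
      rintro t ⟨ht, -⟩
      rw [herm_line h] at ht
      simp only [p, Polynomial.eval_add, Polynomial.eval_mul, Polynomial.eval_C, Polynomial.eval_pow,
        Polynomial.eval_X]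
      linear_combination ht)
    have h4 : N * Nat.card {t : F // w + t • ρ ∈ {v : V | Φ.B v v = a ∧ Φ.q v = c}} ≤ N * (N + 1) :=
      Nat.mul_le_mul_left _ (h3.trans hdeg)
    refine h4.trans ?_
    rw [hc]
    nlinarith
  · have hρ' : Q ρ ≠ 0 := by
      rcases hρ with h1 | h1 | h1
      · exact absurd h1 (ne_of_gt Finite.one_lt_card)
      · intro h0
        apply h1
        show polar Q ρ ρ = 0
        rw [polar_self_eq, h0, mul_zero]
      · exact h1
    let p : Polynomial F := Polynomial.C (Q ρ) * Polynomial.X ^ 2 + Polynomial.C (polar Q w ρ) * Polynomial.X +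
      Polynomial.C (Q w - c)
    have hp : p ≠ 0 := by
      intro h0
      have : p.coeff 2 = 0 := by rw [h0, Polynomial.coeff_zero]
      apply hρ'
      simpa [p, Polynomial.coeff_X, Polynomial.coeff_C, Polynomial.coeff_X_pow] using this
    have hdeg : p.natDegree ≤ 2 := by
      refine Polynomial.natDegree_add_le_of_degree_le
        (Polynomial.natDegree_add_le_of_degree_le (Polynomial.natDegree_C_mul_X_pow_le _ _)
          ((Polynomial.natDegree_C_mul_le _ _).trans (Polynomial.natDegree_X_le.trans (by omega)))) (by rw [Polynomial.natDegree_C]; omega)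
    have h3 := card_roots_le p hp {t : F | w + t • ρ ∈ {v : V | (frmQ Q).B v v = a ∧ (frmQ Q).q v = c}} (by
      rintro t ⟨-, ht⟩
      have ht' : Q (w + t • ρ) = c := ht
      rw [Q_add, QuadraticMap.map_smul, polar_smul_right, smul_eq_mul, smul_eq_mul] at ht'
      simp only [p, Polynomial.eval_add, Polynomial.eval_mul, Polynomial.eval_C, Polynomial.eval_pow,
        Polynomial.eval_X]
      linear_combination ht')
    rw [mul_comm]
    exact Nat.mul_le_mul_right _ (h3.trans hdeg)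

/-- lower bound for the number of vectors of a given norm on a line with singular direction -/
theorem line_ge [Finite F] {Φ : Frm F V} {G : Subgroup (V ≃ₗ[F] V)} {N : ℕ} (h : Kl Φ G N) {e : V}
    (he : Φ.B e e = 0) (he' : Φ.q e = 0) (v w : V) (hw : Φ.B w e ≠ 0) :
    Nat.card F ≤ N * Nat.card {t : F // w + t • e ∈ {x : V | Φ.B x x = Φ.B v v ∧ Φ.q x = Φ.q v}} := by
  have := Fintype.ofFinite F
  rcases h with ⟨h, -, rfl⟩ | ⟨r, h, -, rfl⟩ | ⟨Q, h, rfl, -, rfl⟩
  · rw [one_mul]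
    refine le_of_eq (Nat.card_congr (Equiv.subtypeUnivEquiv fun t => ?_)).symm
    exact ⟨by rw [h.alt, h.alt], by rw [h.q, h.q]⟩
  · have hc : Nat.card F = N ^ 2 := h.card
    have hF : Fintype.card F = N ^ 2 := by rw [← Nat.card_eq_fintype_card]; exact hc
    have hβ : Φ.B e w ≠ 0 := fun h0 => hw (Φ.refl _ _ h0)
    have h1 : Nat.card {x : F // x + x ^ N = Φ.B v v - Φ.B w w} = N := by
      refine card_trace_eq hF ?_
      rw [Cfsg.Agent.LieClassical.HermBasic.sub_pow_q hF, ← h.symm, ← h.symm]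
    have h2 : Nat.card {x : F // x + x ^ N = Φ.B v v - Φ.B w w} =
        Nat.card {t : F // w + t • e ∈ {x : V | Φ.B x x = Φ.B v v ∧ Φ.q x = Φ.q v}} := by
      refine Nat.card_congr
        { toFun := fun x => ⟨(Φ.B e w)⁻¹ * x.1, ?_, by rw [h.q, h.q]⟩
          invFun := fun t => ⟨Φ.B e w * t.1, ?_⟩
          left_inv := fun x => Subtype.ext (mul_inv_cancel_left₀ hβ _)
          right_inv := fun x => Subtype.ext (inv_mul_cancel_left₀ hβ _) }
      · have hx := x.2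
        rw [herm_line h, he, h.symm e w, ← mul_pow, mul_inv_cancel_left₀ hβ]
        linear_combination hx
      · have ht := t.2.1
        rw [herm_line h, he, h.symm e w] at ht
        rw [mul_pow]
        linear_combination ht
    rw [← h2, h1, hc, pow_two]
  · have hβ : polar Q w e ≠ 0 := hw
    have he0 : Q e = 0 := he'
    have h1 : 1 ≤ Nat.card {t : F // w + t • e ∈ {x : V | (frmQ Q).B x x = (frmQ Q).B v v ∧
        (frmQ Q).q x = (frmQ Q).q v}} := by
      rw [Nat.one_le_iff_ne_zero, Nat.card_ne_zero]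
      refine ⟨⟨(polar Q w e)⁻¹ * (Q v - Q w), ?_⟩, inferInstance⟩
      have h2 : Q (w + ((polar Q w e)⁻¹ * (Q v - Q w)) • e) = Q v := by
        rw [Q_add, QuadraticMap.map_smul, he0, polar_smul_right, smul_zero, smul_eq_mul, mul_right_comm,
          inv_mul_cancel₀ hβ]
        ring
      refine ⟨?_, h2⟩
      show polar Q _ _ = polar Q v v
      rw [polar_self_eq, polar_self_eq, h2]
    exact Nat.le_mul_of_pos_right _ h1

/-! ### upper bounds -/

/-- a nondegenerate nonzero subspace contains a nonsingular vector -/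
theorem exists_nonsing [Finite F] {Φ : Frm F V} {G : Subgroup (V ≃ₗ[F] V)} {N : ℕ} (h : Kl Φ G N)
    {D : Submodule F V} (hD : Φ.NdOn D) (hD0 : D ≠ ⊥) : ∃ ρ ∈ D, N = 1 ∨ Φ.B ρ ρ ≠ 0 ∨ Φ.q ρ ≠ 0 := by
  obtain ⟨x, hx, hx0⟩ := Submodule.exists_mem_ne_zero_of_ne_bot hD0
  rcases h with ⟨h, -, rfl⟩ | ⟨r, h, -, rfl⟩ | ⟨Q, h, rfl, -, rfl⟩
  · exact ⟨x, hx, Or.inl rfl⟩
  · obtain ⟨ρ, hρD, hρ⟩ := Cfsg.Agent.H42.Bs.exists_nonisotropic h hD hD0
    exact ⟨ρ, hρD, Or.inr (Or.inl hρ)⟩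
  · have h1 : ∃ y ∈ D, polar Q x y ≠ 0 := by
      by_contra hcon
      push Not at hcon
      exact hx0 (hD x hx hcon)
    obtain ⟨y, hy, hxy⟩ := h1
    by_cases h2 : Q x = 0
    · by_cases h3 : Q y = 0
      · refine ⟨x + y, D.add_mem hx hy, Or.inr (Or.inr ?_)⟩
        show Q (x + y) ≠ 0
        rw [Q_add, h2, h3, zero_add, zero_add]
        exact hxy
      · exact ⟨y, hy, Or.inr (Or.inr h3)⟩
    · exact ⟨x, hx, Or.inr (Or.inr h2)⟩

/-- **(N1)** the number of vectors of a given norm in a nondegenerate subspace -/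
theorem n1 [Finite F] [Finite V] {Φ : Frm F V} {G : Subgroup (V ≃ₗ[F] V)} {N : ℕ} (h : Kl Φ G N)
    (D : Submodule F V) (hD : Φ.NdOn D) (hD0 : D ≠ ⊥) (a c : F) :
    N * Nat.card {w : V // w ∈ D ∧ Φ.B w w = a ∧ Φ.q w = c} ≤ 2 * Nat.card D := by
  obtain ⟨ρ, hρD, hρ⟩ := exists_nonsing h hD hD0
  exact dc_le (F := F) ρ (D : Set V) {v : V | Φ.B v v = a ∧ Φ.q v = c}
    (fun w hw t => D.add_mem hw (D.smul_mem _ hρD)) N 2 fun w _ => line_le h hρ a c w

/-- (N1) in a coset of a subspace containing a nonsingular vector -/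
theorem n2q [Finite F] [Finite V] {Φ : Frm F V} {G : Subgroup (V ≃ₗ[F] V)} {N : ℕ} (h : Kl Φ G N)
    (R : Submodule F V) {ρ : V} (hρR : ρ ∈ R) (hρ : N = 1 ∨ Φ.B ρ ρ ≠ 0 ∨ Φ.q ρ ≠ 0) (w₀ : V) (a c : F) :
    N * Nat.card {w : V // w - w₀ ∈ R ∧ Φ.B w w = a ∧ Φ.q w = c} ≤ 2 * Nat.card R := by
  have h1 := dc_le (F := F) ρ {w : V | w - w₀ ∈ R} {v : V | Φ.B v v = a ∧ Φ.q v = c}
    (fun w hw t => by
      show w + t • ρ - w₀ ∈ R
      rw [add_sub_right_comm]
      exact R.add_mem hw (R.smul_mem _ hρR)) N 2 fun w _ => line_le h hρ a c w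
  have h2 : Nat.card {w : V // w ∈ {w : V | w - w₀ ∈ R}} = Nat.card R := by
    refine Nat.card_congr ((Equiv.subRight w₀).subtypeEquiv fun w => ?_)
    rfl
  rw [h2] at h1
  exact h1

/-- `B v v` determines `q v` if some vector is not isotropic -/
theorem q_of_B [Finite F] {Φ : Frm F V} {G : Subgroup (V ≃ₗ[F] V)} {N : ℕ} (h : Kl Φ G N) {ρ : V}
    (hρ : Φ.B ρ ρ ≠ 0) (a : F) : ∃ c, ∀ w, Φ.B w w = a → Φ.q w = c := by
  rcases h with ⟨h, -, rfl⟩ | ⟨r, h, -, rfl⟩ | ⟨Q, h, rfl, -, rfl⟩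
  · exact absurd (h.alt ρ) hρ
  · exact ⟨0, fun w _ => h.q w⟩
  · have h2 : (2 : F) ≠ 0 := by
      intro h0
      apply hρ
      show polar Q ρ ρ = 0
      rw [polar_self_eq, h0, zero_mul]
    refine ⟨a / 2, fun w hw => ?_⟩
    have hw' : polar Q w w = a := hw
    rw [polar_self_eq] at hw'
    show Q w = a / 2
    rw [← hw', mul_div_cancel_left₀ _ h2]

/-- **(N2)** -/
theorem n2 [Finite F] [Finite V] {Φ : Frm F V} {G : Subgroup (V ≃ₗ[F] V)} {N : ℕ} (h : Kl Φ G N)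
    (R : Submodule F V) (hR : ∃ ρ ∈ R, Φ.B ρ ρ ≠ 0) (w₀ : V) (a : F) :
    N * Nat.card {w : V // w - w₀ ∈ R ∧ Φ.B w w = a} ≤ 2 * Nat.card R := by
  obtain ⟨ρ, hρR, hρ⟩ := hR
  obtain ⟨c, hc⟩ := q_of_B h hρ a
  refine le_trans (Nat.mul_le_mul_left _ ?_) (n2q h R hρR (Or.inr (Or.inl hρ)) w₀ a c)
  exact Nat.card_mono (Set.toFinite _) fun w hw => ⟨hw.1, hw.2, hc w hw.2⟩

/-! ### Witt's theorem -/

/-- **Witt's theorem for families** -/
theorem witt [Finite F] [Finite V] {Φ : Frm F V} {G : Subgroup (V ≃ₗ[F] V)} {N : ℕ} (h : Kl Φ G N) {k : ℕ}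
    (hn : 2 * k + 3 ≤ finrank F V) (h5 : 5 ≤ finrank F V) {u u' : Fin k → V} (hu : LinearIndependent F u)
    (hu' : LinearIndependent F u') (h1 : ∀ i j, Φ.B (u i) (u j) = Φ.B (u' i) (u' j))
    (h2 : ∀ i, Φ.q (u i) = Φ.q (u' i)) : ∃ g ∈ G, ∀ i, g (u i) = u' i := by
  have := Fintype.ofFinite F
  have : FiniteDimensional F V := Module.finite_of_finrank_pos (by omega)
  rcases h with ⟨h, rfl, rfl⟩ | ⟨r, h, rfl, rfl⟩ | ⟨Q, h, rfl, rfl, rfl⟩
  · let B : LinearMap.BilinForm F V := LinearMap.mk₂ F Φ.B Φ.add_left Φ.smul_left Φ.add_right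
      (fun c x y => by rw [Φ.smul_right, h.s, smul_eq_mul])
    have hB : Cfsg.Agent.H91.Symp.SForm B :=
      { nd := ⟨fun x hx => h.nd x hx, fun x hx => h.nd x fun y => Φ.refl _ _ (hx y)⟩
        alt := h.alt }
    obtain ⟨g, hg, hgu⟩ := Cfsg.Agent.H91.Symp.witt_family hB hu hu' h1
    exact ⟨g, ⟨fun x y => hg x y, fun x => by rw [h.q, h.q]⟩, hgu⟩
  · have hF : Fintype.card F = N ^ 2 := by rw [← Nat.card_eq_fintype_card]; exact h.card
    obtain ⟨g, hg, hd, hgu⟩ := Cfsg.Agent.H450.UF.witt_su_small (Cfsg.Agent.H450.Bs.hform_toB hF h) hu hu'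
      (fun i j => h1 j i) (by rw [Fintype.card_fin]; omega)
    exact ⟨g, ⟨(Cfsg.Agent.H450.Bs.iso_iff hF h).2 hg, hd⟩, hgu⟩
  · exact witt_E h hu hu' h2 h1 hn h5

/-- **(N3)** Witt's theorem for pairs -/
theorem n3 [Finite F] [Finite V] {Φ : Frm F V} {G : Subgroup (V ≃ₗ[F] V)} {N : ℕ} (h : Kl Φ G N)
    (hn : 7 ≤ finrank F V) {w w' v v' : V} (hw : LinearIndependent F ![w, w']) (hv : LinearIndependent F ![v, v'])
    (h11 : Φ.B w w = Φ.B v v) (h12 : Φ.B w w' = Φ.B v v') (h21 : Φ.B w' w = Φ.B v' v) (h22 : Φ.B w' w' = Φ.B v' v')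
    (hq : Φ.q w = Φ.q v) (hq' : Φ.q w' = Φ.q v') : ∃ g ∈ G, g w = v ∧ g w' = v' := by
  obtain ⟨g, hg, hgu⟩ := witt h (k := 2) (by omega) (by omega) hw hv
    (by
      intro i j
      fin_cases i <;> fin_cases j
      · exact h11
      · exact h12
      · exact h21
      · exact h22)
    (by
      intro i
      fin_cases i
      · exact hq
      · exact hq')
  exact ⟨g, hg, hgu 0, hgu 1⟩

/-! ### orbits -/

theorem Kl.good [Finite F] {Φ : Frm F V} {G : Subgroup (V ≃ₗ[F] V)} {N : ℕ} (h : Kl Φ G N) :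
    Cfsg.Agent.H42.Bs.Good Φ := by
  rcases h with ⟨h, -, -⟩ | ⟨r, h, -, -⟩ | ⟨Q, h, rfl, -, -⟩
  · exact Cfsg.Agent.H42.Bs.good_of_sp h
  · exact Cfsg.Agent.H42.Bs.good_of_herm h
  · exact Cfsg.Agent.H42.Bs.good_of_quad h

/-- `B w v` is determined by `B v w` -/
theorem Kl.swap [Finite F] {Φ : Frm F V} {G : Subgroup (V ≃ₗ[F] V)} {N : ℕ} (h : Kl Φ G N) {x y x' y' : V}
    (hxy : Φ.B x y = Φ.B x' y') : Φ.B y x = Φ.B y' x' := by
  obtain ⟨ε, -, hε⟩ := h.good.eps
  rw [hε x y, hε x' y', hxy]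

/-- the functional `B · y` -/
def lf (Φ : Frm F V) (y : V) : V →ₗ[F] F where
  toFun x := Φ.B x y
  map_add' a b := Φ.add_left a b y
  map_smul' c a := Φ.smul_left c a y

theorem lf_apply (Φ : Frm F V) (x y : V) : lf Φ y x = Φ.B x y := rfl

/-- a vector separating `e` from a family -/
theorem sep [Finite F] {Φ : Frm F V} {G : Subgroup (V ≃ₗ[F] V)} {N : ℕ} (h : Kl Φ G N) {k : ℕ} (u : Fin k → V) {e : V}
    (he : e ∉ Submodule.span F (Set.range u)) : ∃ x, Φ.B x e = 1 ∧ ∀ i, Φ.B x (u i) = 0 := by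
  by_contra hcon
  push Not at hcon
  apply he
  have h1 : ⨅ i, LinearMap.ker (lf Φ (u i)) ≤ LinearMap.ker (lf Φ e) := by
    intro x hx
    rw [Submodule.mem_iInf] at hx
    rw [LinearMap.mem_ker, lf_apply]
    by_contra h0
    obtain ⟨i, hi⟩ := hcon ((Φ.B x e)⁻¹ • x) (by rw [Φ.smul_left, inv_mul_cancel₀ h0])
    apply hi
    have h2 : Φ.B x (u i) = 0 := hx i
    rw [Φ.smul_left, h2, mul_zero]
  have h2 := mem_span_of_iInf_ker_le_ker h1
  rw [Submodule.mem_span_range_iff_exists_fun] at h2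
  obtain ⟨c, hc⟩ := h2
  have hs : ∀ (x : V), Φ.B x e = Φ.B x (∑ i, Φ.s (c i) • u i) := by
    intro x
    have h3 : lf Φ e x = ∑ i, c i * Φ.B x (u i) := by
      rw [← hc, LinearMap.sum_apply]
      rfl
    rw [lf_apply] at h3
    rw [h3, Cfsg.Agent.H42.Bs.Good.B_sum_right]
    refine Finset.sum_congr rfl fun i _ => ?_
    rw [Φ.smul_right, h.good.s_s]
  rw [h.good.ext_right hs]
  exact Submodule.sum_mem _ fun i _ => Submodule.smul_mem _ _ (Submodule.subset_span ⟨i, rfl⟩)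

/-- **a singular vector orthogonal to a family and outside of its span** -/
theorem exists_iso [Finite F] [Finite V] {Φ : Frm F V} {G : Subgroup (V ≃ₗ[F] V)} {N : ℕ} (h : Kl Φ G N) {k : ℕ}
    (hn : 2 * k + 3 ≤ finrank F V) (u : Fin k → V) : ∃ e, e ∉ Submodule.span F (Set.range u) ∧ Φ.B e e = 0 ∧
      Φ.q e = 0 ∧ ∀ i, Φ.B e (u i) = 0 := by
  have := Fintype.ofFinite F
  have : FiniteDimensional F V := Module.finite_of_finrank_pos (by omega)
  have hk : finrank F (Submodule.span F (Set.range u)) ≤ k := by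
    have := finrank_range_le_card (R := F) u
    rwa [Fintype.card_fin] at this
  rcases h with ⟨h, rfl, rfl⟩ | ⟨r, h, rfl, rfl⟩ | ⟨Q, h, rfl, rfl, rfl⟩
  · let f : V →ₗ[F] (Fin k → F) := LinearMap.pi fun i => lf Φ (u i)
    have h1 := LinearMap.finrank_range_add_finrank_ker f
    have h2 : Module.finrank F (LinearMap.range f) ≤ k := by
      refine le_trans (Submodule.finrank_le _) ?_
      rw [Module.finrank_fin_fun]
    have h3 : ¬ LinearMap.ker f ≤ Submodule.span F (Set.range u) := by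
      intro h4
      have := Submodule.finrank_mono h4
      omega
    obtain ⟨e, he, heu⟩ := Set.not_subset.1 h3
    exact ⟨e, heu, h.alt e, h.q e, fun i => congrFun (LinearMap.mem_ker.1 he) i⟩
  · have hF : Fintype.card F = N ^ 2 := by rw [← Nat.card_eq_fintype_card]; exact h.card
    obtain ⟨e, he, heu, hee⟩ := Cfsg.Agent.H450.UF.exists_iso_perp (Cfsg.Agent.H450.Bs.hform_toB hF h)
      (C := Submodule.span F (Set.range u)) (by omega)
    exact ⟨e, heu, hee, h.q e, fun i => Φ.refl _ _ (he _ (Submodule.subset_span ⟨i, rfl⟩))⟩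
  · obtain ⟨e, he, he0, heu⟩ := H105.SzO.exists_sing_notMem (Q := Q) u (Submodule.span F (Set.range u)) (by omega)
    refine ⟨e, he, ?_, he0, fun i => ?_⟩
    · show polar Q e e = 0
      rw [polar_self_eq, he0, mul_zero]
    · show polar Q e (u i) = 0
      rw [polar_comm]
      exact heu i

theorem half [Finite V] (g : V →ₗ[F] F) {y : V} (hy : g y ≠ 0) : Nat.card V ≤ 2 * Nat.card {w : V // g w ≠ 0} := by
  classical
  have h1 : Nat.card {w : V // g w = 0} ≤ Nat.card {w : V // g w ≠ 0} := by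
    refine Nat.card_le_card_of_injective (fun w => ⟨w.1 + y, by rw [map_add, w.2, zero_add]; exact hy⟩) ?_
    intro a b hab
    exact Subtype.ext (add_right_cancel (congrArg Subtype.val hab))
  have h2 : Nat.card V = Nat.card {w : V // g w = 0} + Nat.card {w : V // g w ≠ 0} := by
    rw [← Nat.card_sum]
    exact (Nat.card_congr (Equiv.sumCompl fun w => g w = 0)).symm
  omega

theorem half2 [Finite F] [Finite V] (f g : V →ₗ[F] F) {x y : V} (hx : f x ≠ 0) (hy : g y = 1) (hfy : f y = 0)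
    (b : F) : Nat.card V ≤ 2 * Nat.card F * Nat.card {w : V // f w = b ∧ g w ≠ 0} := by
  let z : V := (f x)⁻¹ • (x - g x • y)
  have hz1 : f z = 1 := by
    show f ((f x)⁻¹ • (x - g x • y)) = 1
    rw [map_smul, map_sub, map_smul, hfy, smul_zero, sub_zero, smul_eq_mul, inv_mul_cancel₀ hx]
  have hz2 : g z = 0 := by
    show g ((f x)⁻¹ • (x - g x • y)) = 0
    rw [map_smul, map_sub, map_smul, hy, smul_eq_mul, smul_eq_mul, mul_one, sub_self, mul_zero]
  have h1 := half g (y := y) (by rw [hy]; exact one_ne_zero)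
  have e : F × {w : V // f w = b ∧ g w ≠ 0} ≃ {w : V // g w ≠ 0} :=
    { toFun := fun p => ⟨p.2.1 + (p.1 - b) • z, by
        rw [map_add, map_smul, hz2, smul_zero, add_zero]; exact p.2.2.2⟩
      invFun := fun w => (f w.1, ⟨w.1 + (b - f w.1) • z, by
        rw [map_add, map_smul, hz1, smul_eq_mul, mul_one]; ring, by
        rw [map_add, map_smul, hz2, smul_zero, add_zero]; exact w.2⟩)
      left_inv := fun p => by
        have h2 : f (p.2.1 + (p.1 - b) • z) = p.1 := by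
          rw [map_add, map_smul, hz1, p.2.2.1, smul_eq_mul, mul_one]; ring
        refine Prod.ext h2 (Subtype.ext ?_)
        show p.2.1 + (p.1 - b) • z + (b - f (p.2.1 + (p.1 - b) • z)) • z = p.2.1
        rw [h2]
        module
      right_inv := fun w => by
        refine Subtype.ext ?_
        show w.1 + (b - f w.1) • z + (f w.1 - b) • z = w.1
        module }
  have h3 := Nat.card_congr e
  rw [Nat.card_prod] at h3
  rw [mul_assoc, h3]
  exact h1

/-- many vectors of a given norm not orthogonal to `e` -/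
theorem many1 [Finite F] [Finite V] {Φ : Frm F V} {G : Subgroup (V ≃ₗ[F] V)} {N : ℕ} (h : Kl Φ G N) {e : V} (he0 : e ≠ 0)
    (he : Φ.B e e = 0) (he' : Φ.q e = 0) (w : V) :
    Nat.card V ≤ 2 * N * Nat.card {x : V // Φ.B x e ≠ 0 ∧ Φ.B x x = Φ.B w w ∧ Φ.q x = Φ.q w} := by
  obtain ⟨y, hy, -⟩ := sep h (k := 0) ![] (e := e) (by
    intro h0
    apply he0
    rw [Matrix.range_empty, Submodule.span_empty, Submodule.mem_bot] at h0
    exact h0)
  have h1 := half (lf Φ e) (y := y) (by rw [lf_apply, hy]; exact one_ne_zero)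
  have h2 := dc_ge (F := F) e {x : V | Φ.B x e ≠ 0} {x : V | Φ.B x x = Φ.B w w ∧ Φ.q x = Φ.q w}
    (fun x hx t => by
      show Φ.B (x + t • e) e ≠ 0
      rw [Φ.add_left, Φ.smul_left, he, mul_zero, add_zero]
      exact hx) N (fun x hx => line_ge h he he' w x hx)
  calc Nat.card V ≤ 2 * Nat.card {x : V // Φ.B x e ≠ 0} := h1
    _ ≤ 2 * (N * Nat.card {x : V // Φ.B x e ≠ 0 ∧ Φ.B x x = Φ.B w w ∧ Φ.q x = Φ.q w}) := Nat.mul_le_mul_left _ h2
    _ = _ := by ring

/-- many vectors `x` of a given norm with `B x p` given, not orthogonal to `e ∈ p^⊥` -/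
theorem many2 [Finite F] [Finite V] {Φ : Frm F V} {G : Subgroup (V ≃ₗ[F] V)} {N : ℕ} (h : Kl Φ G N) {p e : V}
    (hp : p ≠ 0) (hep : e ∉ Submodule.span F {p}) (hpe : Φ.B e p = 0) (he : Φ.B e e = 0) (he' : Φ.q e = 0) (v : V)
    (b : F) : Nat.card V ≤ 2 * N * Nat.card F *
      Nat.card {x : V // (Φ.B x p = b ∧ Φ.B x e ≠ 0) ∧ Φ.B x x = Φ.B v v ∧ Φ.q x = Φ.q v} := by
  have hr : Set.range ![p] = {p} := by simp
  obtain ⟨y, hy, hyp⟩ := sep h (k := 1) ![p] (e := e) (by rw [hr]; exact hep)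
  obtain ⟨x, hx, -⟩ := sep h (k := 0) ![] (e := p) (by
    intro h0
    apply hp
    rw [Matrix.range_empty, Submodule.span_empty, Submodule.mem_bot] at h0
    exact h0)
  have h1 := half2 (lf Φ p) (lf Φ e) (x := x) (y := y) (by rw [lf_apply, hx]; exact one_ne_zero) hy (hyp 0) b
  have h2 := dc_ge (F := F) e {x : V | Φ.B x p = b ∧ Φ.B x e ≠ 0} {x : V | Φ.B x x = Φ.B v v ∧ Φ.q x = Φ.q v}
    (fun x hx t => by
      refine ⟨?_, ?_⟩
      · show Φ.B (x + t • e) p = b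
        rw [Φ.add_left, Φ.smul_left, hpe, mul_zero, add_zero]
        exact hx.1
      · show Φ.B (x + t • e) e ≠ 0
        rw [Φ.add_left, Φ.smul_left, he, mul_zero, add_zero]
        exact hx.2) N (fun x hx => line_ge h he he' v x hx.2)
  calc Nat.card V ≤ 2 * Nat.card F * Nat.card {x : V // Φ.B x p = b ∧ Φ.B x e ≠ 0} := h1
    _ ≤ 2 * Nat.card F * (N * Nat.card {x : V // (Φ.B x p = b ∧ Φ.B x e ≠ 0) ∧
        Φ.B x x = Φ.B v v ∧ Φ.q x = Φ.q v}) := Nat.mul_le_mul_left _ h2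
    _ = _ := by ring

/-- **(N4), one vector** -/
theorem n4' [Finite F] [Finite V] {Φ : Frm F V} {G : Subgroup (V ≃ₗ[F] V)} {N : ℕ} (h : Kl Φ G N)
    (hn : 5 ≤ finrank F V) {w : V} (hw : w ≠ 0) :
    Nat.card V ≤ 2 * N * Nat.card {p : V // ∃ g ∈ G, p = g w} := by
  obtain ⟨e, he0, he, he', -⟩ := exists_iso h (k := 0) (by omega) ![]
  have he0' : e ≠ 0 := fun h0 => he0 (by rw [h0]; exact zero_mem _)
  refine (many1 h he0' he he' w).trans (Nat.mul_le_mul_left _ ?_)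
  refine Nat.card_mono (Set.toFinite _) ?_
  rintro x ⟨hxe, hx, hx'⟩
  have hx0 : x ≠ 0 := by
    rintro rfl
    exact hxe (Cfsg.Agent.H42.Bs.B_zero_left e)
  obtain ⟨g, hg, hgx⟩ := witt h (k := 1) (by omega) hn (u := ![w]) (u' := ![x])
    (LinearIndependent.of_subsingleton (v := ![w]) 0 hw) (LinearIndependent.of_subsingleton (v := ![x]) 0 hx0)
    (by intro i j; fin_cases i; fin_cases j; exact hx.symm) (by intro i; fin_cases i; exact hx'.symm)
  exact ⟨g, hg, (hgx 0).symm⟩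

/-- **(N4)** orbits of pairs -/
theorem n4_nat [Finite F] [Finite V] {Φ : Frm F V} {G : Subgroup (V ≃ₗ[F] V)} {N : ℕ} (h : Kl Φ G N)
    (hn : 7 ≤ finrank F V) {w v : V} (hw : w ≠ 0) (hv : v ∉ Submodule.span F {w}) :
    Nat.card V ^ 2 ≤ 4 * N ^ 2 * Nat.card F * Nat.card {p : V × V // ∃ g ∈ G, p = (g w, g v)} := by
  classical
  obtain ⟨e, he0, he, he', -⟩ := exists_iso h (k := 0) (by omega) ![]
  have he0' : e ≠ 0 := fun h0 => he0 (by rw [h0]; exact zero_mem _)
  let A : Type _ := {x : V // Φ.B x e ≠ 0 ∧ Φ.B x x = Φ.B w w ∧ Φ.q x = Φ.q w}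
  have hA0 : ∀ x : A, x.1 ≠ 0 := by
    rintro ⟨x, hxe, hx2⟩ h0
    have h0' : x = 0 := h0
    exact hxe (by rw [h0']; exact Cfsg.Agent.H42.Bs.B_zero_left e)
  have hex : ∀ x : A, ∃ e', e' ∉ Submodule.span F {x.1} ∧ Φ.B e' e' = 0 ∧ Φ.q e' = 0 ∧ Φ.B e' x.1 = 0 := by
    intro x
    obtain ⟨e', h1, h2, h3, h4⟩ := exists_iso h (k := 1) (by omega) ![x.1]
    have hr : Set.range ![x.1] = {x.1} := by simp
    rw [hr] at h1
    exact ⟨e', h1, h2, h3, h4 0⟩
  choose E' hE1 hE2 hE3 hE4 using hex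
  let C : A → Type _ := fun p => {x : V // (Φ.B x p.1 = Φ.B v w ∧ Φ.B x (E' p) ≠ 0) ∧ Φ.B x x = Φ.B v v ∧ Φ.q x = Φ.q v}
  have hC : ∀ p : A, Nat.card V ≤ 2 * N * Nat.card F * Nat.card (C p) := fun p =>
    many2 h (hA0 p) (hE1 p) (hE4 p) (hE2 p) (hE3 p) v (Φ.B v w)
  have hA : Nat.card V ≤ 2 * N * Nat.card A := many1 h he0' he he' w
  have hwv : LinearIndependent F ![w, v] := by
    rw [LinearIndependent.pair_iff' hw]
    intro a ha
    exact hv (Submodule.mem_span_singleton.2 ⟨a, ha⟩)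
  have hinj : Nat.card (Σ p : A, C p) ≤ Nat.card {p : V × V // ∃ g ∈ G, p = (g w, g v)} := by
    refine Nat.card_le_card_of_injective (fun s => ⟨(s.1.1, s.2.1), ?_⟩) ?_
    · obtain ⟨⟨p, hpe, hp, hp'⟩, ⟨x, ⟨hx1, hx2⟩, hx3, hx4⟩⟩ := s
      have hli : LinearIndependent F ![p, x] := by
        rw [LinearIndependent.pair_iff' (hA0 ⟨p, hpe, hp, hp'⟩)]
        intro a ha
        apply hx2
        rw [← ha, Φ.smul_left, Φ.refl _ _ (hE4 ⟨p, hpe, hp, hp'⟩), mul_zero]
      obtain ⟨g, hg, h1, h2⟩ := n3 h hn hwv hli hp.symm (h.swap hx1.symm) hx1.symm hx3.symm hp'.symm hx4.symm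
      exact ⟨g, hg, Prod.ext h1.symm h2.symm⟩
    · rintro ⟨p, x⟩ ⟨p', x'⟩ hs
      have h1 := congrArg Subtype.val hs
      have h2 : p = p' := Subtype.ext (congrArg Prod.fst h1)
      subst h2
      have h3 : x = x' := Subtype.ext (congrArg Prod.snd h1)
      rw [h3]
  have := Fintype.ofFinite A
  rw [Nat.card_sigma] at hinj
  have h1 : Nat.card A * Nat.card V ≤ 2 * N * Nat.card F * ∑ p : A, Nat.card (C p) := by
    rw [Finset.mul_sum]
    refine le_trans (le_of_eq ?_) (Finset.sum_le_sum fun p _ => hC p)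
    rw [Finset.sum_const, Finset.card_univ, Nat.card_eq_fintype_card (α := A), smul_eq_mul]
  calc Nat.card V ^ 2 = Nat.card V * Nat.card V := pow_two _
    _ ≤ (2 * N * Nat.card A) * Nat.card V := Nat.mul_le_mul_right _ hA
    _ = 2 * N * (Nat.card A * Nat.card V) := by ring
    _ ≤ 2 * N * (2 * N * Nat.card F * ∑ p : A, Nat.card (C p)) := Nat.mul_le_mul_left _ h1
    _ = 4 * N ^ 2 * Nat.card F * ∑ p : A, Nat.card (C p) := by ring
    _ ≤ _ := Nat.mul_le_mul_left _ hinj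

end Cfsg.Agent.H847.Ux
end

-- part: H50/Ux/UT2Of
section
prune_inst 0x3430410025e0000000000502002004644e000400006304004d6306060e8145228982a761b6b030175aa68085403d000812000000000001c000200400011c008000801606b1080008400096000308210000001800300000000000000000000000200000000
set_option linter.all false
open scoped Cfsg.Agent.FastGrp

-- part: H50/Ux/GC
section
/-!
# UT2 (UX, S5716): counting frames (helper50)

* `FrP Φ P` : the frames with pull back `P`; `AP Φ P y S` : the subspaces spanned by the frames `φ` with `y φ = φ m`, `m ∈ S`;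
* `gc` : the general upper bound; `first` : first moment; `pairs` : pairs of frames.
-/

set_option autoImplicit false
set_option linter.unusedSectionVars false

namespace Cfsg.Agent.H50.Ux

open Module Cfsg.Agent.H847.Bs Cfsg.Agent.LieClassical.OrthCore
open Cfsg.Agent.H440.Bs (perp mem_perp)
open Cfsg.Agent.H50.RG (Ad card_eq_of_fib exists_comp)
open Cfsg.Agent.H881.Bs (card_le_of_fiber)

variable {F V : Type*} [Field F] [AddCommGroup V] [Module F V]
variable {X : Type*} [AddCommGroup X] [Module F X]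
variable {X' : Type*} [AddCommGroup X'] [Module F X']
variable {Φ : Frm F V} {G : Subgroup (V ≃ₗ[F] V)}

theorem finite_hom [Finite X] [Finite V] : Finite (X →ₗ[F] V) :=
  Finite.of_injective (fun φ : X →ₗ[F] V => (φ : X → V)) DFunLike.coe_injective

/-- the frames with pull back `P` -/
def FrP (Φ : Frm F V) (P : (X → X → F) × (X → F)) : Set (X →ₗ[F] V) :=
  {φ | Function.Injective φ ∧ pb Φ φ = P}

theorem pb_smul {y : V ≃ₗ[F] V} (hy : y ∈ Φ.Iso) {φ φ' : X →ₗ[F] V} (h : ∀ x, y (φ x) = φ' x) :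
    pb Φ φ' = pb Φ φ := by
  refine Prod.ext ?_ ?_
  · funext a b
    show Φ.B (φ' a) (φ' b) = Φ.B (φ a) (φ b)
    rw [← h, ← h, hy.1]
  · funext a
    show Φ.q (φ' a) = Φ.q (φ a)
    rw [← h, hy.2]

/-- `m` preserves the pull back if `y φ = φ m` -/
theorem isoP_of {y : V ≃ₗ[F] V} (hy : y ∈ Φ.Iso) {φ : X →ₗ[F] V} {m : X ≃ₗ[F] X} (h : ∀ x, y (φ x) = φ (m x)) :
    IsoP (pb Φ φ) m := by
  refine ⟨fun a b => ?_, fun a => ?_⟩
  · show Φ.B (φ (m a)) (φ (m b)) = Φ.B (φ a) (φ b)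
    rw [← h, ← h, hy.1]
  · show Φ.q (φ (m a)) = Φ.q (φ a)
    rw [← h, hy.2]

theorem pb_comp {φ : X →ₗ[F] V} {m : X ≃ₗ[F] X} : pb Φ (φ ∘ₗ (m : X →ₗ[F] X)) = pb Φ φ ↔ IsoP (pb Φ φ) m := by
  constructor
  · intro h
    refine ⟨fun a b => ?_, fun a => ?_⟩
    · exact congrFun (congrFun (congrArg Prod.fst h) a) b
    · exact congrFun (congrArg Prod.snd h) a
  · rintro ⟨h1, h2⟩
    refine Prod.ext ?_ ?_
    · funext a b
      exact h1 a b
    · funext a
      exact h2 a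

theorem FrP.comp {P : (X → X → F) × (X → F)} {φ : X →ₗ[F] V} (h : φ ∈ FrP Φ P) {m : X ≃ₗ[F] X} (hm : IsoP P m) :
    φ ∘ₗ (m : X →ₗ[F] X) ∈ FrP Φ P := by
  obtain ⟨h1, rfl⟩ := h
  exact ⟨h1.comp m.injective, pb_comp.2 hm⟩

/-- exact transitivity -/
theorem card_tr [Finite V] [Finite X] (hG : G ≤ Φ.Iso) {P : (X → X → F) × (X → F)}
    (tr : ∀ φ ∈ FrP Φ P, ∀ φ' ∈ FrP Φ P, ∃ g ∈ G, ∀ x, g (φ x) = φ' x) {φ φ' : X →ₗ[F] V} (h : φ ∈ FrP Φ P)
    (h' : φ' ∈ FrP Φ P) :
    Nat.card (FrP Φ P) * Nat.card {y : G // ∀ x, (y : V ≃ₗ[F] V) (φ x) = φ' x} = Nat.card G := by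
  have : Finite (X →ₗ[F] V) := finite_hom
  have : Finite (V ≃ₗ[F] V) := Cfsg.Agent.H50.RG.finite_equiv
  refine (card_eq_of_fib (fun y : G => (⟨((y : V ≃ₗ[F] V) : V →ₗ[F] V) ∘ₗ φ, y.1.injective.comp h.1, by
    rw [← h.2]
    exact pb_smul (hG y.2) fun x => rfl⟩ : FrP Φ P)) _ fun ψ => ?_).symm
  obtain ⟨ψ, hψ⟩ := ψ
  obtain ⟨g, hg, hgg⟩ := tr ψ hψ φ' h'
  refine Nat.card_congr
    { toFun := fun y => ⟨⟨g, hg⟩ * y.1, fun x => ?_⟩
      invFun := fun y => ⟨⟨g, hg⟩⁻¹ * y.1, ?_⟩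
      left_inv := fun y => by simp only [_root_.inv_mul_cancel_left, _root_.Subtype.coe_eta]
      right_inv := fun y => by simp only [_root_.mul_inv_cancel_left, _root_.Subtype.coe_eta] }
  · have h1 := LinearMap.congr_fun (congrArg Subtype.val y.2) x
    rw [← hgg]
    exact congrArg g h1
  · apply Subtype.ext
    ext x
    have h1 := y.2 x
    rw [← hgg] at h1
    show (g⁻¹ : V ≃ₗ[F] V) ((y.1 : V ≃ₗ[F] V) (φ x)) = _
    rw [h1]
    exact g.symm_apply_apply _

/-- transitivity gives `Wc 1` -/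
theorem wc_of_tr [Finite V] [Finite X] (hG : G ≤ Φ.Iso) {ψ : X →ₗ[F] V} (hψ : Function.Injective ψ)
    (tr : ∀ φ ∈ FrP Φ (pb Φ ψ), ∀ φ' ∈ FrP Φ (pb Φ ψ), ∃ g ∈ G, ∀ x, g (φ x) = φ' x) : Wc 1 Φ G ψ := by
  intro ψ'
  by_cases h : ∃ g ∈ G, ∀ x, g (ψ x) = ψ' x
  · obtain ⟨g, hg, hgg⟩ := h
    have h1 : ψ' ∈ FrP Φ (pb Φ ψ) := by
      refine ⟨?_, pb_smul (hG hg) hgg⟩
      intro a b hab
      rw [← hgg, ← hgg] at hab
      exact hψ (g.injective hab)
    have h2 := card_tr hG tr ⟨hψ, rfl⟩ h1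
    have h3 : Nat.card {g : V ≃ₗ[F] V // g ∈ G ∧ ∀ x, g (ψ x) = ψ' x} =
        Nat.card {y : G // ∀ x, (y : V ≃ₗ[F] V) (ψ x) = ψ' x} :=
      Nat.card_congr
        { toFun := fun y => ⟨⟨y.1, y.2.1⟩, y.2.2⟩
          invFun := fun y => ⟨y.1, y.1.2, y.2⟩
          left_inv := fun _ => rfl
          right_inv := fun _ => rfl }
    rw [h3, one_mul]
    exact h2.le
  · have : IsEmpty {g : V ≃ₗ[F] V // g ∈ G ∧ ∀ x, g (ψ x) = ψ' x} := ⟨fun y => h ⟨y.1, y.2⟩⟩
    rw [Nat.card_of_isEmpty (α := {g : V ≃ₗ[F] V // g ∈ G ∧ ∀ x, g (ψ x) = ψ' x}), mul_zero]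
    exact Nat.zero_le _

/-- the fibres of the general count -/
theorem fib_le [Finite V] [Finite X] {c : ℕ} {Z : Set (X →ₗ[F] V)}
    (hZ : ∀ ψ ∈ Z, Function.Injective ψ ∧ Wc c Φ G ψ) (P : (X → X → F) × (X → F)) (m : X ≃ₗ[F] X) :
    Nat.card (Σ χ : {χ : X →ₗ[F] V // χ ∈ Z ∧ pb Φ χ = P}, {g : V ≃ₗ[F] V // g ∈ G ∧ ∀ x, g (χ.1 x) = χ.1 (m x)}) ≤
      c * Nat.card G := by
  classical
  have : Finite (X →ₗ[F] V) := finite_hom
  have : Finite (V ≃ₗ[F] V) := Cfsg.Agent.H50.RG.finite_equiv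
  have := Fintype.ofFinite {χ : X →ₗ[F] V // χ ∈ Z ∧ pb Φ χ = P}
  rcases isEmpty_or_nonempty {χ : X →ₗ[F] V // χ ∈ Z ∧ pb Φ χ = P} with he | ⟨⟨χ₀, hχ₀, hP⟩⟩
  · rw [Nat.card_of_isEmpty]
    exact Nat.zero_le _
  set A := Nat.card {χ : X →ₗ[F] V // Function.Injective χ ∧ pb Φ χ = P} with hA
  have hA0 : 0 < A := by
    have : Nonempty {χ : X →ₗ[F] V // Function.Injective χ ∧ pb Φ χ = P} := ⟨⟨χ₀, (hZ _ hχ₀).1, hP⟩⟩
    exact Nat.card_pos
  refine Nat.le_of_mul_le_mul_left ?_ hA0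
  rw [Nat.card_sigma, Finset.mul_sum]
  calc ∑ χ : {χ : X →ₗ[F] V // χ ∈ Z ∧ pb Φ χ = P}, A * Nat.card {g : V ≃ₗ[F] V // g ∈ G ∧ ∀ x, g (χ.1 x) = χ.1 (m x)} ≤
      ∑ _χ : {χ : X →ₗ[F] V // χ ∈ Z ∧ pb Φ χ = P}, c * Nat.card G := by
        refine Finset.sum_le_sum fun χ _ => ?_
        have h1 := (hZ _ χ.2.1).2 (χ.1 ∘ₗ (m : X →ₗ[F] X))
        rw [χ.2.2] at h1
        exact h1
    _ = Nat.card {χ : X →ₗ[F] V // χ ∈ Z ∧ pb Φ χ = P} * (c * Nat.card G) := by
        rw [Finset.sum_const, Finset.card_univ, smul_eq_mul, ← Nat.card_eq_fintype_card]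
    _ ≤ A * (c * Nat.card G) := by
        refine Nat.mul_le_mul_right _ ?_
        exact Nat.card_le_card_of_injective (fun χ => ⟨χ.1, (hZ _ χ.2.1).1, χ.2.2⟩) fun a b h =>
          Subtype.ext (congrArg (fun z : {χ : X →ₗ[F] V // Function.Injective χ ∧ pb Φ χ = P} => z.1) h)

/-- general count -/
theorem gc [Finite F] [Finite V] [Finite X] {c : ℕ} {Z : Set (X →ₗ[F] V)}
    (hZ : ∀ ψ ∈ Z, Function.Injective ψ ∧ Wc c Φ G ψ) (T : Set (((X → X → F) × (X → F)) × (X ≃ₗ[F] X))) :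
    Nat.card (Σ y : G, {ψ : X →ₗ[F] V // ψ ∈ Z ∧ ∃ m, (pb Φ ψ, m) ∈ T ∧ ∀ x, (y : V ≃ₗ[F] V) (ψ x) = ψ (m x)}) ≤
      c * Nat.card G * Nat.card T := by
  classical
  have : Finite (X →ₗ[F] V) := finite_hom
  have : Finite (V ≃ₗ[F] V) := Cfsg.Agent.H50.RG.finite_equiv
  have : Finite (X ≃ₗ[F] X) := Cfsg.Agent.H50.RG.finite_equiv
  refine card_le_of_fiber (fun a : Σ y : G, {ψ : X →ₗ[F] V // ψ ∈ Z ∧ ∃ m, (pb Φ ψ, m) ∈ T ∧
    ∀ x, (y : V ≃ₗ[F] V) (ψ x) = ψ (m x)} => (⟨(pb Φ a.2.1, a.2.2.2.choose), a.2.2.2.choose_spec.1⟩ : T)) _ ?_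
  rintro ⟨⟨P, m⟩, hT⟩
  refine le_trans ?_ (fib_le (G := G) hZ P m)
  refine Nat.card_le_card_of_injective (fun a => ⟨⟨a.1.2.1, a.1.2.2.1, ?_⟩, ⟨a.1.1, a.1.1.2, fun x => ?_⟩⟩) ?_
  · exact congrArg (fun z : T => z.1.1) a.2
  · have h1 : a.1.2.2.2.choose = m := congrArg (fun z : T => z.1.2) a.2
    exact (a.1.2.2.2.choose_spec.2 x).trans (congrArg (fun t : X ≃ₗ[F] X => a.1.2.1 (t x)) h1)
  · rintro ⟨⟨⟨y, hy⟩, ψ, hψ⟩, h⟩ ⟨⟨⟨y', hy'⟩, ψ', hψ'⟩, h'⟩ hh
    simp only [Sigma.mk.injEq, Subtype.mk.injEq] at hh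
    obtain ⟨rfl, h2⟩ := hh
    have h3 := congrArg Subtype.val (eq_of_heq h2)
    simp only at h3
    subst h3
    rfl

/-- the subspaces spanned by the frames `φ` with pull back `P` and `y φ = φ m`, `m ∈ S` -/
def AP (Φ : Frm F V) (P : (X → X → F) × (X → F)) (y : V ≃ₗ[F] V) (S : Set (X ≃ₗ[F] X)) : Set (Submodule F V) :=
  {A | ∃ φ ∈ FrP Φ P, LinearMap.range φ = A ∧ Ad y S φ}

theorem finite_sub [Finite V] : Finite (Submodule F V) :=
  Finite.of_injective (fun A : Submodule F V => (A : Set V)) SetLike.coe_injective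

/-- first moment, frames -/
theorem first [Finite V] [Finite X] (hG : G ≤ Φ.Iso) {P : (X → X → F) × (X → F)}
    (tr : ∀ φ ∈ FrP Φ P, ∀ φ' ∈ FrP Φ P, ∃ g ∈ G, ∀ x, g (φ x) = φ' x) (hne : (FrP Φ P).Nonempty) {S : Set (X ≃ₗ[F] X)}
    (hS : ∀ m ∈ S, IsoP P m) :
    Nat.card (Σ y : G, {φ : X →ₗ[F] V // φ ∈ FrP Φ P ∧ Ad (y : V ≃ₗ[F] V) S φ}) = Nat.card G * Nat.card S := by
  classical
  have : Finite (X →ₗ[F] V) := finite_hom
  have : Finite (V ≃ₗ[F] V) := Cfsg.Agent.H50.RG.finite_equiv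
  have : Finite (X ≃ₗ[F] X) := Cfsg.Agent.H50.RG.finite_equiv
  have e1 : Nat.card (Σ y : G, {φ : X →ₗ[F] V // φ ∈ FrP Φ P ∧ Ad (y : V ≃ₗ[F] V) S φ}) =
      Nat.card (Σ p : FrP Φ P × S, {y : G // ∀ x, (y : V ≃ₗ[F] V) (p.1.1 x) = p.1.1 (p.2.1 x)}) := by
    refine Nat.card_congr
      { toFun := fun a => ⟨(⟨a.2.1, a.2.2.1⟩, ⟨a.2.2.2.choose, a.2.2.2.choose_spec.1⟩), a.1, ?_⟩
        invFun := fun b => ⟨b.2.1, b.1.1.1, b.1.1.2, b.1.2.1, b.1.2.2, fun x => ?_⟩
        left_inv := fun a => rfl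
        right_inv := ?_ }
    · exact fun x => a.2.2.2.choose_spec.2 x
    · exact b.2.2 x
    · rintro ⟨⟨φ, m⟩, y, hy⟩
      have hA : Ad (y : V ≃ₗ[F] V) S φ.1 := ⟨m.1, m.2, hy⟩
      have key : (⟨hA.choose, hA.choose_spec.1⟩ : S) = m := by
        apply Subtype.ext
        ext x
        apply φ.2.1
        show φ.1 (hA.choose x) = φ.1 (m.1 x)
        rw [← hA.choose_spec.2 x]
        exact hy x
      have key' : ∀ (m' : S) (hm' : m' = m) (h' : ∀ x, (y : V ≃ₗ[F] V) (φ.1 x) = φ.1 (m'.1 x)),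
          (⟨(φ, m'), y, h'⟩ : Σ p : FrP Φ P × S, {y : G // ∀ x, (y : V ≃ₗ[F] V) (p.1.1 x) = p.1.1 (p.2.1 x)}) =
            ⟨(φ, m), y, hy⟩ := by
        rintro m' rfl h'
        rfl
      exact key' _ key _
  have hpos : 0 < Nat.card (FrP Φ P) := by
    have : Nonempty (FrP Φ P) := hne.to_subtype
    exact Nat.card_pos
  have e2 : Nat.card (FrP Φ P) * Nat.card (Σ p : FrP Φ P × S, {y : G // ∀ x, (y : V ≃ₗ[F] V) (p.1.1 x) = p.1.1 (p.2.1 x)}) =
      Nat.card (FrP Φ P) * (Nat.card G * Nat.card S) := by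
    have := Fintype.ofFinite (FrP Φ P)
    have := Fintype.ofFinite S
    have hp : ∀ p : FrP Φ P × S, Nat.card (FrP Φ P) * Nat.card {y : G // ∀ x, (y : V ≃ₗ[F] V) (p.1.1 x) = p.1.1 (p.2.1 x)} =
        Nat.card G := fun p => (card_tr hG tr p.1.2 (FrP.comp p.1.2 (hS _ p.2.2)) :)
    rw [Nat.card_sigma, Finset.mul_sum, Finset.sum_congr rfl fun p _ => hp p, Finset.sum_const, Finset.card_univ, Fintype.card_prod, smul_eq_mul, ← Nat.card_eq_fintype_card,
      ← Nat.card_eq_fintype_card]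
    ring
  rw [e1]
  exact Nat.eq_of_mul_eq_mul_left hpos e2

/-- closed under conjugation by the isometries of `P` -/
def CjP (P : (X → X → F) × (X → F)) (S : Set (X ≃ₗ[F] X)) : Prop :=
  ∀ m ∈ S, ∀ t : X ≃ₗ[F] X, IsoP P t → t⁻¹ * m * t ∈ S

theorem card_AP [Finite V] [Finite X] {P : (X → X → F) × (X → F)} {S : Set (X ≃ₗ[F] X)} (hS : CjP P S)
    (y : V ≃ₗ[F] V) :
    Nat.card {φ : X →ₗ[F] V // φ ∈ FrP Φ P ∧ Ad y S φ} = Nat.card (AP Φ P y S) * Nat.card {t : X ≃ₗ[F] X // IsoP P t} := by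
  have : Finite (X →ₗ[F] V) := finite_hom
  have : Finite (Submodule F V) := finite_sub
  refine card_eq_of_fib (fun φ : {φ : X →ₗ[F] V // φ ∈ FrP Φ P ∧ Ad y S φ} =>
    (⟨LinearMap.range φ.1, φ.1, φ.2.1, rfl, φ.2.2⟩ : AP Φ P y S)) _ fun A => ?_
  obtain ⟨A, φ₀, hφ₀, rfl, hAd⟩ := A
  refine (Nat.card_eq_of_bijective (fun t : {t : X ≃ₗ[F] X // IsoP P t} => (⟨⟨φ₀ ∘ₗ (t.1 : X →ₗ[F] X),
    FrP.comp hφ₀ t.2, hAd.comp fun m hm => hS m hm t.1 t.2⟩, ?_⟩ : {a : {φ : X →ₗ[F] V // φ ∈ FrP Φ P ∧ Ad y S φ} //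
      (⟨LinearMap.range a.1, a.1, a.2.1, rfl, a.2.2⟩ : AP Φ P y S) =
        ⟨LinearMap.range φ₀, φ₀, hφ₀, rfl, hAd⟩})) ⟨?_, ?_⟩).symm
  · apply Subtype.ext
    show LinearMap.range (φ₀ ∘ₗ (t.1 : X →ₗ[F] X)) = _
    rw [LinearMap.range_comp, LinearEquiv.range, Submodule.map_top]
  · intro t t' h
    have h1 := congrArg (fun a => a.1.1) h
    apply Subtype.ext
    ext x
    exact hφ₀.1 (LinearMap.congr_fun h1 x)
  · rintro ⟨⟨ψ, hψ⟩, h⟩
    have h1 := congrArg Subtype.val h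
    obtain ⟨t, ht⟩ := exists_comp hφ₀.1 hψ.1.1 h1.symm
    have ht' : IsoP P t := by
      rw [← hφ₀.2]
      rw [← pb_comp, ← ht]
      exact hψ.1.2.trans hφ₀.2.symm
    refine ⟨⟨t, ht'⟩, ?_⟩
    apply Subtype.ext
    apply Subtype.ext
    exact ht.symm

/-- first moment, subspaces -/
theorem sum_AP [Finite V] [Finite X] (hG : G ≤ Φ.Iso) {P : (X → X → F) × (X → F)}
    (tr : ∀ φ ∈ FrP Φ P, ∀ φ' ∈ FrP Φ P, ∃ g ∈ G, ∀ x, g (φ x) = φ' x) (hne : (FrP Φ P).Nonempty) {S : Set (X ≃ₗ[F] X)}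
    (hS : ∀ m ∈ S, IsoP P m) (hC : CjP P S) [Fintype G] :
    (∑ y : G, Nat.card (AP Φ P (y : V ≃ₗ[F] V) S)) * Nat.card {t : X ≃ₗ[F] X // IsoP P t} = Nat.card G * Nat.card S := by
  have : Finite (X →ₗ[F] V) := finite_hom
  rw [← first hG tr hne hS, Nat.card_sigma, Finset.sum_mul]
  exact Finset.sum_congr rfl fun y _ => (card_AP hC _).symm

/-! ### pairs -/

/-- orthogonal sum of pull backs -/
def osum (P : (X → X → F) × (X → F)) (P' : (X' → X' → F) × (X' → F)) :
    ((X × X') → (X × X') → F) × ((X × X') → F) :=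
  (fun a b => P.1 a.1 b.1 + P'.1 a.2 b.2, fun a => P.2 a.1 + P'.2 a.2)

theorem pb_coprod {φ : X →ₗ[F] V} {β : X' →ₗ[F] V} (h : ∀ x u, Φ.B (φ x) (β u) = 0) :
    pb Φ (φ.coprod β) = osum (pb Φ φ) (pb Φ β) := by
  refine Prod.ext ?_ ?_
  · funext a b
    show Φ.B ((φ.coprod β) a) ((φ.coprod β) b) = Φ.B (φ a.1) (φ b.1) + Φ.B (β a.2) (β b.2)
    rw [LinearMap.coprod_apply, LinearMap.coprod_apply, Φ.add_left, Φ.add_right, Φ.add_right, h, Φ.refl _ _ (h b.1 a.2)]
    ring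
  · funext a
    show Φ.q ((φ.coprod β) a) = Φ.q (φ a.1) + Φ.q (β a.2)
    rw [LinearMap.coprod_apply]
    exact Φ.q_add _ _ (h _ _)

/-- pairs of frames: `φ` of type `P`, `y φ = φ m`, `m ∈ S`; `β` orthogonal to `φ`, `y β = β m'`, `(pb β, m') ∈ T` -/
def PF (Φ : Frm F V) (P : (X → X → F) × (X → F)) (S : Set (X ≃ₗ[F] X))
    (T : Set (((X' → X' → F) × (X' → F)) × (X' ≃ₗ[F] X'))) (y : V ≃ₗ[F] V) : Set ((X →ₗ[F] V) × (X' →ₗ[F] V)) :=
  {z | (z.1 ∈ FrP Φ P ∧ Ad y S z.1) ∧ Function.Injective z.2 ∧ (∀ x u, Φ.B (z.1 x) (z.2 u) = 0) ∧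
    ∃ m, (pb Φ z.2, m) ∈ T ∧ ∀ u, y (z.2 u) = z.2 (m u)}

theorem pairs [Finite F] [Finite V] [Finite X] [Finite X'] {c : ℕ} {P : (X → X → F) × (X → F)}
    {S : Set (X ≃ₗ[F] X)} {T : Set (((X' → X' → F) × (X' → F)) × (X' ≃ₗ[F] X'))}
    (hnd : ∀ φ ∈ FrP Φ P, Φ.NdOn (LinearMap.range φ))
    (hW : ∀ y ∈ G, ∀ z ∈ PF Φ P S T y, Wc c Φ G (z.1.coprod z.2)) [Fintype G] :
    ∑ y : G, Nat.card (PF Φ P S T (y : V ≃ₗ[F] V)) ≤ c * Nat.card G * (Nat.card S * Nat.card T) := by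
  classical
  have : Finite (X →ₗ[F] V) := finite_hom
  have : Finite (X' →ₗ[F] V) := finite_hom
  have : Finite ((X × X') →ₗ[F] V) := finite_hom
  have : Finite (V ≃ₗ[F] V) := Cfsg.Agent.H50.RG.finite_equiv
  have : Finite (X ≃ₗ[F] X) := Cfsg.Agent.H50.RG.finite_equiv
  have : Finite (X' ≃ₗ[F] X') := Cfsg.Agent.H50.RG.finite_equiv
  have : Finite ((X × X') ≃ₗ[F] (X × X')) := Cfsg.Agent.H50.RG.finite_equiv
  let Z : Set ((X × X') →ₗ[F] V) := {ψ | ∃ y ∈ G, ∃ z ∈ PF Φ P S T y, ψ = z.1.coprod z.2}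
  let TT : Set ((((X × X') → (X × X') → F) × ((X × X') → F)) × ((X × X') ≃ₗ[F] (X × X'))) :=
    Set.range fun p : S × T => (osum P p.2.1.1, p.1.1.prodCongr p.2.1.2)
  have hZ : ∀ ψ ∈ Z, Function.Injective ψ ∧ Wc c Φ G ψ := by
    rintro _ ⟨y, hy, z, hz, rfl⟩
    refine ⟨?_, hW y hy z hz⟩
    have hdis : Disjoint (LinearMap.range z.1) (LinearMap.range z.2) := by
      refine (Cfsg.Agent.H440.Bs.perp_disjoint Φ (hnd _ hz.1.1)).mono_right ?_
      rintro _ ⟨u, rfl⟩
      rw [mem_perp]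
      rintro _ ⟨x, rfl⟩
      exact Φ.refl _ _ (hz.2.2.1 x u)
    rw [← LinearMap.ker_eq_bot, LinearMap.ker_coprod_of_disjoint_range _ _ hdis, LinearMap.ker_eq_bot.2 hz.1.1.1,
      LinearMap.ker_eq_bot.2 hz.2.1, Submodule.prod_bot]
  have h1 := gc (G := G) hZ TT
  have h2 : Nat.card TT ≤ Nat.card S * Nat.card T := by
    rw [← Nat.card_prod]
    exact Finite.card_range_le _
  refine le_trans ?_ (h1.trans (Nat.mul_le_mul_left _ h2))
  rw [Nat.card_sigma]
  refine Finset.sum_le_sum fun y _ => ?_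
  refine Nat.card_le_card_of_injective (fun z => ⟨z.1.1.coprod z.1.2, ⟨y, y.2, z.1, z.2, rfl⟩, ?_⟩) ?_
  · obtain ⟨m, hm, hm'⟩ := z.2.1.2
    obtain ⟨m₁, hm₁, hm₁'⟩ := z.2.2.2.2
    refine ⟨m.prodCongr m₁, ⟨(⟨m, hm⟩, ⟨(_, m₁), hm₁⟩), ?_⟩, fun x => ?_⟩
    · rw [pb_coprod z.2.2.2.1, z.2.1.1.2]
    · rw [LinearMap.coprod_apply, map_add, hm', hm₁']
      rfl
  · rintro ⟨⟨φ, β⟩, h⟩ ⟨⟨φ', β'⟩, h'⟩ h4
    have h5 : φ.coprod β = φ'.coprod β' := congrArg Subtype.val h4
    have h6 : φ = φ' := LinearMap.ext fun x => by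
      have := LinearMap.congr_fun h5 (x, 0)
      simpa using this
    have h7 : β = β' := LinearMap.ext fun x => by
      have := LinearMap.congr_fun h5 (0, x)
      simpa only [_root_.LinearMap.coprod_apply, _root_.map_zero, _root_.zero_add] using this
    subst h6 h7
    rfl

end Cfsg.Agent.H50.Ux
end

-- part: H50/Ux/Uniq
section
/-!
# UT2 (UX, S5716): uniqueness and orthogonality of the blocks (helper50)
-/

set_option autoImplicit false
set_option linter.unusedSectionVars false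

namespace Cfsg.Agent.H50.Ux

open Module Cfsg.Agent.H847.Bs Cfsg.Agent.LieClassical.OrthCore
open Cfsg.Agent.H440.Bs (perp mem_perp mem_perp' finrank_perp perp_disjoint)
open Cfsg.Agent.H50.RG (Ad irr_frame pow_frame)

variable {F V : Type*} [Field F] [AddCommGroup V] [Module F V] [FiniteDimensional F V]
variable {Φ : Frm F V} {y : V ≃ₗ[F] V} {E E' B : Submodule F V}

theorem inv_perp (hy : y ∈ Φ.Iso) (h : _root_.Cfsg.Agent.H847.Bs.Inv y E) : _root_.Cfsg.Agent.H847.Bs.Inv y (perp Φ E) := by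
  intro v hv
  rw [mem_perp] at hv ⊢
  intro x hx
  obtain ⟨x', hx', rfl⟩ := Cfsg.Agent.H440.Bs.Inv.surj h hx
  rw [hy.1]
  exact hv x' hx'

theorem inv_inf (h : _root_.Cfsg.Agent.H847.Bs.Inv y E) (h' : _root_.Cfsg.Agent.H847.Bs.Inv y E') : _root_.Cfsg.Agent.H847.Bs.Inv y (E ⊓ E') := fun v hv => ⟨h v hv.1, h' v hv.2⟩

theorem inv_sup (h : _root_.Cfsg.Agent.H847.Bs.Inv y E) (h' : _root_.Cfsg.Agent.H847.Bs.Inv y E') : _root_.Cfsg.Agent.H847.Bs.Inv y (E ⊔ E') := by
  intro v hv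
  obtain ⟨a, ha, b, hb, rfl⟩ := Submodule.mem_sup.1 hv
  rw [map_add]
  exact Submodule.add_mem_sup (h a ha) (h' b hb)

/-- irreducible subspaces of different dimensions are orthogonal -/
theorem orth_of_ne (hN : Φ.Nd) (hy : y ∈ Φ.Iso) (h : Irr y E) (h' : Irr y E') (hne : finrank F E ≠ finrank F E') :
    E' ≤ perp Φ E := by
  have key : ∀ {A A' : Submodule F V}, Irr y A → Irr y A' → ¬ A' ≤ perp Φ A → finrank F A' ≤ finrank F A := by
    intro A A' hA hA' hn
    rcases hA'.min (A' ⊓ perp Φ A) inf_le_left (inv_inf hA'.inv (inv_perp hy hA.inv)) with h1 | h1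
    · have h2 := Submodule.finrank_sup_add_finrank_inf_eq A' (perp Φ A)
      rw [h1, finrank_bot, add_zero] at h2
      have h3 := finrank_perp Φ hN A
      have h4 : finrank F ↥(A' ⊔ perp Φ A) ≤ finrank F V := Submodule.finrank_le _
      omega
    · exact absurd (inf_eq_left.1 h1) hn
  by_contra hn
  have hn' : ¬ E ≤ perp Φ E' := by
    intro h1
    apply hn
    intro v hv
    rw [mem_perp']
    intro x hx
    exact (mem_perp Φ).1 (h1 hx) v hv
  exact hne (le_antisymm (key h' h hn') (key h h' hn))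

/-- uniqueness of the good block -/
theorem Gn.unique {e : ℕ} (hN : Φ.Nd) (hy : y ∈ Φ.Iso) (h : Gn Φ e y E) (h' : Irr y E') (hd : finrank F E' = e) :
    E' = E := by
  by_contra hne
  have hinf : E' ⊓ E = ⊥ := by
    rcases h'.min (E' ⊓ E) inf_le_left (inv_inf h'.inv h.irr.inv) with h1 | h1
    · exact h1
    · exact absurd (Submodule.eq_of_le_of_finrank_eq (inf_eq_left.1 h1) (hd.trans h.dim.symm)) hne
  have hdis := perp_disjoint Φ h.nd
  have hle : ∀ {W : Submodule F V}, E ≤ W → W = E ⊔ (W ⊓ perp Φ E) := by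
    intro W hW
    have h1 : E ⊔ perp Φ E = ⊤ := (Cfsg.Agent.H440.Bs.dec_perp Φ hN h.nd).compl.sup_eq_top
    have h2 : E ⊔ (perp Φ E) ⊓ W = (E ⊔ perp Φ E) ⊓ W := sup_inf_assoc_of_le (perp Φ E) hW |>.symm
    rw [inf_comm W, h2, h1, top_inf_eq]
  set D := (E ⊔ E') ⊓ perp Φ E with hD
  have hDinv : _root_.Cfsg.Agent.H847.Bs.Inv y D := inv_inf (inv_sup h.irr.inv h'.inv) (inv_perp hy h.irr.inv)
  have hED : E ⊔ D = E ⊔ E' := (hle le_sup_left).symm
  have hdisD : E ⊓ D = ⊥ := by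
    rw [eq_bot_iff, ← hdis.eq_bot]
    exact inf_le_inf_left _ inf_le_right
  have hdim : finrank F D = e := by
    have h1 := Submodule.finrank_sup_add_finrank_inf_eq E D
    have h2 := Submodule.finrank_sup_add_finrank_inf_eq E' E
    rw [hED, hdisD, finrank_bot] at h1
    rw [hinf, finrank_bot, sup_comm] at h2
    have h3 := h.dim
    omega
  have hirr : Irr y D := by
    refine ⟨hDinv, ?_, fun W hW hWi => ?_⟩
    · intro h0
      have h1 : finrank F D = 0 := by rw [h0, finrank_bot]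
      have h2 : finrank F E' = 0 := by omega
      exact h'.ne_bot (Submodule.finrank_eq_zero.1 h2)
    · rcases h'.min (E' ⊓ (W ⊔ E)) inf_le_left (inv_inf h'.inv (inv_sup hWi h.irr.inv)) with h1 | h1
      · left
        have h2 := Submodule.finrank_sup_add_finrank_inf_eq E' (W ⊔ E)
        rw [h1, finrank_bot] at h2
        have h3 : E' ⊔ (W ⊔ E) ≤ E ⊔ E' := by
          refine sup_le le_sup_right (sup_le ?_ le_sup_left)
          exact hW.trans inf_le_left
        have h4 := Submodule.finrank_mono h3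
        have h5 := Submodule.finrank_sup_add_finrank_inf_eq E' E
        rw [hinf, finrank_bot, sup_comm] at h5
        have h6 : finrank F ↥(W ⊔ E) ≤ finrank F E := by omega
        have h7 : E = W ⊔ E := Submodule.eq_of_le_of_finrank_le le_sup_right h6
        have h8 : W ≤ E := by rw [h7]; exact le_sup_left
        rw [eq_bot_iff, ← hdis.eq_bot]
        exact le_inf h8 (hW.trans inf_le_right)
      · right
        refine le_antisymm hW ?_
        have h2 : E' ≤ W ⊔ E := inf_eq_left.1 h1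
        have h3 : D ≤ W ⊔ E := inf_le_left.trans (sup_le le_sup_right h2)
        have h4 : (W ⊔ E) ⊓ perp Φ E = W := by
          rw [sup_inf_assoc_of_le E (hW.trans inf_le_right), hdis.eq_bot, sup_bot_eq]
        rw [← h4]
        exact le_inf h3 inf_le_right
  exact h.no D inf_le_right hirr ⟨1, by omega⟩

/-- the pair `E`, `B` leaves room -/
theorem room (hN : Φ.Nd) (hy : y ∈ Φ.Iso) {e : ℕ} (hE : Φ.NdOn E) (hd : finrank F E = e) (hB : Irr y B)
    (hBE : B ≤ perp Φ E) (hdv : e ∣ finrank F B) (hn : ¬ e ∣ finrank F V) :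
    ¬ perp Φ (E ⊔ B) ≤ E ⊔ B := by
  intro hle
  have hdis := perp_disjoint Φ hE
  have h1 : perp Φ (E ⊔ B) ≤ perp Φ E := fun v hv x hx => hv x (Submodule.mem_sup_left hx)
  have h2 : perp Φ (E ⊔ B) ≤ perp Φ B := fun v hv x hx => hv x (Submodule.mem_sup_right hx)
  have h3 : perp Φ (E ⊔ B) ≤ B := by
    have h4 : (E ⊔ B) ⊓ perp Φ E = B := by
      rw [sup_comm, sup_inf_assoc_of_le E hBE, hdis.eq_bot, sup_bot_eq]
    exact (le_inf hle h1).trans h4.le
  have h5 : perp Φ (E ⊔ B) = B ⊓ perp Φ B := by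
    refine le_antisymm (le_inf h3 h2) ?_
    rintro v ⟨hv, hv'⟩
    rw [mem_perp]
    intro x hx
    obtain ⟨a, ha, b, hb, rfl⟩ := Submodule.mem_sup.1 hx
    rw [Φ.add_right, (mem_perp Φ).1 (hBE hv) a ha, (mem_perp Φ).1 hv' b hb, add_zero]
  have h6 := finrank_perp Φ hN (E ⊔ B)
  have h7 := Submodule.finrank_sup_add_finrank_inf_eq E B
  have h8 : E ⊓ B = ⊥ := by
    rw [eq_bot_iff, ← hdis.eq_bot]
    exact inf_le_inf_left _ hBE
  rw [h8, finrank_bot, add_zero] at h7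
  rw [h5] at h6
  obtain ⟨c, hc⟩ := hdv
  rcases hB.min (B ⊓ perp Φ B) inf_le_left (inv_inf hB.inv (inv_perp hy hB.inv)) with h9 | h9
  · rw [h9, finrank_bot] at h6
    exact hn ⟨1 + c, by rw [mul_add, mul_one]; omega⟩
  · rw [h9] at h6
    exact hn ⟨1 + 2 * c, by
      have : e * (2 * c) = 2 * (e * c) := by ring
      rw [mul_add, mul_one, this]; omega⟩

end Cfsg.Agent.H50.Ux
end

-- part: H50/Ux/Mom
section
/-!
# UT2 (UX, S5716): the moments (helper50)

* `cross` : mixed moments; `pairB` : pairs of a block and an irreducible subspace of its orthogonal space.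
-/

set_option autoImplicit false
set_option linter.unusedSectionVars false

namespace Cfsg.Agent.H50.Ux

open Module Cfsg.Agent.H847.Bs Cfsg.Agent.LieClassical.OrthCore
open Cfsg.Agent.H440.Bs (perp mem_perp mem_perp')
open Cfsg.Agent.H50.RG (Ad exists_m irr_frame)

variable {F V : Type*} [Field F] [AddCommGroup V] [Module F V]
variable {X : Type*} [AddCommGroup X] [Module F X]
variable {X' : Type*} [AddCommGroup X'] [Module F X']
variable {Φ : Frm F V} {G : Subgroup (V ≃ₗ[F] V)}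

/-- mixed moments -/
theorem cross [Finite F] [Finite V] [Finite X] [Finite X'] {P : (X → X → F) × (X → F)}
    {P' : (X' → X' → F) × (X' → F)} {S : Set (X ≃ₗ[F] X)} {S' : Set (X' ≃ₗ[F] X')} (hC : CjP P S) (hC' : CjP P' S')
    (hnd : ∀ φ ∈ FrP Φ P, Φ.NdOn (LinearMap.range φ))
    (horth : ∀ y ∈ G, ∀ A ∈ AP Φ P y S, ∀ A' ∈ AP Φ P' y S', A' ≤ perp Φ A)
    (hW : ∀ ψ : (X × X') →ₗ[F] V, Function.Injective ψ → Wc 1 Φ G ψ) [Fintype G] :
    (∑ y : G, Nat.card (AP Φ P (y : V ≃ₗ[F] V) S) * Nat.card (AP Φ P' (y : V ≃ₗ[F] V) S')) *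
      (Nat.card {t : X ≃ₗ[F] X // IsoP P t} * Nat.card {t : X' ≃ₗ[F] X' // IsoP P' t}) ≤
      Nat.card G * (Nat.card S * Nat.card S') := by
  classical
  have : Finite (X →ₗ[F] V) := finite_hom
  have : Finite (X' →ₗ[F] V) := finite_hom
  have : Finite (X' ≃ₗ[F] X') := Cfsg.Agent.H50.RG.finite_equiv
  let T : Set (((X' → X' → F) × (X' → F)) × (X' ≃ₗ[F] X')) := {t | t.1 = P' ∧ t.2 ∈ S'}
  have hT : Nat.card T ≤ Nat.card S' :=
    Nat.card_le_card_of_injective (fun t : T => (⟨t.1.2, t.2.2⟩ : S')) fun a b h =>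
      Subtype.ext (Prod.ext (a.2.1.trans b.2.1.symm) (congrArg Subtype.val h))
  have hW' : ∀ y ∈ G, ∀ z ∈ PF Φ P S T y, Wc 1 Φ G (z.1.coprod z.2) := by
    intro y hy z hz
    refine hW _ ?_
    have hdis : Disjoint (LinearMap.range z.1) (LinearMap.range z.2) := by
      refine (Cfsg.Agent.H440.Bs.perp_disjoint Φ (hnd _ hz.1.1)).mono_right ?_
      rintro _ ⟨u, rfl⟩
      rw [mem_perp]
      rintro _ ⟨x, rfl⟩
      exact Φ.refl _ _ (hz.2.2.1 x u)
    rw [← LinearMap.ker_eq_bot, LinearMap.ker_coprod_of_disjoint_range _ _ hdis, LinearMap.ker_eq_bot.2 hz.1.1.1,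
      LinearMap.ker_eq_bot.2 hz.2.1, Submodule.prod_bot]
  have h1 := pairs (G := G) (T := T) hnd hW'
  rw [one_mul] at h1
  refine le_trans ?_ (h1.trans (Nat.mul_le_mul_left _ (Nat.mul_le_mul_left _ hT)))
  rw [Finset.sum_mul]
  refine Finset.sum_le_sum fun y _ => ?_
  have h3 : Nat.card (AP Φ P (y : V ≃ₗ[F] V) S) * Nat.card (AP Φ P' (y : V ≃ₗ[F] V) S') *
      (Nat.card {t : X ≃ₗ[F] X // IsoP P t} * Nat.card {t : X' ≃ₗ[F] X' // IsoP P' t}) =
      Nat.card ({φ : X →ₗ[F] V // φ ∈ FrP Φ P ∧ Ad (y : V ≃ₗ[F] V) S φ} ×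
        {φ : X' →ₗ[F] V // φ ∈ FrP Φ P' ∧ Ad (y : V ≃ₗ[F] V) S' φ}) := by
    rw [Nat.card_prod, card_AP hC, card_AP hC']
    ring
  rw [h3]
  refine Nat.card_le_card_of_injective (fun p => (⟨(p.1.1, p.2.1), p.1.2, p.2.2.1.1, ?_, ?_⟩ :
    PF Φ P S T (y : V ≃ₗ[F] V))) ?_
  · intro x u
    have h4 := horth y y.2 _ ⟨p.1.1, p.1.2.1, rfl, p.1.2.2⟩ _ ⟨p.2.1, p.2.2.1, rfl, p.2.2.2⟩
      (show p.2.1 u ∈ LinearMap.range p.2.1 from ⟨u, rfl⟩)
    exact Φ.refl _ _ (h4 (p.1.1 x) ⟨x, rfl⟩)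
  · obtain ⟨m, hm, h5⟩ := p.2.2.2
    exact ⟨m, ⟨p.2.2.1.2, hm⟩, h5⟩
  · rintro ⟨⟨φ, hφ⟩, ⟨φ', hφ'⟩⟩ ⟨⟨ψ, hψ⟩, ⟨ψ', hψ'⟩⟩ h4
    have h5 : (φ, φ') = (ψ, ψ') := congrArg Subtype.val h4
    obtain ⟨rfl, rfl⟩ := Prod.mk.inj h5
    rfl

/-- the blocks with an irreducible subspace of dimension `k` in the orthogonal space -/
def PB (Φ : Frm F V) (P : (X → X → F) × (X → F)) (S : Set (X ≃ₗ[F] X)) (k : ℕ) (y : V ≃ₗ[F] V) :
    Set (Submodule F V) :=
  {A | A ∈ AP Φ P y S ∧ ∃ B ≤ perp Φ A, Irr y B ∧ finrank F B = k}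

/-- embedded forms with an irreducible isometry -/
def Tk (Φ : Frm F V) (k : ℕ) :
    Set ((((Fin k → F) → (Fin k → F) → F) × ((Fin k → F) → F)) × ((Fin k → F) ≃ₗ[F] (Fin k → F))) :=
  {x | Emb Φ x.1 ∧ IsoP x.1 x.2 ∧ Irr x.2 ⊤}

theorem card_PB [Finite F] [Finite V] [Finite X] (hG : G ≤ Φ.Iso) {P : (X → X → F) × (X → F)} {S : Set (X ≃ₗ[F] X)}
    (hC : CjP P S) (k : ℕ) {y : V ≃ₗ[F] V} (hy : y ∈ G) :
    Nat.card (PB Φ P S k y) * (Nat.card {t : X ≃ₗ[F] X // IsoP P t} * Nat.card ((Fin k → F) ≃ₗ[F] (Fin k → F))) ≤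
      Nat.card (PF Φ P S (Tk Φ k) y) := by
  classical
  have : FiniteDimensional F V := Module.Finite.of_finite
  have : Finite (X →ₗ[F] V) := finite_hom
  have : Finite ((Fin k → F) →ₗ[F] V) := finite_hom
  have hch : ∀ A : PB Φ P S k y, ∃ z : (X →ₗ[F] V) × ((Fin k → F) →ₗ[F] V), (z.1 ∈ FrP Φ P ∧ LinearMap.range z.1 = A.1 ∧
      Ad y S z.1) ∧ Function.Injective z.2 ∧ LinearMap.range z.2 ≤ perp Φ A.1 ∧ Irr y (LinearMap.range z.2) := by
    rintro ⟨A, ⟨φ, hφ, hr, hA⟩, B, hB, hBi, hBd⟩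
    let θ : (Fin k → F) ≃ₗ[F] B := LinearEquiv.ofFinrankEq _ _ (by rw [hBd]; simp only [_root_.Module.finrank_fintype_fun_eq_card, _root_.Fintype.card_fin])
    have hr' : LinearMap.range (B.subtype ∘ₗ (θ : (Fin k → F) →ₗ[F] B)) = B := by
      rw [LinearMap.range_comp, LinearEquiv.range, Submodule.map_top, Submodule.range_subtype]
    refine ⟨(φ, B.subtype ∘ₗ (θ : (Fin k → F) →ₗ[F] B)), ⟨hφ, hr, hA⟩, B.injective_subtype.comp θ.injective, ?_, ?_⟩
    · show LinearMap.range (B.subtype ∘ₗ (θ : (Fin k → F) →ₗ[F] B)) ≤ _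
      rw [hr']; exact hB
    · show Irr y (LinearMap.range (B.subtype ∘ₗ (θ : (Fin k → F) →ₗ[F] B)))
      rw [hr']; exact hBi
  choose z hz using hch
  rw [← Nat.card_prod, ← Nat.card_prod]
  refine Nat.card_le_card_of_injective (fun q : PB Φ P S k y × ({t : X ≃ₗ[F] X // IsoP P t} ×
    ((Fin k → F) ≃ₗ[F] (Fin k → F))) => (⟨((z q.1).1 ∘ₗ (q.2.1.1 : X →ₗ[F] X),
      (z q.1).2 ∘ₗ (q.2.2 : (Fin k → F) →ₗ[F] (Fin k → F))), ⟨?_, ?_⟩, ?_, ?_, ?_⟩ : PF Φ P S (Tk Φ k) y)) ?_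
  · exact FrP.comp (hz q.1).1.1 q.2.1.2
  · exact (hz q.1).1.2.2.comp fun m hm => hC m hm _ q.2.1.2
  · exact (hz q.1).2.1.comp q.2.2.injective
  · intro x u
    refine Φ.refl _ _ ?_
    refine (hz q.1).2.2.1 ⟨q.2.2 u, rfl⟩ _ ?_
    rw [← (hz q.1).1.2.1]
    exact ⟨_, rfl⟩
  · have hi : Function.Injective ((z q.1).2 ∘ₗ (q.2.2 : (Fin k → F) →ₗ[F] (Fin k → F))) :=
      (hz q.1).2.1.comp q.2.2.injective
    have hr : LinearMap.range ((z q.1).2 ∘ₗ (q.2.2 : (Fin k → F) →ₗ[F] (Fin k → F))) = LinearMap.range (z q.1).2 := by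
      rw [LinearMap.range_comp, LinearEquiv.range, Submodule.map_top]
    obtain ⟨m, hm⟩ := exists_m (y := y) hi (by rw [hr]; exact (hz q.1).2.2.2.inv)
    refine ⟨m, ⟨⟨_, hi, rfl⟩, isoP_of (hG hy) hm, ?_⟩, hm⟩
    rw [irr_frame hi hm, hr]
    exact (hz q.1).2.2.2
  · rintro ⟨A, ⟨t, ht⟩, g⟩ ⟨A', ⟨t', ht'⟩, g'⟩ h
    have h1 : ((z A).1 ∘ₗ (t : X →ₗ[F] X), (z A).2 ∘ₗ (g : (Fin k → F) →ₗ[F] (Fin k → F))) =
        ((z A').1 ∘ₗ (t' : X →ₗ[F] X), (z A').2 ∘ₗ (g' : (Fin k → F) →ₗ[F] (Fin k → F))) := congrArg Subtype.val h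
    obtain ⟨h2, h3⟩ := Prod.mk.inj h1
    have hA : A = A' := by
      apply Subtype.ext
      rw [← (hz A).1.2.1, ← (hz A').1.2.1]
      have e1 := congrArg LinearMap.range h2
      rwa [LinearMap.range_comp, LinearMap.range_comp, LinearEquiv.range, LinearEquiv.range, Submodule.map_top,
        Submodule.map_top] at e1
    subst hA
    have ht1 : t = t' := by
      ext x
      exact (hz A).1.1.1 (LinearMap.congr_fun h2 x)
    have hg1 : g = g' := by
      refine LinearEquiv.ext fun x => ?_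
      exact (hz A).2.1 (LinearMap.congr_fun h3 x)
    subst ht1 hg1
    rfl

/-- pairs of a block and an irreducible subspace on average -/
theorem sum_PB [Finite F] [Finite V] [Finite X] (hG : G ≤ Φ.Iso) {P : (X → X → F) × (X → F)} {S : Set (X ≃ₗ[F] X)}
    (hC : CjP P S) (hnd : ∀ φ ∈ FrP Φ P, Φ.NdOn (LinearMap.range φ)) {c k : ℕ}
    (hW : ∀ y ∈ G, ∀ z ∈ PF Φ P S (Tk Φ k) y, Wc c Φ G (z.1.coprod z.2))
    (hT : k * Nat.card (Tk Φ k) ≤ 8 * Nat.card ((Fin k → F) ≃ₗ[F] (Fin k → F))) [Fintype G] :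
    (∑ y : G, Nat.card (PB Φ P S k (y : V ≃ₗ[F] V))) * (Nat.card {t : X ≃ₗ[F] X // IsoP P t} * k) ≤
      8 * c * Nat.card G * Nat.card S := by
  have : Finite ((Fin k → F) ≃ₗ[F] (Fin k → F)) := Cfsg.Agent.H50.RG.finite_equiv
  have h1 := pairs (G := G) (T := Tk Φ k) hnd hW
  have h2 : (∑ y : G, Nat.card (PB Φ P S k (y : V ≃ₗ[F] V))) * (Nat.card {t : X ≃ₗ[F] X // IsoP P t} *
      Nat.card ((Fin k → F) ≃ₗ[F] (Fin k → F))) ≤ c * Nat.card G * (Nat.card S * Nat.card (Tk Φ k)) := by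
    refine le_trans ?_ h1
    rw [Finset.sum_mul]
    exact Finset.sum_le_sum fun y _ => card_PB hG hC k y.2
  have h3 : 0 < Nat.card ((Fin k → F) ≃ₗ[F] (Fin k → F)) := Nat.card_pos
  refine Nat.le_of_mul_le_mul_right ?_ h3
  calc _ = (∑ y : G, Nat.card (PB Φ P S k (y : V ≃ₗ[F] V))) * (Nat.card {t : X ≃ₗ[F] X // IsoP P t} *
      Nat.card ((Fin k → F) ≃ₗ[F] (Fin k → F))) * k := by ring
    _ ≤ c * Nat.card G * (Nat.card S * Nat.card (Tk Φ k)) * k := Nat.mul_le_mul_right _ h2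
    _ = c * Nat.card G * Nat.card S * (k * Nat.card (Tk Φ k)) := by ring
    _ ≤ c * Nat.card G * Nat.card S * (8 * Nat.card ((Fin k → F) ≃ₗ[F] (Fin k → F))) := Nat.mul_le_mul_left _ hT
    _ = _ := by ring

end Cfsg.Agent.H50.Ux
end

-- part: H50/Ux/Block
section
/-!
# UT2 (UX, S5716): the model block (helper50)
-/

set_option autoImplicit false
set_option linter.unusedSectionVars false

namespace Cfsg.Agent.H50.Ux

open Module Cfsg.Agent.H847.Bs Cfsg.Agent.LieClassical.OrthCore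
open Cfsg.Agent.H440.Bs (perp mem_perp mem_perp')
open Cfsg.Agent.H141.Ux (Kl ParE Pp StE)
open Cfsg.Agent.H50.RG (Ad exists_m irr_frame pow_frame irr_conj)

variable {F V : Type*} [Field F] [AddCommGroup V] [Module F V]
variable {Φ : Frm F V} {G : Subgroup (V ≃ₗ[F] V)} {N t : ℕ}

theorem kl_le (h : Kl Φ G N t) : G ≤ Φ.Iso := by
  rcases h with ⟨h1, rfl, h3, -⟩ | ⟨r, h1, rfl, h3, -⟩ | ⟨Q, h1, rfl, rfl, h4, -⟩
  · exact le_rfl
  · exact inf_le_left
  · intro g hg
    exact ⟨fun x y => polar_map (E_le_O hg) x y, E_le_O hg⟩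

theorem kl_nd (h : Kl Φ G N t) : Φ.Nd := by
  rcases h with ⟨h1, rfl, h3, -⟩ | ⟨r, h1, rfl, h3, -⟩ | ⟨Q, h1, rfl, rfl, h4, -⟩
  · exact h1.nd
  · exact h1.nd
  · exact h1

/-- small frames: exact transitivity -/
theorem tr_of_witt [Finite F] [Finite V] (h : Kl Φ G N t) {X : Type*} [AddCommGroup X] [Module F X]
    [FiniteDimensional F X] (hX : 2 * finrank F X + 3 ≤ finrank F V) (h5 : 5 ≤ finrank F V)
    {P : (X → X → F) × (X → F)} : ∀ φ ∈ FrP Φ P, ∀ φ' ∈ FrP Φ P, ∃ g ∈ G, ∀ x, g (φ x) = φ' x := by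
  rintro φ ⟨hφ, hP⟩ φ' ⟨hφ', hP'⟩
  let b := finBasis F X
  have h' : Cfsg.Agent.H847.Ux.Kl Φ G N := by
    rcases h with ⟨h1, h2, h3, -⟩ | ⟨r, h1, h2, h3, -⟩ | ⟨Q, h1, h2, h3, h4, -⟩
    · exact Or.inl ⟨h1, h2, h3⟩
    · exact Or.inr (Or.inl ⟨r, h1, h2, h3⟩)
    · exact Or.inr (Or.inr ⟨Q, h1, h2, h3, h4⟩)
  have hB : ∀ x y, Φ.B (φ x) (φ y) = Φ.B (φ' x) (φ' y) := fun x y =>
    congrFun (congrFun (congrArg Prod.fst (hP.trans hP'.symm)) x) y
  have hq : ∀ x, Φ.q (φ x) = Φ.q (φ' x) := fun x => congrFun (congrArg Prod.snd (hP.trans hP'.symm)) x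
  obtain ⟨g, hg, hgg⟩ := Cfsg.Agent.H847.Ux.witt h' hX h5 (u := fun i => φ (b i)) (u' := fun i => φ' (b i))
    (b.linearIndependent.map' φ (LinearMap.ker_eq_bot.2 hφ)) (b.linearIndependent.map' φ' (LinearMap.ker_eq_bot.2 hφ'))
    (fun i j => hB _ _) (fun i => hq _)
  refine ⟨g, hg, fun x => ?_⟩
  have h1 : (g : V →ₗ[F] V) ∘ₗ φ = φ' := b.ext fun i => hgg i
  exact LinearMap.congr_fun h1 x

theorem Wc.mono {D : Type*} [AddCommGroup D] [Module F D] {c c' : ℕ} (hc : c ≤ c') {ψ : D →ₗ[F] V} (h : Wc c Φ G ψ) :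
    Wc c' Φ G ψ := fun ψ' => (h ψ').trans (Nat.mul_le_mul_right _ hc)

/-! ### the model block -/

/-- the form of `E₀` -/
def P0 (Φ : Frm F V) (E₀ : Submodule F V) : (E₀ → E₀ → F) × (E₀ → F) := pb Φ E₀.subtype

/-- the irreducible isometries of `E₀` with large primitive part -/
def S0 (Φ : Frm F V) (e : ℕ) (E₀ : Submodule F V) : Set (E₀ ≃ₗ[F] E₀) := {m | IsoP (P0 Φ E₀) m ∧ m ∈ PI F E₀ e}

theorem IsoP.mul {X : Type*} [AddCommGroup X] [Module F X] {P : (X → X → F) × (X → F)} {m m' : X ≃ₗ[F] X}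
    (h : IsoP P m) (h' : IsoP P m') : IsoP P (m * m') :=
  ⟨fun x y => (h.1 _ _).trans (h'.1 _ _), fun x => (h.2 _).trans (h'.2 _)⟩

theorem IsoP.inv {X : Type*} [AddCommGroup X] [Module F X] {P : (X → X → F) × (X → F)} {m : X ≃ₗ[F] X}
    (h : IsoP P m) : IsoP P m⁻¹ := by
  have e : ∀ x, m (m⁻¹ x) = x := fun x => m.apply_symm_apply x
  refine ⟨fun x y => ?_, fun x => ?_⟩
  · rw [← h.1 (m⁻¹ x) (m⁻¹ y), e, e]
  · rw [← h.2 (m⁻¹ x), e]

theorem cj_S0 (e : ℕ) (E₀ : Submodule F V) : CjP (P0 Φ E₀) (S0 Φ e E₀) := by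
  rintro m ⟨hm, hi, k, hk, hd⟩ t ht
  refine ⟨(ht.inv.mul hm).mul ht, irr_conj hi, k, hk, ?_⟩
  have : orderOf (t⁻¹ * m * t) = orderOf m := by
    have := orderOf_injective (MulAut.conj t⁻¹ : MulAut (E₀ ≃ₗ[F] E₀)).toMonoidHom (MulEquiv.injective _) m
    simpa only [_root_.map_inv, _root_.MulEquiv.toMonoidHom_eq_coe, _root_.MonoidHom.coe_coe, _root_.MulAut.inv_apply, _root_.MulAut.conj_symm_apply] using this
  rw [this]
  exact hd

theorem ndOn_frP {E₀ : Submodule F V} (hE : Φ.NdOn E₀) : ∀ φ ∈ FrP Φ (P0 Φ E₀), Φ.NdOn (LinearMap.range φ) := by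
  rintro φ ⟨hφ, hP⟩ _ ⟨x, rfl⟩ h
  have hB : ∀ x y : E₀, Φ.B (φ x) (φ y) = Φ.B x y := fun x y => congrFun (congrFun (congrArg Prod.fst hP) x) y
  have h1 : x = 0 := by
    apply Subtype.ext
    refine hE x x.2 fun y hy => ?_
    rw [← hB x ⟨y, hy⟩]
    exact h _ ⟨_, rfl⟩
  rw [h1, map_zero]

theorem mem_AP0 {E₀ : Submodule F V} (hE : Φ.NdOn E₀) {e : ℕ} (hd : finrank F E₀ = e) {y : V ≃ₗ[F] V}
    {A : Submodule F V} (hA : A ∈ AP Φ (P0 Φ E₀) y (S0 Φ e E₀)) :
    Φ.NdOn A ∧ finrank F A = e ∧ Irr y A ∧ ∃ k, Pp F e k ∧ ∀ j : ℕ, (∀ a ∈ A, (y ^ j) a = a) → k ∣ j := by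
  obtain ⟨φ, hφ, rfl, m, ⟨hm, hi, k, hk, hkd⟩, h⟩ := hA
  refine ⟨ndOn_frP hE φ hφ, by rw [LinearMap.finrank_range_of_inj hφ.1, hd], (irr_frame hφ.1 h).1 hi, k, hk,
    fun j hj => hkd.trans (orderOf_dvd_of_pow_eq_one ?_)⟩
  ext x
  have h1 : (m ^ j) x = x := by
    apply hφ.1
    rw [← pow_frame h]
    exact hj _ ⟨x, rfl⟩
  rw [h1]
  rfl

/-- the pairs in `sum_PB` satisfy `Wc` -/
theorem wc_pairs [FiniteDimensional F V] (hN : Φ.Nd) (hG : G ≤ Φ.Iso) {E₀ : Submodule F V} (hE : Φ.NdOn E₀) {e : ℕ}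
    (hd : finrank F E₀ = e) {c k : ℕ} (hk : e ∣ k) (hn : ¬ e ∣ finrank F V)
    (hW : ∀ ψ : (E₀ × (Fin k → F)) →ₗ[F] V, Function.Injective ψ →
      ¬ perp Φ (LinearMap.range ψ) ≤ LinearMap.range ψ → Wc c Φ G ψ) :
    ∀ y ∈ G, ∀ z ∈ PF Φ (P0 Φ E₀) (S0 Φ e E₀) (Tk Φ k) y, Wc c Φ G (z.1.coprod z.2) := by
  intro y hy z hz
  have hA := mem_AP0 hE hd (y := y) ⟨z.1, hz.1.1, rfl, hz.1.2⟩
  obtain ⟨m, ⟨-, -, hmi⟩, hm⟩ := hz.2.2.2
  have hB : Irr y (LinearMap.range z.2) := (irr_frame hz.2.1 hm).1 hmi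
  have hBE : LinearMap.range z.2 ≤ perp Φ (LinearMap.range z.1) := by
    rintro _ ⟨u, rfl⟩
    rw [mem_perp]
    rintro _ ⟨x, rfl⟩
    exact Φ.refl _ _ (hz.2.2.1 x u)
  have hdis : Disjoint (LinearMap.range z.1) (LinearMap.range z.2) :=
    (Cfsg.Agent.H440.Bs.perp_disjoint Φ hA.1).mono_right hBE
  refine hW _ ?_ ?_
  · rw [← LinearMap.ker_eq_bot, LinearMap.ker_coprod_of_disjoint_range _ _ hdis, LinearMap.ker_eq_bot.2 hz.1.1.1,
      LinearMap.ker_eq_bot.2 hz.2.1, Submodule.prod_bot]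
  · rw [LinearMap.range_coprod]
    refine room hN (hG hy) hA.1 hA.2.1 hB hBE ?_ hn
    rw [LinearMap.finrank_range_of_inj hz.2.1]
    simpa only [_root_.Module.finrank_fintype_fun_eq_card, _root_.Fintype.card_fin] using hk

end Cfsg.Agent.H50.Ux
end

-- part: H50/Ux/Moment
section
/-!
# UT2 (UX, S5716): abstract second moment argument (helper50)
-/

set_option autoImplicit false

namespace Cfsg.Agent.H50.Ux

open Cfsg.Agent.H50.RG (second_moment)

/-- second moment, abstract version -/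
theorem moment {ι : Type*} [Fintype ι] (I : Finset ℕ) (g a : ℕ → ι → ℕ) (n : ℕ) (b : ℕ → ℕ → ι → ℕ) (x : ℕ → ℝ)
    (w : ℕ → ℕ → ℝ) {η : ℝ} (hη0 : 0 ≤ η) (hη1 : η ≤ 1) (hx0 : ∀ e ∈ I, 0 ≤ x e) (hga : ∀ e ∈ I, ∀ y, g e y ≤ a e y)
    (hg1 : ∀ e ∈ I, ∀ y, g e y ≤ 2) (hag : ∀ e ∈ I, ∀ y, a e y ≤ g e y + ∑ j ∈ Finset.range n, b e j y)
    (hfirst : ∀ e ∈ I, ∑ y, (a e y : ℝ) = Fintype.card ι * x e)
    (hb : ∀ e ∈ I, ∀ j ∈ Finset.range n, ∑ y, (b e j y : ℝ) ≤ Fintype.card ι * (x e * w e j))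
    (hw : ∀ e ∈ I, ∑ j ∈ Finset.range n, w e j ≤ η)
    (hcross : ∀ e ∈ I, ∀ e' ∈ I, e ≠ e' → ∑ y, (a e y : ℝ) * a e' y ≤ Fintype.card ι * (x e * x e')) :
    (Nat.card {y // ∑ e ∈ I, g e y = 0} : ℝ) * ((1 - η) * ∑ e ∈ I, x e) ^ 2 ≤
      Fintype.card ι * (2 * (∑ e ∈ I, x e) + 2 * η * (∑ e ∈ I, x e) ^ 2) := by
  classical
  have hN0 : (0 : ℝ) ≤ Fintype.card ι := Nat.cast_nonneg _
  have hmean : ∀ e ∈ I, Fintype.card ι * ((1 - η) * x e) ≤ ∑ y, (g e y : ℝ) := by
    intro e he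
    have h1 : (∑ y, (a e y : ℝ)) ≤ (∑ y, (g e y : ℝ)) + ∑ j ∈ Finset.range n, Fintype.card ι * (x e * w e j) := by
      have h2 : (∑ y, (a e y : ℝ)) ≤ ∑ y, ((g e y : ℝ) + ∑ j ∈ Finset.range n, (b e j y : ℝ)) := by
        refine Finset.sum_le_sum fun y _ => ?_
        exact_mod_cast hag e he y
      refine h2.trans ?_
      rw [Finset.sum_add_distrib, Finset.sum_comm]
      exact add_le_add le_rfl (Finset.sum_le_sum fun j hj => hb e he j hj)
    rw [hfirst e he, ← Finset.mul_sum, ← Finset.mul_sum] at h1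
    have h3 : x e * ∑ j ∈ Finset.range n, w e j ≤ x e * η := mul_le_mul_of_nonneg_left (hw e he) (hx0 e he)
    have h4 := mul_le_mul_of_nonneg_left h3 hN0
    linarith only [h1, h4]
  let R : ι → ℕ := fun y => ∑ e ∈ I, g e y
  have hS0 : 0 ≤ ∑ e ∈ I, x e := Finset.sum_nonneg hx0
  have hR1 : (Fintype.card ι : ℝ) * ((1 - η) * ∑ e ∈ I, x e) ≤ ∑ y, (R y : ℝ) := by
    have h1 : ∑ y, (R y : ℝ) = ∑ e ∈ I, ∑ y, (g e y : ℝ) := by
      rw [Finset.sum_comm]
      refine Finset.sum_congr rfl fun y _ => ?_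
      simp only [R]
      push_cast
      rfl
    rw [h1, Finset.mul_sum, Finset.mul_sum]
    exact Finset.sum_le_sum fun e he => hmean e he
  have hR2 : ∑ y, (R y : ℝ) ^ 2 ≤ Fintype.card ι * (2 * (∑ e ∈ I, x e) + (∑ e ∈ I, x e) ^ 2) := by
    have h1 : ∀ y, (R y : ℝ) ^ 2 = ∑ e ∈ I, ∑ e' ∈ I, (g e y : ℝ) * g e' y := by
      intro y
      simp only [R]
      push_cast
      rw [pow_two, Finset.sum_mul_sum]
    have h2 : ∑ y, (R y : ℝ) ^ 2 = ∑ e ∈ I, ∑ e' ∈ I, ∑ y, (g e y : ℝ) * g e' y := by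
      rw [Finset.sum_congr rfl fun y _ => h1 y, Finset.sum_comm]
      refine Finset.sum_congr rfl fun e _ => ?_
      rw [Finset.sum_comm]
    rw [h2]
    have h3 : ∀ e ∈ I, ∀ e' ∈ I, ∑ y, (g e y : ℝ) * g e' y ≤
        Fintype.card ι * (x e * x e' + if e = e' then 2 * x e else 0) := by
      intro e he e' he'
      by_cases h : e = e'
      · subst h
        rw [if_pos rfl]
        have h4 : ∑ y, (g e y : ℝ) * g e y ≤ ∑ y, 2 * (a e y : ℝ) := by
          refine Finset.sum_le_sum fun y _ => ?_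
          have h5 : (g e y : ℝ) ≤ 2 := by exact_mod_cast hg1 e he y
          have h6 : (g e y : ℝ) ≤ a e y := by exact_mod_cast hga e he y
          exact mul_le_mul h5 h6 (Nat.cast_nonneg _) (by norm_num)
        rw [← Finset.mul_sum, hfirst e he] at h4
        refine h4.trans ?_
        have := mul_nonneg (hx0 e he) (hx0 e he)
        nlinarith only []
      · rw [if_neg h, add_zero]
        refine le_trans ?_ (hcross e he e' he' h)
        refine Finset.sum_le_sum fun y _ => ?_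
        have h5 : (g e y : ℝ) ≤ a e y := by exact_mod_cast hga e he y
        have h6 : (g e' y : ℝ) ≤ a e' y := by exact_mod_cast hga e' he' y
        exact mul_le_mul h5 h6 (Nat.cast_nonneg _) (Nat.cast_nonneg _)
    refine (Finset.sum_le_sum fun e he => Finset.sum_le_sum fun e' he' => h3 e he e' he').trans (le_of_eq ?_)
    simp only [← Finset.mul_sum, Finset.sum_add_distrib]
    congr 1
    rw [pow_two, Finset.sum_mul_sum, add_comm]
    congr 1
    · rw [Finset.mul_sum]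
      refine Finset.sum_congr rfl fun e he => ?_
      rw [Finset.sum_ite_eq, if_pos he]
    · refine Finset.sum_congr rfl fun e _ => ?_
      rw [Finset.mul_sum]
  exact second_moment R hS0 hη0 hη1 hR1 hR2

end Cfsg.Agent.H50.Ux
end

-- part: H50/Ux/Core
section
/-!
# UT2 (UX, S5716): the second moment (helper50)
-/

set_option autoImplicit false
set_option linter.unusedSectionVars false

namespace Cfsg.Agent.H50.Ux

open Module Cfsg.Agent.H847.Bs Cfsg.Agent.LieClassical.OrthCore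
open Cfsg.Agent.H440.Bs (perp mem_perp mem_perp')
open Cfsg.Agent.H141.Ux (Kl ParE Pp StE)
open Cfsg.Agent.H50.RG (Ad)

/-- the proportion of good isometries in the model block -/
noncomputable def xx {F V : Type} [Field F] [AddCommGroup V] [Module F V] (Φ : Frm F V) (e : ℕ) (E₀ : Submodule F V) : ℝ :=
  (Nat.card (S0 Φ e E₀) : ℝ) / Nat.card {t : E₀ ≃ₗ[F] E₀ // IsoP (P0 Φ E₀) t}

theorem core (hYb : Yb) {F V : Type} [Field F] [Finite F] [AddCommGroup V] [Module F V] [Module.Finite F V]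
    {Φ : Frm F V} {G : Subgroup (V ≃ₗ[F] V)} {N t : ℕ} (h : Kl Φ G N t) (hFo : Fo Φ)
    (hW : ∀ (D : Type) [AddCommGroup D] [Module F D] [Module.Finite F D] (ψ : D →ₗ[F] V), Function.Injective ψ →
      ¬ perp Φ (LinearMap.range ψ) ≤ LinearMap.range ψ → Wc 4 Φ G ψ)
    (I : Finset ℕ) (E₀ : ℕ → Submodule F V) (hE : ∀ e ∈ I, Φ.NdOn (E₀ e) ∧ finrank F (E₀ e) = e)
    (hn : ∀ e ∈ I, 40 * e + 40 ≤ finrank F V ∧ 20 ≤ e ∧ ¬ e ∣ finrank F V) {η : ℝ}
    (hη : ∀ e ∈ I, ∑ j ∈ Finset.range (finrank F V), 1 / (((j + 1) * e : ℕ) : ℝ) ≤ η) (hη0 : 0 ≤ 32 * η)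
    (hη1 : 32 * η ≤ 1) :
    (Nat.card {y : G // ¬ ∃ e ∈ I, ∃ E, Gn Φ e (y : V ≃ₗ[F] V) E} : ℝ) *
        ((1 - 32 * η) * ∑ e ∈ I, xx Φ e (E₀ e)) ^ 2 ≤
      Nat.card G * (2 * (∑ e ∈ I, xx Φ e (E₀ e)) + 2 * (32 * η) * (∑ e ∈ I, xx Φ e (E₀ e)) ^ 2) := by
  classical
  have : Finite V := Module.finite_of_finite F
  have : Finite (V ≃ₗ[F] V) := Cfsg.Agent.H50.RG.finite_equiv
  have hfs : Finite (Submodule F V) := finite_sub
  have := Fintype.ofFinite G
  have hG := kl_le h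
  have hN := kl_nd h
  set n := finrank F V with hnn
  set S : (e : ℕ) → Set (E₀ e ≃ₗ[F] E₀ e) := fun e => S0 Φ e (E₀ e) with hS
  set J : ℕ → ℕ := fun e => Nat.card {t : E₀ e ≃ₗ[F] E₀ e // IsoP (P0 Φ (E₀ e)) t} with hJ
  have hJ0 : ∀ e, (0 : ℝ) < J e := by
    intro e
    have : Nonempty {t : E₀ e ≃ₗ[F] E₀ e // IsoP (P0 Φ (E₀ e)) t} := ⟨⟨1, fun _ _ => rfl, fun _ => rfl⟩⟩
    have : Finite (E₀ e ≃ₗ[F] E₀ e) := Cfsg.Agent.H50.RG.finite_equiv
    exact_mod_cast Nat.card_pos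
  have hxJ : ∀ e, xx Φ e (E₀ e) * J e = Nat.card (S e) := by
    intro e
    unfold xx
    rw [div_mul_cancel₀]
    exact (hJ0 e).ne'
  have hx0 : ∀ e, 0 ≤ xx Φ e (E₀ e) := fun e => div_nonneg (Nat.cast_nonneg _) (Nat.cast_nonneg _)
  let a : ℕ → G → ℕ := fun e y => Nat.card (AP Φ (P0 Φ (E₀ e)) (y : V ≃ₗ[F] V) (S e))
  let gs : ℕ → G → Set (Submodule F V) := fun e y => {A | A ∈ AP Φ (P0 Φ (E₀ e)) (y : V ≃ₗ[F] V) (S e) ∧
    Gn Φ e (y : V ≃ₗ[F] V) A}
  let g : ℕ → G → ℕ := fun e y => Nat.card (gs e y)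
  let b : ℕ → ℕ → G → ℕ := fun e j y => Nat.card (PB Φ (P0 Φ (E₀ e)) (S e) ((j + 1) * e) (y : V ≃ₗ[F] V))
  have htr : ∀ e ∈ I, ∀ φ ∈ FrP Φ (P0 Φ (E₀ e)), ∀ φ' ∈ FrP Φ (P0 Φ (E₀ e)), ∃ g ∈ G, ∀ x, g (φ x) = φ' x := by
    intro e he
    exact tr_of_witt h (by rw [(hE e he).2]; have := hn e he; omega) (by have := hn e he; omega)
  have hgs1 : ∀ e ∈ I, ∀ y : G, g e y ≤ 1 := by
    intro e he y
    have : Subsingleton (gs e y) := by
      refine ⟨fun A A' => Subtype.ext ?_⟩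
      exact Gn.unique hN (hG y.2) A'.2.2 A.2.2.irr A.2.2.dim
    exact Finite.card_le_one_iff_subsingleton.2 this
  have key := moment I g a n b (fun e => xx Φ e (E₀ e)) (fun e j => 32 * (1 / (((j + 1) * e : ℕ) : ℝ))) hη0 hη1
    (fun e _ => hx0 e) (fun e _ y => Nat.card_mono (Set.toFinite _) fun A hA => hA.1)
    (fun e he y => (hgs1 e he y).trans one_le_two) ?_ ?_ ?_ ?_ ?_
  · rw [← Nat.card_eq_fintype_card] at key
    refine le_trans (mul_le_mul_of_nonneg_right ?_ (sq_nonneg _)) key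
    have h1 : Nat.card {y : G // ¬ ∃ e ∈ I, ∃ E, Gn Φ e (y : V ≃ₗ[F] V) E} ≤
        Nat.card {y : G // ∑ e ∈ I, g e y = 0} := by
      refine Nat.card_le_card_of_injective (fun y => ⟨y.1, ?_⟩) fun y y' h => ?_
      · rw [Finset.sum_eq_zero_iff]
        intro e he
        have : IsEmpty (gs e y.1) := ⟨fun A => y.2 ⟨e, he, A.1, A.2.2⟩⟩
        exact Nat.card_of_isEmpty
      · apply Subtype.ext
        exact congrArg (fun z : {y : G // ∑ e ∈ I, g e y = 0} => z.1) h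
    exact_mod_cast h1
  · -- `a ≤ g + ∑ b`
    intro e he y
    have h20 := (hn e he).2.1
    have h1 : a e y ≤ g e y + Nat.card ↥(AP Φ (P0 Φ (E₀ e)) (y : V ≃ₗ[F] V) (S e) \ gs e y) := by
      have := Set.ncard_le_ncard_sdiff_add_ncard (AP Φ (P0 Φ (E₀ e)) (y : V ≃ₗ[F] V) (S e)) (gs e y) (Set.toFinite _)
      rw [add_comm]
      exact this
    refine h1.trans (Nat.add_le_add_left ?_ _)
    have hch : ∀ A : ↥(AP Φ (P0 Φ (E₀ e)) (y : V ≃ₗ[F] V) (S e) \ gs e y), ∃ j : Finset.range n,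
        A.1 ∈ PB Φ (P0 Φ (E₀ e)) (S e) ((j.1 + 1) * e) (y : V ≃ₗ[F] V) := by
      rintro ⟨A, hA, hng⟩
      obtain ⟨hA1, hA2, hA3, hA4⟩ := mem_AP0 (hE e he).1 (hE e he).2 hA
      have h2 : ¬ ∀ B ≤ perp Φ A, Irr (y : V ≃ₗ[F] V) B → ¬ e ∣ finrank F B := fun h2 =>
        hng ⟨hA, hA1, hA2, hA3, hA4, h2⟩
      push Not at h2
      obtain ⟨B, hB, hBi, hdiv⟩ := h2
      obtain ⟨c, hc⟩ := hdiv
      have hc1 : 1 ≤ c := by
        rcases Nat.eq_zero_or_pos c with h3 | h3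
        · exfalso
          rw [h3, mul_zero] at hc
          exact hBi.ne_bot (Submodule.finrank_eq_zero.1 hc)
        · exact h3
      obtain ⟨j, rfl⟩ : ∃ j, c = j + 1 := ⟨c - 1, by omega⟩
      have h5 : finrank F B = (j + 1) * e := by rw [hc]; ring
      refine ⟨⟨j, Finset.mem_range.2 ?_⟩, hA, B, hB, hBi, h5⟩
      have h6 : (j + 1) * 1 ≤ (j + 1) * e := Nat.mul_le_mul_left _ (by omega)
      have h7 : finrank F B ≤ n := Submodule.finrank_le B
      omega
    choose j hj using hch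
    have h2 : Nat.card ↥(AP Φ (P0 Φ (E₀ e)) (y : V ≃ₗ[F] V) (S e) \ gs e y) ≤ Nat.card (Σ j : Finset.range n,
        PB Φ (P0 Φ (E₀ e)) (S e) ((j.1 + 1) * e) (y : V ≃ₗ[F] V)) := by
      refine Nat.card_le_card_of_injective (fun A => ⟨j A, A.1, hj A⟩) ?_
      intro A A' h
      apply Subtype.ext
      have := congrArg (fun q : (Σ j : Finset.range n,
        PB Φ (P0 Φ (E₀ e)) (S e) ((j.1 + 1) * e) (y : V ≃ₗ[F] V)) => q.2.1) h
      exact this
    refine h2.trans ?_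
    rw [Nat.card_sigma, ← Finset.sum_coe_sort (Finset.range n)]
  · -- first moment
    intro e he
    have hne : (FrP Φ (P0 Φ (E₀ e))).Nonempty := ⟨(E₀ e).subtype, (E₀ e).injective_subtype, rfl⟩
    have h1 := sum_AP hG (htr e he) hne (S := S e) (fun m hm => hm.1) (cj_S0 e (E₀ e))
    have h2 : (∑ y : G, (a e y : ℝ)) * J e = (Fintype.card G * xx Φ e (E₀ e)) * J e := by
      rw [mul_assoc, hxJ e, ← Nat.card_eq_fintype_card]
      exact_mod_cast h1
    exact mul_right_cancel₀ (hJ0 e).ne' h2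
  · -- pairs
    intro e he j _
    have h20 := (hn e he).2.1
    have hk2 : 2 ≤ (j + 1) * e := by
      have h6 : (j + 1) * 2 ≤ (j + 1) * e := Nat.mul_le_mul_left _ (by omega)
      omega
    have hT := hYb F V Φ hFo ((j + 1) * e) hk2
    have h1 := sum_PB hG (cj_S0 (Φ := Φ) e (E₀ e)) (ndOn_frP (hE e he).1) (c := 4) (k := (j + 1) * e)
      (wc_pairs hN hG (hE e he).1 (hE e he).2 (Dvd.intro_left _ rfl) (hn e he).2.2 (fun ψ => hW _ ψ)) hT
    have hk0 : (0 : ℝ) < (((j + 1) * e : ℕ) : ℝ) := by exact_mod_cast (by omega : 0 < (j + 1) * e)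
    have h2 : (∑ y : G, (b e j y : ℝ)) * (J e * (((j + 1) * e : ℕ) : ℝ)) ≤
        (Fintype.card G * (xx Φ e (E₀ e) * (32 * (1 / (((j + 1) * e : ℕ) : ℝ))))) * (J e * (((j + 1) * e : ℕ) : ℝ)) := by
      have h3 : (Fintype.card G * (xx Φ e (E₀ e) * (32 * (1 / (((j + 1) * e : ℕ) : ℝ))))) *
          (J e * (((j + 1) * e : ℕ) : ℝ)) = 8 * 4 * Fintype.card G * Nat.card (S e) := by
        rw [← hxJ e]
        field_simp
        ring
      rw [h3, ← Nat.card_eq_fintype_card]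
      exact_mod_cast h1
    exact le_of_mul_le_mul_right h2 (mul_pos (hJ0 e) hk0)
  · intro e he
    rw [← Finset.mul_sum]
    exact mul_le_mul_of_nonneg_left (hη e he) (by norm_num)
  · -- mixed moments
    intro e he e' he' hne
    have h1 := cross (G := G) (cj_S0 (Φ := Φ) e (E₀ e)) (cj_S0 (Φ := Φ) e' (E₀ e')) (ndOn_frP (hE e he).1)
      (fun y hy A hA A' hA' => by
        have h2 := mem_AP0 (hE e he).1 (hE e he).2 hA
        have h3 := mem_AP0 (hE e' he').1 (hE e' he').2 hA'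
        exact orth_of_ne hN (hG hy) h2.2.2.1 h3.2.2.1 (by rw [h2.2.1, h3.2.1]; exact hne))
      (fun ψ hψ => wc_of_tr hG hψ (tr_of_witt h (by
        rw [Module.finrank_prod, (hE e he).2, (hE e' he').2]
        have := hn e he
        have := hn e' he'
        omega) (by have := hn e he; omega)))
    have h2 : (∑ y : G, (a e y : ℝ) * a e' y) * (J e * J e') ≤
        (Fintype.card G * (xx Φ e (E₀ e) * xx Φ e' (E₀ e'))) * (J e * J e') := by
      have h3 : (Fintype.card G * (xx Φ e (E₀ e) * xx Φ e' (E₀ e'))) * (J e * J e') =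
          Fintype.card G * ((Nat.card (S e) : ℝ) * Nat.card (S e')) := by
        rw [← hxJ e, ← hxJ e']
        ring
      rw [h3, ← Nat.card_eq_fintype_card]
      exact_mod_cast h1
    exact le_of_mul_le_mul_right h2 (mul_pos (hJ0 e) (hJ0 e'))

end Cfsg.Agent.H50.Ux
end

-- part: H50/Ux/UT2Of
section
/-!
# UT2 (UX, S5716): assembly (helper50)

`ut2_of : Ye → Ya1 → Ya2 → Ya3 → Yb → Yc1 → Yc2 → Yc3 → H141.Ux.UT2`.
-/

set_option autoImplicit false
set_option linter.unusedSectionVars false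

namespace Cfsg.Agent.H50.Ux

open Module Cfsg.Agent.H847.Bs Cfsg.Agent.LieClassical.OrthCore
open Cfsg.Agent.H440.Bs (perp mem_perp mem_perp')
open Cfsg.Agent.H141.Ux (Kl ParE Pp StE UT2 cnt Num)

/-- a hermitian form is not bilinear -/
theorem herm_ne {F V : Type*} [Field F] [Finite F] [AddCommGroup V] [Module F V] {Φ : Frm F V} {r : ℕ}
    (h : IsHerm r Φ) (hs : ∀ a, Φ.s a = a) : False := by
  have h1 : ∀ a : F, a ^ r = a := fun a => (h.s a).symm.trans (hs a)
  have hr : 2 ≤ r := by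
    by_contra hr
    have h2 : 1 < Nat.card F := Finite.one_lt_card
    rw [h.card] at h2
    have : r ^ 2 ≤ 1 ^ 2 := Nat.pow_le_pow_left (by omega) 2
    omega
  obtain ⟨g, hg⟩ := IsCyclic.exists_generator (α := Fˣ)
  have h2 : orderOf g = Nat.card F - 1 := by
    rw [orderOf_eq_card_of_forall_mem_zpowers hg, Nat.card_units]
  have h3 : g ^ (r - 1) = 1 := by
    have h4 : g ^ r = g := Units.ext (by rw [Units.val_pow_eq_pow_val]; exact h1 g)
    have h5 : g ^ r = g ^ (r - 1) * g := by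
      rw [← pow_succ]
      congr 1
      omega
    rw [h5] at h4
    exact mul_eq_right.1 h4
  have h4 := Nat.le_of_dvd (by omega) (orderOf_dvd_of_pow_eq_one h3)
  rw [h2, h.card] at h4
  have : r * 2 ≤ r ^ 2 := by rw [pow_two]; exact Nat.mul_le_mul_left _ hr
  omega

theorem num_bound {b g S η' ε K : ℝ} (hb : 0 ≤ b) (hg : 0 ≤ g) (hη0 : 0 ≤ η') (hη1 : η' ≤ 1 / 2) (hη : 16 * η' ≤ ε)
    (hε : 0 < ε) (hK : 64 / ε ≤ K) (hS : K / 4 ≤ S) (h : b * ((1 - η') * S) ^ 2 ≤ g * (2 * S + 2 * η' * S ^ 2)) :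
    b ≤ ε * g := by
  have hS0 : 16 / ε ≤ S := by
    have : 16 / ε = 64 / ε / 4 := by ring
    linarith only [hK, hS, this]
  have h1 : 0 < 16 / ε := by positivity
  have hSp : 0 < S := by linarith only [hS0, h1]
  have h2 : 16 ≤ ε * S := by
    rw [div_le_iff₀ hε] at hS0
    linarith only [hS0]
  have h3 : b * (S ^ 2 / 4) ≤ b * ((1 - η') * S) ^ 2 := by
    refine mul_le_mul_of_nonneg_left ?_ hb
    have h4 : S / 2 ≤ (1 - η') * S := by nlinarith only [hη1, hS0, h1]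
    have h5 : (S / 2) ^ 2 ≤ ((1 - η') * S) ^ 2 := pow_le_pow_left₀ (by linarith only [hS0, h1]) h4 2
    calc S ^ 2 / 4 = (S / 2) ^ 2 := by ring
      _ ≤ _ := h5
  have h4 : g * (2 * S + 2 * η' * S ^ 2) ≤ g * (ε * (S ^ 2 / 4)) := by
    refine mul_le_mul_of_nonneg_left ?_ hg
    have h5 : 2 * S ≤ ε * S ^ 2 / 8 := by nlinarith only [hS0, h1, h2]
    have h6 : 2 * η' * S ^ 2 ≤ ε * S ^ 2 / 8 := by nlinarith only [hη, sq_nonneg S]
    linarith only [h5, h6]
  have h5 : b * (S ^ 2 / 4) ≤ (ε * g) * (S ^ 2 / 4) := by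
    calc _ ≤ _ := h3.trans (h.trans h4)
      _ = _ := by ring
  exact le_of_mul_le_mul_right h5 (by positivity)

theorem ut2_of (hYe : Ye) (hYa1 : Ya1) (hYa2 : Ya2) (hYa3 : Ya3) (hYb : Yb) (hYc1 : Yc1) (hYc2 : Yc2) (hYc3 : Yc3) :
    UT2 := by
  intro ε hε
  refine ⟨64 / ε + 1, min (1 / 64) (ε / 512), by have : 0 < 64 / ε := by positivity
                                                 linarith, by positivity, ?_⟩
  intro F V _ _ _ _ _ Φ G N t p f h hp hF I hI hK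
  classical
  have : Finite V := Module.finite_of_finite F
  have : Finite (V ≃ₗ[F] V) := Cfsg.Agent.H50.RG.finite_equiv
  set η : ℝ := min (1 / 64) (ε / 512) with hη
  have hη0 : 0 < η := by positivity
  have hη1 : η ≤ 1 / 64 := min_le_left _ _
  have hη2 : η ≤ ε / 512 := min_le_right _ _
  -- the forms
  have hFo : Fo Φ := by
    rcases h with ⟨h1, -⟩ | ⟨r, h1, -⟩ | ⟨Q, h1, h2, -⟩
    · exact Or.inl h1
    · exact Or.inr (Or.inl ⟨r, h1⟩)
    · exact Or.inr (Or.inr ⟨Q, h1, h2⟩)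
  have hblock : ∀ e ∈ I, YaC Φ e := by
    intro e he
    obtain ⟨hnum, hpar⟩ := hI e he
    have h1 := hnum.le
    have h2 := hnum.ge
    rcases h with ⟨h3, -⟩ | ⟨r, h3, -⟩ | ⟨Q, h3, h4, -⟩
    · have hev : Even e := by
        rcases hpar with h5 | ⟨⟨r, h5⟩, -⟩
        · exact h5.2
        · exact (herm_ne h5 h3.s).elim
      exact hYa1 F V Φ p f e h3 hev hp hF h2 (by omega) hnum.bigp
    · have hod : Odd e := by
        rcases hpar with ⟨h5 | ⟨Q, rfl⟩, -⟩ | h5
        · exact (herm_ne h3 h5.s).elim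
        · exact (herm_ne h3 fun _ => rfl).elim
        · exact h5.2
      exact hYa2 F V Φ r p f e h3 hod hp hF h2 (by omega) hnum.bigp
    · subst h4
      have hev : Even e := by
        rcases hpar with h5 | ⟨⟨r, h5⟩, -⟩
        · exact h5.2
        · exact (herm_ne h5 fun _ => rfl).elim
      exact hYa3 F V Q p f e h3 hev hp hF h2 (by omega) hnum.bigp
  have hch : ∀ e : ℕ, ∃ E₀ : Submodule F V, e ∈ I → Φ.NdOn E₀ ∧ finrank F E₀ = e ∧
      Nat.card (Φ.on E₀).Iso ≤ 4 * e * Nat.card {m : E₀ ≃ₗ[F] E₀ // m ∈ (Φ.on E₀).Iso ∧ m ∈ PI F E₀ e} := by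
    intro e
    by_cases he : e ∈ I
    · obtain ⟨E₀, hE₀⟩ := hblock e he
      exact ⟨E₀, fun _ => hE₀⟩
    · exact ⟨⊥, fun h => (he h).elim⟩
  choose E₀ hE₀ using hch
  rcases I.eq_empty_or_nonempty with hI0 | ⟨e₁, he₁⟩
  · subst hI0
    rw [Finset.sum_empty] at hK
    have : 0 < 64 / ε := by positivity
    linarith only [hK, this]
  have hn10 : 10 ≤ finrank F V := by
    have := (hI e₁ he₁).1.le
    omega
  have hW : ∀ (D : Type) [AddCommGroup D] [Module F D] [Module.Finite F D] (ψ : D →ₗ[F] V), Function.Injective ψ →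
      ¬ perp Φ (LinearMap.range ψ) ≤ LinearMap.range ψ → Wc 4 Φ G ψ := by
    intro D _ _ _ ψ hψ hperp
    rcases h with ⟨h3, rfl, -⟩ | ⟨r, h3, rfl, -⟩ | ⟨Q, h3, rfl, rfl, -⟩
    · exact (hYc1 F V D Φ h3 ψ hψ).mono (by norm_num)
    · exact (hYc2 F V D r Φ h3 ψ hψ hperp).mono (by norm_num)
    · exact hYc3 F V D Q h3 hn10 ψ hψ
  have hcore := core hYb h hFo hW I E₀ (fun e he => ⟨(hE₀ e he).1, (hE₀ e he).2.1⟩)
    (fun e he => ⟨(hI e he).1.le, (hI e he).1.ge, (hI e he).1.nd.1⟩) (η := η) (fun e he => (hI e he).1.sum)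
    (by linarith only [hη0]) (by linarith only [hη0, hη1])
  have hx : ∀ e ∈ I, (1 / (e : ℝ)) * (1 / 4) ≤ xx Φ e (E₀ e) := by
    intro e he
    have h1 := (hE₀ e he).2.2
    have he0 : (0 : ℝ) < e := by
      have := (hI e he).1.ge
      exact_mod_cast (by omega : 0 < e)
    have h2 : Nat.card {t : E₀ e ≃ₗ[F] E₀ e // IsoP (P0 Φ (E₀ e)) t} ≤ 4 * e * Nat.card (S0 Φ e (E₀ e)) := h1
    have hJ0 : (0 : ℝ) < Nat.card {t : E₀ e ≃ₗ[F] E₀ e // IsoP (P0 Φ (E₀ e)) t} := by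
      have : Nonempty {t : E₀ e ≃ₗ[F] E₀ e // IsoP (P0 Φ (E₀ e)) t} := ⟨⟨1, fun _ _ => rfl, fun _ => rfl⟩⟩
      have : Finite (E₀ e ≃ₗ[F] E₀ e) := Cfsg.Agent.H50.RG.finite_equiv
      exact_mod_cast Nat.card_pos
    unfold xx
    rw [le_div_iff₀ hJ0]
    have h3 : (Nat.card {t : E₀ e ≃ₗ[F] E₀ e // IsoP (P0 Φ (E₀ e)) t} : ℝ) ≤ 4 * e * Nat.card (S0 Φ e (E₀ e)) := by
      exact_mod_cast h2
    calc 1 / (e : ℝ) * (1 / 4) * Nat.card {t : E₀ e ≃ₗ[F] E₀ e // IsoP (P0 Φ (E₀ e)) t} ≤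
        1 / (e : ℝ) * (1 / 4) * (4 * e * Nat.card (S0 Φ e (E₀ e))) :=
          mul_le_mul_of_nonneg_left h3 (by (clear * - he0; positivity))
      _ = _ := by field_simp
  have hS : (64 / ε) / 4 ≤ ∑ e ∈ I, xx Φ e (E₀ e) := by
    have h1 : (∑ e ∈ I, 1 / (e : ℝ)) * (1 / 4) ≤ ∑ e ∈ I, xx Φ e (E₀ e) := by
      rw [Finset.sum_mul]
      exact Finset.sum_le_sum hx
    linarith only [hK, h1]
  have hb := num_bound (K := 64 / ε) (Nat.cast_nonneg _) (Nat.cast_nonneg _) (by linarith only [hη0] : (0 : ℝ) ≤ 32 * η)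
    (by linarith only [hη1]) (by linarith only [hη2]) hε le_rfl hS hcore
  refine le_trans ?_ hb
  have hcnt : cnt G (fun y => ¬ ∃ e ∈ I, ∃ E z, StE Φ e y E z) ≤
      Nat.card {y : G // ¬ ∃ e ∈ I, ∃ E, Gn Φ e (y : V ≃ₗ[F] V) E} := by
    unfold cnt
    refine Nat.card_le_card_of_injective (fun y => ⟨⟨y.1, y.2.1⟩, ?_⟩) fun y y' hy => ?_
    · rintro ⟨e, he, E, hE⟩
      have he2 := (hI e he).1.ge
      obtain ⟨z, hz⟩ := hYe F V Φ e (kl_nd h) (by omega) y.1 (kl_le h y.2.1) E hE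
      exact y.2.2 ⟨e, he, E, z, hz⟩
    · apply Subtype.ext
      exact congrArg (fun z : {y : G // ¬ ∃ e ∈ I, ∃ E, Gn Φ e (y : V ≃ₗ[F] V) E} => (z.1 : V ≃ₗ[F] V)) hy
  exact_mod_cast hcnt

end Cfsg.Agent.H50.Ux
end
end

-- part: H50/Ux/UT2
section
prune_inst 0x24607004708000000018000042000020480004000000840024030004000984008040800102000108000200000000000811000020020001c000000000000000000000140400000008420010000308210000001800000000000000000000000000000000000
set_option linter.all false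
open scoped Cfsg.Agent.FastGrp

-- part: H183/Ux/SpMinus
section
/-!
# S5716, UT2, task Ya1: irreducible elements with a large primitive part in symplectic groups (helper183)
-/

set_option autoImplicit false

namespace Cfsg.Agent.H183.Ux

open Module Cfsg.Agent.H847.Bs Cfsg.Agent.H59.Bs Cfsg.Agent.H50.Ux
open Cfsg.Agent.H141.Ux (Pp)
open scoped IntermediateField

/-- a unit whose order is divisible by a primitive part generates the field -/
theorem gen_of_ord {F L : Type*} [Field F] [Field L] [Algebra F L] [Finite L] {p f e k : ℕ} (hF : Nat.card F = p ^ f)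
    (hf : 1 ≤ f) (he : finrank F L = e) (hk : k ≠ 1)
    (hr : ∀ r : ℕ, r.Prime → r ∣ k → orderOf ((p : ℕ) : ZMod r) = e * f) {t : Lˣ} (ht : k ∣ orderOf t) :
    F⟮(t : L)⟯ = ⊤ := by
  have hF' : Finite F := Finite.of_injective _ (algebraMap F L).injective
  have hfd : FiniteDimensional F L := Module.Finite.of_finite
  set d := finrank F F⟮(t : L)⟯ with hd
  have hd0 : 0 < d := Module.finrank_pos
  have hmul : d * finrank F⟮(t : L)⟯ L = finrank F L := Module.finrank_mul_finrank _ _ _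
  have h1 : t ^ (p ^ (f * d) - 1) = 1 := by
    have h2 := pow_card_of_mem (IntermediateField.mem_adjoin_simple_self F (t : L))
    rw [Module.natCard_eq_pow_finrank (K := F), hF, ← pow_mul] at h2
    have hpos : 0 < p ^ (f * d) := by
      rw [pow_mul, ← hF]
      exact pow_pos Nat.card_pos _
    apply Units.ext
    rw [Units.val_pow_eq_pow_val, Units.val_one]
    have h3 : (t : L) ^ (p ^ (f * d)) = t ^ (p ^ (f * d) - 1) * t := by
      rw [← pow_succ, Nat.sub_add_cancel hpos]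
    have h4 : (t : L) ^ (p ^ (f * d)) = t := h2
    rw [h3] at h4
    exact mul_right_cancel₀ t.ne_zero (by rw [h4, one_mul])
  obtain ⟨r, hrp, hrk⟩ := Nat.exists_prime_and_dvd hk
  have h5 : r ∣ p ^ (f * d) - 1 := (hrk.trans ht).trans (orderOf_dvd_of_pow_eq_one h1)
  have hpos : 0 < p ^ (f * d) := by
    rw [pow_mul, ← hF]
    exact pow_pos Nat.card_pos _
  have h6 : ((p : ℕ) : ZMod r) ^ (f * d) = 1 := by
    have h7 : (((p ^ (f * d) - 1 : ℕ)) : ZMod r) = 0 := (ZMod.natCast_eq_zero_iff _ _).2 h5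
    rw [Nat.cast_sub hpos, Nat.cast_pow, Nat.cast_one] at h7
    exact sub_eq_zero.1 h7
  have h7 := orderOf_dvd_of_pow_eq_one h6
  rw [hr r hrp hrk, mul_comm f d] at h7
  have h8 : e ∣ d := Nat.dvd_of_mul_dvd_mul_right hf h7
  have h9 : finrank F L ≤ finrank F F⟮(t : L)⟯ := by
    rw [he]
    exact Nat.le_of_dvd hd0 h8
  apply IntermediateField.eq_of_le_of_finrank_eq le_top
  rw [IntermediateField.finrank_top']
  exact le_antisymm (by rw [← hmul]; exact Nat.le_mul_of_pos_right _ Module.finrank_pos) h9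

theorem orderOf_mulE {F L : Type*} [Field F] [Field L] [Algebra F L] [Finite L] (t : Lˣ) :
    orderOf (mulE F t) = orderOf t := by
  let φ : Lˣ →* (L ≃ₗ[F] L) :=
    { toFun := mulE F
      map_one' := by
        apply LinearEquiv.ext
        intro x
        change ((1 : Lˣ) : L) * x = x
        simp
      map_mul' := by
        intro a b
        apply LinearEquiv.ext
        intro x
        change ((a * b : Lˣ) : L) * x = a * (b * x)
        simp [mul_assoc] }
  exact orderOf_injective φ mulE_injective t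

theorem orderOf_cj {F V V' : Type*} [Field F] [AddCommGroup V] [Module F V] [AddCommGroup V'] [Module F V']
    (e : V ≃ₗ[F] V') (x : V ≃ₗ[F] V) : orderOf (cj e x) = orderOf x := by
  let φ : (V ≃ₗ[F] V) →* (V' ≃ₗ[F] V') :=
    { toFun := cj e
      map_one' := by
        ext x
        simp only [cj, _root_.LinearEquiv.trans_apply, _root_.LinearEquiv.coe_one, _root_.id_eq, _root_.LinearEquiv.apply_symm_apply]
      map_mul' := by
        intro a b
        ext x
        simp only [cj, _root_.LinearEquiv.trans_apply, _root_.LinearEquiv.mul_apply, _root_.LinearEquiv.symm_apply_apply] }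
  exact orderOf_injective φ (cj_injective e) x

theorem PI_cj {F V V' : Type} [Field F] [AddCommGroup V] [Module F V] [AddCommGroup V'] [Module F V']
    (e : V ≃ₗ[F] V') {x : V ≃ₗ[F] V} {d : ℕ} (h : x ∈ PI F V d) : cj e x ∈ PI F V' d := by
  obtain ⟨h1, k, h2, h3⟩ := h
  refine ⟨?_, k, h2, by rwa [orderOf_cj]⟩
  have h4 := Irr_cj (e := e) h1
  rwa [Submodule.map_top, LinearMap.range_eq_top.2 e.surjective] at h4

/-- the elements of the torus of order `q ^ j + 1` give at least `|G| / (4 e)` good elements, if the intersection of the group with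
the torus is right -/
theorem count_PI {F L : Type} [Field F] [Field L] [Algebra F L] [Finite L] (h0 : Ya0) {p f e c : ℕ} (hp : p.Prime)
    (hf : 1 ≤ f) (hF : Nat.card F = p ^ f) (hchar : ringChar F = p) (he : finrank F L = e) (he2 : 3 ≤ e)
    (hbig : 64 * (e * f) * (2 * e + 2) ^ 2 * e ≤ p ^ (e * f).totient) (hc : c ∣ (p ^ f) ^ e - 1) (hc0 : 0 < c)
    (hcr : ∀ r : ℕ, r.Prime → orderOf ((p : ℕ) : ZMod r) = e * f → ¬ r ∣ ((p ^ f) ^ e - 1) / c)
    (G : Subgroup (L ≃ₗ[F] L)) (hG : ∀ t : Lˣ, mulE F t ∈ G ↔ t ^ c = 1) :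
    Nat.card G ≤ 4 * e * Nat.card {m : L ≃ₗ[F] L // m ∈ G ∧ m ∈ PI F L e} := by
  classical
  have hF' : Finite F := Finite.of_injective _ (algebraMap F L).injective
  have hfd : FiniteDimensional F L := Module.Finite.of_finite
  have hfe : Finite (L ≃ₗ[F] L) := Finite.of_injective _ DFunLike.coe_injective
  have hL : Nat.card L = (p ^ f) ^ e := by
    rw [Module.natCard_eq_pow_finrank (K := F), he, hF]
  have hcard := h0 L p f e c hp hf he2 hL hbig hc hcr
  let T : Set Lˣ := {t | t ^ c = 1}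
  let S : Set Lˣ := {t | t ^ c = 1 ∧ ∃ k, 2 * e + 1 < k ∧ k ∣ (p ^ f) ^ e - 1 ∧
    (∀ r : ℕ, r.Prime → r ∣ k → orderOf ((p : ℕ) : ZMod r) = e * f) ∧ k ∣ orderOf t}
  have hgen : ∀ t ∈ S, F⟮(t : L)⟯ = ⊤ := by
    rintro t ⟨-, k, hk1, -, hk3, hk4⟩
    exact gen_of_ord hF hf he (by omega) hk3 hk4
  let E : Set (L ≃ₗ[F] L) := (mulE F) '' S
  let B : Set (L ≃ₗ[F] L) := {m | m ∈ G ∧ m ∈ PI F L e}
  have hES : Nat.card E = Nat.card S := Nat.card_image_of_injective mulE_injective S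
  have key := card_pairs G E B (e * Nat.card T) (by
      rintro _ ⟨t, ht, rfl⟩
      have h1 := card_conj_le G T (fun c hc => (hG c).1 hc) (hgen t ht) E
        (by rintro _ ⟨u, _, rfl⟩; exact ⟨u, rfl⟩)
      rwa [he] at h1) (by
      rintro g hg _ ⟨t, ht, rfl⟩
      have hPI : mulE F t ∈ PI F L e := by
        obtain ⟨-, k, hk1, hk2, hk3, hk4⟩ := ht
        refine ⟨irr_mulE (gen_of_ord hF hf he (by omega) hk3 hk4), k, ⟨hk1, by rwa [hF], ?_⟩, by rwa [orderOf_mulE]⟩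
        intro r hr hrk f' hf'
        rw [hchar] at hf' ⊢
        have : f' = f := by
          rw [hF] at hf'
          exact (Nat.pow_right_injective hp.two_le hf').symm
        rw [this]
        exact hk3 r hr hrk
      refine ⟨G.mul_mem (G.mul_mem hg ((hG t).2 ht.1)) (G.inv_mem hg), ?_⟩
      exact (PI_cj g hPI :))
  rw [hES] at key
  have hT : Nat.card T ≤ c := card_pow_le c hc0
  have hS : 3 * c ≤ 4 * Nat.card S := hcard
  -- `3 |G| c ≤ 4 |G| |S| ≤ 4 |B| e |T| ≤ 4 |B| e c`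
  have h1 : (Nat.card G) * c ≤ (4 * e * Nat.card B) * c := by
    calc Nat.card G * c ≤ Nat.card G * (3 * c) := by
          apply Nat.mul_le_mul_left
          omega
      _ ≤ Nat.card G * (4 * Nat.card S) := Nat.mul_le_mul_left _ hS
      _ = 4 * (Nat.card G * Nat.card S) := by ring
      _ ≤ 4 * (Nat.card B * (e * Nat.card T)) := Nat.mul_le_mul_left _ key
      _ ≤ 4 * (Nat.card B * (e * c)) := by gcongr
      _ = _ := by ring
  exact Nat.le_of_mul_le_mul_right h1 hc0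

/-- no primitive prime divides `q ^ j - 1`, `e = 2 j` -/
theorem not_dvd_half {p f j r : ℕ} (hp : p.Prime) (hf : 1 ≤ f) (hj : 1 ≤ j)
    (hr : orderOf ((p : ℕ) : ZMod r) = 2 * j * f) : ¬ r ∣ (p ^ f) ^ j - 1 := by
  intro h
  have hpos : 0 < (p ^ f) ^ j := pow_pos (pow_pos hp.pos _) _
  have h6 : ((p : ℕ) : ZMod r) ^ (f * j) = 1 := by
    have h7 : ((((p ^ f) ^ j - 1 : ℕ)) : ZMod r) = 0 := (ZMod.natCast_eq_zero_iff _ _).2 h
    rw [Nat.cast_sub hpos, ← pow_mul, Nat.cast_pow, Nat.cast_one] at h7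
    exact sub_eq_zero.1 h7
  have h7 := orderOf_dvd_of_pow_eq_one h6
  rw [hr] at h7
  have h8 := Nat.le_of_dvd (Nat.mul_pos hf hj) h7
  have h9 : 0 < f * j := Nat.mul_pos hf hj
  have h10 : 2 * j * f = 2 * (f * j) := by ring
  omega

/-- **Ya1** -/
theorem ya1 (h0 : Ya0) : Ya1 := by
  intro F V _ _ _ _ _ Φ p f e hΦ hev hp hF he20 hdim hbig
  obtain ⟨j, hj'⟩ := hev
  have hj : e = 2 * j := by omega
  subst hj
  have hf : 1 ≤ f := by
    by_contra h
    have : f = 0 := by omega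
    rw [this, pow_zero] at hF
    have : 1 < Nat.card F := Finite.one_lt_card
    omega
  have hpp : Fact p.Prime := ⟨hp⟩
  have hchar : ringChar F = p := by
    have := Fintype.ofFinite F
    obtain ⟨n, hn1, hn2⟩ := FiniteField.card F (ringChar F)
    rw [← Nat.card_eq_fintype_card, hF] at hn2
    have h1 : p ∣ ringChar F ^ (n : ℕ) := by
      rw [← hn2]
      exact dvd_pow_self p (by omega)
    exact ((Nat.prime_dvd_prime_iff_eq hp hn1).1 (hp.dvd_of_dvd_pow h1)).symm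
  have hcp : CharP F p := by rw [← hchar]; exact ringChar.charP F
  obtain ⟨D, U, hdec, hD⟩ := Cfsg.Agent.H181.Bs.exists_dec hΦ j (by omega)
  have hnd : Φ.NdOn D := Cfsg.Agent.H181.Bs.ndOn_left hΦ.nd hdec
  have hΦD : IsSp (Φ.on D) := Cfsg.Agent.H181.Bs.isSp_on hΦ hnd
  refine ⟨D, hnd, hD, ?_⟩
  -- the field
  have hnz : NeZero (2 * j) := ⟨by omega⟩
  let L := FiniteField.Extension F p (2 * j)
  let τ : L ≃ₐ[F] L := FiniteField.Extension.frob F p (2 * j) ^ j
  have hLf : finrank F L = 2 * j := FiniteField.finrank_extension F p (2 * j)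
  have hLc : Nat.card L = Nat.card F ^ (2 * j) := FiniteField.natCard_extension F p (2 * j)
  have hτq : ∀ x, τ x = x ^ Nat.card F ^ j := fun x => FiniteField.Extension.frob_iterate_apply F p (2 * j) j
  have hττ : ∀ x, τ (τ x) = x := by
    intro x
    have := Fintype.ofFinite L
    rw [hτq, hτq, ← pow_mul, ← pow_add, ← two_mul, ← hLc, Nat.card_eq_fintype_card]
    exact FiniteField.pow_card x
  have hq2 : 2 ≤ Nat.card F := Finite.one_lt_card
  obtain ⟨b, hb⟩ : ∃ b, τ b ≠ b := by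
    by_contra hno
    push Not at hno
    have h1 : ∀ x : Lˣ, x ^ (Nat.card F ^ j - 1) = 1 := by
      intro x
      have h2 := hno x
      rw [hτq] at h2
      apply Units.ext
      rw [Units.val_pow_eq_pow_val, Units.val_one]
      have h3 : (x : L) ^ Nat.card F ^ j = x ^ (Nat.card F ^ j - 1) * x := by
        rw [← pow_succ, Nat.sub_add_cancel (Nat.one_le_pow _ _ (by omega))]
      rw [h3] at h2
      exact mul_right_cancel₀ x.ne_zero (by rw [h2, one_mul])
    have h4 := card_pow_le (L := L) (Nat.card F ^ j - 1) (by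
      have := Nat.one_lt_pow (n := j) (by omega) hq2
      omega)
    have h5 : Nat.card {t : Lˣ // t ^ (Nat.card F ^ j - 1) = 1} = Nat.card Lˣ :=
      Nat.card_congr (Equiv.subtypeUnivEquiv h1)
    rw [h5, Nat.card_units, hLc] at h4
    have h6 : Nat.card F ^ j < Nat.card F ^ (2 * j) := Nat.pow_lt_pow_right hq2 (by omega)
    have h7 := Nat.one_le_pow j (Nat.card F) (by omega)
    omega
  have hsp : IsSp (frmL τ hττ b) := isSp_frmL hb
  have hfd : FiniteDimensional F L := Module.Finite.of_finite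
  have hV : Finite V := Module.finite_of_finite F
  have hprod : ((p ^ f) ^ j - 1) * ((p ^ f) ^ j + 1) = (p ^ f) ^ (2 * j) - 1 := by
    have h1 : 1 ≤ (p ^ f) ^ j := Nat.one_le_pow _ _ (pow_pos hp.pos _)
    obtain ⟨m, hm⟩ : ∃ m, (p ^ f) ^ j = m + 1 := ⟨(p ^ f) ^ j - 1, by omega⟩
    rw [mul_comm 2 j, pow_mul, hm, Nat.add_sub_cancel]
    apply Nat.eq_sub_of_add_eq
    ring
  have hdiv : ((p ^ f) ^ (2 * j) - 1) / ((p ^ f) ^ j + 1) = (p ^ f) ^ j - 1 := by
    rw [← hprod]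
    exact Nat.mul_div_cancel _ (Nat.succ_pos _)
  have hcount := count_PI (L := L) h0 (c := (p ^ f) ^ j + 1) hp hf hF hchar hLf (by omega) hbig
    (by rw [← hprod]; exact Dvd.intro_left _ rfl) (Nat.succ_pos _) (by
      intro r hr hord
      rw [hdiv]
      exact not_dvd_half hp hf (by omega) hord) (frmL τ hττ b).Iso (by
      intro t
      have hTeq : t ^ ((p ^ f) ^ j + 1) = 1 ↔ (t : L) * τ t = 1 := by
        rw [hτq, ← pow_succ', ← Units.val_inj, hF]
        simp only [_root_.Units.val_pow_eq_pow_val, _root_.Units.val_one]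
      rw [hTeq]
      exact ⟨of_mulE_mem hb, mulE_mem t⟩)
  -- transport
  obtain ⟨g, hg, hgq⟩ := exists_equiv hΦD hsp (hD.trans hLf.symm)
  obtain ⟨hg', hgq'⟩ := symm_isom hg hgq
  have h2 : Nat.card (Φ.on D).Iso ≤ Nat.card (frmL τ hττ b).Iso := card_Iso_le hg hgq
  have h3 : Nat.card {m : L ≃ₗ[F] L // m ∈ (frmL τ hττ b).Iso ∧ m ∈ PI F L (2 * j)} ≤
      Nat.card {m : D ≃ₗ[F] D // m ∈ (Φ.on D).Iso ∧ m ∈ PI F D (2 * j)} := by
    have hfe : Finite (D ≃ₗ[F] D) := Finite.of_injective _ DFunLike.coe_injective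
    exact Nat.card_le_card_of_injective (fun x => (⟨cj g.symm x.1, Iso_cj hg' hgq' x.2.1, PI_cj g.symm x.2.2⟩ :
        {m : D ≃ₗ[F] D // m ∈ (Φ.on D).Iso ∧ m ∈ PI F D (2 * j)}))
      fun _ _ h => Subtype.ext (cj_injective g.symm (congrArg Subtype.val h))
  exact h2.trans (hcount.trans (Nat.mul_le_mul_left _ h3))

end Cfsg.Agent.H183.Ux
end

-- part: H232/Ux/Ye
section
/-!
# UX (S5716), UT2, Ye: the power `z` (helper232)

`ye : H50.Ux.Ye`.
-/

set_option autoImplicit false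
set_option linter.unusedSectionVars false

namespace Cfsg.Agent.H232.Ux

open Module Cfsg.Agent.H847.Bs
open Cfsg.Agent.H440.Bs (perp mem_perp dec_perp inv_perp exists_irr)
open Cfsg.Agent.H50.Ux (Gn Ye)
open Cfsg.Agent.H141.Ux (Pp StE)
open Cfsg.Agent.H343.RG (rs rs_apply rs_pow irr_rs min_of_irr)
open Cfsg.Agent.H127.RG (l24 natCast_ne_zero_of)

theorem ord_q {F : Type*} [Field F] [Finite F] {e r f : ℕ} (hf : Nat.card F = ringChar F ^ f)
    (h : orderOf ((ringChar F : ℕ) : ZMod r) = e * f) : orderOf ((Nat.card F : ℕ) : ZMod r) = e := by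
  have h1 : 1 < Nat.card F := Finite.one_lt_card
  have hf0 : f ≠ 0 := by
    rintro rfl
    rw [pow_zero] at hf
    omega
  rw [hf, Nat.cast_pow, orderOf_pow_of_dvd hf0 (by rw [h]; exact dvd_mul_left _ _), h,
    Nat.mul_div_cancel _ (Nat.pos_of_ne_zero hf0)]

section

variable {F X : Type} [Field F] [Finite F] [AddCommGroup X] [Module F X] [Module.Finite F X]

/-- the prime divisors `r` of the order of `y` with `ord_r(q) = e` -/
theorem not_dvd_orderOf {y : X ≃ₗ[F] X} {e r : ℕ} (he : 2 ≤ e) (hr : r.Prime)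
    (hord : orderOf ((Nat.card F : ℕ) : ZMod r) = e) (no : ∀ B : Submodule F X, Irr y B → ¬ e ∣ finrank F B) :
    ¬ r ∣ orderOf y := by
  intro hd
  have hG := Cfsg.Agent.H127.RG.finite_gl F X
  have hn0 : orderOf y ≠ 0 := (orderOf_pos y).ne'
  set w := y ^ (orderOf y / r) with hw
  have hwr : orderOf w = r := orderOf_pow_orderOf_div hn0 hd
  have hw1 : w ≠ 1 := by
    intro h
    rw [h, orderOf_one] at hwr
    exact hr.one_lt.ne hwr
  have hrF : (r : F) ≠ 0 := natCast_ne_zero_of he hr hord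
  let T : X →ₗ[F] X := (w : X →ₗ[F] X) - LinearMap.id
  have hT : ∀ x, T x = w x - x := fun x => rfl
  have hIK : ∀ v ∈ LinearMap.range T, w v = v → v = 0 := by
    rintro _ ⟨x, rfl⟩ hv
    rw [hT] at hv ⊢
    have h1 : ∀ i : ℕ, (w ^ i) x = x + (i : F) • (w x - x) := by
      intro i
      induction i with
      | zero => rw [pow_zero, Nat.cast_zero, zero_smul, add_zero]; rfl
      | succ i ih =>
        rw [pow_succ']
        show w ((w ^ i) x) = _
        rw [ih, map_add, map_smul, hv, Nat.cast_succ, add_smul, one_smul]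
        abel
    have h2 := h1 r
    have h3 : w ^ r = 1 := by rw [← hwr]; exact pow_orderOf_eq_one w
    rw [h3] at h2
    have h4 : (r : F) • (w x - x) = 0 := left_eq_add.1 h2
    exact (smul_eq_zero.1 h4).resolve_left hrF
  have hcomm : ∀ x, w (y x) = y (w x) := by
    intro x
    have h : w * y = y * w := ((Commute.refl y).pow_left _).eq
    exact LinearEquiv.congr_fun h x
  have hI : _root_.Cfsg.Agent.H847.Bs.Inv y (LinearMap.range T) := by
    rintro _ ⟨x, rfl⟩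
    exact ⟨y x, by rw [hT, hT, hcomm, map_sub]⟩
  have hI0 : LinearMap.range T ≠ ⊥ := by
    intro h
    apply hw1
    apply LinearEquiv.ext
    intro x
    have h1 : T x ∈ LinearMap.range T := ⟨x, rfl⟩
    rw [h, Submodule.mem_bot, hT, sub_eq_zero] at h1
    exact h1
  obtain ⟨B, hBI, hB⟩ := exists_irr hI hI0
  apply no B hB
  have hz1 : rs y B hB.inv ^ (orderOf y / r) ≠ 1 := by
    intro h
    obtain ⟨b, hb, hb0⟩ := Submodule.exists_mem_ne_zero_of_ne_bot hB.ne_bot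
    apply hb0
    apply hIK b (hBI hb)
    have h1 := rs_pow hB.inv (orderOf y / r) ⟨b, hb⟩
    rw [h] at h1
    exact h1.symm
  have hzr : orderOf (rs y B hB.inv ^ (orderOf y / r)) = r := by
    have h1 : (rs y B hB.inv ^ (orderOf y / r)) ^ r = 1 := by
      apply LinearEquiv.ext
      intro b
      apply Subtype.ext
      rw [← pow_mul, rs_pow, pow_mul]
      have h3 : w ^ r = 1 := by rw [← hwr]; exact pow_orderOf_eq_one w
      show (w ^ r) (b : X) = _
      rw [h3]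
      rfl
    have : Fact r.Prime := ⟨hr⟩
    exact orderOf_eq_prime h1 hz1
  exact (l24 F B e r (rs y B hB.inv) (rs y B hB.inv ^ (orderOf y / r)) he (irr_rs hB)
    (Subgroup.npow_mem_zpowers _ _) hr (by rw [hzr]) hord).1

/-- an irreducible subspace of an invariant subspace -/
theorem irr_map {y : X ≃ₗ[F] X} {P : Submodule F X} (hP : _root_.Cfsg.Agent.H847.Bs.Inv y P) {B : Submodule F P} (hB : Irr (rs y P hP) B) :
    Irr y (B.map P.subtype) where
  inv := by
    rintro _ ⟨b, hb, rfl⟩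
    exact ⟨_, hB.inv b hb, rfl⟩
  ne_bot := by
    intro h
    apply hB.ne_bot
    exact Submodule.map_injective_of_injective P.injective_subtype (h.trans (Submodule.map_bot _).symm)
  min := by
    intro W hW hWi
    rcases hB.min (W.comap P.subtype) (by
      intro b hb
      obtain ⟨b', hb', h1⟩ := hW hb
      rwa [← P.injective_subtype h1]) (fun b hb => hWi _ hb) with h1 | h1
    · left
      rw [Submodule.eq_bot_iff]
      intro v hv
      obtain ⟨b, hb, rfl⟩ := hW hv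
      have h2 : b ∈ W.comap P.subtype := hv
      rw [h1, Submodule.mem_bot] at h2
      rw [h2, map_zero]
    · right
      refine le_antisymm hW ?_
      rintro _ ⟨b, hb, rfl⟩
      have h2 : b ∈ W.comap P.subtype := by rw [h1]; exact hb
      exact h2

end

/-- **Ye.** -/
theorem ye : Ye := by
  intro F V _ _ _ _ _ Φ e hN he y hy E hG
  have hGf := Cfsg.Agent.H127.RG.finite_gl F V
  have hGE := Cfsg.Agent.H127.RG.finite_gl F E
  have hGP := Cfsg.Agent.H127.RG.finite_gl F (perp Φ E)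
  have hdec := dec_perp Φ hN hG.nd
  have hPi : _root_.Cfsg.Agent.H847.Bs.Inv y (perp Φ E) := inv_perp hy hG.irr.inv
  obtain ⟨k, hk, hkE⟩ := hG.pp
  obtain ⟨f, hf⟩ : ∃ f, Nat.card F = ringChar F ^ f := by
    have := Fintype.ofFinite F
    obtain ⟨m, -, hm⟩ := FiniteField.card F (ringChar F)
    exact ⟨m, by rw [Nat.card_eq_fintype_card, hm]⟩
  set yE := rs y E hG.irr.inv with hyE
  set yP := rs y (perp Φ E) hPi with hyP
  have hnoP : ∀ B : Submodule F (perp Φ E), Irr yP B → ¬ e ∣ finrank F B := by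
    intro B hB hd
    refine hG.no (B.map (perp Φ E).subtype) (Submodule.map_subtype_le _ _) (irr_map hPi hB) ?_
    rwa [Submodule.finrank_map_subtype_eq]
  have hcop : Nat.Coprime k (orderOf yP) := by
    apply Nat.coprime_of_dvd
    intro r hr hrk hrP
    exact not_dvd_orderOf he hr (ord_q hf (hk.2.2 r hr hrk f hf)) hnoP hrP
  have hka : k ∣ orderOf yE := by
    apply hkE
    intro a ha
    have h1 := rs_pow hG.irr.inv (orderOf yE) ⟨a, ha⟩
    rw [← hyE, pow_orderOf_eq_one] at h1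
    exact h1.symm
  obtain ⟨c, hc⟩ := hka
  have hapos : 0 < orderOf yE := orderOf_pos yE
  have hcpos : 0 < c := by
    rcases Nat.eq_zero_or_pos c with h | h
    · rw [h, mul_zero] at hc; omega
    · exact h
  have hkpos : 0 < k := by
    rcases Nat.eq_zero_or_pos k with h | h
    · rw [h, zero_mul] at hc; omega
    · exact h
  set t := orderOf yP * c with ht
  have hzP : ∀ v ∈ perp Φ E, (y ^ t) v = v := by
    intro v hv
    have h1 := rs_pow hPi t ⟨v, hv⟩
    rw [← hyP, ht, pow_mul, pow_orderOf_eq_one, one_pow] at h1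
    exact h1.symm
  have hzE : orderOf (yE ^ t) = k := by
    rw [orderOf_pow, hc, ht, Nat.gcd_mul_right, hcop.gcd_eq_one, one_mul, Nat.mul_div_cancel _ hcpos]
  have hoz : orderOf (y ^ t) = k := by
    rw [← hzE, orderOf_eq_orderOf_iff]
    intro j
    rw [← pow_mul, ← pow_mul]
    constructor
    · intro h
      apply LinearEquiv.ext
      intro a
      apply Subtype.ext
      rw [hyE, rs_pow, h]
      rfl
    · intro h
      apply LinearEquiv.ext
      intro v
      obtain ⟨a, ha, b, hb, rfl⟩ := Submodule.mem_sup.1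
        (show v ∈ E ⊔ perp Φ E by rw [hdec.compl.sup_eq_top]; exact Submodule.mem_top)
      have h1 := rs_pow hG.irr.inv (t * j) ⟨a, ha⟩
      rw [← hyE, h] at h1
      have h2 : (y ^ (t * j)) a = a := h1.symm
      have h3 : ∀ i : ℕ, ((y ^ t) ^ i) b = b := by
        intro i
        induction i with
        | zero => rfl
        | succ i ih =>
          rw [pow_succ]
          show ((y ^ t) ^ i) ((y ^ t) b) = b
          rw [hzP b hb, ih]
      have h4 := h3 j
      rw [← pow_mul] at h4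
      rw [map_add, h2, h4]
      rfl
  have hk1 : k ≠ 1 := by
    have := hk.1
    omega
  obtain ⟨r, hr, hrk⟩ := Nat.exists_prime_and_dvd hk1
  obtain ⟨-, h2, h3⟩ := l24 F E e r yE (yE ^ t) he (irr_rs hG.irr)
    (Subgroup.npow_mem_zpowers _ _) hr (by rw [hzE]; exact hrk) (ord_q hf (hk.2.2 r hr hrk f hf))
  refine ⟨y ^ t, Subgroup.npow_mem_zpowers _ _, hG.nd, hG.dim, hG.irr.inv, hzP,
    min_of_irr (rs_pow hG.irr.inv t) (h2 hG.dim), fun v hv hv2 => ?_, by rw [hoz]; exact hk⟩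
  exact congrArg Subtype.val (h3 ⟨v, hv⟩ (Subtype.ext ((rs_pow hG.irr.inv t _).trans hv2)))

end Cfsg.Agent.H232.Ux
end

-- part: H557/Ux/Irr
section
/-!
# S5716, unbounded rank, UT2b: irreducible isometries (helper557)

`Φ` symplectic, hermitian or quadratic, `dim V = n ≥ 2`.

* `Gf` : the three kinds of forms; `gf_of_isSp`, `gf_of_isHerm`, `gf_frmQ`;
* `exists_dt` : the involution `τ` of the field `L` with `n` generated by an irreducible isometry `mu e t`;
* `mem_iso` : `mu e c` is an isometry, if `τ c * c = 1`;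
* `exists_conj` : every irreducible isometry `mu e' t'` is conjugate in `Φ.Iso` to `mu e t'`;
* `card_bm_le` : `|Φ.Bm| * dim V ≤ |Φ.Iso|`.
-/

set_option autoImplicit false

namespace Cfsg.Agent.H557.Ux

open Module Cfsg.Agent.H847.Bs Cfsg.Agent.H881.Bs

section

variable {F V : Type*} [Field F] [AddCommGroup V] [Module F V]

/-- symplectic, hermitian and quadratic forms -/
structure Gf (Φ : Frm F V) (ε : F) : Prop where
  nd : Φ.Nd
  inv : ∀ a, Φ.s (Φ.s a) = a
  symm : ∀ x y, Φ.B y x = ε * Φ.s (Φ.B x y)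
  q : (∀ x, Φ.q x = 0) ∨ (∀ x y, Φ.q (x + y) = Φ.q x + Φ.q y + Φ.B x y) ∧ ∀ (a : F) (x), Φ.q (a • x) = a ^ 2 * Φ.q x

theorem gf_of_isSp {Φ : Frm F V} (h : IsSp Φ) : Gf Φ (-1) where
  nd := h.nd
  inv := fun a => by rw [h.s, h.s]
  symm := fun x y => by
    have h1 := h.alt (x + y)
    rw [Φ.add_left, Φ.add_right, Φ.add_right, h.alt, h.alt] at h1
    rw [h.s]
    linear_combination h1
  q := Or.inl h.q

theorem gf_of_isHerm {r : ℕ} {Φ : Frm F V} [Finite F] (h : IsHerm r Φ) : Gf Φ 1 where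
  nd := h.nd
  inv := fun a => by
    have := Fintype.ofFinite F
    rw [h.s, h.s, ← pow_mul, ← sq, ← h.card, Nat.card_eq_fintype_card, FiniteField.pow_card]
  symm := fun x y => by rw [h.s, one_mul, h.symm]
  q := Or.inl h.q

theorem gf_frmQ {Q : QuadraticForm F V} (h : (frmQ Q).Nd) : Gf (frmQ Q) 1 where
  nd := h
  inv := fun _ => rfl
  symm := fun x y => by
    show QuadraticMap.polar Q y x = 1 * QuadraticMap.polar Q x y
    rw [one_mul, QuadraticMap.polar_comm]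
  q := Or.inr ⟨fun x y => by
    show Q (x + y) = Q x + Q y + QuadraticMap.polar Q x y
    rw [QuadraticMap.polar]; ring, fun a x => by
    show Q (a • x) = a ^ 2 * Q x
    rw [QuadraticMap.map_smul, smul_eq_mul, sq]⟩

variable {Φ : Frm F V} {ε : F}

theorem Gf.exists_B_ne [Nontrivial V] (h : Gf Φ ε) : ∃ x y, Φ.B x y ≠ 0 := by
  obtain ⟨x, hx⟩ := exists_ne (0 : V)
  by_contra h1
  push Not at h1
  exact hx (h.nd x fun y => h1 x y)

theorem Gf.nd' (h : Gf Φ ε) {y : V} (hy : ∀ x, Φ.B x y = 0) : y = 0 :=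
  h.nd y fun x => Φ.refl _ _ (hy x)

end

section

variable {F V L : Type*} [Field F] [AddCommGroup V] [Module F V] [Field L] [Algebra F L]

/-- an irreducible isometry, as an element of the field `L`, with the involution `τ` of `L` -/
structure Dt (Φ : Frm F V) (e : V ≃ₗ[F] L) (t : Lˣ) (τ : L →+* L) : Prop where
  gen : Gen F (t : L)
  mem : mu e t ∈ Φ.Iso
  adj : ∀ c x y, Φ.B (e.symm (c * x)) (e.symm y) = Φ.B (e.symm x) (e.symm (τ c * y))
  map : ∀ a : F, τ (algebraMap F L a) = algebraMap F L (Φ.s a)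
  tt : τ t * t = 1
  inv : ∀ c, τ (τ c) = c

variable {Φ : Frm F V} {ε : F}

/-- **the involution** -/
theorem exists_dt (h : Gf Φ ε) (e : V ≃ₗ[F] L) (t : Lˣ) (ht : Gen F (t : L)) (hm : mu e t ∈ Φ.Iso) :
    ∃ τ : L →+* L, Dt Φ e t τ := by
  have hV : Nontrivial V := e.toEquiv.nontrivial
  have hex : ∀ c : L, ∃ d : L, ∀ x y, Φ.B (e.symm (c * x)) (e.symm y) = Φ.B (e.symm x) (e.symm (d * y)) := by
    refine ht.mem _ (fun a => ⟨algebraMap F L (Φ.s a), fun x y => ?_⟩) ⟨((t⁻¹ : Lˣ) : L), fun x y => ?_⟩ ?_ ?_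
    · rw [← Algebra.smul_def, ← Algebra.smul_def, map_smul, map_smul, Φ.smul_left, Φ.smul_right, h.inv]
    · have h1 := hm.1 (e.symm x) (e.symm (((t⁻¹ : Lˣ) : L) * y))
      rw [mu_apply, mu_apply, e.apply_symm_apply, e.apply_symm_apply, ← mul_assoc, Units.mul_inv, one_mul] at h1
      exact h1
    · rintro x y ⟨d, hd⟩ ⟨d', hd'⟩
      refine ⟨d + d', fun u v => ?_⟩
      rw [add_mul, add_mul, map_add, map_add, Φ.add_left, Φ.add_right, hd, hd']
    · rintro x y ⟨d, hd⟩ ⟨d', hd'⟩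
      refine ⟨d' * d, fun u v => ?_⟩
      rw [mul_assoc, hd, hd', mul_assoc]
  have hun : ∀ d d' : L, (∀ x, Φ.B (e.symm x) (e.symm (d * 1)) = Φ.B (e.symm x) (e.symm (d' * 1))) → d = d' := by
    intro d d' hd
    have h1 : e.symm (d - d') = 0 := by
      apply h.nd'
      intro x
      have h2 := hd (e x)
      rw [e.symm_apply_apply, mul_one, mul_one] at h2
      have h3 : Φ.B x (e.symm d) = Φ.B x (e.symm d' + e.symm (d - d')) := by
        rw [← map_add, add_sub_cancel]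
      rw [h2, Φ.add_right] at h3
      exact left_eq_add.1 h3
    rw [LinearEquiv.map_eq_zero_iff, sub_eq_zero] at h1
    exact h1
  choose τ hτ using hex
  refine ⟨{ toFun := τ, map_one' := ?_, map_mul' := ?_, map_zero' := ?_, map_add' := ?_ }, ht, hm, hτ, ?_, ?_, ?_⟩
  · refine hun _ _ fun x => ?_
    rw [← hτ, one_mul, one_mul]
  · intro c d
    refine hun _ _ fun x => ?_
    rw [← hτ, mul_comm (τ c), mul_assoc (τ d), ← hτ, ← hτ, mul_assoc]
  · refine hun _ _ fun x => ?_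
    rw [← hτ, zero_mul, zero_mul, map_zero]
    have h1 : Φ.B (0 : V) (e.symm 1) = 0 := by
      rw [← zero_smul F (0 : V), Φ.smul_left, zero_mul]
    rw [h1]
    exact (Φ.refl _ _ (by rw [← zero_smul F (0 : V), Φ.smul_left, zero_mul])).symm
  · intro c d
    refine hun _ _ fun x => ?_
    rw [← hτ, add_mul, map_add, Φ.add_left, hτ, hτ, ← Φ.add_right, ← map_add, ← add_mul]
  · intro a
    refine hun _ _ fun x => ?_
    show Φ.B _ (e.symm (τ _ * 1)) = _
    rw [← hτ, ← Algebra.smul_def, ← Algebra.smul_def, map_smul, map_smul, Φ.smul_left, Φ.smul_right, h.inv]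
  · have h1 : τ (t : L) = ((t⁻¹ : Lˣ) : L) := by
      refine hun _ _ fun x => ?_
      rw [← hτ]
      have h1 := hm.1 (e.symm x) (e.symm (((t⁻¹ : Lˣ) : L) * 1))
      rw [mu_apply, mu_apply, e.apply_symm_apply, e.apply_symm_apply, ← mul_assoc, Units.mul_inv, one_mul] at h1
      exact h1
    show τ (t : L) * t = 1
    rw [h1, Units.inv_mul]
  · intro c
    refine hun _ _ fun x => ?_
    show Φ.B _ (e.symm (τ (τ c) * 1)) = _
    rw [← hτ]
    have h1 : ∀ x y, Φ.B (e.symm (τ c * x)) (e.symm y) = Φ.B (e.symm x) (e.symm (c * y)) := by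
      intro x y
      rw [h.symm (e.symm y), h.symm (e.symm (c * y)), ← hτ]
    exact h1 x 1

/-- a semilinear invariant function is zero -/
theorem eq_zero_of_semi [Finite F] [Module.Finite F V] (h2 : 2 ≤ finrank F V) (D : V → F) (hadd : ∀ x y, D (x + y) = D x + D y)
    (hsm : ∀ (a : F) (x), D (a • x) = a ^ 2 * D x) {z : V ≃ₗ[F] V} (hz : Irr z (⊤ : Submodule F V))
    (hD : ∀ x, D (z x) = D x) (x : V) : D x = 0 := by
  have hfV : Finite V := Module.finite_of_finite F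
  let W : Submodule F V :=
    { carrier := {x | D x = 0}
      add_mem' := fun {a b} ha hb => by
        show D (a + b) = 0
        rw [hadd, show D a = 0 from ha, show D b = 0 from hb, add_zero]
      zero_mem' := by
        show D 0 = 0
        rw [← zero_smul F (0 : V), hsm, zero_pow two_ne_zero, zero_mul]
      smul_mem' := fun a x hx => by
        show D (a • x) = 0
        rw [hsm, show D x = 0 from hx, mul_zero] }
  have hW : _root_.Cfsg.Agent.H847.Bs.Inv z W := fun v hv => by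
    show D (z v) = 0
    rw [hD]
    exact hv
  rcases hz.min W le_top hW with h | h
  · exfalso
    have hinj : Function.Injective D := by
      intro a b hab
      have h3 : a - b ∈ W := by
        show D (a - b) = 0
        have h4 : D (a - b + b) = D (a - b) + D b := hadd _ _
        rw [sub_add_cancel, hab] at h4
        exact right_eq_add.1 h4
      rw [h, Submodule.mem_bot, sub_eq_zero] at h3
      exact h3
    have h3 := Nat.card_le_card_of_injective D hinj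
    rw [Module.natCard_eq_pow_finrank (K := F) (V := V)] at h3
    have h4 : 1 < Nat.card F := Finite.one_lt_card
    have h5 : Nat.card F ^ 1 < Nat.card F ^ finrank F V := Nat.pow_lt_pow_right h4 (by omega)
    rw [pow_one] at h5
    omega
  · have h3 : x ∈ W := by rw [h]; trivial
    exact h3

theorem q_eq [Finite F] [Module.Finite F V] (h : Gf Φ ε) (h2 : 2 ≤ finrank F V) {z g : V ≃ₗ[F] V}
    (hz : Irr z (⊤ : Submodule F V)) (hg : ∀ x y, Φ.B (g x) (g y) = Φ.B x y)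
    (hq : ∀ x, Φ.q (g (z x)) - Φ.q (z x) = Φ.q (g x) - Φ.q x) (x : V) : Φ.q (g x) = Φ.q x := by
  rcases h.q with h3 | ⟨h3, h4⟩
  · rw [h3, h3]
  · have h5 := eq_zero_of_semi h2 (fun x => Φ.q (g x) - Φ.q x) (fun x y => ?_) (fun a x => ?_) hz hq x
    · exact sub_eq_zero.1 h5
    · simp only [map_add, h3, hg]
      ring
    · simp only [map_smul, h4]
      ring

theorem mu_mul_comm (e : V ≃ₗ[F] L) (c d : Lˣ) (v : V) : mu e c (mu e d v) = mu e d (mu e c v) := by
  rw [mu_apply, e_mu, mu_apply e d, e_mu, mul_left_comm]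

/-- isometries of order `R + 1` -/
theorem mem_iso [Finite F] [Module.Finite F V] (h : Gf Φ ε) (h2 : 2 ≤ finrank F V) {e : V ≃ₗ[F] L} {t : Lˣ} {τ : L →+* L}
    (D : Dt Φ e t τ) {c : Lˣ} (hc : τ c * c = 1) : mu e c ∈ Φ.Iso := by
  have hB : ∀ x y, Φ.B (mu e c x) (mu e c y) = Φ.B x y := by
    intro x y
    rw [mu_apply, mu_apply, D.adj, ← mul_assoc, hc, one_mul, e.symm_apply_apply, e.symm_apply_apply]
  refine ⟨hB, q_eq h h2 (irr_mu e D.gen) hB fun x => ?_⟩
  rw [mu_mul_comm, D.mem.2, D.mem.2]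

/-- `τ` is not the identity -/
theorem tau_ne [Module.Finite F V] (h2 : 2 ≤ finrank F V) {e : V ≃ₗ[F] L} {t : Lˣ} {τ : L →+* L}
    (D : Dt Φ e t τ) : ∃ c, τ c ≠ c := by
  by_contra hno
  push Not at hno
  have h1 := D.tt
  rw [hno] at h1
  have h3 : ∃ a : F, (t : L) = algebraMap F L a := by
    rcases mul_self_eq_one_iff.1 h1 with h3 | h3
    · exact ⟨1, by rw [h3, map_one]⟩
    · exact ⟨-1, by rw [h3, map_neg, map_one]⟩
  obtain ⟨a, ha⟩ := h3
  have h4 : (⊥ : Subalgebra F L) = ⊤ := by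
    rw [← D.gen, eq_comm, eq_bot_iff, Algebra.adjoin_le_iff, Set.singleton_subset_iff, ha]
    exact Subalgebra.algebraMap_mem _ _
  rw [Subalgebra.bot_eq_top_iff_finrank_eq_one, ← e.finrank_eq] at h4
  omega

/-- an involution of a finite field -/
theorem exists_R [Finite L] (τ : L →+* L) (h2 : ∀ c, τ (τ c) = c) (h1 : ∃ c, τ c ≠ c) :
    ∃ R, Nat.card L = R ^ 2 ∧ ∀ x, τ x = x ^ R := by
  obtain ⟨p, hp⟩ := CharP.exists L
  have hpp : Fact p.Prime := ⟨(CharP.char_is_prime_or_zero L p).resolve_right (CharP.char_ne_zero_of_finite L p)⟩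
  let _ : Algebra (ZMod p) L := ZMod.algebra L p
  have hcom : ∀ a : ZMod p, τ (algebraMap (ZMod p) L a) = algebraMap (ZMod p) L a := fun a =>
    congrFun (congrArg DFunLike.coe (Subsingleton.elim (τ.comp (algebraMap (ZMod p) L)) (algebraMap (ZMod p) L))) a
  let σ₀ : L →ₐ[ZMod p] L := { τ with commutes' := hcom }
  let σ : L ≃ₐ[ZMod p] L := AlgEquiv.ofBijective σ₀ (Finite.injective_iff_bijective.1 τ.injective)
  obtain ⟨i, hi⟩ := FiniteField.exists_forall_apply_eq_pow (ZMod p) p L σ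
  have hi' : ∀ x, τ x = x ^ (p ^ i) := fun x => by
    have h3 := hi x
    rw [Nat.card_zmod] at h3
    exact h3
  have : Fintype L := Fintype.ofFinite L
  obtain ⟨m, hm0, hm'⟩ : ∃ m : ℕ, 0 < m ∧ Nat.card L = p ^ m := by
    obtain ⟨m, -, hm⟩ := FiniteField.card L p
    exact ⟨m, m.pos, by rw [Nat.card_eq_fintype_card, hm]⟩
  have hp1 : 1 < p := hpp.out.one_lt
  have hA : ∀ j, 0 < j → j < m → ∃ x : L, x ^ (p ^ j) ≠ x := by
    intro j hj hjm
    by_contra hno
    push Not at hno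
    have h3 := card_pow_eq_le (L := L) (Nat.one_lt_pow hj.ne' hp1)
    rw [Nat.card_congr (Equiv.subtypeUnivEquiv hno), hm'] at h3
    have h4 := Nat.pow_lt_pow_right hp1 hjm
    omega
  have hcard : ∀ k (x : L), x ^ ((p ^ m) ^ k) = x := by
    intro k x
    rw [← hm', Nat.card_eq_fintype_card]
    exact FiniteField.pow_card_pow k x
  set j := i % m with hj
  have hjm : j < m := Nat.mod_lt _ hm0
  have hτj : ∀ x, τ x = x ^ (p ^ j) := by
    intro x
    rw [hi' x, ← Nat.div_add_mod i m, pow_add, pow_mul, pow_mul, hcard]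
  have hj0 : 0 < j := by
    by_contra h0
    obtain ⟨c, hc⟩ := h1
    apply hc
    rw [hτj, show j = 0 by omega, pow_zero, pow_one]
  have h2j : ∀ x : L, x ^ (p ^ (2 * j)) = x := by
    intro x
    have h3 := h2 x
    rw [hτj, hτj, ← pow_mul, ← pow_add, ← two_mul] at h3
    exact h3
  have h3 : 2 * j = m := by
    rcases Nat.lt_trichotomy (2 * j) m with h3 | h3 | h3
    · obtain ⟨x, hx⟩ := hA (2 * j) (by omega) h3
      exact absurd (h2j x) hx
    · exact h3
    · obtain ⟨x, hx⟩ := hA (2 * j - m) (by omega) (by omega)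
      exfalso
      apply hx
      have h4 := h2j x
      rw [show 2 * j = m * 1 + (2 * j - m) by omega, pow_add, pow_mul, pow_mul, hcard] at h4
      exact h4
  exact ⟨p ^ j, by rw [hm', ← h3, ← pow_mul, mul_comm], hτj⟩

/-- two involutions coincide -/
theorem tau_eq [Finite L] {τ τ' : L →+* L} (h : ∀ c, τ (τ c) = c) (h1 : ∃ c, τ c ≠ c) (h' : ∀ c, τ' (τ' c) = c)
    (h1' : ∃ c, τ' c ≠ c) : τ = τ' := by
  obtain ⟨R, hR, hτ⟩ := exists_R τ h h1
  obtain ⟨R', hR', hτ'⟩ := exists_R τ' h' h1'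
  have h3 : R = R' := Nat.pow_left_injective two_ne_zero (hR.symm.trans hR')
  exact RingHom.ext fun x => by rw [hτ, hτ', h3]

/-- the norm is surjective -/
theorem exists_norm [Finite L] (τ : L →+* L) (h2 : ∀ c, τ (τ c) = c) (h1 : ∃ c, τ c ≠ c) {l : L} (hl : l ≠ 0) (hτl : τ l = l) :
    ∃ u : Lˣ, (u : L) * τ u = l := by
  obtain ⟨R, hR, hτ⟩ := exists_R τ h2 h1
  have hR1 : 1 < R := by
    by_contra h0
    have h3 : 1 < Nat.card L := Finite.one_lt_card
    rw [hR] at h3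
    have h4 : R ≤ 1 := by omega
    have h5 : R ^ 2 ≤ 1 ^ 2 := Nat.pow_le_pow_left h4 2
    omega
  obtain ⟨g, hg⟩ := IsCyclic.exists_generator (α := Lˣ)
  obtain ⟨a, ha⟩ := mem_powers_iff_mem_zpowers.2 (hg (Units.mk0 l hl))
  have ha' : g ^ a = Units.mk0 l hl := ha
  have ho : orderOf g = (R - 1) * (R + 1) := by
    rw [orderOf_eq_card_of_forall_mem_zpowers hg, Nat.card_units, hR]
    obtain ⟨k, rfl⟩ : ∃ k, R = k + 1 := ⟨R - 1, by omega⟩
    rw [Nat.add_sub_cancel]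
    have h3 : (k + 1) ^ 2 = k * (k + 1 + 1) + 1 := by ring
    rw [h3, Nat.add_sub_cancel]
  have h3 : (g ^ a) ^ (R - 1) = 1 := by
    rw [ha']
    apply mul_right_cancel (b := Units.mk0 l hl)
    rw [← pow_succ, Nat.sub_add_cancel (by omega), one_mul]
    apply Units.ext
    rw [Units.val_pow_eq_pow_val, Units.val_mk0, ← hτ, hτl]
  rw [← pow_mul] at h3
  have h4 := orderOf_dvd_of_pow_eq_one h3
  rw [ho, mul_comm a] at h4
  obtain ⟨k, hk⟩ := Nat.dvd_of_mul_dvd_mul_left (by omega) h4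
  refine ⟨g ^ k, ?_⟩
  rw [hτ, ← pow_succ', ← Units.val_pow_eq_pow_val, ← pow_mul, mul_comm k, ← hk, ha', Units.val_mk0]

/-- functionals of `L` -/
theorem exists_functional [FiniteDimensional F L] (f f' : L →ₗ[F] F) (hf : f ≠ 0) : ∃ l : L, ∀ x, f' x = f (l * x) := by
  let T : L →ₗ[F] (L →ₗ[F] F) := (LinearMap.mul F L).compr₂ f
  have hT : ∀ l x, T l x = f (l * x) := fun _ _ => rfl
  have hinj : Function.Injective T := by
    rw [injective_iff_map_eq_zero]
    intro l hl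
    by_contra h0
    apply hf
    ext x
    have h1 : T l (l⁻¹ * x) = 0 := by rw [hl]; rfl
    rw [hT, ← mul_assoc, mul_inv_cancel₀ h0, one_mul] at h1
    exact h1
  have hsurj : Function.Surjective T :=
    (LinearMap.injective_iff_surjective_of_finrank_eq_finrank (Subspace.dual_finrank_eq (K := F) (V := L)).symm).1 hinj
  obtain ⟨l, hl⟩ := hsurj f'
  exact ⟨l, fun x => by rw [← hT, hl]⟩

/-- **irreducible isometries are conjugate to elements of the torus** -/
theorem exists_conj [Finite F] [Finite L] [Module.Finite F V] (h : Gf Φ ε) (h2 : 2 ≤ finrank F V) {e e' : V ≃ₗ[F] L}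
    {t t' : Lˣ} {τ τ' : L →+* L} (D : Dt Φ e t τ) (D' : Dt Φ e' t' τ') :
    ∃ g ∈ Φ.Iso, g * mu e' t' * g⁻¹ = mu e t' := by
  have hfd : FiniteDimensional F L := Module.Finite.of_finite
  have hV : Nontrivial V := e.toEquiv.nontrivial
  obtain rfl : τ = τ' := tau_eq D.inv (tau_ne h2 D) D'.inv (tau_ne h2 D')
  -- the functionals
  have hf : ∀ (e : V ≃ₗ[F] L), ∃ f : L →ₗ[F] F, ∀ x, f x = Φ.B (e.symm x) (e.symm 1) := fun e =>
    ⟨{ toFun := fun x => Φ.B (e.symm x) (e.symm 1)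
       map_add' := fun x y => by rw [map_add, Φ.add_left]
       map_smul' := fun a x => by rw [map_smul, Φ.smul_left]; rfl }, fun _ => rfl⟩
  obtain ⟨f, hf1⟩ := hf e
  obtain ⟨f', hf1'⟩ := hf e'
  have hB : ∀ x y, Φ.B (e.symm x) (e.symm y) = f (τ y * x) := by
    intro x y
    rw [hf1, D.adj, D.inv, mul_one]
  have hB' : ∀ x y, Φ.B (e'.symm x) (e'.symm y) = f' (τ y * x) := by
    intro x y
    rw [hf1', D'.adj, D'.inv, mul_one]
  have hs : ∀ z, f (τ z) = ε * Φ.s (f z) := by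
    intro z
    rw [hf1, hf1, ← h.symm, ← mul_one (τ z), D.adj, D.inv, mul_one]
  have hs' : ∀ z, f' (τ z) = ε * Φ.s (f' z) := by
    intro z
    rw [hf1', hf1', ← h.symm, ← mul_one (τ z), D'.adj, D'.inv, mul_one]
  have hf0 : f ≠ 0 := by
    rintro rfl
    obtain ⟨x, y, hxy⟩ := h.exists_B_ne
    apply hxy
    rw [← e.symm_apply_apply x, ← e.symm_apply_apply y, hB]
    rfl
  obtain ⟨l, hl⟩ := exists_functional f f' hf0
  have hl0 : l ≠ 0 := by
    rintro rfl
    obtain ⟨x, y, hxy⟩ := h.exists_B_ne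
    apply hxy
    rw [← e'.symm_apply_apply x, ← e'.symm_apply_apply y, hB', hl, zero_mul, map_zero]
  have hτl : τ l = l := by
    have h3 : ∀ z, f ((τ l - l) * z) = 0 := by
      intro z
      have h4 := hs' (τ z)
      rw [hl, hl, ← hs, τ.map_mul, D.inv] at h4
      rw [sub_mul, map_sub, h4, sub_self]
    by_contra h0
    apply hf0
    ext x
    have h4 := h3 ((τ l - l)⁻¹ * x)
    rw [← mul_assoc, mul_inv_cancel₀ (sub_ne_zero.2 h0), one_mul] at h4
    exact h4
  obtain ⟨u, hu⟩ := exists_norm τ D.inv (tau_ne h2 D) hl0 hτl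
  let g : V ≃ₗ[F] V := e' ≪≫ₗ mul F u ≪≫ₗ e.symm
  have hg : ∀ v, g v = e.symm (u * e' v) := fun _ => rfl
  have hgB : ∀ x y, Φ.B (g x) (g y) = Φ.B x y := by
    intro x y
    rw [hg, hg, hB, τ.map_mul]
    rw [show τ (u : L) * τ (e' y) * ((u : L) * e' x) = (u : L) * τ u * (τ (e' y) * e' x) by ring, hu, ← hl, ← hB',
      e'.symm_apply_apply, e'.symm_apply_apply]
  have hcomm : ∀ v, g (mu e' t' v) = mu e t' (g v) := by
    intro v
    rw [hg, e_mu, mu_apply, hg, e.apply_symm_apply, mul_left_comm]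
  have hm := mem_iso h h2 D D'.tt
  refine ⟨g, ⟨hgB, q_eq h h2 (irr_mu e' D'.gen) hgB fun x => ?_⟩, ?_⟩
  · rw [hcomm, hm.2, D'.mem.2]
  · rw [mul_inv_eq_iff_eq_mul]
    exact LinearEquiv.ext hcomm

theorem gen_map (σ : L ≃ₐ[F] L) {t : L} (h : Gen F t) : Gen F (σ t) := by
  have h1 : ∀ y, σ y ∈ Algebra.adjoin F {σ t} :=
    h.mem (fun y => σ y ∈ Algebra.adjoin F {σ t})
      (fun a => by rw [AlgEquiv.commutes]; exact Subalgebra.algebraMap_mem _ a)
      (Algebra.subset_adjoin (Set.mem_singleton _))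
      (fun x y hx hy => by rw [map_add]; exact Subalgebra.add_mem _ hx hy)
      (fun x y hx hy => by rw [map_mul]; exact Subalgebra.mul_mem _ hx hy)
  unfold Gen
  rw [eq_top_iff]
  intro y _
  rw [← σ.apply_symm_apply y]
  exact h1 _

/-- Galois conjugation of a unit -/
def gU (σ : L ≃ₐ[F] L) : Lˣ →* Lˣ := Units.map (σ : L →* L)

theorem gU_val (σ : L ≃ₐ[F] L) (t : Lˣ) : ((gU σ t : Lˣ) : L) = σ t := rfl

theorem mu_gal (e : V ≃ₗ[F] L) (σ : L ≃ₐ[F] L) (t : Lˣ) : mu (e ≪≫ₗ σ.toLinearEquiv) (gU σ t) = mu e t := by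
  apply LinearEquiv.ext
  intro v
  apply (e ≪≫ₗ σ.toLinearEquiv).injective
  rw [e_mu]
  show σ t * σ (e v) = σ (e (mu e t v))
  rw [e_mu, map_mul]

/-- change of the element of the torus -/
theorem dt_of [Finite F] [Finite L] [Module.Finite F V] (h : Gf Φ ε) (h2 : 2 ≤ finrank F V) {e : V ≃ₗ[F] L} {t : Lˣ}
    {τ : L →+* L} (D : Dt Φ e t τ) {c : Lˣ} (hc : Gen F (c : L)) (hcc : τ c * c = 1) : Dt Φ e c τ where
  gen := hc
  mem := mem_iso h h2 D hcc
  adj := D.adj
  map := D.map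
  tt := hcc
  inv := D.inv

theorem exists_gal_conj [Finite F] [Finite L] [Module.Finite F V] (h : Gf Φ ε) (h2 : 2 ≤ finrank F V) {e : V ≃ₗ[F] L}
    {t : Lˣ} {τ : L →+* L} (D : Dt Φ e t τ) (σ : L ≃ₐ[F] L) : ∃ g ∈ Φ.Iso, g * mu e t * g⁻¹ = mu e (gU σ t) := by
  have h3 := mu_gal e σ t
  obtain ⟨τ', D'⟩ := exists_dt h (e ≪≫ₗ σ.toLinearEquiv) (gU σ t) (gen_map σ D.gen) (by rw [h3]; exact D.mem)
  have h4 := exists_conj h h2 D D'
  rw [h3] at h4
  exact h4

theorem tau_gal [Finite F] [Finite L] [Module.Finite F V] (h2 : 2 ≤ finrank F V) {e : V ≃ₗ[F] L}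
    {t : Lˣ} {τ : L →+* L} (D : Dt Φ e t τ) (σ : L ≃ₐ[F] L) (c : L) : τ (σ c) = σ (τ c) := by
  obtain ⟨R, -, hR⟩ := exists_R τ D.inv (tau_ne h2 D)
  rw [hR, hR, map_pow]

end

section

variable {F V : Type} [Field F] [Finite F] [AddCommGroup V] [Module F V] [Module.Finite F V] {Φ : Frm F V} {ε : F}

/-- an irreducible map is a multiplication -/
theorem exists_mu {L : Type} [Field L] [Finite L] [Algebra F L] [Nontrivial V] (hL : finrank F L = finrank F V) {z : V ≃ₗ[F] V}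
    (hz : Irr z (⊤ : Submodule F V)) : ∃ (e : V ≃ₗ[F] L) (t : Lˣ), Gen F (t : L) ∧ z = mu e t := by
  obtain ⟨e, u, hu⟩ := Cfsg.Agent.H383.RG.exists_model hL z fun W hW => hz.min W le_top hW
  have hu0 : u ≠ 0 := by
    rintro rfl
    have h1 := hu 1
    rw [zero_mul, map_zero, eq_comm, LinearEquiv.map_eq_zero_iff, LinearEquiv.map_eq_zero_iff] at h1
    exact one_ne_zero h1
  have hz' : z = mu e.symm (Units.mk0 u hu0) := by
    apply LinearEquiv.ext
    intro v
    rw [mu_apply, Units.val_mk0]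
    show z v = e (u * e.symm v)
    rw [hu, e.apply_symm_apply]
  refine ⟨e.symm, Units.mk0 u hu0, ?_, hz'⟩
  rw [Units.val_mk0]
  have h1 := hz.min ((Subalgebra.toSubmodule (Algebra.adjoin F {u})).map (e : L →ₗ[F] V)) le_top (by
    rintro _ ⟨y, hy, rfl⟩
    refine ⟨u * y, ?_, hu y⟩
    exact Subalgebra.mul_mem _ (Algebra.subset_adjoin (Set.mem_singleton u)) hy)
  rcases h1 with h1 | h1
  · exfalso
    have h3 : e 1 ∈ (Subalgebra.toSubmodule (Algebra.adjoin F {u})).map (e : L →ₗ[F] V) :=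
      ⟨1, Subalgebra.one_mem _, rfl⟩
    rw [h1, Submodule.mem_bot, LinearEquiv.map_eq_zero_iff] at h3
    exact one_ne_zero h3
  · unfold Gen
    rw [eq_top_iff]
    intro y _
    have h3 : e y ∈ (Subalgebra.toSubmodule (Algebra.adjoin F {u})).map (e : L →ₗ[F] V) := by rw [h1]; trivial
    obtain ⟨y', hy', h4⟩ := h3
    have h5 : y' = y := e.injective h4
    rw [← h5]
    exact hy'

/-- **all irreducible isometries**: a field `L`, a transport `e`, and the involution `τ`, if there is one -/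
theorem exists_torus (h : Gf Φ ε) (h2 : 2 ≤ finrank F V) (hne : ∃ z, z ∈ Φ.Bm) {L : Type} [Field L] [Finite L] [Algebra F L]
    (hL : finrank F L = finrank F V) :
    ∃ (e : V ≃ₗ[F] L) (t : Lˣ) (τ : L →+* L), Dt Φ e t τ ∧ ∀ z ∈ Φ.Bm, ∃ g ∈ Φ.Iso, ∃ c : Lˣ, Gen F (c : L) ∧ τ c * c = 1 ∧
      z = g * mu e c * g⁻¹ := by
  have hV : Nontrivial V := Module.nontrivial_of_finrank_pos (R := F) (by omega)
  obtain ⟨z₀, hz₀, hz₀'⟩ := hne
  obtain ⟨e, t, ht, rfl⟩ := exists_mu hL hz₀'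
  obtain ⟨τ, D⟩ := exists_dt h e t ht hz₀
  refine ⟨e, t, τ, D, ?_⟩
  rintro z ⟨hz, hz'⟩
  obtain ⟨e', t', ht', rfl⟩ := exists_mu hL hz'
  obtain ⟨τ', D'⟩ := exists_dt h e' t' ht' hz
  obtain ⟨g, hg, hgc⟩ := exists_conj h h2 D D'
  obtain rfl : τ = τ' := tau_eq D.inv (tau_ne h2 D) D'.inv (tau_ne h2 D')
  refine ⟨g⁻¹, Φ.Iso.inv_mem hg, t', ht', D'.tt, ?_⟩
  rw [← hgc]
  group

/-- **the number of irreducible isometries** (or of those conjugate to an element of a Galois-stable subset of the torus) -/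
theorem card_conj_le (h : Gf Φ ε) (h2 : 2 ≤ finrank F V) {L : Type} [Field L] [Finite L] [Algebra F L]
    (hL : finrank F L = finrank F V) {e : V ≃ₗ[F] L} {t : Lˣ} {τ : L →+* L} (D : Dt Φ e t τ) (S : Set Lˣ)
    (hS : ∀ c ∈ S, Gen F (c : L) ∧ τ c * c = 1) (hSg : ∀ c ∈ S, ∀ σ : L ≃ₐ[F] L, gU σ c ∈ S) :
    Nat.card {z : V ≃ₗ[F] V // ∃ g ∈ Φ.Iso, ∃ c ∈ S, z = g * mu e c * g⁻¹} * (finrank F V * Nat.card {c : Lˣ // τ c * c = 1}) ≤
      Nat.card Φ.Iso * Nat.card S := by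
  classical
  have hfV : Finite V := Module.finite_of_finite F
  have hfin : Finite (V ≃ₗ[F] V) := Finite.of_injective (fun g : V ≃ₗ[F] V => (g : V → V)) DFunLike.coe_injective
  have hfd : FiniteDimensional F L := Module.Finite.of_finite
  have hgal : IsGalois F L := inferInstance
  have hcg : Nat.card (L ≃ₐ[F] L) = finrank F V := by
    rw [IsGalois.card_aut_eq_finrank, hL]
  rw [← hcg, ← Nat.card_prod, ← Nat.card_prod, ← Nat.card_prod]
  -- the choices
  have h3 : ∀ z : {z : V ≃ₗ[F] V // ∃ g ∈ Φ.Iso, ∃ c ∈ S, z = g * mu e c * g⁻¹}, ∃ (g : V ≃ₗ[F] V) (c : Lˣ), g ∈ Φ.Iso ∧ c ∈ S ∧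
      z.1 = g * mu e c * g⁻¹ := fun z => by
    obtain ⟨g, hg, c, hc, h⟩ := z.2
    exact ⟨g, c, hg, hc, h⟩
  choose g c hg hc hz using h3
  have h4 : ∀ (z : {z : V ≃ₗ[F] V // ∃ g ∈ Φ.Iso, ∃ c ∈ S, z = g * mu e c * g⁻¹}) (σ : L ≃ₐ[F] L), ∃ k ∈ Φ.Iso,
      k * mu e (c z) * k⁻¹ = mu e (gU σ (c z)) := fun z σ =>
    exists_gal_conj h h2 (dt_of h h2 D (hS _ (hc z)).1 (hS _ (hc z)).2) σ
  choose k hk hkc using h4
  refine Nat.card_le_card_of_injective (fun p : {z : V ≃ₗ[F] V // ∃ g ∈ Φ.Iso, ∃ c ∈ S, z = g * mu e c * g⁻¹} ×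
      ((L ≃ₐ[F] L) × {c : Lˣ // τ c * c = 1}) =>
    ((⟨g p.1 * (k p.1 p.2.1)⁻¹ * mu e p.2.2.1, Φ.Iso.mul_mem (Φ.Iso.mul_mem (hg _) (Φ.Iso.inv_mem (hk _ _)))
      (mem_iso h h2 D p.2.2.2)⟩, ⟨gU p.2.1 (c p.1), hSg _ (hc _) _⟩) : Φ.Iso × S)) ?_
  rintro ⟨z, σ, d⟩ ⟨z', σ', d'⟩ hE
  have hE1 : g z * (k z σ)⁻¹ * mu e d.1 = g z' * (k z' σ')⁻¹ * mu e d'.1 := congrArg (fun p : Φ.Iso × S => (p.1 : V ≃ₗ[F] V)) hE
  have hE2 : gU σ (c z) = gU σ' (c z') := congrArg (fun p : Φ.Iso × S => (p.2 : Lˣ)) hE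
  have hcomm : ∀ a b : Lˣ, mu e a * mu e b = mu e b * mu e a := fun a b => LinearEquiv.ext fun v => mu_mul_comm e a b v
  have key : ∀ (z) (σ : L ≃ₐ[F] L) (d : Lˣ), (g z * (k z σ)⁻¹ * mu e d) * mu e (gU σ (c z)) * (g z * (k z σ)⁻¹ * mu e d)⁻¹ = z.1 := by
    intro z σ d
    rw [mul_assoc (g z * (k z σ)⁻¹), hcomm, ← hkc, hz z]
    group
  obtain rfl : z = z' := by
    apply Subtype.ext
    rw [← key z σ d, ← key z' σ' d', hE1, hE2]
  obtain rfl : σ = σ' := by
    have h5 : ∀ y : L, σ y = σ' y := (hS _ (hc z)).1.mem (fun y => σ y = σ' y)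
      (fun a => by rw [AlgEquiv.commutes, AlgEquiv.commutes]) (congrArg Units.val hE2)
      (fun x y hx hy => by rw [map_add, map_add, hx, hy]) (fun x y hx hy => by rw [map_mul, map_mul, hx, hy])
    exact AlgEquiv.ext h5
  have h6 : d = d' := Subtype.ext (mu_injective e (mul_left_cancel hE1))
  rw [h6]

/-- **UT2b** -/
theorem card_bm_le (h : Gf Φ ε) (h2 : 2 ≤ finrank F V) : Nat.card Φ.Bm * finrank F V ≤ Nat.card Φ.Iso := by
  classical
  have hfV : Finite V := Module.finite_of_finite F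
  have hfin : Finite (V ≃ₗ[F] V) := Finite.of_injective (fun g : V ≃ₗ[F] V => (g : V → V)) DFunLike.coe_injective
  by_cases hne : ∃ z, z ∈ Φ.Bm
  · obtain ⟨p, hp⟩ := CharP.exists F
    have hpp : Fact p.Prime := ⟨(CharP.char_is_prime_or_zero F p).resolve_right (CharP.char_ne_zero_of_finite F p)⟩
    have hnz : NeZero (finrank F V) := ⟨by omega⟩
    have hLf : finrank F (FiniteField.Extension F p (finrank F V)) = finrank F V := FiniteField.finrank_extension F p (finrank F V)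
    obtain ⟨e, t, τ, D, hall⟩ := exists_torus h h2 hne hLf
    have h3 := card_conj_le h h2 hLf D {c | Gen F (c : FiniteField.Extension F p (finrank F V)) ∧ τ c * c = 1} (fun _ hc => hc)
      (fun c hc σ => ⟨gen_map σ hc.1, by rw [gU_val, tau_gal h2 D, ← map_mul, hc.2, map_one]⟩)
    have h4 : Nat.card Φ.Bm = Nat.card {z : V ≃ₗ[F] V // ∃ g ∈ Φ.Iso, ∃ c ∈ {c : (FiniteField.Extension F p (finrank F V))ˣ |
        Gen F (c : FiniteField.Extension F p (finrank F V)) ∧ τ c * c = 1}, z = g * mu e c * g⁻¹} := by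
      refine Nat.card_congr (Equiv.subtypeEquivRight fun z => ⟨fun hz => ?_, ?_⟩)
      · obtain ⟨g, hg, c, hc, hcc, h5⟩ := hall z hz
        exact ⟨g, hg, c, ⟨hc, hcc⟩, h5⟩
      · rintro ⟨g, hg, c, hc, rfl⟩
        have hm := mem_iso h h2 D hc.2
        refine ⟨Φ.Iso.mul_mem (Φ.Iso.mul_mem hg hm) (Φ.Iso.inv_mem hg), ?_⟩
        have hirr := irr_mu e hc.1
        refine ⟨fun _ _ => Submodule.mem_top, hirr.ne_bot, fun Y _ hY => ?_⟩
        have h5 := hirr.min (Y.comap (g : V →ₗ[F] V)) le_top (fun v hv => by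
          have h6 := hY _ (Submodule.mem_comap.1 hv)
          have h7 : (g * mu e c * g⁻¹) (g v) = g (mu e c v) := by
            show g (mu e c (g⁻¹ (g v))) = _
            rw [show g⁻¹ (g v) = v from g.symm_apply_apply v]
          change (g * mu e c * g⁻¹) (g v) ∈ Y at h6
          rw [h7] at h6
          exact h6)
        rcases h5 with h5 | h5
        · left
          rw [eq_bot_iff]
          intro y hy
          have h6 : g.symm y ∈ Y.comap (g : V →ₗ[F] V) := by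
            show g (g.symm y) ∈ Y
            rwa [g.apply_symm_apply]
          rw [h5, Submodule.mem_bot, LinearEquiv.map_eq_zero_iff] at h6
          rw [h6]
          exact Submodule.zero_mem _
        · right
          rw [eq_top_iff]
          intro y _
          have h6 : g.symm y ∈ Y.comap (g : V →ₗ[F] V) := by rw [h5]; trivial
          change g (g.symm y) ∈ Y at h6
          rwa [g.apply_symm_apply] at h6
    rw [← h4] at h3
    have hT : 0 < Nat.card {c : (FiniteField.Extension F p (finrank F V))ˣ // τ c * c = 1} := by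
      have : Nonempty {c : (FiniteField.Extension F p (finrank F V))ˣ // τ c * c = 1} := ⟨⟨t, D.tt⟩⟩
      exact Nat.card_pos
    have h5 : Nat.card {c : (FiniteField.Extension F p (finrank F V))ˣ | Gen F (c : FiniteField.Extension F p (finrank F V)) ∧
        τ c * c = 1} ≤ Nat.card {c : (FiniteField.Extension F p (finrank F V))ˣ // τ c * c = 1} :=
      Nat.card_le_card_of_injective (fun c => ⟨c.1, c.2.2⟩) fun a b hab => by
        have h8 := Subtype.mk.inj hab
        exact Subtype.ext h8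
    have h6 := h3.trans (Nat.mul_le_mul_left _ h5)
    rw [← mul_assoc] at h6
    exact Nat.le_of_mul_le_mul_right h6 hT
  · have h3 : Nat.card Φ.Bm = 0 := by
      rw [Nat.card_eq_zero]
      exact Or.inl ⟨fun z => hne ⟨z.1, z.2⟩⟩
    rw [h3, zero_mul]
    exact Nat.zero_le _

end

end Cfsg.Agent.H557.Ux
end

-- part: H557/Ux/Yb
section
/-!
# S5716, unbounded rank, UT2: `Yb` (helper557)

The pairs `(P, m)`, `P ≠ 0` the pull back of the form of `V` under an injective map `X → V`, `m` an irreducible isometry of `P`: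
`dim X * |pairs| ≤ |GL(X)|`, because all these `P` are one orbit of `GL(X)` (`exists_isom`).

* `card_nz_le` : the pairs with `P ≠ 0`;
* `yb : H50.Ux.Yb`.
-/

set_option autoImplicit false

namespace Cfsg.Agent.H557.Ux

open Module Cfsg.Agent.H847.Bs Cfsg.Agent.H881.Bs
open Cfsg.Agent.H50.Ux

section

variable {F X L : Type*} [Field F] [AddCommGroup X] [Module F X] [Field L] [Algebra F L] {Φ Φ' : Frm F X} {ε : F}

/-- **two forms with irreducible isometries are isometric** -/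
theorem exists_isom [Finite F] [Finite L] [Module.Finite F X] (h : Gf Φ ε) (h' : Gf Φ' ε) (hs : Φ'.s = Φ.s)
    (hqq : (∀ x, Φ.q x = 0) ∧ (∀ x, Φ'.q x = 0) ∨
      ((∀ x y, Φ.q (x + y) = Φ.q x + Φ.q y + Φ.B x y) ∧ ∀ (a : F) (x), Φ.q (a • x) = a ^ 2 * Φ.q x) ∧
      ((∀ x y, Φ'.q (x + y) = Φ'.q x + Φ'.q y + Φ'.B x y) ∧ ∀ (a : F) (x), Φ'.q (a • x) = a ^ 2 * Φ'.q x))
    (h2 : 2 ≤ finrank F X) {e e' : X ≃ₗ[F] L}
    {t t' : Lˣ} {τ τ' : L →+* L} (D : Dt Φ e t τ) (D' : Dt Φ' e' t' τ') :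
    ∃ g : X ≃ₗ[F] X, (∀ x y, Φ.B (g x) (g y) = Φ'.B x y) ∧ ∀ x, Φ.q (g x) = Φ'.q x := by
  have hfd : FiniteDimensional F L := Module.Finite.of_finite
  have hV : Nontrivial X := e.toEquiv.nontrivial
  obtain rfl : τ = τ' := tau_eq D.inv (tau_ne h2 D) D'.inv (tau_ne h2 D')
  -- the functionals
  have hf : ∀ (Φ : Frm F X) (e : X ≃ₗ[F] L), ∃ f : L →ₗ[F] F, ∀ x, f x = Φ.B (e.symm x) (e.symm 1) := fun Φ e =>
    ⟨{ toFun := fun x => Φ.B (e.symm x) (e.symm 1)
       map_add' := fun x y => by rw [map_add, Φ.add_left]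
       map_smul' := fun a x => by rw [map_smul, Φ.smul_left]; rfl }, fun _ => rfl⟩
  obtain ⟨f, hf1⟩ := hf Φ e
  obtain ⟨f', hf1'⟩ := hf Φ' e'
  have hB : ∀ x y, Φ.B (e.symm x) (e.symm y) = f (τ y * x) := by
    intro x y
    rw [hf1, D.adj, D.inv, mul_one]
  have hB' : ∀ x y, Φ'.B (e'.symm x) (e'.symm y) = f' (τ y * x) := by
    intro x y
    rw [hf1', D'.adj, D'.inv, mul_one]
  have hs1 : ∀ z, f (τ z) = ε * Φ.s (f z) := by
    intro z
    rw [hf1, hf1, ← h.symm, ← mul_one (τ z), D.adj, D.inv, mul_one]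
  have hs' : ∀ z, f' (τ z) = ε * Φ.s (f' z) := by
    intro z
    rw [hf1', hf1', ← hs, ← h'.symm, ← mul_one (τ z), D'.adj, D'.inv, mul_one]
  have hf0 : f ≠ 0 := by
    rintro rfl
    obtain ⟨x, y, hxy⟩ := h.exists_B_ne
    apply hxy
    rw [← e.symm_apply_apply x, ← e.symm_apply_apply y, hB]
    rfl
  obtain ⟨l, hl⟩ := exists_functional f f' hf0
  have hl0 : l ≠ 0 := by
    rintro rfl
    obtain ⟨x, y, hxy⟩ := h'.exists_B_ne
    apply hxy
    rw [← e'.symm_apply_apply x, ← e'.symm_apply_apply y, hB', hl, zero_mul, map_zero]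
  have hτl : τ l = l := by
    have h3 : ∀ z, f ((τ l - l) * z) = 0 := by
      intro z
      have h4 := hs' (τ z)
      rw [hl, hl, ← hs1, τ.map_mul, D.inv] at h4
      rw [sub_mul, map_sub, h4, sub_self]
    by_contra h0
    apply hf0
    ext x
    have h4 := h3 ((τ l - l)⁻¹ * x)
    rw [← mul_assoc, mul_inv_cancel₀ (sub_ne_zero.2 h0), one_mul] at h4
    exact h4
  obtain ⟨u, hu⟩ := exists_norm τ D.inv (tau_ne h2 D) hl0 hτl
  let g : X ≃ₗ[F] X := e' ≪≫ₗ mul F u ≪≫ₗ e.symm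
  have hg : ∀ v, g v = e.symm (u * e' v) := fun _ => rfl
  have hgB : ∀ x y, Φ.B (g x) (g y) = Φ'.B x y := by
    intro x y
    rw [hg, hg, hB, τ.map_mul]
    rw [show τ (u : L) * τ (e' y) * ((u : L) * e' x) = (u : L) * τ u * (τ (e' y) * e' x) by ring, hu, ← hl, ← hB',
      e'.symm_apply_apply, e'.symm_apply_apply]
  have hcomm : ∀ v, g (mu e' t' v) = mu e t' (g v) := by
    intro v
    rw [hg, e_mu, mu_apply, hg, e.apply_symm_apply, mul_left_comm]
  have hm := mem_iso h h2 D D'.tt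
  refine ⟨g, hgB, fun x => ?_⟩
  rcases hqq with ⟨h3, h4⟩ | ⟨⟨h3, h4⟩, h5, h6⟩
  · rw [h3, h4]
  · have h7 := eq_zero_of_semi h2 (fun x => Φ.q (g x) - Φ'.q x) (fun x y => ?_) (fun a x => ?_) (irr_mu e' D'.gen)
      (fun x => ?_) x
    · exact sub_eq_zero.1 h7
    · simp only [map_add, h3, h5, hgB]
      ring
    · simp only [map_smul, h4, h6]
      ring
    · rw [hcomm, hm.2, D'.mem.2]

end

section

variable {F V X : Type*} [Field F] [AddCommGroup V] [Module F V] [AddCommGroup X] [Module F X]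

/-- the pull back of a form -/
def fr (Φ : Frm F V) (ψ : X →ₗ[F] V) : Frm F X where
  B x y := Φ.B (ψ x) (ψ y)
  q x := Φ.q (ψ x)
  s := Φ.s
  add_left x y z := by rw [map_add, Φ.add_left]
  add_right x y z := by rw [map_add, Φ.add_right]
  smul_left a x y := by rw [map_smul, Φ.smul_left]
  smul_right a x y := by rw [map_smul, Φ.smul_right]
  refl x y h := Φ.refl _ _ h
  q_add x y h := by rw [map_add, Φ.q_add _ _ h]

theorem exists_gf [Finite F] {Φ : Frm F V} (h : Fo Φ) : ∃ ε, Gf Φ ε := by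
  rcases h with h | ⟨r, h⟩ | ⟨Q, h, rfl⟩
  · exact ⟨_, gf_of_isSp h⟩
  · exact ⟨_, gf_of_isHerm h⟩
  · exact ⟨_, gf_frmQ h⟩

/-- an embedded form with an irreducible isometry is zero or nondegenerate -/
theorem gf_fr [Finite F] [Module.Finite F X] {Φ : Frm F V} {ε : F} (h : Gf Φ ε) (h2 : 2 ≤ finrank F X) (ψ : X →ₗ[F] V)
    {m : X ≃ₗ[F] X} (hm : Irr m (⊤ : Submodule F X)) (hP : IsoP (pb Φ ψ) m) (h0 : pb Φ ψ ≠ 0) : Gf (fr Φ ψ) ε where
  nd := by
    let R : Submodule F X :=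
      { carrier := {x | ∀ y, Φ.B (ψ x) (ψ y) = 0}
        add_mem' := fun {a b} ha hb y => by rw [map_add, Φ.add_left, ha, hb, add_zero]
        zero_mem' := fun y => by rw [map_zero, ← zero_smul F (0 : V), Φ.smul_left, zero_mul]
        smul_mem' := fun a x hx y => by rw [map_smul, Φ.smul_left, hx, mul_zero] }
    have hR : _root_.Cfsg.Agent.H847.Bs.Inv m R := by
      intro x hx y
      have h3 := hP.1 x (m.symm y)
      rw [m.apply_symm_apply] at h3
      change Φ.B (ψ (m x)) (ψ y) = Φ.B (ψ x) (ψ (m.symm y)) at h3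
      rw [h3]
      exact hx _
    rcases hm.min R le_top hR with h3 | h3
    · intro x hx
      have h4 : x ∈ R := fun y => hx y
      rwa [h3, Submodule.mem_bot] at h4
    · exfalso
      apply h0
      have hB : ∀ x y, Φ.B (ψ x) (ψ y) = 0 := fun x y => by
        have h4 : x ∈ R := by rw [h3]; trivial
        exact h4 y
      have hq : ∀ x, Φ.q (ψ x) = 0 := by
        rcases h.q with h4 | ⟨h4, h5⟩
        · exact fun x => h4 _
        · intro x
          refine eq_zero_of_semi h2 (fun x => Φ.q (ψ x)) (fun x y => ?_) (fun a x => ?_) hm (fun x => hP.2 x) x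
          · simp only [map_add, h4, hB, add_zero]
          · simp only [map_smul, h5]
      exact Prod.ext (funext fun x => funext fun y => hB x y) (funext fun x => hq x)
  inv := h.inv
  symm := fun x y => h.symm _ _
  q := by
    rcases h.q with h4 | ⟨h4, h5⟩
    · exact Or.inl fun x => h4 _
    · refine Or.inr ⟨fun x y => ?_, fun a x => ?_⟩
      · show Φ.q (ψ (x + y)) = _
        rw [map_add, h4]
        rfl
      · show Φ.q (ψ (a • x)) = _
        rw [map_smul, h5]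
        rfl

end

section

variable {F V X : Type} [Field F] [Finite F] [AddCommGroup V] [Module F V] [AddCommGroup X] [Module F X] [Module.Finite F X]
  {Φ : Frm F V} {ε : F}

omit [Finite F] [Module.Finite F X] in
/-- conjugates of irreducible maps -/
theorem irr_conj' {x g : X ≃ₗ[F] X} (h : Irr x (⊤ : Submodule F X)) : Irr (g * x * g⁻¹) (⊤ : Submodule F X) := by
  refine ⟨fun _ _ => Submodule.mem_top, h.ne_bot, fun Y _ hY => ?_⟩
  have h5 := h.min (Y.comap (g : X →ₗ[F] X)) le_top (fun v hv => by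
    have h6 := hY _ (Submodule.mem_comap.1 hv)
    have h7 : (g * x * g⁻¹) (g v) = g (x v) := by
      show g (x (g⁻¹ (g v))) = _
      rw [show g⁻¹ (g v) = v from g.symm_apply_apply v]
    change (g * x * g⁻¹) (g v) ∈ Y at h6
    rw [h7] at h6
    exact h6)
  rcases h5 with h5 | h5
  · left
    rw [eq_bot_iff]
    intro y hy
    have h6 : g.symm y ∈ Y.comap (g : X →ₗ[F] X) := by
      show g (g.symm y) ∈ Y
      rwa [g.apply_symm_apply]
    rw [h5, Submodule.mem_bot, LinearEquiv.map_eq_zero_iff] at h6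
    rw [h6]
    exact Submodule.zero_mem _
  · right
    rw [eq_top_iff]
    intro y _
    have h6 : g.symm y ∈ Y.comap (g : X →ₗ[F] X) := by rw [h5]; trivial
    change g (g.symm y) ∈ Y at h6
    rwa [g.apply_symm_apply] at h6

/-- one orbit -/
theorem exists_isom_pb (h : Gf Φ ε) (h2 : 2 ≤ finrank F X) {ψ ψ' : X →ₗ[F] V}
    {m m' : X ≃ₗ[F] X} (hm : Irr m (⊤ : Submodule F X)) (hP : IsoP (pb Φ ψ) m) (h0 : pb Φ ψ ≠ 0)
    (hm' : Irr m' (⊤ : Submodule F X)) (hP' : IsoP (pb Φ ψ') m') (h0' : pb Φ ψ' ≠ 0) :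
    ∃ g : X ≃ₗ[F] X, (∀ x y, (pb Φ ψ).1 (g x) (g y) = (pb Φ ψ').1 x y) ∧ ∀ x, (pb Φ ψ).2 (g x) = (pb Φ ψ').2 x := by
  obtain ⟨p, hp⟩ := CharP.exists F
  have hpp : Fact p.Prime := ⟨(CharP.char_is_prime_or_zero F p).resolve_right (CharP.char_ne_zero_of_finite F p)⟩
  have hnz : NeZero (finrank F X) := ⟨by omega⟩
  have hV : Nontrivial X := Module.nontrivial_of_finrank_pos (R := F) (by omega)
  have hLf : finrank F (FiniteField.Extension F p (finrank F X)) = finrank F X := FiniteField.finrank_extension F p (finrank F X)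
  have hG := gf_fr h h2 ψ hm hP h0
  have hG' := gf_fr h h2 ψ' hm' hP' h0'
  obtain ⟨e, t, ht, rfl⟩ := exists_mu hLf hm
  obtain ⟨e', t', ht', rfl⟩ := exists_mu hLf hm'
  obtain ⟨τ, D⟩ := exists_dt hG e t ht ⟨hP.1, hP.2⟩
  obtain ⟨τ', D'⟩ := exists_dt hG' e' t' ht' ⟨hP'.1, hP'.2⟩
  refine exists_isom hG hG' rfl ?_ h2 D D'
  rcases h.q with h4 | ⟨h4, h5⟩
  · exact Or.inl ⟨fun x => h4 _, fun x => h4 _⟩
  · refine Or.inr ⟨⟨fun x y => ?_, fun a x => ?_⟩, fun x y => ?_, fun a x => ?_⟩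
    · show Φ.q (ψ (x + y)) = _
      rw [map_add, h4]
      rfl
    · show Φ.q (ψ (a • x)) = _
      rw [map_smul, h5]
      rfl
    · show Φ.q (ψ' (x + y)) = _
      rw [map_add, h4]
      rfl
    · show Φ.q (ψ' (a • x)) = _
      rw [map_smul, h5]
      rfl

/-- **the pairs with `P ≠ 0`** -/
theorem card_nz_le (h : Gf Φ ε) (h2 : 2 ≤ finrank F X) :
    finrank F X * Nat.card {x : ((X → X → F) × (X → F)) × (X ≃ₗ[F] X) // x.1 ≠ 0 ∧ Emb Φ x.1 ∧ IsoP x.1 x.2 ∧ Irr x.2 ⊤} ≤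
      Nat.card (X ≃ₗ[F] X) := by
  classical
  have hfV : Finite X := Module.finite_of_finite F
  have hfin : Finite (X ≃ₗ[F] X) := Finite.of_injective (fun g : X ≃ₗ[F] X => (g : X → X)) DFunLike.coe_injective
  by_cases hne : Nonempty {x : ((X → X → F) × (X → F)) × (X ≃ₗ[F] X) // x.1 ≠ 0 ∧ Emb Φ x.1 ∧ IsoP x.1 x.2 ∧ Irr x.2 ⊤}
  swap
  · have h3 : Nat.card {x : ((X → X → F) × (X → F)) × (X ≃ₗ[F] X) // x.1 ≠ 0 ∧ Emb Φ x.1 ∧ IsoP x.1 x.2 ∧ Irr x.2 ⊤} = 0 := by
      rw [Nat.card_eq_zero]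
      exact Or.inl (not_nonempty_iff.1 hne)
    rw [h3, mul_zero]
    exact Nat.zero_le _
  obtain ⟨⟨⟨_, m₀⟩, h0, ⟨ψ₀, hψ₀, rfl⟩, hP₀, hm₀⟩⟩ := hne
  have hG := gf_fr h h2 ψ₀ hm₀ hP₀ h0
  have hex : ∀ x : {x : ((X → X → F) × (X → F)) × (X ≃ₗ[F] X) // x.1 ≠ 0 ∧ Emb Φ x.1 ∧ IsoP x.1 x.2 ∧ Irr x.2 ⊤},
      ∃ g : X ≃ₗ[F] X, (∀ u v, Φ.B (ψ₀ (g u)) (ψ₀ (g v)) = x.1.1.1 u v) ∧ ∀ u, Φ.q (ψ₀ (g u)) = x.1.1.2 u := by
    intro x
    obtain ⟨ψ, -, hE⟩ := x.2.2.1
    have h0' := x.2.1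
    have hP := x.2.2.2.1
    rw [← hE] at h0' hP ⊢
    exact exists_isom_pb h h2 hm₀ hP₀ h0 x.2.2.2.2 hP h0'
  choose g hgB hgq using hex
  have hbm : ∀ x : {x : ((X → X → F) × (X → F)) × (X ≃ₗ[F] X) // x.1 ≠ 0 ∧ Emb Φ x.1 ∧ IsoP x.1 x.2 ∧ Irr x.2 ⊤},
      g x * x.1.2 * (g x)⁻¹ ∈ (fr Φ ψ₀).Bm := by
    intro x
    have h3 : ∀ u, g x ((g x)⁻¹ u) = u := fun u => (g x).apply_symm_apply u
    refine ⟨⟨fun u v => ?_, fun u => ?_⟩, irr_conj' x.2.2.2.2⟩
    · show Φ.B (ψ₀ (g x (x.1.2 ((g x)⁻¹ u)))) (ψ₀ (g x (x.1.2 ((g x)⁻¹ v)))) = Φ.B (ψ₀ u) (ψ₀ v)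
      rw [hgB, x.2.2.2.1.1, ← hgB, h3, h3]
    · show Φ.q (ψ₀ (g x (x.1.2 ((g x)⁻¹ u)))) = Φ.q (ψ₀ u)
      rw [hgq, x.2.2.2.1.2, ← hgq, h3]
  have hbm2 : ∀ (k : (fr Φ ψ₀).Iso) (b : X ≃ₗ[F] X), b ∈ (fr Φ ψ₀).Bm → (k : X ≃ₗ[F] X) * b * (k : X ≃ₗ[F] X)⁻¹ ∈ (fr Φ ψ₀).Bm :=
    fun k b hb => ⟨(fr Φ ψ₀).Iso.mul_mem ((fr Φ ψ₀).Iso.mul_mem k.2 hb.1) ((fr Φ ψ₀).Iso.inv_mem k.2), irr_conj' hb.2⟩
  have hinj := Nat.card_le_card_of_injective (fun p : {x : ((X → X → F) × (X → F)) × (X ≃ₗ[F] X) // x.1 ≠ 0 ∧ Emb Φ x.1 ∧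
      IsoP x.1 x.2 ∧ Irr x.2 ⊤} × (fr Φ ψ₀).Iso =>
    (((p.2 : X ≃ₗ[F] X) * g p.1, ⟨_, hbm2 p.2 _ (hbm p.1)⟩) : (X ≃ₗ[F] X) × (fr Φ ψ₀).Bm)) (by
    rintro ⟨x, k⟩ ⟨x', k'⟩ hE
    have hE1 : (k : X ≃ₗ[F] X) * g x = k' * g x' := congrArg (fun p : (X ≃ₗ[F] X) × (fr Φ ψ₀).Bm => p.1) hE
    have hE2 : (k : X ≃ₗ[F] X) * (g x * x.1.2 * (g x)⁻¹) * (k : X ≃ₗ[F] X)⁻¹ =
        k' * (g x' * x'.1.2 * (g x')⁻¹) * (k' : X ≃ₗ[F] X)⁻¹ :=
      congrArg (fun p : (X ≃ₗ[F] X) × (fr Φ ψ₀).Bm => (p.2 : X ≃ₗ[F] X)) hE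
    have key1 : ∀ (x) (k : (fr Φ ψ₀).Iso), (fun u v => Φ.B (ψ₀ (((k : X ≃ₗ[F] X) * g x) u)) (ψ₀ (((k : X ≃ₗ[F] X) * g x) v))) =
        x.1.1.1 := by
      intro x k
      funext u v
      rw [← hgB]
      exact k.2.1 _ _
    have key2 : ∀ (x) (k : (fr Φ ψ₀).Iso), (fun u => Φ.q (ψ₀ (((k : X ≃ₗ[F] X) * g x) u))) = x.1.1.2 := by
      intro x k
      funext u
      rw [← hgq]
      exact k.2.2 _
    have key3 : ∀ (x : {x : ((X → X → F) × (X → F)) × (X ≃ₗ[F] X) // x.1 ≠ 0 ∧ Emb Φ x.1 ∧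
      IsoP x.1 x.2 ∧ Irr x.2 ⊤}) (k : (fr Φ ψ₀).Iso), ((k : X ≃ₗ[F] X) * g x)⁻¹ *
        ((k : X ≃ₗ[F] X) * (g x * x.1.2 * (g x)⁻¹) * (k : X ≃ₗ[F] X)⁻¹) * ((k : X ≃ₗ[F] X) * g x) = x.1.2 := by
      intro x k
      group
    obtain rfl : x = x' := by
      apply Subtype.ext
      refine Prod.ext (Prod.ext ?_ ?_) ?_
      · rw [← key1 x k, ← key1 x' k', hE1]
      · rw [← key2 x k, ← key2 x' k', hE1]
      · rw [← key3 x k, ← key3 x' k', hE2, hE1]
    have h5 : k = k' := Subtype.ext (mul_right_cancel hE1)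
    rw [h5])
  rw [Nat.card_prod, Nat.card_prod] at hinj
  have h3 := card_bm_le hG h2
  have hpos : 0 < Nat.card (fr Φ ψ₀).Iso := Nat.card_pos
  refine Nat.le_of_mul_le_mul_right ?_ hpos
  calc finrank F X * Nat.card {x : ((X → X → F) × (X → F)) × (X ≃ₗ[F] X) // x.1 ≠ 0 ∧ Emb Φ x.1 ∧ IsoP x.1 x.2 ∧ Irr x.2 ⊤} *
        Nat.card (fr Φ ψ₀).Iso
      = finrank F X * (Nat.card {x : ((X → X → F) × (X → F)) × (X ≃ₗ[F] X) // x.1 ≠ 0 ∧ Emb Φ x.1 ∧ IsoP x.1 x.2 ∧ Irr x.2 ⊤} *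
        Nat.card (fr Φ ψ₀).Iso) := by rw [mul_assoc]
    _ ≤ finrank F X * (Nat.card (X ≃ₗ[F] X) * Nat.card (fr Φ ψ₀).Bm) := Nat.mul_le_mul_left _ hinj
    _ = Nat.card (X ≃ₗ[F] X) * (Nat.card (fr Φ ψ₀).Bm * finrank F X) := by ring
    _ ≤ Nat.card (X ≃ₗ[F] X) * Nat.card (fr Φ ψ₀).Iso := Nat.mul_le_mul_left _ h3

/-- **the number of irreducible maps** -/
theorem card_irr_le (k : ℕ) (hk : 1 ≤ k) :
    k * Nat.card {m : (Fin k → F) ≃ₗ[F] (Fin k → F) // Irr m (⊤ : Submodule F (Fin k → F))} ≤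
      Nat.card ((Fin k → F) ≃ₗ[F] (Fin k → F)) := by
  classical
  let φ : Matrix.GeneralLinearGroup (Fin k) F ≃* ((Fin k → F) ≃ₗ[F] (Fin k → F)) :=
    Matrix.GeneralLinearGroup.toLin.trans (LinearMap.GeneralLinearGroup.generalLinearEquiv F (Fin k → F))
  have hφ : ∀ g v, φ g v = (g : Matrix (Fin k) (Fin k) F).mulVec v := fun g v => rfl
  have h1 : Nat.card {m : (Fin k → F) ≃ₗ[F] (Fin k → F) // Irr m (⊤ : Submodule F (Fin k → F))} ≤
      Nat.card {g : Matrix.GeneralLinearGroup (Fin k) F // Cfsg.Agent.H50.RG.IrrM F g} := by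
    have hfin : Finite {g : Matrix.GeneralLinearGroup (Fin k) F // Cfsg.Agent.H50.RG.IrrM F g} := inferInstance
    refine Nat.card_le_card_of_injective (fun m => ⟨φ.symm m.1, hk, fun Y hY => ?_⟩) fun a b hab => ?_
    · refine m.2.min Y le_top fun v hv => ?_
      have h3 := hY v hv
      rw [← hφ, MulEquiv.apply_symm_apply] at h3
      exact h3
    · have h3 := Subtype.mk.inj hab
      exact Subtype.ext (φ.symm.injective h3)
  have h2 := Cfsg.Agent.H383.RG.rg_L02 F k hk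
  rw [← Nat.card_congr φ.toEquiv]
  exact (Nat.mul_le_mul_left _ h1).trans h2

end

/-- **Yb** -/
theorem yb : Yb := by
  intro F V _ _ _ _ _ Φ hΦ k hk
  classical
  obtain ⟨ε, h⟩ := exists_gf hΦ
  have hfr : finrank F (Fin k → F) = k := by rw [Module.finrank_fintype_fun_eq_card, Fintype.card_fin]
  have h1 := card_nz_le (X := Fin k → F) h (by rw [hfr]; exact hk)
  have h2 := card_irr_le (F := F) k (by omega)
  rw [hfr] at h1
  have hfin : Finite ((Fin k → F) ≃ₗ[F] (Fin k → F)) :=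
    Finite.of_injective (fun g : (Fin k → F) ≃ₗ[F] (Fin k → F) => (g : (Fin k → F) → (Fin k → F))) DFunLike.coe_injective
  have h3 : Nat.card {x : (((Fin k → F) → (Fin k → F) → F) × ((Fin k → F) → F)) × ((Fin k → F) ≃ₗ[F] (Fin k → F)) //
      Emb Φ x.1 ∧ IsoP x.1 x.2 ∧ Irr x.2 ⊤} ≤
      Nat.card ({x : (((Fin k → F) → (Fin k → F) → F) × ((Fin k → F) → F)) × ((Fin k → F) ≃ₗ[F] (Fin k → F)) //
      x.1 ≠ 0 ∧ Emb Φ x.1 ∧ IsoP x.1 x.2 ∧ Irr x.2 ⊤} ⊕
      {m : (Fin k → F) ≃ₗ[F] (Fin k → F) // Irr m (⊤ : Submodule F (Fin k → F))}) := by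
    refine Nat.card_le_card_of_injective (fun x => if hx : x.1.1 ≠ 0 then Sum.inl ⟨x.1, hx, x.2⟩ else
      Sum.inr ⟨x.1.2, x.2.2.2⟩) ?_
    intro a b hab
    by_cases ha : a.1.1 ≠ 0
    · by_cases hb : b.1.1 ≠ 0
      · simp only [ha, hb, dif_pos, Sum.inl.injEq, Subtype.mk.injEq, ne_eq, not_false_eq_true] at hab
        exact Subtype.ext hab
      · simp only [ha, hb, dif_pos, dif_neg, ne_eq, not_false_eq_true] at hab
        exact absurd hab (by simp)
    · by_cases hb : b.1.1 ≠ 0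
      · simp only [ha, hb, dif_pos, dif_neg, ne_eq, not_false_eq_true] at hab
        exact absurd hab (by simp)
      · simp only [ha, hb, dif_neg, not_false_eq_true, Sum.inr.injEq, Subtype.mk.injEq] at hab
        rw [not_not] at ha hb
        exact Subtype.ext (Prod.ext (ha.trans hb.symm) hab)
  rw [Nat.card_sum] at h3
  have h4 := Nat.mul_le_mul_left k h3
  rw [Nat.mul_add] at h4
  omega

end Cfsg.Agent.H557.Ux
end

-- part: H887/Ux/Ya2
section
/-!
# UX (S5716), UT2, piece Ya2: hermitian forms (helper887)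

**`ya2`** : `Ya0 → Ya2`: in a hermitian space of dimension `≥ 2 e + 6`, `e` odd, there is a nondegenerate subspace of dimension
`e` whose isometry group has enough irreducible elements with a large primitive part.
-/

set_option autoImplicit false
set_option linter.unusedSectionVars false

namespace Cfsg.Agent.H887.Ux

open Module Cfsg.Agent.H847.Bs Cfsg.Agent.H881.Bs Cfsg.Agent.H50.Ux
open Cfsg.Agent.H141.Ux (Kl ParE Pp StE)

section sub

variable {F V : Type*} [Field F] [AddCommGroup V] [Module F V] [Finite F] [FiniteDimensional F V] {r : ℕ} {Φ : Frm F V}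

/-- nondegenerate subspaces of all dimensions -/
theorem exists_nd_sub (hΦ : IsHerm r Φ) {e : ℕ} (he : e ≤ finrank F V) :
    ∃ E₀ : Submodule F V, Φ.NdOn E₀ ∧ finrank F E₀ = e := by
  obtain ⟨w, hw⟩ := exists_onf hΦ he
  refine ⟨Submodule.span F (Set.range w), ?_, ?_⟩
  · intro x hx h
    obtain ⟨c, rfl⟩ := (Submodule.mem_span_range_iff_exists_fun F).1 hx
    refine Finset.sum_eq_zero fun i _ => ?_
    have h2 := h (w i) (Submodule.subset_span ⟨i, rfl⟩)
    rw [B_sum_left] at h2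
    simp only [hw, mul_ite, mul_one, mul_zero, Finset.sum_ite_eq', Finset.mem_univ, if_true] at h2
    rw [h2, zero_smul]
  · have hli : LinearIndependent F w := by
      rw [Fintype.linearIndependent_iff]
      intro c h i
      have h2 : Φ.B (∑ l, c l • w l) (w i) = c i := by
        rw [B_sum_left]
        simp only [hw, mul_ite, mul_one, mul_zero, Finset.sum_ite_eq', Finset.mem_univ, if_true]
      have h3 : Φ.B 0 (w i) = 0 := by
        have := Φ.smul_left 0 0 (w i)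
        rwa [zero_smul, zero_mul] at this
      rw [← h2, h, h3]
    rw [finrank_span_eq_card hli, Fintype.card_fin]

theorem isHerm_on (hΦ : IsHerm r Φ) {E₀ : Submodule F V} (h : Φ.NdOn E₀) : IsHerm r (Φ.on E₀) where
  nd x hx := Subtype.ext (h x x.2 fun y hy => hx ⟨y, hy⟩)
  card := hΦ.card
  s := hΦ.s
  q x := hΦ.q x
  symm x y := hΦ.symm x y

end sub

section mu

variable {F V L : Type*} [Field F] [AddCommGroup V] [Module F V] [Field L] [Algebra F L]

theorem mu_mul (e : V ≃ₗ[F] L) (s t : Lˣ) : mu e (s * t) = mu e s * mu e t := by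
  apply LinearEquiv.ext
  intro v
  change mu e (s * t) v = mu e s (mu e t v)
  rw [mu_apply, mu_apply, e_mu, Units.val_mul, mul_assoc]

theorem orderOf_mu (e : V ≃ₗ[F] L) (t : Lˣ) : orderOf (mu e t) = orderOf t := by
  have h1 : ∀ n : ℕ, mu e (t ^ n) = mu e t ^ n := by
    intro n
    induction n with
    | zero =>
      rw [pow_zero, pow_zero]
      apply LinearEquiv.ext
      intro v
      rw [mu_apply, Units.val_one, one_mul, e.symm_apply_apply]
      rfl
    | succ n ih => rw [pow_succ, pow_succ, mu_mul, ih]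
  refine orderOf_eq_orderOf_iff.2 fun n => ?_
  rw [← h1]
  constructor
  · intro h
    apply mu_injective e
    rw [h, ← pow_zero (mu e t), ← h1, pow_zero]
  · intro h
    rw [h, ← pow_zero (mu e t), ← h1, pow_zero]

end mu

/-- an element of order divisible by a prime `s` with `ord_s(p) = e f` generates the field -/
theorem gen_of_prime {F L : Type*} [Field F] [Field L] [Algebra F L] [Finite L] {p f e s : ℕ} (hF : Nat.card F = p ^ f)
    (hf : 1 ≤ f) (hL : finrank F L = e) (_hs : s.Prime) (hord : orderOf ((p : ℕ) : ZMod s) = e * f) {t : Lˣ}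
    (ht : s ∣ orderOf t) : Gen F (t : L) := by
  by_contra h
  obtain ⟨k, hk, hk'⟩ := pow_eq_of_not_gen h
  rw [hL, Nat.mem_properDivisors] at hk
  have hFf : Finite F := Finite.of_injective _ (algebraMap F L).injective
  have h1 : 1 ≤ Nat.card F ^ k := Nat.one_le_pow _ _ Nat.card_pos
  have h2 : t ^ (Nat.card F ^ k - 1) = 1 := by
    have h3 : t ^ (Nat.card F ^ k - 1) * t = 1 * t := by
      rw [← pow_succ, Nat.sub_add_cancel h1, one_mul]
      exact Units.ext (by rw [Units.val_pow_eq_pow_val, hk'])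
    exact mul_right_cancel h3
  have h3 : s ∣ Nat.card F ^ k - 1 := ht.trans (orderOf_dvd_of_pow_eq_one h2)
  have h4 : ((p : ℕ) : ZMod s) ^ (f * k) = 1 := by
    rw [← ZMod.natCast_eq_zero_iff, Nat.cast_sub h1, Nat.cast_pow, hF, Nat.cast_pow, Nat.cast_one, sub_eq_zero,
      ← pow_mul] at h3
    exact h3
  have h5 : e * f ∣ f * k := by
    rw [← hord]
    exact orderOf_dvd_of_pow_eq_one h4
  have h6 : e ∣ k := by
    rw [mul_comm] at h5
    exact Nat.dvd_of_mul_dvd_mul_left hf h5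
  have h7 : 0 < k := by
    rcases Nat.eq_zero_or_pos k with h0 | h0
    · subst h0
      have := Nat.eq_zero_of_zero_dvd hk.1
      omega
    · exact h0
  have := Nat.le_of_dvd h7 h6
  omega

/-- **Ya2.** -/
theorem ya2 (hY : Ya0) : Ya2 := by
  intro F V _ _ _ _ _ Φ r p f e hΦ ho hp hpf he hn hbig
  obtain ⟨E₀, hE, hdim⟩ := exists_nd_sub hΦ (e := e) (by omega)
  refine ⟨E₀, hE, hdim, ?_⟩
  have hΦ' := isHerm_on hΦ hE
  have hE0fin : Finite E₀ := Module.finite_of_finite F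
  have hF := hΦ.card
  have hr := two_le_r hF
  have hpF : Fact p.Prime := ⟨hp⟩
  have hf : 1 ≤ f := by
    rcases Nat.eq_zero_or_pos f with h0 | h0
    · subst h0
      rw [pow_zero] at hpf
      have := Finite.one_lt_card (α := F)
      omega
    · exact h0
  -- the characteristic
  have := Fintype.ofFinite F
  obtain ⟨a, hpr, ha⟩ := FiniteField.card F (ringChar F)
  have hchar : ringChar F = p := by
    have h1 : p ∣ ringChar F ^ (a : ℕ) := by
      rw [← ha, ← Nat.card_eq_fintype_card, hpf]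
      exact dvd_pow_self p (by omega)
    exact ((Nat.prime_dvd_prime_iff_eq hp hpr).1 (hp.dvd_of_dvd_pow h1)).symm
  have hchar' : CharP F p := by rw [← hchar]; exact ringChar.charP F
  -- the field
  have he0 : NeZero e := ⟨by omega⟩
  have hL : finrank F (FiniteField.Extension F p e) = e := FiniteField.finrank_extension F p e
  set L := FiniteField.Extension F p e with hLdef
  have ho' : Odd (finrank F L) := by rw [hL]; exact ho
  obtain ⟨ε, hε⟩ := exists_isom hΦ' (isHerm_minus (L := L) hF ho') (by rw [hdim, hL])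
  have hcardL : Nat.card L = (p ^ f) ^ e := by
    rw [Module.natCard_eq_pow_finrank (K := F), hL, hpf]
  have hrr : (p ^ f) ^ e = r ^ (2 * e) := by rw [← hpf, hF, ← pow_mul]
  have hre : 1 ≤ r ^ e := Nat.one_le_pow _ _ (by omega)
  have hfac : r ^ (2 * e) - 1 = (r ^ e + 1) * (r ^ e - 1) := by
    rw [← Nat.sq_sub_sq, one_pow, ← pow_mul, mul_comm e 2]
  -- `r = p ^ j`, `f = 2 j`
  obtain ⟨j, hj⟩ : ∃ j, r = p ^ j := by
    have h1 : r ∣ p ^ f := by rw [← hpf, hF, pow_two]; exact Dvd.intro _ rfl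
    obtain ⟨j, -, hj⟩ := (Nat.dvd_prime_pow hp).1 h1
    exact ⟨j, hj⟩
  have hfj : f = 2 * j := by
    have h1 : p ^ f = p ^ (2 * j) := by rw [← hpf, hF, hj, ← pow_mul, mul_comm]
    exact Nat.pow_right_injective hp.two_le h1
  set S : Set Lˣ := {t | t ^ (r ^ e + 1) = 1 ∧ ∃ k, 2 * e + 1 < k ∧ k ∣ (p ^ f) ^ e - 1 ∧
    (∀ s : ℕ, s.Prime → s ∣ k → orderOf ((p : ℕ) : ZMod s) = e * f) ∧ k ∣ orderOf t} with hS
  have h0 : 3 * (r ^ e + 1) ≤ 4 * Nat.card S := by
    refine hY L p f e (r ^ e + 1) hp hf (by omega) hcardL hbig ?_ ?_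
    · rw [hrr, hfac]
      exact Dvd.intro _ rfl
    · intro s hs hord hdvd
      rw [hrr, hfac, Nat.mul_div_cancel_left _ (Nat.succ_pos _), hj, ← pow_mul] at hdvd
      have h1 : 1 ≤ p ^ (j * e) := Nat.one_le_pow _ _ hp.pos
      have h2 : ((p : ℕ) : ZMod s) ^ (j * e) = 1 := by
        rw [← ZMod.natCast_eq_zero_iff, Nat.cast_sub h1, Nat.cast_pow, Nat.cast_one, sub_eq_zero] at hdvd
        exact hdvd
      have h3 := orderOf_dvd_of_pow_eq_one h2
      rw [hord] at h3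
      have hj0 : 0 < j := by omega
      have h4 := Nat.le_of_dvd (Nat.mul_pos hj0 (by omega)) h3
      have h5 : e * f = 2 * (j * e) := by rw [hfj]; ring
      have h6 : 0 < j * e := Nat.mul_pos hj0 (by omega)
      omega
  have hgen : ∀ t ∈ S, Gen F (t : L) := by
    rintro t ⟨-, k, hk1, -, hk3, hk4⟩
    obtain ⟨s, hs, hsk⟩ := Nat.exists_prime_and_dvd (n := k) (by omega)
    exact gen_of_prime hpf hf hL hs (hk3 s hs hsk) (hsk.trans hk4)
  have h1 := irr_count ε (Φ.on E₀).Iso S hgen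
  have h2 : Nat.card {c : Lˣ // mu ε c ∈ (Φ.on E₀).Iso} = r ^ e + 1 := by
    have h3 := card_T (L := L) hF
    rw [hL] at h3
    rw [← h3]
    refine Nat.card_congr (Equiv.subtypeEquivRight fun t => ?_)
    rw [mu_mem_iff hF ho' hΦ' ε hε, hL]
  rw [h2, hdim] at h1
  have hGfin := finite_equiv' F E₀
  have h3 : Nat.card {z : E₀ ≃ₗ[F] E₀ // ∃ g ∈ (Φ.on E₀).Iso, ∃ t ∈ S, z = g * mu ε t * g⁻¹} ≤
      Nat.card {m : E₀ ≃ₗ[F] E₀ // m ∈ (Φ.on E₀).Iso ∧ m ∈ PI F E₀ e} := by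
    refine Nat.card_le_card_of_injective (fun z => (⟨z.1, ?_⟩ :
      {m : E₀ ≃ₗ[F] E₀ // m ∈ (Φ.on E₀).Iso ∧ m ∈ PI F E₀ e})) fun a b h => Subtype.ext (Subtype.mk.inj h)
    obtain ⟨g, hg, t, ht, hz⟩ := z.2
    have ht' : mu ε t ∈ (Φ.on E₀).Iso := by
      rw [mu_mem_iff hF ho' hΦ' ε hε, hL]
      exact ht.1
    rw [hz]
    refine ⟨(Φ.on E₀).Iso.mul_mem ((Φ.on E₀).Iso.mul_mem hg ht') ((Φ.on E₀).Iso.inv_mem hg),
      irr_conj (irr_mu ε (hgen t ht)), ?_⟩
    obtain ⟨-, k, hk1, hk2, hk3, hk4⟩ := ht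
    refine ⟨k, ⟨hk1, by rw [hpf]; exact hk2, fun s hs hsk f' hf' => ?_⟩, ?_⟩
    · rw [hchar] at hf' ⊢
      have : f' = f := Nat.pow_right_injective hp.two_le (hf'.symm.trans hpf)
      rw [this]
      exact hk3 s hs hsk
    · have h4 : orderOf (g * mu ε t * g⁻¹) = orderOf (mu ε t) := by
        have := (MulAut.conj g : (E₀ ≃ₗ[F] E₀) ≃* (E₀ ≃ₗ[F] E₀)).orderOf_eq (mu ε t)
        rwa [MulAut.conj_apply] at this
      rw [h4, orderOf_mu]
      exact hk4
  set N := Nat.card {m : E₀ ≃ₗ[F] E₀ // m ∈ (Φ.on E₀).Iso ∧ m ∈ PI F E₀ e} with hN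
  have h4 : Nat.card (Φ.on E₀).Iso * Nat.card S ≤ e * (r ^ e + 1) * N :=
    h1.trans (Nat.mul_le_mul_left _ h3)
  have h5 : Nat.card (Φ.on E₀).Iso * (r ^ e + 1) ≤ (4 * e * N) * (r ^ e + 1) := by
    calc Nat.card (Φ.on E₀).Iso * (r ^ e + 1) ≤ Nat.card (Φ.on E₀).Iso * (3 * (r ^ e + 1)) :=
          Nat.mul_le_mul_left _ (by omega)
      _ ≤ Nat.card (Φ.on E₀).Iso * (4 * Nat.card S) := Nat.mul_le_mul_left _ h0
      _ = 4 * (Nat.card (Φ.on E₀).Iso * Nat.card S) := by ring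
      _ ≤ 4 * (e * (r ^ e + 1) * N) := Nat.mul_le_mul_left _ h4
      _ = (4 * e * N) * (r ^ e + 1) := by ring
  exact Nat.le_of_mul_le_mul_right h5 (Nat.succ_pos _)

end Cfsg.Agent.H887.Ux
end

-- part: H557/Ux/YaQ
section
/-!
# S5716, unbounded rank, UT2: `Ya3` (helper557)

* `exists_emb` : a nondegenerate quadratic space `L` is isometric to a subspace of `V`, if `2 dim L < dim V`;
* `ya3 : Ya0 → Ya3`.
-/

set_option autoImplicit false
set_option linter.unusedSectionVars false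

namespace Cfsg.Agent.H557.Ux

open Module Cfsg.Agent.H847.Bs Cfsg.Agent.H881.Bs QuadraticMap Cfsg.Agent.LieClassical.OrthCore
open Cfsg.Agent.H50.Ux Cfsg.Agent.H59.Bs Cfsg.Agent.H39.Bs Cfsg.Agent.H182.Sign
open Cfsg.Agent.H887.Ux (gen_of_prime orderOf_mu)

/-- **embedding of quadratic spaces**: `q ⟂ -q` is hyperbolic -/
theorem exists_emb {F V L : Type} [Field F] [Finite F] [AddCommGroup V] [Module F V] [FiniteDimensional F V] [AddCommGroup L]
    [Module F L] [FiniteDimensional F L] {Q : QuadraticForm F V} (hQ : Nondeg Q) {q : QuadraticForm F L} (hq : Nondeg q)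
    (hd : 2 * finrank F L + 1 ≤ finrank F V) : ∃ i : L →ₗ[F] V, ∀ x, Q (i x) = q x := by
  obtain ⟨V', _, _, _, Q', hQ', -, e, he⟩ := Cfsg.Agent.H765.Bs.split (finrank F L) V Q hQ hd
  let Q₂ : QuadraticForm F (L × L) := q.comp (LinearMap.fst F L L) - q.comp (LinearMap.snd F L L)
  have hQ₂ : ∀ x y, Q₂ (x, y) = q x - q y := fun _ _ => rfl
  have hpol : ∀ x y x' y', polar Q₂ (x, y) (x', y') = polar q x x' - polar q y y' := by
    intro x y x' y'
    rw [polar, Prod.mk_add_mk, hQ₂, hQ₂, hQ₂, polar, polar]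
    ring
  have hnd : Nondeg Q₂ := by
    rintro ⟨x, y⟩ h
    have h1 : x = 0 := hq x fun x' => by
      have h3 := h (x', 0)
      rw [hpol, polar_zero_right, sub_zero] at h3
      exact h3
    have h2 : y = 0 := hq y fun y' => by
      have h3 := h (0, y')
      rw [hpol, polar_zero_right, zero_sub, neg_eq_zero] at h3
      exact h3
    rw [h1, h2]
    rfl
  have hplus : PlusT Q₂ := by
    rw [plusT_iff]
    refine ⟨LinearMap.range (LinearMap.prod (LinearMap.id : L →ₗ[F] L) LinearMap.id), ?_, ?_⟩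
    · rintro _ ⟨x, rfl⟩
      show Q₂ (x, x) = 0
      rw [hQ₂, sub_self]
    · rw [LinearMap.finrank_range_of_inj (fun x y h => congrArg Prod.fst h), finrank_prod, two_mul]
  obtain ⟨e₂, he₂⟩ := exists_iso_of_plus (finrank F L) hnd hplus (by rw [finrank_prod, two_mul])
  refine ⟨(e : ((Fin (finrank F L) → F × F) × V') →ₗ[F] V) ∘ₗ LinearMap.inl F _ _ ∘ₗ
    (e₂.symm : (L × L) →ₗ[F] (Fin (finrank F L) → F × F)) ∘ₗ LinearMap.inl F L L, fun x => ?_⟩
  show Q (e (e₂.symm (x, 0), 0)) = q x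
  rw [he, map_zero, add_zero, ← he₂, e₂.apply_symm_apply, hQ₂, map_zero, sub_zero]

/-- **Ya3** -/
theorem ya3 (hY : Ya0) : Ya3 := by
  intro F V _ _ _ _ _ Q p f e hQ he hp hpf h20 hn hbig
  obtain ⟨j, hj⟩ := he
  have hpp : Fact p.Prime := ⟨hp⟩
  have hf : 1 ≤ f := by
    rcases Nat.eq_zero_or_pos f with h0 | h0
    · subst h0
      rw [pow_zero] at hpf
      have := Finite.one_lt_card (α := F)
      omega
    · exact h0
  -- the characteristic
  have := Fintype.ofFinite F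
  obtain ⟨a, hpr, ha⟩ := FiniteField.card F (ringChar F)
  have hchar : ringChar F = p := by
    have h1 : p ∣ ringChar F ^ (a : ℕ) := by
      rw [← ha, ← Nat.card_eq_fintype_card, hpf]
      exact dvd_pow_self p (by omega)
    exact ((Nat.prime_dvd_prime_iff_eq hp hpr).1 (hp.dvd_of_dvd_pow h1)).symm
  have hchar' : CharP F p := by rw [← hchar]; exact ringChar.charP F
  -- the fields
  have hnz : NeZero j := ⟨by omega⟩
  let K := FiniteField.Extension F p j
  have hcK : CharP K p := charP_of_injective_algebraMap (algebraMap F K).injective p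
  let L := FiniteField.Extension K p 2
  let _ : Algebra F L := ((algebraMap K L).comp (algebraMap F K)).toAlgebra
  have htower : IsScalarTower F K L := IsScalarTower.of_algebraMap_eq' rfl
  have hKf : finrank F K = j := FiniteField.finrank_extension F p j
  have h2 : finrank K L = 2 := FiniteField.finrank_extension K p 2
  have hKc : Nat.card K = Nat.card F ^ j := FiniteField.natCard_extension F p j
  have hfL : FiniteDimensional F L := Module.Finite.of_finite
  have hfK : FiniteDimensional F K := Module.Finite.of_finite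
  have hLf : finrank F L = e := by rw [← Module.finrank_mul_finrank F K L, hKf, h2]; omega
  have hsg : Sg (traceForm F (qN h2)) (finrank F K * 1) (-1) := (sg_qN h2).res
  obtain ⟨i, hi⟩ := exists_emb (L := L) (Q := Q) hQ hsg.nondeg (by rw [hLf]; omega)
  have hip : ∀ x y, polar Q (i x) (i y) = polar (traceForm F (qN h2)) x y := fun x y => by
    rw [polar, polar, ← map_add, hi, hi, hi]
  have hinj : Function.Injective i := by
    rw [injective_iff_map_eq_zero]
    intro x hx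
    refine hsg.nondeg x fun y => ?_
    rw [← hip, hx, polar_zero_left]
  have hcardL : Nat.card L = (p ^ f) ^ e := by
    rw [Module.natCard_eq_pow_finrank (K := F), hLf, hpf]
  have hKc' : Nat.card K = p ^ (f * j) := by rw [hKc, hpf, ← pow_mul]
  set c := p ^ (f * j) with hc
  have hc1 : 1 ≤ c := Nat.one_le_pow _ _ hp.pos
  have hcc : (p ^ f) ^ e = c ^ 2 := by rw [hj, hc, ← pow_mul, ← pow_mul]; congr 1; ring
  have hfac : c ^ 2 - 1 = (c + 1) * (c - 1) := by rw [← Nat.sq_sub_sq, one_pow]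
  set S : Set Lˣ := {t | t ^ (c + 1) = 1 ∧ ∃ k, 2 * e + 1 < k ∧ k ∣ (p ^ f) ^ e - 1 ∧
    (∀ s : ℕ, s.Prime → s ∣ k → orderOf ((p : ℕ) : ZMod s) = e * f) ∧ k ∣ orderOf t} with hS
  have h0 : 3 * (c + 1) ≤ 4 * Nat.card S := by
    refine hY L p f e (c + 1) hp hf (by omega) hcardL hbig ?_ ?_
    · rw [hcc, hfac]
      exact Dvd.intro _ rfl
    · intro s hs hord hdvd
      rw [hcc, hfac, Nat.mul_div_cancel_left _ (Nat.succ_pos _), hc] at hdvd
      have h3 : ((p : ℕ) : ZMod s) ^ (f * j) = 1 := by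
        rw [← ZMod.natCast_eq_zero_iff, Nat.cast_sub hc1, Nat.cast_pow, Nat.cast_one, sub_eq_zero] at hdvd
        exact hdvd
      have h4 := orderOf_dvd_of_pow_eq_one h3
      rw [hord] at h4
      have h5 : 0 < f * j := Nat.mul_pos hf (by omega)
      have h6 := Nat.le_of_dvd h5 h4
      have h7 : e * f = 2 * (f * j) := by rw [hj]; ring
      omega
  have hgen : ∀ t ∈ S, Gen F (t : L) := by
    rintro t ⟨-, k, hk1, -, hk3, hk4⟩
    obtain ⟨s, hs, hsk⟩ := Nat.exists_prime_and_dvd (n := k) (by omega)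
    exact gen_of_prime hpf hf hLf hs (hk3 s hs hsk) (hsk.trans hk4)
  -- the subspace
  let E₀ : Submodule F V := LinearMap.range i
  let ε : E₀ ≃ₗ[F] L := (LinearEquiv.ofInjective i hinj).symm
  have hε : ∀ x, ((ε.symm x : E₀) : V) = i x := fun _ => rfl
  have hmem : ∀ t : Lˣ, mu ε t ∈ ((frmQ Q).on E₀).Iso ↔ t ^ (c + 1) = 1 := by
    intro t
    have hqv : ∀ v : E₀, Q ((mu ε t v : E₀) : V) = traceForm F (qN h2) (t * ε v) := fun v => by
      rw [mu_apply, hε, hi]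
    constructor
    · intro h
      have h3 : mulE F t ∈ O (traceForm F (qN h2)) := by
        intro x
        have h4 := h.2 (ε.symm x)
        change Q ((mu ε t (ε.symm x) : E₀) : V) = Q ((ε.symm x : E₀) : V) at h4
        rw [hqv, ε.apply_symm_apply, hε, hi] at h4
        exact h4
      have h5 := Cfsg.Agent.H447.Bs.pow_eq_of_mulE_mem h2 h3
      rwa [hKc'] at h5
    · intro h
      have h3 : mulE F t ∈ O (traceForm F (qN h2)) := Cfsg.Agent.H447.Bs.mulE_mem_O h2 (by rwa [hKc'])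
      have h4 : mu ε t ∈ (frmQ (Q.comp E₀.subtype)).Iso := by
        rw [Cfsg.Agent.H447.Bs.mem_Iso_frmQ]
        intro v
        show Q ((mu ε t v : E₀) : V) = Q (v : V)
        rw [hqv]
        have h5 := h3 (ε v)
        rw [mulE_apply] at h5
        rw [h5, ← hi, ← hε, ε.symm_apply_apply]
      exact h4
  have hE : (frmQ Q).NdOn E₀ := by
    rintro _ ⟨x, rfl⟩ h
    have h3 : x = 0 := hsg.nondeg x fun y => by
      rw [← hip]
      exact h _ ⟨y, rfl⟩
    rw [h3, map_zero]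
  have hdim : finrank F E₀ = e := by rw [LinearMap.finrank_range_of_inj hinj, hLf]
  refine ⟨E₀, hE, hdim, ?_⟩
  have hE0fin : Finite E₀ := Module.finite_of_finite F
  have h1 := irr_count ε ((frmQ Q).on E₀).Iso S hgen
  have hct : Nat.card {d : Lˣ // mu ε d ∈ ((frmQ Q).on E₀).Iso} = c + 1 := by
    have h3 : (c + 1) ∣ Nat.card Lˣ := by
      rw [Nat.card_units, hcardL, hcc, hfac]
      exact Dvd.intro _ rfl
    rw [← card_pow_eq_one h3]
    exact Nat.card_congr (Equiv.subtypeEquivRight fun t => hmem t)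
  rw [hct, hdim] at h1
  have hGfin := finite_equiv' F E₀
  have h3 : Nat.card {z : E₀ ≃ₗ[F] E₀ // ∃ g ∈ ((frmQ Q).on E₀).Iso, ∃ t ∈ S, z = g * mu ε t * g⁻¹} ≤
      Nat.card {m : E₀ ≃ₗ[F] E₀ // m ∈ ((frmQ Q).on E₀).Iso ∧ m ∈ PI F E₀ e} := by
    refine Nat.card_le_card_of_injective (fun z => (⟨z.1, ?_⟩ :
      {m : E₀ ≃ₗ[F] E₀ // m ∈ ((frmQ Q).on E₀).Iso ∧ m ∈ PI F E₀ e})) fun a b h => Subtype.ext (Subtype.mk.inj h)
    obtain ⟨g, hg, t, ht, hz⟩ := z.2
    have ht' : mu ε t ∈ ((frmQ Q).on E₀).Iso := (hmem t).2 ht.1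
    rw [hz]
    refine ⟨((frmQ Q).on E₀).Iso.mul_mem (((frmQ Q).on E₀).Iso.mul_mem hg ht') (((frmQ Q).on E₀).Iso.inv_mem hg),
      Cfsg.Agent.H881.Bs.irr_conj (irr_mu ε (hgen t ht)), ?_⟩
    obtain ⟨-, k, hk1, hk2, hk3, hk4⟩ := ht
    refine ⟨k, ⟨hk1, by rw [hpf]; exact hk2, fun s hs hsk f' hf' => ?_⟩, ?_⟩
    · rw [hchar] at hf' ⊢
      have : f' = f := Nat.pow_right_injective hp.two_le (hf'.symm.trans hpf)
      rw [this]
      exact hk3 s hs hsk
    · have h4 : orderOf (g * mu ε t * g⁻¹) = orderOf (mu ε t) := by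
        have := (MulAut.conj g : (E₀ ≃ₗ[F] E₀) ≃* (E₀ ≃ₗ[F] E₀)).orderOf_eq (mu ε t)
        rwa [MulAut.conj_apply] at this
      rw [h4, orderOf_mu]
      exact hk4
  set N := Nat.card {m : E₀ ≃ₗ[F] E₀ // m ∈ ((frmQ Q).on E₀).Iso ∧ m ∈ PI F E₀ e} with hN
  have h4 : Nat.card ((frmQ Q).on E₀).Iso * Nat.card S ≤ e * (c + 1) * N :=
    h1.trans (Nat.mul_le_mul_left _ h3)
  have h5 : Nat.card ((frmQ Q).on E₀).Iso * (c + 1) ≤ (4 * e * N) * (c + 1) := by
    calc Nat.card ((frmQ Q).on E₀).Iso * (c + 1) ≤ Nat.card ((frmQ Q).on E₀).Iso * (3 * (c + 1)) :=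
          Nat.mul_le_mul_left _ (by omega)
      _ ≤ Nat.card ((frmQ Q).on E₀).Iso * (4 * Nat.card S) := Nat.mul_le_mul_left _ h0
      _ = 4 * (Nat.card ((frmQ Q).on E₀).Iso * Nat.card S) := by ring
      _ ≤ 4 * (e * (c + 1) * N) := Nat.mul_le_mul_left _ h4
      _ = (4 * e * N) * (c + 1) := by ring
  exact Nat.le_of_mul_le_mul_right h5 (Nat.succ_pos _)

end Cfsg.Agent.H557.Ux
end

-- part: H637/Ux/WittSU
section
/-!
# UT2 (UX, S5716), task Yc2: Witt's theorem for the special unitary group (helper637)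
-/

set_option autoImplicit false

namespace Cfsg.Agent.H637.Ux

open Module Cfsg.Agent.H847.Bs Cfsg.Agent.H50.Ux
open Cfsg.Agent.H91.U (HForm witt_family)
open Cfsg.Agent.H440.Bs (perp mem_perp mem_perp' finrank_perp)
open Cfsg.Agent.H450.UF (det_isom smul_left smul_right sw self_fix)

section

variable {F V : Type*} [Field F] [AddCommGroup V] [Module F V] {σ : F →+* F} {B : V →ₛₗ[σ] V →ₗ[F] F}

/-- quasi-reflections -/
theorem exists_quasi [FiniteDimensional F V] (hB : HForm B) {u : V} (hu : B u u ≠ 0) {c : F} (hc : c * σ c = 1) :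
    ∃ g : V ≃ₗ[F] V, (∀ x y, B (g x) (g y) = B x y) ∧ (∀ x, B u x = 0 → g x = x) ∧
      LinearMap.det (g : V →ₗ[F] V) = c := by
  let T : V →ₗ[F] V := LinearMap.transvection (((c - 1) * (B u u)⁻¹) • B u) u
  have hT : ∀ x, T x = x + ((c - 1) * (B u u)⁻¹ * B u x) • u := fun x => by
    rw [LinearMap.transvection.apply]; rfl
  have hdet : LinearMap.det T = c := by
    rw [LinearMap.transvection.det, LinearMap.smul_apply, smul_eq_mul, mul_assoc, inv_mul_cancel₀ hu]
    ring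
  have hc0 : c ≠ 0 := by
    rintro rfl
    rw [zero_mul] at hc
    exact zero_ne_one hc
  let g : V ≃ₗ[F] V := LinearEquiv.ofIsUnitDet (f := T) (v := Module.finBasis F V) (v' := Module.finBasis F V) (by
    rw [LinearMap.det_toMatrix, hdet]
    exact isUnit_iff_ne_zero.2 hc0)
  have hg : ∀ x, g x = x + ((c - 1) * (B u u)⁻¹ * B u x) • u := hT
  refine ⟨g, ?_, ?_, hdet⟩
  · intro x y
    have h1 : σ (B u x) = B x u := (sw hB u x).symm
    have h2 : σ (B u u) = B u u := self_fix hB u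
    rw [hg, hg]
    simp only [map_add, LinearMap.add_apply, smul_left, smul_right, map_mul, map_sub, map_one, map_inv₀, h1, h2]
    field_simp
    linear_combination (B x u * B u y) * hc
  · intro x hx
    rw [hg, hx, mul_zero, zero_smul, add_zero]

end

variable {F V D : Type} [Field F] [Finite F] [AddCommGroup V] [Module F V] [Module.Finite F V] [AddCommGroup D]
  [Module F D] [Module.Finite F D]

/-- the special unitary group is transitive on isometric frames with a nonisotropic vector in the orthogonal complement -/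
theorem trans_su {r : ℕ} {Φ : Frm F V} (hΦ : IsHerm r Φ) (ψ : D →ₗ[F] V) (hψ : Function.Injective ψ)
    (hn : ¬ perp Φ (LinearMap.range ψ) ≤ LinearMap.range ψ) (χ : D →ₗ[F] V) (hχ : Function.Injective χ)
    (h : pb Φ χ = pb Φ ψ) : ∃ g ∈ Φ.Iso ⊓ slV F V, ∀ x, g (ψ x) = χ x := by
  have := Fintype.ofFinite F
  have hF : Fintype.card F = r ^ 2 := by rw [← Nat.card_eq_fintype_card]; exact hΦ.card
  have hB := Cfsg.Agent.H450.Bs.hform_toB hF hΦ
  have hBd : ∀ x y, Cfsg.Agent.H450.Bs.toB hF hΦ x y = Φ.B y x := fun _ _ => rfl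
  set B := Cfsg.Agent.H450.Bs.toB hF hΦ with hBdef
  let b := Module.finBasis F D
  have li : LinearIndependent F (fun i => ψ (b i)) := b.linearIndependent.map' ψ (LinearMap.ker_eq_bot.2 hψ)
  have li' : LinearIndependent F (fun i => χ (b i)) := b.linearIndependent.map' χ (LinearMap.ker_eq_bot.2 hχ)
  have hpb : ∀ x y, Φ.B (ψ x) (ψ y) = Φ.B (χ x) (χ y) := by
    intro x y
    have h1 := congrFun (congrFun (congrArg Prod.fst h) x) y
    exact h1.symm
  obtain ⟨g0, hg0, hg0w⟩ := witt_family hB li li' (fun i j => hpb _ _)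
  have hg0ψ : ∀ x, g0 (ψ x) = χ x := by
    have h1 : (g0 : V →ₗ[F] V) ∘ₗ ψ = χ := b.ext fun i => hg0w i
    intro x
    exact LinearMap.congr_fun h1 x
  -- a nonisotropic vector
  obtain ⟨u, hu, huu⟩ : ∃ u ∈ perp Φ (LinearMap.range ψ), B u u ≠ 0 := by
    apply Cfsg.Agent.ClassicalGeometry.HermWitt.exists_apply_self_ne_zero _ B hB.ne_id hB.symm
    by_contra hcon
    push Not at hcon
    apply hn
    have h1 : perp Φ (LinearMap.range ψ) ≤ perp Φ (perp Φ (LinearMap.range ψ)) := by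
      intro x hx
      rw [mem_perp]
      intro y hy
      exact hcon y hy x hx
    have h2 : LinearMap.range ψ = perp Φ (perp Φ (LinearMap.range ψ)) := by
      apply Submodule.eq_of_le_of_finrank_eq
      · intro x hx
        rw [mem_perp]
        intro y hy
        exact Φ.refl _ _ ((mem_perp Φ).1 hy x hx)
      · have h3 := finrank_perp Φ hΦ.nd (LinearMap.range ψ)
        have h4 := finrank_perp Φ hΦ.nd (perp Φ (LinearMap.range ψ))
        omega
    rw [← h2] at h1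
    exact h1
  have hdet := det_isom hB hg0
  have hd0 : LinearMap.det (g0 : V →ₗ[F] V) ≠ 0 := by
    intro h0
    rw [h0, zero_mul] at hdet
    exact zero_ne_one hdet
  obtain ⟨s, hs, hsf, hsd⟩ := exists_quasi hB huu (c := (LinearMap.det (g0 : V →ₗ[F] V))⁻¹) (by
    rw [map_inv₀, ← mul_inv, hdet, inv_one])
  refine ⟨g0 * s, ⟨?_, ?_⟩, ?_⟩
  · show g0 * s ∈ Φ.Iso
    rw [Cfsg.Agent.H450.Bs.iso_iff hF hΦ]
    intro x y
    show B (g0 (s x)) (g0 (s y)) = B x y
    rw [hg0, hs]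
  · show LinearMap.det ((g0 : V →ₗ[F] V) ∘ₗ (s : V →ₗ[F] V)) = 1
    rw [LinearMap.det_comp, hsd, mul_inv_cancel₀ hd0]
  · intro x
    show g0 (s (ψ x)) = χ x
    rw [hsf, hg0ψ]
    rw [hBd]
    exact (mem_perp' Φ).1 hu _ (LinearMap.mem_range_self ψ x)

omit [Module.Finite F D] in
/-- transitivity gives `Wc 1` -/
theorem wc_one {Φ : Frm F V} {G : Subgroup (V ≃ₗ[F] V)} {ψ : D →ₗ[F] V}
    (htr : ∀ χ : D →ₗ[F] V, Function.Injective χ → pb Φ χ = pb Φ ψ → ∃ g ∈ G, ∀ x, g (ψ x) = χ x) : Wc 1 Φ G ψ := by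
  intro ψ'
  have hV : Finite V := Module.finite_of_finite F
  have hG : Finite (V ≃ₗ[F] V) := Cfsg.Agent.H440.Bs.finite_lin
  rw [one_mul]
  by_cases hne : ∃ g ∈ G, ∀ x, g (ψ x) = ψ' x
  · obtain ⟨g1, hg1, hg1ψ⟩ := hne
    rw [← Nat.card_prod]
    choose t ht htψ using htr
    let f : {χ : D →ₗ[F] V // Function.Injective χ ∧ pb Φ χ = pb Φ ψ} ×
        {g : V ≃ₗ[F] V // g ∈ G ∧ ∀ x, g (ψ x) = ψ' x} → G := fun p =>
      ⟨t p.1.1 p.1.2.1 p.1.2.2 * (g1⁻¹ * p.2.1), G.mul_mem (ht _ _ _) (G.mul_mem (G.inv_mem hg1) p.2.2.1)⟩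
    have hf : ∀ p x, (f p : V ≃ₗ[F] V) (ψ x) = p.1.1 x := by
      intro p x
      show t p.1.1 p.1.2.1 p.1.2.2 (g1⁻¹ (p.2.1 (ψ x))) = _
      rw [p.2.2.2, ← hg1ψ]
      have h1 : g1⁻¹ (g1 (ψ x)) = ψ x := g1.symm_apply_apply _
      rw [h1, htψ]
    refine Nat.card_le_card_of_injective f ?_
    rintro ⟨⟨χ, hχ⟩, ⟨g, hg⟩⟩ ⟨⟨χ', hχ'⟩, ⟨g', hg'⟩⟩ heq
    have h1 : χ = χ' := by
      ext x
      rw [← hf ⟨⟨χ, hχ⟩, ⟨g, hg⟩⟩ x, heq, hf]
    subst h1
    have h2 : t χ hχ.1 hχ.2 * (g1⁻¹ * g) = t χ hχ.1 hχ.2 * (g1⁻¹ * g') := congrArg Subtype.val heq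
    have h3 := mul_left_cancel (mul_left_cancel h2)
    subst h3
    rfl
  · have : IsEmpty {g : V ≃ₗ[F] V // g ∈ G ∧ ∀ x, g (ψ x) = ψ' x} := ⟨fun g => hne ⟨g.1, g.2.1, g.2.2⟩⟩
    rw [Nat.card_of_isEmpty (α := {g : V ≃ₗ[F] V // g ∈ G ∧ ∀ x, g (ψ x) = ψ' x}), mul_zero]
    exact Nat.zero_le _

/-- Yc2 -/
theorem yc2 : Yc2 := by
  intro F V D _ _ _ _ _ _ _ _ r Φ hΦ ψ hψ hn
  exact wc_one fun χ hχ h => trans_su hΦ ψ hψ hn χ hχ h

end Cfsg.Agent.H637.Ux
end

-- part: H637/Ux/WittSpO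
section
/-!
# UT2 (UX, S5716), tasks Yc1, Yc3: Witt's theorem for the symplectic and orthogonal groups (helper637)
-/

set_option autoImplicit false

namespace Cfsg.Agent.H637.Ux

open Module Cfsg.Agent.H847.Bs Cfsg.Agent.H50.Ux Cfsg.Agent.LieClassical.OrthCore

variable {F V D : Type} [Field F] [Finite F] [AddCommGroup V] [Module F V] [Module.Finite F V] [AddCommGroup D]
  [Module F D] [Module.Finite F D]

omit [Finite F] in
theorem trans_sp {Φ : Frm F V} (hΦ : IsSp Φ) (ψ : D →ₗ[F] V) (hψ : Function.Injective ψ)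
    (χ : D →ₗ[F] V) (hχ : Function.Injective χ) (h : pb Φ χ = pb Φ ψ) : ∃ g ∈ Φ.Iso, ∀ x, g (ψ x) = χ x := by
  let B : LinearMap.BilinForm F V := LinearMap.mk₂ F Φ.B Φ.add_left Φ.smul_left Φ.add_right
    (fun c x y => by rw [Φ.smul_right, hΦ.s, smul_eq_mul])
  have hB : Cfsg.Agent.H91.Symp.SForm B :=
    { nd := ⟨fun x hx => hΦ.nd x hx, fun x hx => hΦ.nd x fun y => Φ.refl _ _ (hx y)⟩
      alt := hΦ.alt }
  let b := Module.finBasis F D
  have li : LinearIndependent F (fun i => ψ (b i)) := b.linearIndependent.map' ψ (LinearMap.ker_eq_bot.2 hψ)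
  have li' : LinearIndependent F (fun i => χ (b i)) := b.linearIndependent.map' χ (LinearMap.ker_eq_bot.2 hχ)
  have hpb : ∀ x y, Φ.B (ψ x) (ψ y) = Φ.B (χ x) (χ y) := by
    intro x y
    have h1 := congrFun (congrFun (congrArg Prod.fst h) x) y
    exact h1.symm
  obtain ⟨g0, hg0, hg0w⟩ := Cfsg.Agent.H91.Symp.witt_family hB li li' (fun i j => hpb _ _)
  refine ⟨g0, ⟨fun x y => hg0 x y, fun x => by rw [hΦ.q, hΦ.q]⟩, ?_⟩
  have h1 : (g0 : V →ₗ[F] V) ∘ₗ ψ = χ := b.ext fun i => hg0w i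
  exact fun x => LinearMap.congr_fun h1 x

/-- Yc1 -/
theorem yc1 : Yc1 := by
  intro F V D _ _ _ _ _ _ _ _ Φ hΦ ψ hψ
  exact wc_one fun χ hχ h => trans_sp hΦ ψ hψ χ hχ h

omit [Finite F] in
theorem trans_o {Q : QuadraticForm F V} (hQ : (frmQ Q).Nd) (ψ : D →ₗ[F] V) (hψ : Function.Injective ψ)
    (χ : D →ₗ[F] V) (hχ : Function.Injective χ) (h : pb (frmQ Q) χ = pb (frmQ Q) ψ) :
    ∃ g ∈ O Q, ∀ x, g (ψ x) = χ x := by
  have hnd : (QuadraticMap.polarBilin Q).Nondegenerate := by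
    refine ⟨fun x hx => hQ x hx, fun x hx => hQ x fun y => ?_⟩
    show QuadraticMap.polar Q x y = 0
    rw [QuadraticMap.polar_comm]
    exact hx y
  let b := Module.finBasis F D
  have li : LinearIndependent F (fun i => ψ (b i)) := b.linearIndependent.map' ψ (LinearMap.ker_eq_bot.2 hψ)
  have li' : LinearIndependent F (fun i => χ (b i)) := b.linearIndependent.map' χ (LinearMap.ker_eq_bot.2 hχ)
  have hpb : ∀ x y, QuadraticMap.polar Q (ψ x) (ψ y) = QuadraticMap.polar Q (χ x) (χ y) := by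
    intro x y
    have h1 := congrFun (congrFun (congrArg Prod.fst h) x) y
    exact h1.symm
  have hq : ∀ x, Q (ψ x) = Q (χ x) := by
    intro x
    have h1 := congrFun (congrArg Prod.snd h) x
    exact h1.symm
  obtain ⟨g0, hg0, hg0w⟩ := Cfsg.Agent.ClassicalGeometry.WittQuad.extend_family Q hnd _ _ _ li li' (fun i => hq _)
    (fun i j => hpb _ _)
  refine ⟨g0, hg0, ?_⟩
  have h1 : (g0 : V →ₗ[F] V) ∘ₗ ψ = χ := b.ext fun i => hg0w i
  exact fun x => LinearMap.congr_fun h1 x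

/-- Yc3 -/
theorem yc3 (h4 : Yc4) : Yc3 := by
  intro F V D _ _ _ _ _ _ _ _ Q hQ hd ψ hψ ψ'
  have hV : Finite V := Module.finite_of_finite F
  have hG : Finite (V ≃ₗ[F] V) := Cfsg.Agent.H440.Bs.finite_lin
  have h1 : Wc 1 (frmQ Q) (O Q) ψ := wc_one fun χ hχ h => trans_o hQ ψ hψ χ hχ h
  have h2 := h1 ψ'
  have h3 := h4 F V Q hQ hd
  have h5 : Nat.card {g : V ≃ₗ[F] V // g ∈ E Q ∧ ∀ x, g (ψ x) = ψ' x} ≤
      Nat.card {g : V ≃ₗ[F] V // g ∈ O Q ∧ ∀ x, g (ψ x) = ψ' x} :=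
    Nat.card_le_card_of_injective (fun g => ⟨g.1, E_le_O g.2.1, g.2.2⟩) fun a b hab =>
      Subtype.ext (congrArg (fun z => z.1) hab)
  calc _ ≤ Nat.card {χ : D →ₗ[F] V // Function.Injective χ ∧ pb (frmQ Q) χ = pb (frmQ Q) ψ} *
        Nat.card {g : V ≃ₗ[F] V // g ∈ O Q ∧ ∀ x, g (ψ x) = ψ' x} := Nat.mul_le_mul_left _ h5
    _ ≤ 1 * Nat.card (O Q) := h2
    _ ≤ 4 * Nat.card (E Q) := by rw [one_mul]; exact h3

end Cfsg.Agent.H637.Ux
end

-- part: H50/Ux/UT2Y
section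
/-!
# UT2 (UX, S5716) from `Ya0` (helper50)
-/

set_option autoImplicit false

namespace Cfsg.Agent.H50.Ux

/-- UT2 from `Ya0` -/
theorem ut2_of_ya0 (h0 : Ya0) : Cfsg.Agent.H141.Ux.UT2 :=
  ut2_of Cfsg.Agent.H232.Ux.ye (Cfsg.Agent.H183.Ux.ya1 h0) (Cfsg.Agent.H887.Ux.ya2 h0) (Cfsg.Agent.H557.Ux.ya3 h0)
    Cfsg.Agent.H557.Ux.yb Cfsg.Agent.H637.Ux.yc1 Cfsg.Agent.H637.Ux.yc2
    (Cfsg.Agent.H637.Ux.yc3 Cfsg.Agent.H450.Ux.yc4)

end Cfsg.Agent.H50.Ux
end

-- part: H50/Ux/YaZ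
section
/-!
# UT2 (UX, S5716): `Ya0` (helper50)
-/

set_option autoImplicit false

namespace Cfsg.Agent.H50.Ux

open Cfsg.Agent.H261.Ux (Bp card_small_Bp)

theorem ya0 : Ya0 := by
  intro L _ _ p f e c hp hf he hL hbig hc hcr
  classical
  have hef : 3 ≤ e * f := by nlinarith only [hf, he]
  obtain ⟨N, N', hNN, hNr, hN⟩ := H961.RG.exists_prim hef hp.two_le
  have hNM : 16 * e * (2 * e + 2) ^ 2 ≤ N := by
    have h1 : (4 * (e * f)) * (16 * e * (2 * e + 2) ^ 2) ≤ (4 * (e * f)) * N := by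
      calc (4 * (e * f)) * (16 * e * (2 * e + 2) ^ 2) = 64 * (e * f) * (2 * e + 2) ^ 2 * e := by ring
        _ ≤ _ := hbig
        _ ≤ _ := hN
    exact Nat.le_of_mul_le_mul_left h1 (by omega)
  have hpe : (p ^ f) ^ e = p ^ (e * f) := by rw [← pow_mul, mul_comm f e]
  have hq1 : 1 < (p ^ f) ^ e := by rw [hpe]; exact Nat.one_lt_pow (by omega) hp.one_lt
  have hpos : 0 < (p ^ f) ^ e - 1 := by omega
  have hNq : N ∣ (p ^ f) ^ e - 1 := ⟨N', by rw [hNN, hpe]⟩
  obtain ⟨d, hd⟩ := hc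
  have hc0 : 0 < c := by
    rcases Nat.eq_zero_or_pos c with h0 | h0
    · rw [h0, zero_mul] at hd; omega
    · exact h0
  have hdd : ((p ^ f) ^ e - 1) / c = d := by rw [hd, Nat.mul_div_cancel_left _ hc0]
  rw [hdd] at hcr
  have hcop : Nat.Coprime N d := by
    rw [Nat.coprime_iff_gcd_eq_one]
    by_contra hne
    obtain ⟨r, hr, hrd⟩ := Nat.exists_prime_and_dvd hne
    exact hcr r hr (hNr r hr (hrd.trans (Nat.gcd_dvd_left _ _))) (hrd.trans (Nat.gcd_dvd_right _ _))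
  have hNc : N ∣ c := by
    rw [hd] at hNq
    exact hcop.dvd_of_dvd_mul_right hNq
  obtain ⟨M, hM⟩ := hNc
  have hfin : Finite Lˣ := inferInstance
  have hcardL : Nat.card Lˣ = (p ^ f) ^ e - 1 := by rw [Nat.card_units, hL]
  let C : Subgroup Lˣ := (powMonoidHom c : Lˣ →* Lˣ).ker
  have hmem : ∀ t : Lˣ, t ∈ C ↔ t ^ c = 1 := fun t => Iff.rfl
  have hCcard : Nat.card C = c := by
    have h2 := IsCyclic.card_powMonoidHom_ker (G := Lˣ) c
    rw [hcardL, hd, Nat.gcd_eq_right (Dvd.intro _ rfl)] at h2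
    exact h2
  have hsmall := card_small_Bp C (p := p) (d := e * f) (M := 2 * e + 2) (N := N) (N' := M) (by rw [hCcard, hM]) hNr
  have hsum : Nat.card {u : C // Bp p (e * f) (2 * e + 2) (orderOf u)} +
      Nat.card {u : C // ¬ Bp p (e * f) (2 * e + 2) (orderOf u)} = c := by
    rw [← hCcard, ← Nat.card_sum]
    exact Nat.card_congr (Equiv.sumCompl _)
  have hgood : Nat.card {u : C // Bp p (e * f) (2 * e + 2) (orderOf u)} ≤ Nat.card {t : Lˣ // t ^ c = 1 ∧ ∃ k,
      2 * e + 1 < k ∧ k ∣ (p ^ f) ^ e - 1 ∧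
      (∀ r : ℕ, r.Prime → r ∣ k → orderOf ((p : ℕ) : ZMod r) = e * f) ∧ k ∣ orderOf t} := by
    refine Nat.card_le_card_of_injective (fun u => ⟨u.1.1, u.1.2, ?_⟩) fun u u' h => ?_
    · obtain ⟨k, hk, hkr, hkd⟩ := u.2
      have h1 : orderOf (u.1 : Lˣ) = orderOf u.1 := Subgroup.orderOf_coe _
      refine ⟨k, by omega, ?_, hkr, by rw [h1]; exact hkd⟩
      rw [← hcardL]
      exact (by rw [← h1] at hkd; exact hkd : k ∣ orderOf (u.1 : Lˣ)).trans (orderOf_dvd_natCard _)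
    · exact Subtype.ext (Subtype.ext (congrArg (fun z : {t : Lˣ // t ^ c = 1 ∧ ∃ k,
        2 * e + 1 < k ∧ k ∣ (p ^ f) ^ e - 1 ∧
        (∀ r : ℕ, r.Prime → r ∣ k → orderOf ((p : ℕ) : ZMod r) = e * f) ∧ k ∣ orderOf t} => z.1) h))
  have h4 : 4 * (M * (2 * e + 2) ^ 2) ≤ c := by
    rw [hM]
    calc 4 * (M * (2 * e + 2) ^ 2) = (4 * (2 * e + 2) ^ 2) * M := by ring
      _ ≤ (16 * e * (2 * e + 2) ^ 2) * M := by
        refine Nat.mul_le_mul_right _ (Nat.mul_le_mul_right _ ?_)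
        omega
      _ ≤ N * M := Nat.mul_le_mul_right _ hNM
  omega

end Cfsg.Agent.H50.Ux
end

-- part: H50/Ux/UT2
section
/-!
# UT2 (UX, S5716) (helper50)
-/

set_option autoImplicit false

namespace Cfsg.Agent.H50.Ux

/-- UT2: all but a small proportion of the elements have a nondegenerate irreducible block -/
theorem ut2 : Cfsg.Agent.H141.Ux.UT2 := ut2_of_ya0 ya0

end Cfsg.Agent.H50.Ux
end
end

-- part: H541/Ux/IsoE
section
prune_inst 0x3470714475e202000018051650201c66fe000400004b8400ec6305060489ce23a9c2ae61be20351f5a229045083d006812000020000001c000200400411d00a080805604b308a10c66009f800308210000001800300000000000000000000000200000000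
set_option linter.all false
open scoped Cfsg.Agent.FastGrp

-- part: H541/Ux/Key
section
/-!
# S5716 (UM1): one orbit of configurations (helper541)

* `exists_dual` : dual bases of opposite totally isotropic subspaces;
* `key` : an isometry `E₀ → E` and a linear isomorphism `A₀ → A` are induced by an element of `G` which maps `A₀'` to `A'`.
-/

set_option autoImplicit false

namespace Cfsg.Agent.H541.Ux

open Module Cfsg.Agent.H847.Bs Cfsg.Agent.H141.Ux
open Cfsg.Agent.H440.Bs (perp mem_perp)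

variable {F V : Type*} [Field F] [AddCommGroup V] [Module F V] {Φ : Frm F V} {G : Subgroup (V ≃ₗ[F] V)} {N : ℕ}

theorem kl_of {t : ℕ} (h : Kl Φ G N t) : Cfsg.Agent.H847.Ux.Kl Φ G N := by
  rcases h with ⟨h1, h2, h3, -⟩ | ⟨r, h1, h2, h3, -⟩ | ⟨Q, h1, h2, h3, h4, -⟩
  · exact Or.inl ⟨h1, h2, h3⟩
  · exact Or.inr (Or.inl ⟨r, h1, h2, h3⟩)
  · exact Or.inr (Or.inr ⟨Q, h1, h2, h3, h4⟩)

/-- Witt's theorem for families with an arbitrary index set -/
theorem witt' [Finite F] [Finite V] (h : Cfsg.Agent.H847.Ux.Kl Φ G N) {ι : Type*} [Fintype ι] {k : ℕ}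
    (hk : Fintype.card ι = k) (hn : 2 * k + 3 ≤ finrank F V) (h5 : 5 ≤ finrank F V) {u u' : ι → V}
    (hu : LinearIndependent F u) (hu' : LinearIndependent F u') (h1 : ∀ i j, Φ.B (u i) (u j) = Φ.B (u' i) (u' j))
    (h2 : ∀ i, Φ.q (u i) = Φ.q (u' i)) : ∃ g ∈ G, ∀ i, g (u i) = u' i := by
  let σ : Fin k ≃ ι := (Fintype.equivFinOfCardEq hk).symm
  obtain ⟨g, hg, hgu⟩ := Cfsg.Agent.H847.Ux.witt h hn h5 (hu.comp σ σ.injective) (hu'.comp σ σ.injective)
    (fun i j => h1 _ _) (fun i => h2 _)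
  refine ⟨g, hg, fun i => ?_⟩
  have := hgu (σ.symm i)
  simpa only [Function.comp_apply, Equiv.apply_symm_apply] using this

theorem B_sum_left {ι : Type*} [Fintype ι] (x : ι → V) (y : V) : Φ.B (∑ i, x i) y = ∑ i, Φ.B (x i) y := by
  have h := map_sum (Cfsg.Agent.H440.Bs.lin Φ y) x Finset.univ
  exact h

theorem coe_eq_sum {ι : Type*} [Fintype ι] {A : Submodule F V} (b : Basis ι F A) (x : A) :
    (x : V) = ∑ i, b.repr x i • (b i : V) := by
  conv_lhs => rw [← b.sum_repr x]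
  rw [Submodule.coe_sum]
  rfl

/-- a dual basis -/
theorem exists_dual [Finite F] [Module.Finite F V] {A A' : Submodule F V} {d : ℕ}
    (hA' : finrank F A' = d) (ti' : Φ.TI A') (nd : Φ.NdOn (A ⊔ A')) (b : Basis (Fin d) F A) :
    ∃ c : Basis (Fin d) F A', ∀ i j, Φ.B (b i) (c j) = if i = j then 1 else 0 := by
  have hfV : Finite V := Module.finite_of_finite F
  let f : A' → (Fin d → F) := fun c i => Φ.B (b i) c
  have hf : Function.Injective f := by
    intro c c' hcc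
    have h1 : ∀ i, Φ.B (b i) ((c : V) - c') = 0 := by
      intro i
      have h2 := Φ.add_right (b i) (c' : V) ((c : V) - c')
      rw [add_sub_cancel] at h2
      have h3 : Φ.B (b i) c = Φ.B (b i) c' := congrFun hcc i
      rw [h3] at h2
      exact left_eq_add.1 h2
    have h2 : ∀ a ∈ A, Φ.B a ((c : V) - c') = 0 := by
      intro a ha
      have h4 : a = ∑ i, b.repr ⟨a, ha⟩ i • (b i : V) := coe_eq_sum b ⟨a, ha⟩
      rw [h4, B_sum_left]
      refine Finset.sum_eq_zero fun i _ => ?_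
      rw [Φ.smul_left, h1, mul_zero]
    have h3 : ((c : V) - c') = 0 := by
      have hm : ((c : V) - c') ∈ A' := A'.sub_mem c.2 c'.2
      refine nd _ (Submodule.mem_sup_right hm) fun y hy => ?_
      obtain ⟨a, ha, a', ha', rfl⟩ := Submodule.mem_sup.1 hy
      rw [Φ.add_right, Φ.refl _ _ (h2 a ha), ti'.1 _ hm _ ha', add_zero]
    exact Subtype.ext (sub_eq_zero.1 h3)
  have hcard : Nat.card (Fin d → F) ≤ Nat.card A' := by
    rw [← hA', Module.natCard_eq_pow_finrank (K := F) (V := A'), Nat.card_fun, Nat.card_fin]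
  obtain ⟨-, hsur⟩ := hf.bijective_of_nat_card_le hcard
  have h5 : ∀ j : Fin d, ∃ c : A', f c = Pi.single j 1 := fun j => hsur _
  choose c hc using h5
  have hBc : ∀ i j, Φ.B (b i) (c j) = if i = j then 1 else 0 := by
    intro i j
    have := congrFun (hc j) i
    rw [Pi.single_apply] at this
    exact this
  have hli : LinearIndependent F c := by
    rw [Fintype.linearIndependent_iff]
    intro w hw i
    have h6 : (∑ j, w j • (c j : V)) = 0 := by
      have := congrArg Subtype.val hw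
      simpa only [_root_.AddSubmonoidClass.coe_finsetSum, _root_.SetLike.val_smul, _root_.ZeroMemClass.coe_zero] using this
    have h7 := B_sum_left (Φ := Φ) (fun j => w j • (c j : V)) (b i : V)
    rw [h6, Cfsg.Agent.H440.Bs.B_zero_left, Finset.sum_eq_single i] at h7
    · rw [Φ.smul_left] at h7
      rcases mul_eq_zero.1 h7.symm with h8 | h8
      · exact h8
      · exfalso
        have h9 := Φ.refl _ _ h8
        rw [hBc, if_pos rfl] at h9
        exact one_ne_zero h9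
    · intro j _ hj
      rw [Φ.smul_left, Φ.refl (b i : V) (c j : V) (by rw [hBc, if_neg (Ne.symm hj)]), mul_zero]
    · intro hi
      exact absurd (Finset.mem_univ i) hi
  have hcd : Fintype.card (Fin d) = finrank F A' := by rw [Fintype.card_fin, hA']
  rcases Nat.eq_zero_or_pos d with hd0 | hd0
  · subst hd0
    refine ⟨Module.finBasisOfFinrankEq F A' hA', fun i => i.elim0⟩
  · have : Nonempty (Fin d) := ⟨⟨0, hd0⟩⟩
    refine ⟨basisOfLinearIndependentOfCardEqFinrank hli hcd, fun i j => ?_⟩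
    rw [coe_basisOfLinearIndependentOfCardEqFinrank]
    exact hBc i j

/-- the family of a configuration -/
def fam {ι κ : Type*} {E A A' : Submodule F V} (bE : ι → E) (b : κ → A) (c : κ → A') : ι ⊕ (κ ⊕ κ) → V :=
  Sum.elim (fun i => (bE i : V)) (Sum.elim (fun i => (b i : V)) fun i => (c i : V))

theorem fam_li {ι κ : Type*} {E A A' : Submodule F V} {e d : ℕ} (h : Cfg Φ e d E A A') {bE : ι → E} {b : κ → A}
    {c : κ → A'} (hE : LinearIndependent F bE) (hb : LinearIndependent F b) (hc : LinearIndependent F c) :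
    LinearIndependent F (fam bE b c) := by
  have hE' : LinearIndependent F (fun i => (bE i : V)) := hE.map' E.subtype (Submodule.ker_subtype E)
  have hb' : LinearIndependent F (fun i => (b i : V)) := hb.map' A.subtype (Submodule.ker_subtype A)
  have hc' : LinearIndependent F (fun i => (c i : V)) := hc.map' A'.subtype (Submodule.ker_subtype A')
  have sE : Submodule.span F (Set.range fun i => (bE i : V)) ≤ E := by
    rw [Submodule.span_le]
    rintro _ ⟨i, rfl⟩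
    exact (bE i).2
  have sA : Submodule.span F (Set.range fun i => (b i : V)) ≤ A := by
    rw [Submodule.span_le]
    rintro _ ⟨i, rfl⟩
    exact (b i).2
  have sA' : Submodule.span F (Set.range fun i => (c i : V)) ≤ A' := by
    rw [Submodule.span_le]
    rintro _ ⟨i, rfl⟩
    exact (c i).2
  have h1 : LinearIndependent F (Sum.elim (fun i => (b i : V)) fun i => (c i : V)) :=
    hb'.sum_type hc' (h.disj.mono sA sA')
  have hEA : Disjoint E (A ⊔ A') := by
    rw [Submodule.disjoint_def]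
    intro x hx hx'
    exact h.nd x hx fun y hy => Φ.refl _ _ (h.orth y hy x hx')
  refine hE'.sum_type h1 (hEA.mono sE ?_)
  rw [Set.Sum.elim_range, Submodule.span_union]
  exact sup_le_sup sA sA'

variable [Finite F] [Module.Finite F V]

/-- **Witt's theorem for configurations** -/
theorem key (h : Cfsg.Agent.H847.Ux.Kl Φ G N) {e d : ℕ} (hn : 2 * (e + 2 * d) + 3 ≤ finrank F V) (hd : 1 ≤ d)
    {E₀ A₀ A₀' E A A' : Submodule F V} (h0 : Cfg Φ e d E₀ A₀ A₀') (h1 : Cfg Φ e d E A A') (j : E₀ ≃ₗ[F] E)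
    (hjB : ∀ x y : E₀, Φ.B (j x) (j y) = Φ.B x y) (hjq : ∀ x : E₀, Φ.q (j x) = Φ.q x) (a : A₀ ≃ₗ[F] A) :
    ∃ g ∈ G, (∀ x : E₀, g x = j x) ∧ (∀ x : A₀, g x = a x) ∧ E₀.map (g : V →ₗ[F] V) = E ∧
      A₀.map (g : V →ₗ[F] V) = A ∧ A₀'.map (g : V →ₗ[F] V) = A' := by
  classical
  have hfV : Finite V := Module.finite_of_finite F
  let bE : Basis (Fin e) F E₀ := Module.finBasisOfFinrankEq F E₀ h0.dim
  let b : Basis (Fin d) F A₀ := Module.finBasisOfFinrankEq F A₀ h0.dimA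
  obtain ⟨c, hc⟩ := exists_dual h0.dimA' h0.ti' h0.ndA b
  let b' : Basis (Fin d) F A := b.map a
  obtain ⟨c', hc'⟩ := exists_dual h1.dimA' h1.ti' h1.ndA b'
  let bE' : Basis (Fin e) F E := bE.map j
  have hbE' : ∀ i, bE' i = j (bE i) := fun i => Basis.map_apply _ _ _
  have hb' : ∀ i, b' i = a (b i) := fun i => Basis.map_apply _ _ _
  have hu := fam_li h0 bE.linearIndependent b.linearIndependent c.linearIndependent
  have hu' := fam_li h1 bE'.linearIndependent b'.linearIndependent c'.linearIndependent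
  have hcard : Fintype.card (Fin e ⊕ (Fin d ⊕ Fin d)) = e + 2 * d := by
    rw [Fintype.card_sum, Fintype.card_sum, Fintype.card_fin, Fintype.card_fin]
    ring
  have oEA : ∀ {e d : ℕ} {E A A' : Submodule F V}, Cfg Φ e d E A A' → ∀ (x : E) (y : A), Φ.B x y = 0 :=
    fun h x y => h.orth _ x.2 _ (Submodule.mem_sup_left y.2)
  have oEA' : ∀ {e d : ℕ} {E A A' : Submodule F V}, Cfg Φ e d E A A' → ∀ (x : E) (y : A'), Φ.B x y = 0 :=
    fun h x y => h.orth _ x.2 _ (Submodule.mem_sup_right y.2)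
  obtain ⟨g, hg, hgu⟩ := witt' h hcard hn (by omega) hu hu' (by
    rintro (i | i | i) (k | k | k)
    · show Φ.B (bE i) (bE k) = Φ.B (bE' i) (bE' k)
      rw [hbE', hbE', hjB]
    · exact (oEA h0 _ _).trans (oEA h1 _ _).symm
    · exact (oEA' h0 _ _).trans (oEA' h1 _ _).symm
    · exact (Φ.refl _ _ (oEA h0 _ _)).trans (Φ.refl _ _ (oEA h1 _ _)).symm
    · exact (h0.ti.1 _ (b i).2 _ (b k).2).trans (h1.ti.1 _ (b' i).2 _ (b' k).2).symm
    · exact (hc i k).trans (hc' i k).symm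
    · exact (Φ.refl _ _ (oEA' h0 _ _)).trans (Φ.refl _ _ (oEA' h1 _ _)).symm
    · exact h.swap ((hc k i).trans (hc' k i).symm)
    · exact (h0.ti'.1 _ (c i).2 _ (c k).2).trans (h1.ti'.1 _ (c' i).2 _ (c' k).2).symm) (by
    rintro (i | i | i)
    · show Φ.q (bE i) = Φ.q (bE' i)
      rw [hbE', hjq]
    · exact (h0.ti.2 _ (b i).2).trans (h1.ti.2 _ (b' i).2).symm
    · exact (h0.ti'.2 _ (c i).2).trans (h1.ti'.2 _ (c' i).2).symm)
  have gE : ∀ x : E₀, g x = j x := by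
    have h2 : (g : V →ₗ[F] V) ∘ₗ E₀.subtype = E.subtype ∘ₗ (j : E₀ →ₗ[F] E) := by
      refine bE.ext fun i => ?_
      show g (bE i) = j (bE i)
      rw [← hbE']
      exact hgu (Sum.inl i)
    exact fun x => LinearMap.congr_fun h2 x
  have gA : ∀ x : A₀, g x = a x := by
    have h2 : (g : V →ₗ[F] V) ∘ₗ A₀.subtype = A.subtype ∘ₗ (a : A₀ →ₗ[F] A) := by
      refine b.ext fun i => ?_
      show g (b i) = a (b i)
      rw [← hb']
      exact hgu (Sum.inr (Sum.inl i))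
    exact fun x => LinearMap.congr_fun h2 x
  have gA' : ∀ x : A₀', g x ∈ A' := by
    have h2 : ∀ x : A₀', (x : V) ∈ A'.comap (g : V →ₗ[F] V) := by
      intro x
      rw [coe_eq_sum c x]
      refine Submodule.sum_mem _ fun i _ => Submodule.smul_mem _ _ ?_
      show g (c i) ∈ A'
      have h4 : g (c i) = c' i := hgu (Sum.inr (Sum.inr i))
      rw [h4]
      exact (c' i).2
    exact h2
  have hfr : ∀ X : Submodule F V, finrank F (X.map (g : V →ₗ[F] V)) = finrank F X :=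
    fun X => LinearEquiv.finrank_map_eq g X
  refine ⟨g, hg, gE, gA, ?_, ?_, ?_⟩
  · refine Submodule.eq_of_le_of_finrank_eq ?_ (by rw [hfr, h0.dim, h1.dim])
    rintro _ ⟨x, hx, rfl⟩
    show g x ∈ E
    rw [gE ⟨x, hx⟩]
    exact (j ⟨x, hx⟩).2
  · refine Submodule.eq_of_le_of_finrank_eq ?_ (by rw [hfr, h0.dimA, h1.dimA])
    rintro _ ⟨x, hx, rfl⟩
    show g x ∈ A
    rw [gA ⟨x, hx⟩]
    exact (a ⟨x, hx⟩).2
  · refine Submodule.eq_of_le_of_finrank_eq ?_ (by rw [hfr, h0.dimA', h1.dimA'])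
    rintro _ ⟨x, hx, rfl⟩
    exact gA' ⟨x, hx⟩

end Cfsg.Agent.H541.Ux
end

-- part: H541/Ux/Pieces
section
/-!
# S5716 (UM1): the configuration of two blocks, isometric blocks (helper541)

* `cfg_of` : a nondegenerate block `E` and a block `A ⊕ A'` of smaller dimension of the same element are orthogonal;
* `quad_iso` : quadratic spaces of minus type of the same dimension are isometric;
* `exists_isoE` : two nondegenerate irreducible blocks of the same dimension are isometric.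
-/

set_option autoImplicit false

namespace Cfsg.Agent.H541.Ux

open Module Cfsg.Agent.H847.Bs Cfsg.Agent.H141.Ux Cfsg.Agent.LieClassical.OrthCore
open Cfsg.Agent.H440.Bs (perp mem_perp restr restr_apply)

section

variable {F V : Type*} [Field F] [AddCommGroup V] [Module F V] {Φ : Frm F V} {G : Subgroup (V ≃ₗ[F] V)} {N t : ℕ}

theorem kl_le (h : Kl Φ G N t) : G ≤ Φ.Iso := by
  rcases h with ⟨h1, rfl, h3, -⟩ | ⟨r, h1, rfl, h3, -⟩ | ⟨Q, h1, rfl, rfl, h4, -⟩
  · exact le_rfl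
  · exact inf_le_left
  · intro g hg
    exact ⟨fun x y => polar_map (E_le_O hg) x y, E_le_O hg⟩

theorem kl_nd (h : Kl Φ G N t) : Φ.Nd := by
  rcases h with ⟨h1, rfl, h3, -⟩ | ⟨r, h1, rfl, h3, -⟩ | ⟨Q, h1, rfl, rfl, h4, -⟩
  · exact h1.nd
  · exact h1.nd
  · exact h1

variable [FiniteDimensional F V]

/-- the stabiliser of a subspace -/
def stabS (Y : Submodule F V) : Subgroup (V ≃ₗ[F] V) where
  carrier := {g | _root_.Cfsg.Agent.H847.Bs.Inv g Y}
  mul_mem' := fun hg hh => Cfsg.Agent.H440.Bs.Inv.mul hg hh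
  one_mem' := fun _ hv => hv
  inv_mem' := fun hg => Cfsg.Agent.H440.Bs.Inv.inv hg

theorem inv_of_mem {y z : V ≃ₗ[F] V} (hz : z ∈ Subgroup.zpowers y) {Y : Submodule F V} (hy : _root_.Cfsg.Agent.H847.Bs.Inv y Y) : _root_.Cfsg.Agent.H847.Bs.Inv z Y :=
  (Subgroup.zpowers_le.2 (show y ∈ stabS Y from hy)) hz

theorem orth_of (hN : Φ.Nd) {y z : V ≃ₗ[F] V} (hy : y ∈ Φ.Iso) {e : ℕ} {E A : Submodule F V} (hE : StE Φ e y E z)
    (hA : _root_.Cfsg.Agent.H847.Bs.Inv y A) (hd : finrank F A < e) : Φ.Orth E A := by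
  have h1 : _root_.Cfsg.Agent.H847.Bs.Inv y (E ⊓ perp Φ A) := fun v hv => ⟨hE.inv v hv.1, Cfsg.Agent.H440.Bs.inv_perp hy hA v hv.2⟩
  rcases hE.irr _ inf_le_left (inv_of_mem hE.mem h1) with h2 | h2
  · exfalso
    have h3 := Submodule.finrank_sup_add_finrank_inf_eq E (perp Φ A)
    rw [h2, finrank_bot, hE.dim] at h3
    have h4 := Cfsg.Agent.H440.Bs.finrank_perp Φ hN A
    have h5 := Submodule.finrank_le (E ⊔ perp Φ A)
    omega
  · intro x hx a ha
    rw [← h2] at hx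
    exact hx.2 a ha

theorem cfg_of (h : Kl Φ G N t) {e d : ℕ} (hlt : d < e) {y : V ≃ₗ[F] V} (hy : y ∈ G) {E A A' : Submodule F V}
    {z z' : V ≃ₗ[F] V} (hE : StE Φ e y E z) (hA : StA Φ d y A A' z') : Cfg Φ e d E A A' where
  nd := hE.nd
  dim := hE.dim
  ti := hA.ti
  ti' := hA.ti'
  dimA := hA.dim
  dimA' := hA.dim'
  disj := hA.disj
  ndA := hA.nd
  orth := by
    have h1 := orth_of (kl_nd h) (kl_le h hy) hE hA.inv (by rw [hA.dim]; exact hlt)
    have h2 := orth_of (kl_nd h) (kl_le h hy) hE hA.inv' (by rw [hA.dim']; exact hlt)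
    intro x hx v hv
    obtain ⟨a, ha, a', ha', rfl⟩ := Submodule.mem_sup.1 hv
    rw [Φ.add_right, h1 x hx a ha, h2 x hx a' ha', add_zero]

/-! ### conjugation -/

theorem inv_conj {y g : V ≃ₗ[F] V} {Y : Submodule F V} (h : _root_.Cfsg.Agent.H847.Bs.Inv y Y) : _root_.Cfsg.Agent.H847.Bs.Inv (g * y * g⁻¹) (Y.map (g : V →ₗ[F] V)) :=
  Cfsg.Agent.H440.Bs.Inv.conj h

theorem mem_conj {y z g : V ≃ₗ[F] V} (h : z ∈ Subgroup.zpowers y) : g * z * g⁻¹ ∈ Subgroup.zpowers (g * y * g⁻¹) := by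
  obtain ⟨k, rfl⟩ := Subgroup.mem_zpowers_iff.1 h
  exact Subgroup.mem_zpowers_iff.2 ⟨k, conj_zpow⟩

theorem ndOn_conj {g : V ≃ₗ[F] V} (hg : g ∈ Φ.Iso) {Y : Submodule F V} (h : Φ.NdOn Y) :
    Φ.NdOn (Y.map (g : V →ₗ[F] V)) := by
  rintro _ ⟨v, hv, rfl⟩ h1
  have : v = 0 := h v hv fun w hw => by
    rw [← hg.1]
    exact h1 _ ⟨w, hw, rfl⟩
  rw [this, map_zero]

theorem ti_conj {g : V ≃ₗ[F] V} (hg : g ∈ Φ.Iso) {Y : Submodule F V} (h : Φ.TI Y) : Φ.TI (Y.map (g : V →ₗ[F] V)) := by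
  refine ⟨?_, ?_⟩
  · rintro _ ⟨v, hv, rfl⟩ _ ⟨w, hw, rfl⟩
    exact (hg.1 v w).trans (h.1 v hv w hw)
  · rintro _ ⟨v, hv, rfl⟩
    exact (hg.2 v).trans (h.2 v hv)

theorem inv_apply_apply (g : V ≃ₗ[F] V) (v : V) : g⁻¹ (g v) = v := g.symm_apply_apply v

theorem apply_inv_apply (g : V ≃ₗ[F] V) (v : V) : g (g⁻¹ v) = v := g.apply_symm_apply v

theorem fix_conj {g z : V ≃ₗ[F] V} (hg : g ∈ Φ.Iso) {Y : Submodule F V} (h : ∀ v ∈ perp Φ Y, z v = v) :
    ∀ v ∈ perp Φ (Y.map (g : V →ₗ[F] V)), (g * z * g⁻¹) v = v := by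
  intro v hv
  have h1 : g⁻¹ v ∈ perp Φ Y := fun x hx => by
    rw [← hg.1, apply_inv_apply]
    exact hv _ ⟨x, hx, rfl⟩
  show g (z (g⁻¹ v)) = v
  rw [h _ h1, apply_inv_apply]

theorem irr_conj' {g z : V ≃ₗ[F] V} {Y : Submodule F V} (h : ∀ W ≤ Y, _root_.Cfsg.Agent.H847.Bs.Inv z W → W = ⊥ ∨ W = Y) :
    ∀ W ≤ Y.map (g : V →ₗ[F] V), _root_.Cfsg.Agent.H847.Bs.Inv (g * z * g⁻¹) W → W = ⊥ ∨ W = Y.map (g : V →ₗ[F] V) := by
  intro W hW hWi
  have h1 : W.map ((g⁻¹ : V ≃ₗ[F] V) : V →ₗ[F] V) ≤ Y := by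
    rintro _ ⟨v, hv, rfl⟩
    obtain ⟨w, hw, rfl⟩ := hW hv
    show g⁻¹ (g w) ∈ Y
    rwa [inv_apply_apply]
  have h2 : _root_.Cfsg.Agent.H847.Bs.Inv z (W.map ((g⁻¹ : V ≃ₗ[F] V) : V →ₗ[F] V)) := by
    have h3 := Cfsg.Agent.H440.Bs.Inv.conj (g := g⁻¹) hWi
    have h4 : g⁻¹ * (g * z * g⁻¹) * g⁻¹⁻¹ = z := by group
    rwa [h4] at h3
  rcases h _ h1 h2 with h3 | h3
  · left
    rw [← Cfsg.Agent.H440.Bs.map_inv_map g W, h3, Submodule.map_bot]
  · right
    rw [← Cfsg.Agent.H440.Bs.map_inv_map g W, h3]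

theorem fpf_conj {g z : V ≃ₗ[F] V} {Y : Submodule F V} (h : ∀ v ∈ Y, z v = v → v = 0) :
    ∀ v ∈ Y.map (g : V →ₗ[F] V), (g * z * g⁻¹) v = v → v = 0 := by
  rintro _ ⟨v, hv, rfl⟩ h1
  have h2 : g (z (g⁻¹ (g v))) = g v := h1
  rw [inv_apply_apply] at h2
  have h3 : v = 0 := h v hv (g.injective h2)
  rw [h3, map_zero]

theorem order_conj (g z : V ≃ₗ[F] V) : orderOf (g * z * g⁻¹) = orderOf z := by
  rw [← MulAut.conj_apply]
  exact orderOf_injective (MulAut.conj g).toMonoidHom (MulAut.conj g).injective z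

theorem stE_conj {e : ℕ} {g y z : V ≃ₗ[F] V} (hg : g ∈ Φ.Iso) {E : Submodule F V} (h : StE Φ e y E z) :
    StE Φ e (g * y * g⁻¹) (E.map (g : V →ₗ[F] V)) (g * z * g⁻¹) where
  mem := mem_conj h.mem
  nd := ndOn_conj hg h.nd
  dim := (LinearEquiv.finrank_map_eq g E).trans h.dim
  inv := inv_conj h.inv
  fix := fix_conj hg h.fix
  irr := irr_conj' h.irr
  fpf := fpf_conj h.fpf
  ord := by rw [order_conj]; exact h.ord

theorem stA_conj {e : ℕ} {g y z : V ≃ₗ[F] V} (hg : g ∈ Φ.Iso) {A A' : Submodule F V} (h : StA Φ e y A A' z) :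
    StA Φ e (g * y * g⁻¹) (A.map (g : V →ₗ[F] V)) (A'.map (g : V →ₗ[F] V)) (g * z * g⁻¹) where
  mem := mem_conj h.mem
  ti := ti_conj hg h.ti
  ti' := ti_conj hg h.ti'
  dim := (LinearEquiv.finrank_map_eq g A).trans h.dim
  dim' := (LinearEquiv.finrank_map_eq g A').trans h.dim'
  disj := by
    have h1 := h.disj
    rw [disjoint_iff] at h1 ⊢
    rw [← Submodule.map_inf _ g.injective, h1, Submodule.map_bot]
  nd := by
    rw [← Submodule.map_sup]
    exact ndOn_conj hg h.nd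
  inv := inv_conj h.inv
  inv' := inv_conj h.inv'
  fix := by
    rw [← Submodule.map_sup]
    exact fix_conj hg h.fix
  irr := irr_conj' h.irr
  irr' := irr_conj' h.irr'
  fpf := by
    rw [← Submodule.map_sup]
    exact fpf_conj h.fpf
  hom := by
    intro φ hφ
    let gA : A ≃ₗ[F] A.map (g : V →ₗ[F] V) := g.submoduleMap A
    let gA' : A' ≃ₗ[F] A'.map (g : V →ₗ[F] V) := g.submoduleMap A'
    have hgA : ∀ a : A, ((gA a : A.map (g : V →ₗ[F] V)) : V) = g a := fun a => rfl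
    have hgA' : ∀ a : A', ((gA' a : A'.map (g : V →ₗ[F] V)) : V) = g a := fun a => rfl
    let ψ : A →ₗ[F] A' := (gA'.symm : _ →ₗ[F] A') ∘ₗ φ ∘ₗ (gA : A →ₗ[F] _)
    have hψ : ∀ a : A, g (ψ a) = φ (gA a) := by
      intro a
      rw [← hgA']
      show ((gA' (gA'.symm (φ (gA a))) : A'.map (g : V →ₗ[F] V)) : V) = _
      rw [LinearEquiv.apply_symm_apply]
    have h1 : ψ = 0 := by
      apply h.hom
      intro a ha
      apply g.injective
      rw [hψ]
      have h2 := hφ (gA a) (by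
        show g (z (g⁻¹ (g a))) ∈ A.map (g : V →ₗ[F] V)
        rw [inv_apply_apply]
        exact ⟨_, ha, rfl⟩)
      have h3 : (⟨(g * z * g⁻¹) (gA a : V), by
          show g (z (g⁻¹ (g a))) ∈ A.map (g : V →ₗ[F] V)
          rw [inv_apply_apply]
          exact ⟨_, ha, rfl⟩⟩ : A.map (g : V →ₗ[F] V)) = gA ⟨z a, ha⟩ := by
        apply Subtype.ext
        show g (z (g⁻¹ (g a))) = g (z a)
        rw [inv_apply_apply]
      rw [h3] at h2
      rw [h2, ← hψ]
      show g (z (g⁻¹ (g (ψ a)))) = _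
      rw [inv_apply_apply]
    refine LinearMap.ext fun b => ?_
    have h2 : φ b = gA' (ψ (gA.symm b)) := by
      show φ b = gA' (gA'.symm (φ (gA (gA.symm b))))
      rw [LinearEquiv.apply_symm_apply, LinearEquiv.apply_symm_apply]
    rw [h2, h1, LinearMap.zero_apply, map_zero]
    rfl
  ord := by rw [order_conj]; exact h.ord

end

end Cfsg.Agent.H541.Ux
end

-- part: H541/Ux/IsoE
section
/-!
# S5716 (UM1): isometric blocks (helper541)

* `quad_iso` : quadratic spaces of minus type of the same dimension are isometric;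
* `exists_isoE` : two nondegenerate irreducible blocks of the same dimension are isometric.
-/

set_option autoImplicit false

namespace Cfsg.Agent.H541.Ux

open Module Cfsg.Agent.H847.Bs Cfsg.Agent.H141.Ux Cfsg.Agent.LieClassical.OrthCore
open Cfsg.Agent.H440.Bs (perp mem_perp restr restr_apply)

section

variable {F : Type*} [Field F]

/-- the standard space of plus type has plus type -/
theorem plusT_of_equiv {V : Type*} [AddCommGroup V] [Module F V] {Q : QuadraticForm F V} {m : ℕ}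
    (e : (Fin m ⊕ Fin m → F) ≃ₗ[F] V) (he : ∀ u, Q (e u) = Cfsg.quadFormPlus m F u) : PlusT Q := by
  rw [Cfsg.Agent.H59.Bs.plusT_iff]
  let f : (Fin m → F) →ₗ[F] V :=
    e.toLinearMap ∘ₗ
      ((LinearEquiv.sumArrowLequivProdArrow (Fin m) (Fin m) F F).symm).toLinearMap ∘ₗ
        LinearMap.inl F (Fin m → F) (Fin m → F)
  have hf : Function.Injective f := by
    intro x y h
    have h1 := (LinearEquiv.sumArrowLequivProdArrow (Fin m) (Fin m) F F).symm.injective (e.injective h)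
    exact LinearMap.inl_injective h1
  refine ⟨LinearMap.range f, ?_, ?_⟩
  · rintro _ ⟨x, rfl⟩
    show Q (e ((LinearEquiv.sumArrowLequivProdArrow (Fin m) (Fin m) F F).symm (x, 0))) = 0
    rw [he]
    show ∑ i, _ * _ = (0 : F)
    refine Finset.sum_eq_zero fun i _ => ?_
    exact mul_zero _
  · rw [LinearMap.finrank_range_of_inj hf, ← e.finrank_eq, finrank_fintype_fun_eq_card, finrank_fintype_fun_eq_card,
      Fintype.card_sum, Fintype.card_fin]
    ring

variable [Finite F]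

/-- **quadratic spaces of minus type of the same dimension are isometric** -/
theorem quad_iso {V V' : Type*} [AddCommGroup V] [Module F V] [FiniteDimensional F V] [AddCommGroup V'] [Module F V']
    [FiniteDimensional F V'] {Q : QuadraticForm F V} {Q' : QuadraticForm F V'} (hQ : Nondeg Q) (hQ' : Nondeg Q')
    {m : ℕ} (hm : 1 ≤ m) (hd : finrank F V = 2 * m) (hd' : finrank F V' = 2 * m) (hP : ¬ PlusT Q) (hP' : ¬ PlusT Q') :
    ∃ e : V ≃ₗ[F] V', ∀ x, Q' (e x) = Q x := by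
  rcases Cfsg.Agent.H377.classify_all hm hd Q hQ with ⟨e, he⟩ | ⟨ζ, hζ, e, he⟩
  · exact absurd (plusT_of_equiv e he) hP
  rcases Cfsg.Agent.H377.classify_all hm hd' Q' hQ' with ⟨e', he'⟩ | ⟨ζ', hζ', e', he'⟩
  · exact absurd (plusT_of_equiv e' he') hP'
  obtain ⟨f, hf⟩ := Cfsg.Agent.H377.minus_congr (m - 1) hζ' hζ
  refine ⟨e.symm.trans (f.trans e'), fun x => ?_⟩
  show Q' (e' (f (e.symm x))) = Q x
  rw [he', hf, ← he, e.apply_symm_apply]

end

section

variable {F V : Type} [Field F] [Finite F] [AddCommGroup V] [Module F V] [FiniteDimensional F V]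

/-- the order of `q` modulo the primes dividing the order of `z` -/
theorem ord_q {e m r : ℕ} (h : Pp F e m) (hr : r.Prime) (hrm : r ∣ m) : orderOf ((Nat.card F : ℕ) : ZMod r) = e := by
  obtain ⟨p, hp⟩ := CharP.exists F
  have := Fintype.ofFinite F
  obtain ⟨f, hpp, hcard⟩ := FiniteField.card F p
  have hc : ringChar F = p := ringChar.eq F p
  have hq : Nat.card F = ringChar F ^ (f : ℕ) := by rw [Nat.card_eq_fintype_card, hcard, hc]
  have h1 := h.2.2 r hr hrm f hq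
  have hf : (f : ℕ) ≠ 0 := f.pos.ne'
  rw [hq, Nat.cast_pow, orderOf_pow' _ hf, h1, Nat.gcd_eq_right (dvd_mul_left (f : ℕ) e),
    Nat.mul_div_cancel _ (Nat.pos_of_ne_zero hf)]

variable {Φ : Frm F V} {e : ℕ} {y z : V ≃ₗ[F] V} {E : Submodule F V}

theorem invz (h : StE Φ e y E z) : _root_.Cfsg.Agent.H847.Bs.Inv z E := inv_of_mem h.mem h.inv

theorem restr_pow {g : V ≃ₗ[F] V} {D : Submodule F V} (h : _root_.Cfsg.Agent.H847.Bs.Inv g D) (n : ℕ) (x : D) :
    (((restr g h) ^ n) x : V) = (g ^ n) x := by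
  induction n generalizing x with
  | zero => rfl
  | succ n ih =>
    rw [pow_succ, pow_succ]
    show (((restr g h) ^ n) (restr g h x) : V) = (g ^ n) (g x)
    rw [ih, restr_apply]

theorem irr_top_of {g : V ≃ₗ[F] V} {D : Submodule F V} (hg : _root_.Cfsg.Agent.H847.Bs.Inv g D) (hD : D ≠ ⊥)
    (h : ∀ W ≤ D, _root_.Cfsg.Agent.H847.Bs.Inv g W → W = ⊥ ∨ W = D) : Irr (restr g hg) ⊤ := by
  refine ⟨fun _ _ => trivial, ?_, ?_⟩
  · intro h0
    apply hD
    rw [eq_bot_iff]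
    intro x hx
    have h1 : (⟨x, hx⟩ : D) ∈ (⊤ : Submodule F D) := trivial
    rw [h0, Submodule.mem_bot] at h1
    exact congrArg Subtype.val h1
  · intro Y _ hY
    have h1 : _root_.Cfsg.Agent.H847.Bs.Inv g (Y.map D.subtype) := by
      rintro _ ⟨v, hv, rfl⟩
      exact ⟨restr g hg v, hY v hv, rfl⟩
    rcases h (Y.map D.subtype) (Submodule.map_subtype_le _ _) h1 with h2 | h2
    · left
      exact Cfsg.Agent.H440.Bs.eq_bot_of_map h2
    · right
      rw [eq_top_iff]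
      intro v _
      have h3 : (v : V) ∈ Y.map D.subtype := by rw [h2]; exact v.2
      obtain ⟨w, hw, hwv⟩ := h3
      rwa [← Subtype.ext hwv]

theorem ne_bot_of_pos {X : Submodule F V} (h : 0 < finrank F X) : X ≠ ⊥ := by
  rintro rfl
  rw [finrank_bot] at h
  exact lt_irrefl _ h

/-- the order of `z` divides the order of its restriction to the block -/
theorem order_dvd (hN : Φ.Nd) (h : StE Φ e y E z) : orderOf z ∣ orderOf (restr z (invz h)) := by
  rw [orderOf_dvd_iff_pow_eq_one]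
  ext v
  obtain ⟨d, u, rfl⟩ := Cfsg.Agent.H440.Bs.exists_add' (Cfsg.Agent.H440.Bs.dec_perp Φ hN h.nd).compl v
  have h1 : ∀ n : ℕ, (z ^ n) (u : V) = u := by
    intro n
    induction n with
    | zero => rfl
    | succ n ih =>
      rw [pow_succ]
      show (z ^ n) (z u) = u
      rw [h.fix u u.2, ih]
  rw [map_add, h1, ← restr_pow (invz h), pow_orderOf_eq_one]
  rfl

/-- an irreducible isometry of a quadratic space lives in even dimension -/
theorem even_of {Q : QuadraticForm F V} (hN : (frmQ Q).Nd) (he : 2 ≤ e) (hy : y ∈ (frmQ Q).Iso)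
    (h : StE (frmQ Q) e y E z) : Even e := by
  by_contra hodd
  rw [Nat.not_even_iff_odd] at hodd
  have hm1 : orderOf z ≠ 1 := by
    have := h.ord.1
    omega
  obtain ⟨r, hr, hrz⟩ := Nat.exists_prime_and_dvd hm1
  have hE : E ≠ ⊥ := ne_bot_of_pos (by rw [h.dim]; omega)
  have hz : z ∈ (frmQ Q).Iso := (Subgroup.zpowers_le.2 hy) h.mem
  have h1 := Cfsg.Agent.H84.RG.l10 F E e r (restr z (invz h)) he (irr_top_of (invz h) hE h.irr) hr
    (hrz.trans (order_dvd hN h)) (ord_q h.ord hr hrz) (fun a => a) (Or.inl ⟨fun _ => rfl, hodd⟩)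
    (fun x y => (frmQ Q).B x y) (fun x y w => (frmQ Q).add_left _ _ _) (fun x y w => (frmQ Q).add_right _ _ _)
    (fun a x y => (frmQ Q).smul_left _ _ _) (fun a x y => (frmQ Q).smul_right _ _ _)
    (fun x y => hz.1 _ _)
  apply hE
  rw [eq_bot_iff]
  intro x hx
  exact h.nd x hx fun w hw => h1 ⟨x, hx⟩ ⟨w, hw⟩

theorem not_plus {Q : QuadraticForm F V} (he : 3 ≤ e) (hy : y ∈ (frmQ Q).Iso) (h : StE (frmQ Q) e y E z) :
    ¬ PlusT (Q.comp E.subtype) := by
  have hE : E ≠ ⊥ := ne_bot_of_pos (by rw [h.dim]; omega)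
  have hz : z ∈ (frmQ Q).Iso := (Subgroup.zpowers_le.2 hy) h.mem
  have h1 := irr_top_of (invz h) hE h.irr
  refine Cfsg.Agent.H826.Geo.not_plus_of_irr (Cfsg.Agent.H42.Bs.nondeg_comp h.nd) (restr z (invz h))
    (fun Y hY => h1.min Y le_top hY) (c := 1) (fun v => ?_) (by rw [h.dim]; exact he)
  rw [one_mul]
  exact hz.2 v

/-- **isometric blocks** -/
theorem exists_isoE {G : Subgroup (V ≃ₗ[F] V)} {N t : ℕ} (hK : Kl Φ G N t) (he : 3 ≤ e) {y₀ z₀ : V ≃ₗ[F] V}
    {E₀ : Submodule F V} (hy₀ : y₀ ∈ G) (hy : y ∈ G) (h₀ : StE Φ e y₀ E₀ z₀) (h : StE Φ e y E z) :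
    ∃ j : E₀ ≃ₗ[F] E, (∀ x y : E₀, Φ.B (j x) (j y) = Φ.B x y) ∧ ∀ x : E₀, Φ.q (j x) = Φ.q x := by
  have hle := kl_le hK
  have hnd := kl_nd hK
  have hdim : finrank F E₀ = finrank F E := h₀.dim.trans h.dim.symm
  rcases hK with ⟨h1, -, -, -⟩ | ⟨r, h1, -, -, -⟩ | ⟨Q, -, rfl, -, -, -⟩
  · exact Cfsg.Agent.H59.Bs.exists_equiv (Cfsg.Agent.H42.Bs.isSp_on h1 h₀.nd) (Cfsg.Agent.H42.Bs.isSp_on h1 h.nd) hdim
  · obtain ⟨j, hj⟩ := Cfsg.Agent.H881.Bs.exists_isom (Cfsg.Agent.H42.Bs.isHerm_on h1 h₀.nd)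
      (Cfsg.Agent.H42.Bs.isHerm_on h1 h.nd) hdim
    exact ⟨j, hj, fun x => by rw [h1.q, h1.q]⟩
  · obtain ⟨m, hm⟩ := even_of hnd (by omega) (hle hy) h
    obtain ⟨j, hj⟩ := quad_iso (Cfsg.Agent.H42.Bs.nondeg_comp h₀.nd) (Cfsg.Agent.H42.Bs.nondeg_comp h.nd)
      (m := m) (by omega) (by rw [h₀.dim]; omega) (by rw [h.dim]; omega) (not_plus he (hle hy₀) h₀)
      (not_plus he (hle hy) h)
    have hj' : ∀ x : E₀, Q (j x) = Q x := hj
    refine ⟨j, fun x y => ?_, hj'⟩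
    show QuadraticMap.polar Q (j x) (j y) = QuadraticMap.polar Q x y
    have h2 : ((j x : E) : V) + (j y : E) = (j (x + y) : E) := by rw [map_add]; rfl
    rw [QuadraticMap.polar, QuadraticMap.polar, h2, hj', hj', hj']
    rfl

end

end Cfsg.Agent.H541.Ux
end
end

-- part: H262/Rx/UROm_mg
section
prune_inst 0x430000051c0000000000010002004005a00040000400400242104040488042089c2a861a8b0240752a200050035000812000020000001c000200000011c00800000040431000008400090000308210000001800300000000000000000000000200000000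
set_option linter.all false
open scoped Cfsg.Agent.FastGrp

-- part: H262/Rx/UR0
section
/-!
# UR2 for symplectic and unitary groups (helper262)

* `cnt_red` : translation of `Red`;
* `red_kl` : the bound from transitivity on totally isotropic and on nondegenerate subspaces.
-/

set_option autoImplicit false

namespace Cfsg.Agent.H262.Rx

open Module Cfsg.Agent.H847.Bs Cfsg.Agent.H847.Ux
open Cfsg.Agent.H440.Bs (perp mem_perp)
open Cfsg.Agent.H141.Ux (cnt Sca)

variable {F V : Type*} [Field F] [AddCommGroup V] [Module F V]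

/-- the representation -/
def act (G : Subgroup (V ≃ₗ[F] V)) : G →* (V →ₗ[F] V) :=
  (LinearEquiv.automorphismGroup.toLinearMapMonoidHom (R := F) (M := V)).comp G.subtype

theorem act_apply (G : Subgroup (V ≃ₗ[F] V)) (g : G) (v : V) : act G g v = (g : V ≃ₗ[F] V) v := rfl

theorem finite_gl [Finite V] : Finite (V ≃ₗ[F] V) :=
  Finite.of_injective (fun g : V ≃ₗ[F] V => (g : V → V)) DFunLike.coe_injective

theorem cnt_red [Finite V] (G : Subgroup (V ≃ₗ[F] V)) (x : V ≃ₗ[F] V) (hx : x ∈ G) :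
    cnt G (fun y => ¬ IrrG (Subgroup.closure {x, y})) ≤ Nat.card {z : G // Red (act G) ⟨x, hx⟩ z} := by
  have := finite_gl (F := F) (V := V)
  refine Nat.card_le_card_of_injective (fun y => ⟨⟨y.1, y.2.1⟩, ?_⟩) ?_
  · have h := y.2.2
    unfold IrrG at h
    push Not at h
    obtain ⟨W, hW, h0, h1⟩ := h
    refine ⟨W, h0, h1, ?_, ?_⟩
    · rintro _ ⟨v, hv, rfl⟩
      exact hW x (Subgroup.subset_closure (Set.mem_insert _ _)) v hv
    · rintro _ ⟨v, hv, rfl⟩
      exact hW y.1 (Subgroup.subset_closure (Set.mem_insert_of_mem _ rfl)) v hv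
  · intro a b hab
    exact Subtype.ext (congrArg (fun z : {z : G // Red (act G) ⟨x, hx⟩ z} => ((z : G) : V ≃ₗ[F] V)) hab)

theorem kl_nd {Φ : Frm F V} {G : Subgroup (V ≃ₗ[F] V)} {N : ℕ} (h : Kl Φ G N) : Φ.Nd := by
  rcases h with ⟨h, -, -⟩ | ⟨r, h, -, -⟩ | ⟨Q, h, rfl, -, -⟩
  · exact h.nd
  · exact h.nd
  · exact h

theorem lf_inj {Φ : Frm F V} (hN : Φ.Nd) : Function.Injective (lf Φ) := by
  intro a b hab
  have h1 : ∀ x, Φ.B x (a - b) = 0 := by
    intro x
    have h2 : Φ.B x a = Φ.B x b := congrArg (fun f : V →ₗ[F] F => f x) hab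
    have h3 : Φ.B x (a - b) + Φ.B x b = Φ.B x a := by rw [← Φ.add_right, sub_add_cancel]
    rw [h2] at h3
    exact add_eq_right.1 h3
  have h4 : a - b = 0 := hN _ fun y => Φ.refl _ _ (h1 y)
  exact sub_eq_zero.1 h4

/-- functionals are given by vectors -/
theorem exists_lf [Finite F] [Finite V] {Φ : Frm F V} (hN : Φ.Nd) (c : V →ₗ[F] F) : ∃ w, lf Φ w = c := by
  have hfd : FiniteDimensional F V := Module.Finite.of_finite
  have hfin : Finite (V →ₗ[F] F) := DFunLike.finite _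
  have hcard : Nat.card V = Nat.card (V →ₗ[F] F) := by
    have h1 : Nat.card (V →ₗ[F] F) = Nat.card F ^ finrank F (V →ₗ[F] F) := Module.natCard_eq_pow_finrank
    have h2 : Nat.card V = Nat.card F ^ finrank F V := Module.natCard_eq_pow_finrank
    rw [h1, h2, Module.finrank_linearMap, finrank_self, mul_one]
  exact ((Nat.bijective_iff_injective_and_card (lf Φ)).2 ⟨lf_inj hN, hcard⟩).2 c

/-- the cover for forms -/
theorem cover_frm [Finite F] [Finite V] {Φ : Frm F V} (hN : Φ.Nd) {G : Subgroup (V ≃ₗ[F] V)} (hG : G ≤ Φ.Iso) {a b : G}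
    (h : ∃ W : Submodule F V, W ≠ ⊥ ∧ W ≠ ⊤ ∧ W.map (act G a) ≤ W ∧ W.map (act G b) ≤ W) :
    ∃ R : Submodule F V, (R.map (act G a) ≤ R ∧ R.map (act G b) ≤ R) ∧ R ≠ ⊥ ∧ 2 * finrank F R ≤ finrank F V ∧
      (R ≤ perp Φ R ∨ R ⊓ perp Φ R = ⊥) := by
  have hfd : FiniteDimensional F V := Module.Finite.of_finite
  have hfg := finite_gl (F := F) (V := V)
  have horth : ∀ (y : G) (W : Submodule F V), W.map (act G y) ≤ W → (perp Φ W).map (act G y) ≤ perp Φ W := by
    intro y W hW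
    have h1 : W.map (act G y) = W := map_eq_of_le (act G) y hW
    rintro _ ⟨u, hu, rfl⟩ w hw
    rw [← h1] at hw
    obtain ⟨w', hw', rfl⟩ := hw
    rw [act_apply, act_apply, (hG y.2).1]
    exact hu w' hw'
  obtain ⟨W, h0, h1, ha, hb⟩ := h
  refine cover (K := F) (V := V) (perp Φ) (fun W => ?_) (fun W => ?_) (fun A C hAC => ?_)
    (fun R => R.map (act G a) ≤ R ∧ R.map (act G b) ≤ R) (fun W hW => ⟨horth a W hW.1, horth b W hW.2⟩)
    (fun W W' hW hW' => ⟨?_, ?_⟩) (W := W) ⟨ha, hb⟩ h0 h1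
  · have h2 := Cfsg.Agent.H440.Bs.finrank_perp Φ hN W
    omega
  · intro x hx y hy
    exact Φ.refl _ _ (hy x hx)
  · intro x hx y hy
    exact hx y (hAC hy)
  · exact (Submodule.map_inf_le _).trans (inf_le_inf hW.1 hW'.1)
  · exact (Submodule.map_inf_le _).trans (inf_le_inf hW.2 hW'.2)

/-- **the bound from transitivity on subspaces** -/
theorem red_kl [Finite F] [Finite V] {Φ : Frm F V} {G : Subgroup (V ≃ₗ[F] V)} {N t : ℕ} (h : Kl Φ G N) (hG : G ≤ Φ.Iso)
    (hNt : N * t = Nat.card F) (ht : 4 ≤ t) (hn : 8 ≤ finrank F V)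
    (hti : ∀ k, 1 ≤ k → 2 * k ≤ finrank F V → ∀ W W' : Submodule F V, (∀ x ∈ W, ∀ y ∈ W, Φ.B x y = 0) →
      (∀ x ∈ W', ∀ y ∈ W', Φ.B x y = 0) → finrank F W = k → finrank F W' = k →
      ∃ g ∈ G, W.map (g : V →ₗ[F] V) = W')
    (hnd : ∀ k, 1 ≤ k → 2 * k ≤ finrank F V → ∀ W W' : Submodule F V, Φ.NdOn W → Φ.NdOn W' → finrank F W = k →
      finrank F W' = k → ∃ g ∈ G, W.map (g : V →ₗ[F] V) = W')
    (x : V ≃ₗ[F] V) (hx : x ∈ G) (hxs : ¬ Sca x) :
    (cnt G (fun y => ¬ IrrG (Subgroup.closure {x, y})) : ℝ) * t ≤ 1224 * Nat.card G := by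
  classical
  have hfd : FiniteDimensional F V := Module.Finite.of_finite
  have hfg := finite_gl (F := F) (V := V)
  have hN0 : 0 < N := by
    rcases Nat.eq_zero_or_pos N with h0 | h0
    · rw [h0, zero_mul] at hNt
      exact absurd hNt.symm (Nat.card_pos (α := F)).ne'
    · exact h0
  have hNF : N ≤ Nat.card F := by rw [← hNt]; exact Nat.le_mul_of_pos_right _ (by omega)
  have htF : t ≤ Nat.card F := by rw [← hNt]; exact Nat.le_mul_of_pos_left _ hN0
  have hF0 : 0 < Nat.card F := Nat.card_pos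
  have hV : Nat.card V = Nat.card F ^ finrank F V := Module.natCard_eq_pow_finrank
  -- one vector
  have h1 : ∀ v : V, v ≠ 0 → Nat.card F ^ (finrank F V - 1) ≤ 2 * Nat.card (Set.range fun y : G => act G y v) := by
    intro v hv
    have e1 := n4' h (by omega) hv
    have e2 : Nat.card {p : V // ∃ g ∈ G, p = g v} = Nat.card (Set.range fun y : G => act G y v) := by
      refine Nat.card_congr (Equiv.subtypeEquivRight fun p => ⟨?_, ?_⟩)
      · rintro ⟨g, hg, rfl⟩
        exact ⟨⟨g, hg⟩, rfl⟩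
      · rintro ⟨g, rfl⟩
        exact ⟨g.1, g.2, rfl⟩
    rw [e2, hV] at e1
    refine Nat.le_of_mul_le_mul_left ?_ hF0
    calc Nat.card F * Nat.card F ^ (finrank F V - 1) = Nat.card F ^ finrank F V := by
          rw [← pow_succ']; congr 1; omega
      _ ≤ 2 * N * Nat.card (Set.range fun y : G => act G y v) := e1
      _ ≤ 2 * Nat.card F * Nat.card (Set.range fun y : G => act G y v) :=
          Nat.mul_le_mul_right _ (Nat.mul_le_mul_left _ hNF)
      _ = _ := by ring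
  -- the stabiliser of a vector
  have h2 : ∀ v u : V, v ≠ 0 → (¬ ∃ l : F, u = l • v) → Nat.card F ^ (finrank F V - 2) ≤ 2 * Nat.card (sOrb (act G) v u) := by
    intro v u hv hu
    have hu' : u ∉ Submodule.span F {v} := fun h0 => by
      obtain ⟨l, hl⟩ := Submodule.mem_span_singleton.1 h0
      exact hu ⟨l, hl.symm⟩
    obtain ⟨e, he, hee, heq, hev⟩ := exists_iso h (k := 1) (by omega) ![v]
    have hr : Set.range ![v] = {v} := by simp
    rw [hr] at he
    have hev0 : Φ.B e v = 0 := hev 0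
    have e1 := many2 h (p := v) (e := e) hv he hev0 hee heq u (Φ.B u v)
    have e2 : Nat.card {x : V // (Φ.B x v = Φ.B u v ∧ Φ.B x e ≠ 0) ∧ Φ.B x x = Φ.B u u ∧ Φ.q x = Φ.q u} ≤
        Nat.card (sOrb (act G) v u) := by
      refine Nat.card_mono (Set.toFinite _) ?_
      rintro p ⟨⟨hp1, hp2⟩, hp3, hp4⟩
      have hli : LinearIndependent F ![v, p] := by
        rw [LinearIndependent.pair_iff' hv]
        intro a ha
        apply hp2
        rw [← ha, Φ.smul_left, Φ.refl _ _ hev0, mul_zero]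
      have hli' : LinearIndependent F ![v, u] := by
        rw [LinearIndependent.pair_iff' hv]
        intro a ha
        exact hu ⟨a, ha.symm⟩
      obtain ⟨g, hg, h1, h2⟩ := n3 h (by omega) hli' hli rfl (h.swap hp1.symm) hp1.symm hp3.symm rfl hp4.symm
      exact ⟨⟨g, hg⟩, h1, h2⟩
    rw [hV] at e1
    refine Nat.le_of_mul_le_mul_left ?_ (Nat.mul_pos hF0 hF0)
    calc Nat.card F * Nat.card F * Nat.card F ^ (finrank F V - 2) = Nat.card F ^ finrank F V := by
          rw [← pow_two, ← pow_add]; congr 1; omega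
      _ ≤ _ := e1
      _ ≤ 2 * N * Nat.card F * Nat.card (sOrb (act G) v u) := Nat.mul_le_mul_left _ e2
      _ ≤ 2 * Nat.card F * Nat.card F * Nat.card (sOrb (act G) v u) :=
          Nat.mul_le_mul_right _ (Nat.mul_le_mul_right _ (Nat.mul_le_mul_left _ hNF))
      _ = _ := by ring
  have hF0' : (0 : ℝ) < Nat.card F := by exact_mod_cast hF0
  have hN0' : (0 : ℝ) < N := by exact_mod_cast hN0
  have ht0' : (0 : ℝ) < t := by exact_mod_cast (by omega : 0 < t)
  -- functionals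
  have h3 : ∀ k, 1 ≤ k → 2 * k ≤ finrank F V → ∀ W : Submodule F V, finrank F W = k → ∀ c : V →ₗ[F] F, c ≠ 0 →
      (Nat.card {y : G // W.map (act G y) ≤ LinearMap.ker c} : ℝ) ≤
        ((2 : ℝ) / (t : ℝ) ^ k + 2 * (Nat.card F : ℝ) ^ (finrank F V / 2 + 2) / (Nat.card F : ℝ) ^ finrank F V) *
          Nat.card G := by
    intro k hk1 hk2 W hW c hc
    obtain ⟨w, rfl⟩ := exists_lf (kl_nd h) c
    have hw : w ≠ 0 := by
      rintro rfl
      apply hc
      ext x
      exact Φ.refl _ _ (Cfsg.Agent.H42.Bs.B_zero_left x)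
    have e1 := n4' h (by omega) hw
    have e2 : Nat.card {p : V // ∃ g ∈ G, p = g w} ≤ Nat.card (Set.range fun y : G => lf Φ w ∘ₗ act G y) := by
      have hfin : Finite (V →ₗ[F] F) := DFunLike.finite _
      refine Nat.card_le_card_of_injective (fun p => ⟨lf Φ p.1, ?_⟩) ?_
      · obtain ⟨g, hg, hp⟩ := p.2
        refine ⟨⟨g⁻¹, G.inv_mem hg⟩, ?_⟩
        ext v
        show Φ.B ((g⁻¹ : V ≃ₗ[F] V) v) w = Φ.B v p.1
        rw [hp, ← (hG hg).1]
        congr 1
        exact g.apply_symm_apply v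
      · intro a b hab
        exact Subtype.ext (lf_inj (kl_nd h) (congrArg Subtype.val hab))
    have e3 : (Nat.card F : ℝ) ^ finrank F V / (2 * N) ≤ (Nat.card (Set.range fun y : G => lf Φ w ∘ₗ act G y) : ℝ) := by
      rw [div_le_iff₀ (by positivity)]
      rw [hV] at e1
      have e4 := e1.trans (Nat.mul_le_mul_left _ e2)
      have e5 : (Nat.card F : ℝ) ^ finrank F V ≤ 2 * N * (Nat.card (Set.range fun y : G => lf Φ w ∘ₗ act G y) : ℝ) := by
        exact_mod_cast e4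
      linarith only [e5]
    refine (three_of_orb (act G) W (lf Φ w) (by (clear * - hN0 hF0; positivity)) e3).trans
      (mul_le_mul_of_nonneg_right ?_ (Nat.cast_nonneg _))
    have e6 : (0 : ℝ) ≤ 2 * (Nat.card F : ℝ) ^ (finrank F V / 2 + 2) / (Nat.card F : ℝ) ^ finrank F V := by positivity
    have e7 : (Nat.card F : ℝ) ^ (finrank F V - finrank F W) / ((Nat.card F : ℝ) ^ finrank F V / (2 * N)) =
        2 * N / (Nat.card F : ℝ) ^ k := by
      have e8 : (Nat.card F : ℝ) ^ finrank F V = (Nat.card F : ℝ) ^ (finrank F V - k) * (Nat.card F : ℝ) ^ k := by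
        rw [← pow_add]; congr 1; omega
      rw [hW, e8]
      field_simp
    have e9 : (2 : ℝ) * N / (Nat.card F : ℝ) ^ k ≤ 2 / (t : ℝ) ^ k := by
      rw [div_le_div_iff₀ (by positivity) (by positivity)]
      have e10 : (Nat.card F : ℝ) = N * t := by exact_mod_cast hNt.symm
      rw [e10, mul_pow]
      have e11 : (N : ℝ) ≤ (N : ℝ) ^ k := le_self_pow₀ (by exact_mod_cast hN0) (by omega)
      have e12 : (0 : ℝ) < (t : ℝ) ^ k := by positivity
      nlinarith only [e11, e12]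
    rw [e7]
    linarith only [e6, e9]
  -- the final form
  have key := red_of_kinds (act G) (MonoidHom.id G) Function.injective_id (m := 1) (by rw [one_mul]) hn (q := (t : ℝ))
    (C1 := 2) (by exact_mod_cast ht) (by exact_mod_cast htF) (by norm_num) (fun _ => Bool)
    (fun _ b W => if b = true then (∀ x ∈ W, ∀ y ∈ W, Φ.B x y = 0) else Φ.NdOn W)
    (fun k hk => by
      have e1 : (1 : ℝ) ≤ ((t : ℝ) / 2) ^ (k - 1) := one_le_pow₀ (by
        have : (4 : ℝ) ≤ t := by exact_mod_cast ht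
        linarith only [this])
      have e2 : (Fintype.card Bool : ℝ) = 2 := by rw [Fintype.card_bool]; norm_num
      rw [e2]
      linarith only [e1])
    (fun k hk => by
      have e1 : (1 : ℝ) ≤ 2 ^ k := one_le_pow₀ (by norm_num)
      have e2 : (Fintype.card Bool : ℝ) = 2 := by rw [Fintype.card_bool]; norm_num
      have e3 : (4 : ℝ) ≤ Nat.card F := by exact_mod_cast ht.trans htF
      rw [e2]
      nlinarith only [e1, e3])
    (fun k hk1 hk2 j W W' hW hW' hd hd' => by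
      cases j with
      | true =>
        simp only [if_true] at hW hW'
        obtain ⟨g, hg, e⟩ := hti k hk1 hk2 W W' hW hW' hd hd'
        exact ⟨⟨g, hg⟩, e⟩
      | false =>
        simp only [Bool.false_eq_true, if_false] at hW hW'
        obtain ⟨g, hg, e⟩ := hnd k hk1 hk2 W W' hW hW' hd hd'
        exact ⟨⟨g, hg⟩, e⟩)
    h1 h2 (fun k hk1 hk2 j W _ hd c hc => h3 k hk1 hk2 W hd c hc) ⟨x, hx⟩ hxs
    (fun z hz => by
      obtain ⟨R, hR, h0, hd, h4⟩ := cover_frm (kl_nd h) hG (a := ⟨x, hx⟩) (b := z) hz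
      refine ⟨finrank F R, ?_, hd, ?_⟩
      · rw [Nat.one_le_iff_ne_zero, Ne, Submodule.finrank_eq_zero]
        exact h0
      rcases h4 with h4 | h4
      · exact ⟨true, R, rfl, by simpa only [↓ _root_.reduceIte] using fun x hx y hy => h4 hx y hy, hR.1, hR.2⟩
      · refine ⟨false, R, rfl, ?_, hR.1, hR.2⟩
        simp only [Bool.false_eq_true, if_false]
        intro x hx hx'
        have : x ∈ R ⊓ perp Φ R := ⟨hx, hx'⟩
        rw [h4] at this
        exact this)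
  have e1 : (cnt G (fun y => ¬ IrrG (Subgroup.closure {x, y})) : ℝ) ≤
      (Nat.card {z : G // Red ((act G).comp (MonoidHom.id G)) ⟨x, hx⟩ z} : ℝ) := by
    exact_mod_cast cnt_red G x hx
  have e2 := e1.trans key
  have e3 : (1 : ℝ) * ((12 * 2 + 1200) / (t : ℝ)) * Nat.card G = 1224 * Nat.card G / t := by ring
  rw [e3, le_div_iff₀ ht0'] at e2
  exact e2

end Cfsg.Agent.H262.Rx
end

-- part: H262/Rx/URO
section
/-!
# The orthogonal case of UR2 (helper262)

* `om_three` : images of a subspace in a hyperplane;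
* `Kind` : kinds of subspaces, `iso_of_kind` : subspaces of the same kind are isometric;
* `om_cover` : invariant subspaces of a kind.
-/

set_option autoImplicit false

namespace Cfsg.Agent.H262.Rx

open Module QuadraticMap Cfsg.Agent.H847.Bs Cfsg.Agent.H847.Ux Cfsg.Agent.LieClassical.OrthCore
open Cfsg.Agent.H440.Bs (perp mem_perp)
open Cfsg.Agent.H141.Ux (cnt Sca)

section three

variable {F V : Type*} [Field F] [AddCommGroup V] [Module F V] {Q : QuadraticForm F V}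

theorem O_le_iso : O Q ≤ (frmQ Q).Iso := by
  intro g hg
  exact ⟨fun x y => polar_map hg x y, fun x => mem_O.1 hg x⟩

/-- the number of vectors of a given norm in `W^⊥` -/
theorem card_perp_norm [Finite F] [Finite V] (hQ : (frmQ Q).Nd) (W : Submodule F V) {k : ℕ} (hk : finrank F W = k)
    (hk2 : 2 * k ≤ finrank F V) (a : F) :
    Nat.card F * Nat.card {u : V // u ∈ perp (frmQ Q) W ∧ Q u = a} ≤
      2 * Nat.card F ^ (finrank F V - k) + Nat.card F ^ (finrank F V / 2 + 1) := by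
  have hfd : FiniteDimensional F V := Module.Finite.of_finite
  have hd := Cfsg.Agent.H440.Bs.finrank_perp (frmQ Q) hQ W
  have hcard : Nat.card (perp (frmQ Q) W) = Nat.card F ^ (finrank F V - k) := by
    have h1 : Nat.card (perp (frmQ Q) W) = Nat.card F ^ finrank F (perp (frmQ Q) W) := Module.natCard_eq_pow_finrank
    rw [h1]
    congr 1
    omega
  by_cases h : ∃ ρ ∈ perp (frmQ Q) W, Q ρ ≠ 0
  · obtain ⟨ρ, hρ, hρ0⟩ := h
    have h1 := n2q (Φ := frmQ Q) (G := E Q) (N := Nat.card F) (Or.inr (Or.inr ⟨Q, hQ, rfl, rfl, rfl⟩))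
      (perp (frmQ Q) W) hρ (Or.inr (Or.inr hρ0)) 0 (2 * a) a
    rw [hcard] at h1
    refine le_trans (Nat.mul_le_mul_left _ (Nat.card_mono (Set.toFinite _) ?_)) (h1.trans (Nat.le_add_right _ _))
    rintro u ⟨hu, hua⟩
    refine ⟨by rw [sub_zero]; exact hu, ?_, hua⟩
    show polar Q u u = 2 * a
    rw [polar_self_eq, hua]
  · push Not at h
    have h2 : (frmQ Q).TI (perp (frmQ Q) W) := Cfsg.Agent.H59.Bs.ti_iff.2 h
    have h3 := Cfsg.Agent.H440.Bs.two_mul_finrank_le (frmQ Q) hQ h2.1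
    have h4 : Nat.card {u : V // u ∈ perp (frmQ Q) W ∧ Q u = a} ≤ Nat.card (perp (frmQ Q) W) :=
      Nat.card_mono (Set.toFinite _) fun u hu => hu.1
    rw [hcard] at h4
    have hF0 : 0 < Nat.card F := Nat.card_pos
    calc Nat.card F * Nat.card {u : V // u ∈ perp (frmQ Q) W ∧ Q u = a} ≤
        Nat.card F * Nat.card F ^ (finrank F V - k) := Nat.mul_le_mul_left _ h4
      _ = Nat.card F ^ (finrank F V - k + 1) := by rw [pow_succ, mul_comm]
      _ ≤ Nat.card F ^ (finrank F V / 2 + 1) := Nat.pow_le_pow_right hF0 (by (clear * - hk hd h3; omega))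
      _ ≤ _ := Nat.le_add_left _ _

/-- **hypothesis (3)** -/
theorem om_three [Finite F] [Finite V] (hQ : (frmQ Q).Nd) (h5 : 5 ≤ finrank F V) (W : Submodule F V) {k : ℕ}
    (hk : finrank F W = k) (hk2 : 2 * k ≤ finrank F V) (c : V →ₗ[F] F) (hc : c ≠ 0) :
    (Nat.card {y : O Q // W.map (act (O Q) y) ≤ LinearMap.ker c} : ℝ) ≤
      ((4 : ℝ) / (Nat.card F : ℝ) ^ k + 2 * (Nat.card F : ℝ) ^ (finrank F V / 2 + 2) / (Nat.card F : ℝ) ^ finrank F V) *
        Nat.card (O Q) := by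
  classical
  have hfd : FiniteDimensional F V := Module.Finite.of_finite
  have hfg := finite_gl (F := F) (V := V)
  have hfin : Finite (V →ₗ[F] F) := DFunLike.finite _
  obtain ⟨w, rfl⟩ := exists_lf hQ c
  have hw : w ≠ 0 := by
    rintro rfl
    apply hc
    ext x
    exact (frmQ Q).refl _ _ (Cfsg.Agent.H42.Bs.B_zero_left x)
  have hK : Kl (frmQ Q) (E Q) (Nat.card F) := Or.inr (Or.inr ⟨Q, hQ, rfl, rfl, rfl⟩)
  have e1 := n4' hK h5 hw
  have hV : Nat.card V = Nat.card F ^ finrank F V := Module.natCard_eq_pow_finrank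
  rw [hV] at e1
  have e2 : Nat.card {p : V // ∃ g ∈ E Q, p = g w} ≤ Nat.card (Set.range fun y : O Q => lf (frmQ Q) w ∘ₗ act (O Q) y) := by
    refine Nat.card_le_card_of_injective (fun p => ⟨lf (frmQ Q) p.1, ?_⟩) ?_
    · obtain ⟨g, hg, hp⟩ := p.2
      refine ⟨⟨g⁻¹, (O Q).inv_mem (E_le_O hg)⟩, ?_⟩
      ext v
      show (frmQ Q).B ((g⁻¹ : V ≃ₗ[F] V) v) w = (frmQ Q).B v p.1
      rw [hp, ← (O_le_iso (E_le_O hg)).1]
      congr 1
      exact g.apply_symm_apply v
    · intro a b hab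
      exact Subtype.ext (lf_inj hQ (congrArg Subtype.val hab))
  have e3 := card_ker_le (act (O Q)) W (lf (frmQ Q) w)
  have e4 : Nat.card {d : V →ₗ[F] F // (∃ y, d = lf (frmQ Q) w ∘ₗ act (O Q) y) ∧ W ≤ LinearMap.ker d} ≤
      Nat.card {u : V // u ∈ perp (frmQ Q) W ∧ Q u = Q w} := by
    have key : ∀ d : {d : V →ₗ[F] F // (∃ y, d = lf (frmQ Q) w ∘ₗ act (O Q) y) ∧ W ≤ LinearMap.ker d},
        ∃ u : V, (u ∈ perp (frmQ Q) W ∧ Q u = Q w) ∧ lf (frmQ Q) u = d.1 := by
      rintro ⟨_, ⟨y, rfl⟩, hW⟩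
      have hy : ∀ v, (y : V ≃ₗ[F] V) ((y⁻¹ : V ≃ₗ[F] V) v) = v := fun v => (y : V ≃ₗ[F] V).apply_symm_apply v
      have hlf : lf (frmQ Q) ((y⁻¹ : V ≃ₗ[F] V) w) = lf (frmQ Q) w ∘ₗ act (O Q) y := by
        ext v
        show (frmQ Q).B v ((y⁻¹ : V ≃ₗ[F] V) w) = (frmQ Q).B ((y : V ≃ₗ[F] V) v) w
        rw [← (O_le_iso y.2).1 v, hy]
      refine ⟨(y⁻¹ : V ≃ₗ[F] V) w, ⟨?_, ?_⟩, hlf⟩
      · intro x hx
        refine (frmQ Q).refl _ _ ?_
        have h1 := hW hx
        rw [← hlf, LinearMap.mem_ker] at h1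
        exact h1
      · rw [← mem_O.1 y.2, hy]
    choose f hf1 hf2 using key
    refine Nat.card_le_card_of_injective (fun d => ⟨f d, hf1 d⟩) fun a b hab => ?_
    have h1 : f a = f b := congrArg Subtype.val hab
    exact Subtype.ext (by rw [← hf2 a, ← hf2 b, h1])
  have e5 := card_perp_norm hQ W hk hk2 (Q w)
  set q : ℝ := (Nat.card F : ℝ) with hq
  have hq0 : 0 < q := by
    have : 0 < Nat.card F := Nat.card_pos
    rw [hq]
    exact_mod_cast this
  set A : ℝ := (Nat.card {y : O Q // W.map (act (O Q) y) ≤ LinearMap.ker (lf (frmQ Q) w)} : ℝ) with hA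
  set R : ℝ := (Nat.card (Set.range fun y : O Q => lf (frmQ Q) w ∘ₗ act (O Q) y) : ℝ) with hR
  set U : ℝ := (Nat.card {u : V // u ∈ perp (frmQ Q) W ∧ Q u = Q w} : ℝ) with hU
  set o : ℝ := (Nat.card (O Q) : ℝ) with ho
  have g1 : q ^ finrank F V ≤ 2 * q * R := by
    have := e1.trans (Nat.mul_le_mul_left _ e2)
    rw [hq, hR]
    exact_mod_cast this
  have g2 : A * R ≤ U * o := by
    have := e3.trans (Nat.mul_le_mul_right _ e4)
    rw [hA, hR, hU, ho]
    exact_mod_cast this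
  have g3 : q * U ≤ 2 * q ^ (finrank F V - k) + q ^ (finrank F V / 2 + 1) := by
    rw [hq, hU]
    exact_mod_cast e5
  have hA0 : 0 ≤ A := Nat.cast_nonneg _
  have ho0 : 0 ≤ o := Nat.cast_nonneg _
  have hqn : 0 < q ^ finrank F V := by (clear * - hq0; positivity)
  have g4 : A * q ^ finrank F V ≤ (4 * q ^ (finrank F V - k) + 2 * q ^ (finrank F V / 2 + 1)) * o := by
    calc A * q ^ finrank F V ≤ A * (2 * q * R) := mul_le_mul_of_nonneg_left g1 hA0
      _ = 2 * q * (A * R) := by ring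
      _ ≤ 2 * q * (U * o) := mul_le_mul_of_nonneg_left g2 (by (clear * -; positivity))
      _ = 2 * (q * U) * o := by ring
      _ ≤ 2 * (2 * q ^ (finrank F V - k) + q ^ (finrank F V / 2 + 1)) * o := by
        refine mul_le_mul_of_nonneg_right ?_ ho0
        linarith only [g3]
      _ = _ := by ring
  have g5 : q ^ finrank F V = q ^ (finrank F V - k) * q ^ k := by
    rw [← pow_add]; congr 1; omega
  have g6 : (4 : ℝ) / q ^ k + 2 * q ^ (finrank F V / 2 + 2) / q ^ finrank F V =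
      (4 * q ^ (finrank F V - k) + 2 * q ^ (finrank F V / 2 + 2)) / q ^ finrank F V := by
    rw [add_div]
    congr 1
    rw [g5]
    field_simp
  rw [g6, div_mul_eq_mul_div, le_div_iff₀ hqn]
  refine g4.trans (mul_le_mul_of_nonneg_right ?_ ho0)
  have h1q : 1 ≤ q := by
    rw [hq]
    exact_mod_cast (Nat.card_pos (α := F) : 1 ≤ Nat.card F)
  have g7 : q ^ (finrank F V / 2 + 1) ≤ q ^ (finrank F V / 2 + 2) := pow_le_pow_right₀ h1q (by omega)
  linarith only [g7]

end three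

end Cfsg.Agent.H262.Rx
end

-- part: H262/Rx/URK
section
/-!
# Kinds of subspaces of a quadratic space (helper262)
-/

set_option autoImplicit false

namespace Cfsg.Agent.H262.Rx

open Module QuadraticMap Cfsg.Agent.H847.Bs Cfsg.Agent.H847.Ux Cfsg.Agent.LieClassical.OrthCore
open Cfsg.Agent.H440.Bs (perp mem_perp)
open Cfsg.Agent.H141.Ux (cnt Sca)

variable {F V : Type} [Field F] [AddCommGroup V] [Module F V] {Q : QuadraticForm F V}

open Classical in
/-- the first type of nondegenerate subspaces: plus type, or an orthonormal basis -/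
def TyA (Q : QuadraticForm F V) (W : Submodule F V) : Prop :=
  if Even (finrank F W) then PlusT (Q.comp W.subtype)
  else ∃ b : Basis (Fin (finrank F W)) F W, (∀ i j, i ≠ j → polar Q (b i) (b j) = 0) ∧ ∀ i, polar Q (b i) (b i) = 1

/-- kinds: totally singular, nondegenerate of the two types, nonsingular lines in characteristic two -/
def Kd (Q : QuadraticForm F V) (j : Fin 4) (W : Submodule F V) : Prop :=
  (j = 0 → ∀ x ∈ W, Q x = 0) ∧ (j = 1 → (frmQ Q).NdOn W ∧ TyA Q W) ∧ (j = 2 → (frmQ Q).NdOn W ∧ ¬ TyA Q W) ∧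
  (j = 3 → (2 : F) = 0 ∧ finrank F W = 1 ∧ ∀ x ∈ W, x ≠ 0 → Q x ≠ 0)

theorem nondeg_comp {W : Submodule F V} (h : (frmQ Q).NdOn W) : Nondeg (Q.comp W.subtype) :=
  fun x hx => Subtype.ext (h x x.2 fun y hy => hx ⟨y, hy⟩)

/-- nondegenerate subspaces of odd dimension: odd characteristic -/
theorem two_ne_of_odd [FiniteDimensional F V] {W : Submodule F V} (h : (frmQ Q).NdOn W) (ho : ¬ Even (finrank F W)) :
    (2 : F) ≠ 0 := by
  intro h2
  apply ho
  let B : LinearMap.BilinForm F W := polarBilin (Q.comp W.subtype)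
  have hA : B.IsAlt := fun x => by
    show polar Q (x : V) (x : V) = 0
    rw [polar_self_eq, h2, zero_mul]
  obtain ⟨m, k, b, -, -, -, h4⟩ := Cfsg.Agent.S0752.result B hA
  have hk : k = 0 := by
    by_contra hk
    have h5 : (b (Sum.inr ⟨0, Nat.pos_of_ne_zero hk⟩) : V) = 0 :=
      h _ (Subtype.property _) fun y hy => h4 ⟨0, Nat.pos_of_ne_zero hk⟩ ⟨y, hy⟩
    exact b.ne_zero _ (Subtype.ext h5)
  subst hk
  have := finrank_eq_card_basis b
  rw [Fintype.card_sum, Fintype.card_sum, Fintype.card_fin, Fintype.card_fin] at this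
  exact ⟨m, by omega⟩

/-- isometry from bases with the same Gram matrix, odd characteristic -/
theorem iso_of_gram (h2 : (2 : F) ≠ 0) {ι : Type} [Fintype ι] {W W' : Submodule F V} (b : Basis ι F W) (b' : Basis ι F W')
    (h : ∀ i j, polar Q (b i) (b j) = polar Q (b' i) (b' j)) : ∃ e : W ≃ₗ[F] W', ∀ x, Q (e x) = Q x := by
  let e := b.equiv b' (Equiv.refl ι)
  let B1 : LinearMap.BilinForm F W := polarBilin (Q.comp W.subtype)
  let B2 : LinearMap.BilinForm F W := (polarBilin (Q.comp W'.subtype)).compl₁₂ e.toLinearMap e.toLinearMap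
  have hE : B2 = B1 := by
    refine LinearMap.BilinForm.ext_basis b fun i j => ?_
    show polar Q (e (b i) : V) (e (b j) : V) = polar Q (b i : V) (b j : V)
    rw [Basis.equiv_apply, Basis.equiv_apply, Equiv.refl_apply, Equiv.refl_apply, h]
  refine ⟨e, fun x => ?_⟩
  have h3 : polar Q (e x : V) (e x : V) = polar Q (x : V) (x : V) :=
    congrArg (fun C : LinearMap.BilinForm F W => C x x) hE
  rw [polar_self_eq, polar_self_eq] at h3
  exact mul_left_cancel₀ h2 h3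

/-- a basis of the second type -/
theorem exists_basis_b [Finite F] [FiniteDimensional F V] {W : Submodule F V} (h : (frmQ Q).NdOn W)
    (ho : ¬ Even (finrank F W)) (hT : ¬ TyA Q W) {α : F} (hα : ¬ IsSquare α) {n : ℕ} (hn : finrank F W = n + 1) :
    ∃ b : Basis (Fin (n + 1)) F W, (∀ i j, i ≠ j → polar Q (b i) (b j) = 0) ∧
      (∀ i, i ≠ Fin.last n → polar Q (b i) (b i) = 1) ∧ polar Q (b (Fin.last n)) (b (Fin.last n)) = α := by
  have h2 := two_ne_of_odd h ho
  have hnd := nondeg_comp h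
  obtain ⟨b, h1, h3, h4⟩ := Cfsg.Agent.S0756.result h2 (polarBilin (Q.comp W.subtype))
    ⟨fun x y => polar_comm _ _ _⟩ ⟨fun x hx => hnd x hx, fun x hx => hnd x fun y => by
      rw [polar_comm]; exact hx y⟩ hn α hα
  refine ⟨b, h1, h3, h4.resolve_left fun h5 => hT ?_⟩
  rw [TyA, if_neg ho]
  refine ⟨b.reindex (finCongr hn.symm), fun i j hij => ?_, fun i => ?_⟩
  · rw [Basis.reindex_apply, Basis.reindex_apply]
    exact h1 _ _ fun h6 => hij ((finCongr hn.symm).symm.injective h6)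
  · rw [Basis.reindex_apply]
    by_cases h6 : (finCongr hn.symm).symm i = Fin.last n
    · rw [h6]; exact h5
    · exact h3 _ h6

/-- **subspaces of the same kind are isometric** -/
theorem iso_of_kind [Finite F] [FiniteDimensional F V] {j : Fin 4} {W W' : Submodule F V} (hW : Kd Q j W)
    (hW' : Kd Q j W') (hd : finrank F W = finrank F W') (h1 : 1 ≤ finrank F W) :
    ∃ e : W ≃ₗ[F] W', ∀ x, Q (e x) = Q x := by
  fin_cases j
  · obtain ⟨e⟩ : Nonempty (W ≃ₗ[F] W') := ⟨LinearEquiv.ofFinrankEq _ _ hd⟩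
    exact ⟨e, fun x => by rw [hW.1 rfl _ x.2, hW'.1 rfl _ (e x).2]⟩
  · obtain ⟨hn, hT⟩ := hW.2.1 rfl
    obtain ⟨hn', hT'⟩ := hW'.2.1 rfl
    by_cases he : Even (finrank F W)
    · have he' : Even (finrank F W') := hd ▸ he
      rw [TyA, if_pos he] at hT
      rw [TyA, if_pos he'] at hT'
      obtain ⟨m, hm⟩ := he
      obtain ⟨e, hq⟩ := Cfsg.Agent.H59.Bs.exists_iso_of_plus m (nondeg_comp hn) hT (by omega)
      obtain ⟨e', hq'⟩ := Cfsg.Agent.H59.Bs.exists_iso_of_plus m (nondeg_comp hn') hT' (by omega)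
      refine ⟨e.symm.trans e', fun x => ?_⟩
      have h3 := hq (e.symm x)
      have h4 := hq' (e.symm x)
      rw [e.apply_symm_apply] at h3
      show Q (e' (e.symm x) : V) = Q (x : V)
      exact h4.trans h3.symm
    · have he' : ¬ Even (finrank F W') := hd ▸ he
      have h2 := two_ne_of_odd hn he
      rw [TyA, if_neg he] at hT
      rw [TyA, if_neg he'] at hT'
      obtain ⟨b, hb1, hb2⟩ := hT
      obtain ⟨b', hb1', hb2'⟩ := hT'
      refine iso_of_gram h2 b (b'.reindex (finCongr hd.symm)) fun i l => ?_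
      rw [Basis.reindex_apply, Basis.reindex_apply]
      by_cases hil : i = l
      · subst hil
        rw [hb2, hb2']
      · rw [hb1 _ _ hil, hb1' _ _ fun h6 => hil ((finCongr hd.symm).symm.injective h6)]
  · obtain ⟨hn, hT⟩ := hW.2.2.1 rfl
    obtain ⟨hn', hT'⟩ := hW'.2.2.1 rfl
    by_cases he : Even (finrank F W)
    · have he' : Even (finrank F W') := hd ▸ he
      rw [TyA, if_pos he] at hT
      rw [TyA, if_pos he'] at hT'
      obtain ⟨m, hm⟩ := he
      exact Cfsg.Agent.H541.Ux.quad_iso (m := m) (nondeg_comp hn) (nondeg_comp hn') (by omega) (by omega) (by omega) hT hT'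
    · have he' : ¬ Even (finrank F W') := hd ▸ he
      have h2 := two_ne_of_odd hn he
      obtain ⟨n, hn1⟩ : ∃ n, finrank F W = n + 1 := ⟨finrank F W - 1, by omega⟩
      obtain ⟨α, hα⟩ := FiniteField.exists_nonsquare (F := F) (by
        intro h3
        have h4 := CharP.cast_eq_zero F (ringChar F)
        rw [h3] at h4
        exact h2 (by exact_mod_cast h4))
      obtain ⟨b, hb1, hb2, hb3⟩ := exists_basis_b hn he hT hα hn1
      obtain ⟨b', hb1', hb2', hb3'⟩ := exists_basis_b hn' he' hT' hα (hd ▸ hn1)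
      refine iso_of_gram h2 b b' fun i l => ?_
      by_cases hil : i = l
      · subst hil
        by_cases hi : i = Fin.last n
        · subst hi; rw [hb3, hb3']
        · rw [hb2 _ hi, hb2' _ hi]
      · rw [hb1 _ _ hil, hb1' _ _ hil]
  · obtain ⟨h2, hd1, hq⟩ := hW.2.2.2 rfl
    obtain ⟨-, hd1', hq'⟩ := hW'.2.2.2 rfl
    have := Fintype.ofFinite F
    obtain ⟨v, hv0, hv⟩ := finrank_eq_one_iff'.1 hd1
    obtain ⟨v', hv0', hv'⟩ := finrank_eq_one_iff'.1 hd1'
    have hQv : Q (v : V) ≠ 0 := hq v v.2 fun h => hv0 (Subtype.ext h)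
    have hQv' : Q (v' : V) ≠ 0 := hq' v' v'.2 fun h => hv0' (Subtype.ext h)
    have hchar : ringChar F = 2 := by
      have : CharP F 2 := CharTwo.of_one_ne_zero_of_two_eq_zero one_ne_zero h2
      exact ringChar.eq F 2
    obtain ⟨c, hc⟩ := FiniteField.isSquare_of_char_two hchar (Q (v : V) / Q (v' : V))
    have hc0 : c ≠ 0 := by
      rintro rfl
      rw [mul_zero] at hc
      exact (div_ne_zero hQv hQv') hc
    have hw0 : c • v' ≠ 0 := smul_ne_zero hc0 hv0'
    let b : Basis Unit F W := Basis.mk (v := fun _ : Unit => v) (LinearIndependent.of_subsingleton () hv0) (by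
      intro x _
      obtain ⟨a, rfl⟩ := hv x
      exact Submodule.smul_mem _ _ (Submodule.subset_span ⟨(), rfl⟩))
    let b' : Basis Unit F W' := Basis.mk (v := fun _ : Unit => c • v') (LinearIndependent.of_subsingleton () hw0) (by
      intro x _
      obtain ⟨a, rfl⟩ := hv' x
      have : a • v' = (a * c⁻¹) • (c • v') := by rw [smul_smul, inv_mul_cancel_right₀ hc0]
      rw [this]
      exact Submodule.smul_mem _ _ (Submodule.subset_span ⟨(), rfl⟩))
    refine ⟨b.equiv b' (Equiv.refl _), fun x => ?_⟩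
    obtain ⟨a, rfl⟩ := hv x
    have e1 : b.equiv b' (Equiv.refl _) v = c • v' := by
      have := b.equiv_apply () b' (Equiv.refl _)
      simpa [b, b'] using this
    rw [map_smul, e1]
    show Q (a • (c • (v' : V))) = Q (a • (v : V))
    rw [QuadraticMap.map_smul, QuadraticMap.map_smul, QuadraticMap.map_smul, smul_eq_mul, smul_eq_mul, smul_eq_mul, ← hc,
      div_mul_cancel₀ _ hQv']

/-- **transitivity on the subspaces of a kind** -/
theorem om_trans [Finite F] [FiniteDimensional F V] (hQ : (frmQ Q).Nd) {j : Fin 4} {W W' : Submodule F V}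
    (hW : Kd Q j W) (hW' : Kd Q j W') (hd : finrank F W = finrank F W') (h1 : 1 ≤ finrank F W) :
    ∃ g ∈ O Q, W.map (g : V →ₗ[F] V) = W' := by
  obtain ⟨e, he⟩ := iso_of_kind hW hW' hd h1
  have hnd : (polarBilin Q).Nondegenerate :=
    ⟨fun x hx => hQ x hx, fun x hx => hQ x fun y => by
      show polar Q x y = 0
      rw [polar_comm]; exact hx y⟩
  let b := finBasis F W
  have hli : LinearIndependent F (fun i => (b i : V)) := b.linearIndependent.map' W.subtype (Submodule.ker_subtype W)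
  let b' := b.map e
  have hli' : LinearIndependent F (fun i => (b' i : V)) :=
    b'.linearIndependent.map' W'.subtype (Submodule.ker_subtype W')
  have hb' : ∀ i, (b' i : V) = (e (b i) : V) := fun i => by rw [Basis.map_apply]
  have hpol : ∀ x y : W, polar Q (e x : V) (e y : V) = polar Q (x : V) (y : V) := by
    intro x y
    have h1 : (e x : V) + (e y : V) = (e (x + y) : V) := by rw [map_add, Submodule.coe_add]
    rw [polar, polar, h1, he, he, he, Submodule.coe_add]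
  obtain ⟨g, hg, hgb⟩ := Cfsg.Agent.ClassicalGeometry.WittQuad.extend_family Q hnd _ (fun i => (b i : V))
    (fun i => (b' i : V)) hli hli' (fun i => by
      show Q (b i : V) = Q (b' i : V)
      rw [hb', he]) (fun i l => by
      show polar Q (b i : V) (b l : V) = polar Q (b' i : V) (b' l : V)
      rw [hb', hb', hpol])
  refine ⟨g, hg, ?_⟩
  have hs : W = Submodule.span F (Set.range fun i => (b i : V)) := by
    have h1 : Set.range (fun i => (b i : V)) = W.subtype '' Set.range b := by rw [← Set.range_comp]; rfl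
    rw [h1, ← Submodule.map_span, b.span_eq, Submodule.map_top, Submodule.range_subtype]
  have hs' : W' = Submodule.span F (Set.range fun i => (b' i : V)) := by
    have h1 : Set.range (fun i => (b' i : V)) = W'.subtype '' Set.range b' := by rw [← Set.range_comp]; rfl
    rw [h1, ← Submodule.map_span, b'.span_eq, Submodule.map_top, Submodule.range_subtype]
  conv_lhs => rw [hs]
  rw [hs', Submodule.map_span, ← Set.range_comp]
  congr 2
  funext i
  exact hgb i

/-- **the cover** -/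
theorem om_cover [Finite F] [Finite V] (hQ : (frmQ Q).Nd) {a b : O Q}
    (h : ∃ W : Submodule F V, W ≠ ⊥ ∧ W ≠ ⊤ ∧ W.map (act (O Q) a) ≤ W ∧ W.map (act (O Q) b) ≤ W) :
    ∃ R : Submodule F V, R ≠ ⊥ ∧ 2 * finrank F R ≤ finrank F V ∧ R.map (act (O Q) a) ≤ R ∧ R.map (act (O Q) b) ≤ R ∧
      ∃ j : Fin 4, Kd Q j R := by
  have hfd : FiniteDimensional F V := Module.Finite.of_finite
  obtain ⟨R, hR, h0, hd, h4⟩ := cover_frm hQ O_le_iso h
  rcases h4 with h4 | h4
  · -- totally isotropic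
    have hB : ∀ x ∈ R, ∀ y ∈ R, polar Q x y = 0 := fun x hx y hy => h4 hx y hy
    by_cases h2 : (2 : F) = 0
    · let K : Submodule F V :=
        { carrier := {x | x ∈ R ∧ Q x = 0}
          add_mem' := fun {x y} hx hy => ⟨R.add_mem hx.1 hy.1, by
            rw [Q_add, hx.2, hy.2, hB x hx.1 y hy.1]; ring⟩
          zero_mem' := ⟨R.zero_mem, by simp⟩
          smul_mem' := fun c x hx => ⟨R.smul_mem _ hx.1, by rw [QuadraticMap.map_smul, hx.2, smul_zero]⟩ }
      have hKR : K ≤ R := fun x hx => hx.1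
      by_cases hK : K = ⊥
      · refine ⟨R, h0, hd, hR.1, hR.2, 3, ?_⟩
        have hne : ∀ x ∈ R, x ≠ 0 → Q x ≠ 0 := by
          intro x hx hx0 hq
          have : x ∈ K := ⟨hx, hq⟩
          rw [hK, Submodule.mem_bot] at this
          exact hx0 this
        refine ⟨fun h => absurd h (by decide), fun h => absurd h (by decide), fun h => absurd h (by decide),
          fun _ => ⟨h2, ?_, hne⟩⟩
        obtain ⟨v, hv, hv0⟩ := Submodule.exists_mem_ne_zero_of_ne_bot h0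
        have := Fintype.ofFinite F
        have hchar : ringChar F = 2 := by
          have : CharP F 2 := CharTwo.of_one_ne_zero_of_two_eq_zero one_ne_zero h2
          exact ringChar.eq F 2
        rw [finrank_eq_one_iff']
        refine ⟨⟨v, hv⟩, fun h => hv0 (congrArg Subtype.val h), fun w => ?_⟩
        obtain ⟨c, hc⟩ := FiniteField.isSquare_of_char_two hchar (Q (w : V) / Q v)
        refine ⟨c, ?_⟩
        have hQv : Q v ≠ 0 := hne v hv hv0
        have hcv : c • v - (w : V) ∈ K := by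
          refine ⟨R.sub_mem (R.smul_mem _ hv) w.2, ?_⟩
          have e1 : c • v - (w : V) = c • v + (-1 : F) • (w : V) := by rw [neg_one_smul, sub_eq_add_neg]
          rw [e1, Q_add, hB _ (R.smul_mem _ hv) _ (R.smul_mem _ w.2), QuadraticMap.map_smul, QuadraticMap.map_smul,
            smul_eq_mul, smul_eq_mul, ← hc, div_mul_cancel₀ _ hQv]
          linear_combination (Q (w : V)) * h2
        rw [hK, Submodule.mem_bot, sub_eq_zero] at hcv
        exact Subtype.ext hcv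
      · refine ⟨K, hK, ?_, ?_, ?_, 0, ?_⟩
        · have := Submodule.finrank_mono hKR
          omega
        · rintro _ ⟨x, hx, rfl⟩
          exact ⟨hR.1 ⟨x, hx.1, rfl⟩, by
            show Q ((a : V ≃ₗ[F] V) x) = 0
            rw [mem_O.1 a.2]; exact hx.2⟩
        · rintro _ ⟨x, hx, rfl⟩
          exact ⟨hR.2 ⟨x, hx.1, rfl⟩, by
            show Q ((b : V ≃ₗ[F] V) x) = 0
            rw [mem_O.1 b.2]; exact hx.2⟩
        · exact ⟨fun _ x hx => hx.2, fun h => absurd h (by decide), fun h => absurd h (by decide),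
            fun h => absurd h (by decide)⟩
    · refine ⟨R, h0, hd, hR.1, hR.2, 0, fun _ x hx => ?_, fun h => absurd h (by decide),
        fun h => absurd h (by decide), fun h => absurd h (by decide)⟩
      have h5 := hB x hx x hx
      rw [polar_self_eq] at h5
      exact (mul_eq_zero.1 h5).resolve_left h2
  · have hnd : (frmQ Q).NdOn R := by
      intro x hx hx'
      have : x ∈ R ⊓ perp (frmQ Q) R := ⟨hx, hx'⟩
      rw [h4] at this
      exact this
    by_cases hT : TyA Q R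
    · exact ⟨R, h0, hd, hR.1, hR.2, 1, fun h => absurd h (by decide), fun _ => ⟨hnd, hT⟩,
        fun h => absurd h (by decide), fun h => absurd h (by decide)⟩
    · exact ⟨R, h0, hd, hR.1, hR.2, 2, fun h => absurd h (by decide), fun h => absurd h (by decide),
        fun _ => ⟨hnd, hT⟩, fun h => absurd h (by decide)⟩

end Cfsg.Agent.H262.Rx
end

-- part: H262/Rx/URT
section
/-!
# UR2 for symplectic and unitary groups (helper262): transitivity on subspaces

* `ur_sp`, `ur_su`.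
-/

set_option autoImplicit false

namespace Cfsg.Agent.H262.Rx

open Module Cfsg.Agent.H847.Bs Cfsg.Agent.H847.Ux
open Cfsg.Agent.H440.Bs (perp mem_perp)
open Cfsg.Agent.H141.Ux (cnt Sca)

variable {F V : Type*} [Field F] [AddCommGroup V] [Module F V]

/-- the bilinear form -/
def bil {Φ : Frm F V} (h : IsSp Φ) : LinearMap.BilinForm F V :=
  LinearMap.mk₂ F Φ.B Φ.add_left Φ.smul_left Φ.add_right (fun c x y => by rw [Φ.smul_right, h.s, smul_eq_mul])

theorem sform_bil {Φ : Frm F V} (h : IsSp Φ) : Cfsg.Agent.H91.Symp.SForm (bil h) where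
  nd := ⟨fun x hx => h.nd x hx, fun x hx => h.nd x fun y => Φ.refl _ _ (hx y)⟩
  alt := h.alt

/-- Witt's theorem for bases of subspaces -/
theorem sp_of_bases [FiniteDimensional F V] {Φ : Frm F V} (h : IsSp Φ) {ι : Type*} {W W' : Submodule F V}
    (b : Basis ι F W) (b' : Basis ι F W') (hb : ∀ i j, Φ.B (b i) (b j) = Φ.B (b' i) (b' j)) :
    ∃ g ∈ Φ.Iso, W.map (g : V →ₗ[F] V) = W' := by
  obtain ⟨g, hg, hgu⟩ := Cfsg.Agent.H91.Symp.witt_family (sform_bil h) (w := fun i => (b i : V)) (w' := fun i => (b' i : V))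
    (b.linearIndependent.map' W.subtype (Submodule.ker_subtype W))
    (b'.linearIndependent.map' W'.subtype (Submodule.ker_subtype W')) hb
  refine ⟨g, ⟨fun x y => hg x y, fun x => by rw [h.q, h.q]⟩, ?_⟩
  have hW : W = Submodule.span F (Set.range fun i => (b i : V)) := by
    have h1 : Set.range (fun i => (b i : V)) = W.subtype '' Set.range b := by rw [← Set.range_comp]; rfl
    rw [h1, ← Submodule.map_span, b.span_eq, Submodule.map_top, Submodule.range_subtype]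
  have hW' : W' = Submodule.span F (Set.range fun i => (b' i : V)) := by
    have h1 : Set.range (fun i => (b' i : V)) = W'.subtype '' Set.range b' := by rw [← Set.range_comp]; rfl
    rw [h1, ← Submodule.map_span, b'.span_eq, Submodule.map_top, Submodule.range_subtype]
  rw [hW, hW', Submodule.map_span, ← Set.range_comp]
  congr 2
  funext i
  exact hgu i

theorem sp_ti [FiniteDimensional F V] {Φ : Frm F V} (h : IsSp Φ) {W W' : Submodule F V} (hd : finrank F W = finrank F W')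
    (hW : ∀ x ∈ W, ∀ y ∈ W, Φ.B x y = 0) (hW' : ∀ x ∈ W', ∀ y ∈ W', Φ.B x y = 0) :
    ∃ g ∈ Φ.Iso, W.map (g : V →ₗ[F] V) = W' :=
  sp_of_bases h (finBasis F W) ((finBasis F W').reindex (finCongr hd.symm)) fun i j => by
    rw [hW _ (Subtype.property _) _ (Subtype.property _), hW' _ (Subtype.property _) _ (Subtype.property _)]

/-- symplectic bases of nondegenerate subspaces -/
theorem exists_symp [FiniteDimensional F V] {Φ : Frm F V} (h : IsSp Φ) {W : Submodule F V} (hW : Φ.NdOn W) :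
    ∃ (m : ℕ) (b : Basis (Fin m ⊕ Fin m) F W),
      (∀ i j, Φ.B (b (Sum.inl i)) (b (Sum.inr j)) = if i = j then 1 else 0) ∧
      (∀ i j, Φ.B (b (Sum.inl i)) (b (Sum.inl j)) = 0) ∧ ∀ i j, Φ.B (b (Sum.inr i)) (b (Sum.inr j)) = 0 := by
  let B : LinearMap.BilinForm F W := (bil h).compl₁₂ W.subtype W.subtype
  obtain ⟨m, k, b, h1, h2, h3, h4⟩ := Cfsg.Agent.S0752.result B (fun x => h.alt x)
  have hk : IsEmpty (Fin k) := by
    refine ⟨fun j => ?_⟩
    have h5 : (b (Sum.inr j) : V) = 0 := hW _ (Subtype.property _) fun y hy => h4 j ⟨y, hy⟩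
    exact b.ne_zero (Sum.inr j) (Subtype.ext h5)
  exact ⟨m, b.reindex (Equiv.sumEmpty _ _), fun i j => by
      have : Φ.B (b (Sum.inl (Sum.inl i)) : V) (b (Sum.inl (Sum.inr j)) : V) = if i = j then 1 else 0 := h1 i j
      simpa only [_root_.Module.Basis.coe_reindex, _root_.Function.comp_apply, _root_.Equiv.sumEmpty_symm_apply] using this, fun i j => by
      have : Φ.B (b (Sum.inl (Sum.inl i)) : V) (b (Sum.inl (Sum.inl j)) : V) = 0 := h2 i j
      simpa using this, fun i j => by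
      have : Φ.B (b (Sum.inl (Sum.inr i)) : V) (b (Sum.inl (Sum.inr j)) : V) = 0 := h3 i j
      simpa using this⟩

theorem sp_nd [FiniteDimensional F V] {Φ : Frm F V} (h : IsSp Φ) {W W' : Submodule F V} (hd : finrank F W = finrank F W')
    (hW : Φ.NdOn W) (hW' : Φ.NdOn W') :
    ∃ g ∈ Φ.Iso, W.map (g : V →ₗ[F] V) = W' := by
  obtain ⟨m, b, h1, h2, h3⟩ := exists_symp h hW
  obtain ⟨m', b', h1', h2', h3'⟩ := exists_symp h hW'
  have e1 := finrank_eq_card_basis b
  have e2 := finrank_eq_card_basis b'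
  rw [Fintype.card_sum, Fintype.card_fin] at e1 e2
  obtain rfl : m = m' := by omega
  refine sp_of_bases h b b' ?_
  have hs : ∀ x y, Φ.B x y = - Φ.B y x := fun x y => (sform_bil h).swap x y
  rintro (i | i) (j | j)
  · rw [h2, h2']
  · rw [h1, h1']
  · rw [hs, h1, hs, h1']
  · rw [h3, h3']

/-- **UR2 for symplectic groups** -/
theorem ur_sp [Finite F] [Finite V] {Φ : Frm F V} (h : IsSp Φ) (ht : 4 ≤ Nat.card F) (hn : 8 ≤ finrank F V)
    (x : V ≃ₗ[F] V) (hx : x ∈ Φ.Iso) (hxs : ¬ Sca x) :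
    (cnt Φ.Iso (fun y => ¬ IrrG (Subgroup.closure {x, y})) : ℝ) * Nat.card F ≤ 1224 * Nat.card Φ.Iso := by
  have hfd : FiniteDimensional F V := Module.Finite.of_finite
  exact red_kl (Or.inl ⟨h, rfl, rfl⟩) le_rfl (one_mul _) ht hn
    (fun k _ _ W W' hW hW' hd hd' => sp_ti h (hd.trans hd'.symm) hW hW')
    (fun k _ _ W W' hW hW' hd hd' => sp_nd h (hd.trans hd'.symm) hW hW') x hx hxs

section herm

open Cfsg.Agent.H450.Bs (toB hform_toB iso_iff siso_toB)
open Cfsg.Agent.H91.U (HForm SIso)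

theorem su_ti [Finite F] [FiniteDimensional F V] {Φ : Frm F V} {r : ℕ} (h : IsHerm r Φ) {W W' : Submodule F V}
    (hd : finrank F W = finrank F W') (hW : ∀ x ∈ W, ∀ y ∈ W, Φ.B x y = 0) (hW' : ∀ x ∈ W', ∀ y ∈ W', Φ.B x y = 0) :
    ∃ g ∈ Φ.Iso ⊓ slV F V, W.map (g : V →ₗ[F] V) = W' := by
  have := Fintype.ofFinite F
  have hF : Fintype.card F = r ^ 2 := by rw [← Nat.card_eq_fintype_card]; exact h.card
  obtain ⟨u, hu, e1⟩ := Cfsg.Agent.H450.UF.exists_frame_of_ti (B := toB hF h) (C := W) (j := finrank F W)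
    (fun x hx y hy => hW y hy x hx) rfl
  obtain ⟨u', hu', e2⟩ := Cfsg.Agent.H450.UF.exists_frame_of_ti (B := toB hF h) (C := W') (j := finrank F W)
    (fun x hx y hy => hW' y hy x hx) hd.symm
  obtain ⟨g, hg, hgu⟩ := Cfsg.Agent.H450.UF.exists_flag_map0 (hform_toB hF h) hu hu'
  rw [siso_toB] at hg
  refine ⟨g, hg, ?_⟩
  have e3 := hgu (finrank F W)
  rw [e1, e2] at e3
  exact e3

theorem su_nd [Finite F] [FiniteDimensional F V] {Φ : Frm F V} {r : ℕ} (h : IsHerm r Φ) {W W' : Submodule F V}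
    (hk : 1 ≤ finrank F W) (hd : finrank F W = finrank F W') (hW : Φ.NdOn W) (hW' : Φ.NdOn W') :
    ∃ g ∈ Φ.Iso ⊓ slV F V, W.map (g : V →ₗ[F] V) = W' := by
  have := Fintype.ofFinite F
  have hF : Fintype.card F = r ^ 2 := by rw [← Nat.card_eq_fintype_card]; exact h.card
  have hB := hform_toB hF h
  have hr : ∀ {U : Submodule F V}, Φ.NdOn U → HForm (Cfsg.Agent.H450.Bs.res (toB hF h) U) := fun hU =>
    Cfsg.Agent.H450.Bs.hform_res hB fun x hx hx' => hU x hx fun y hy => Φ.refl _ _ (hx' y hy)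
  obtain ⟨b, hb⟩ := Cfsg.Agent.H450.UF.exists_orthonormal_basis (hr hW)
  obtain ⟨b', hb'⟩ := Cfsg.Agent.H450.UF.exists_orthonormal_basis (hr hW')
  let c := b'.reindex (finCongr hd.symm)
  have hc : ∀ i l, toB hF h (c i) (c l) = if i = l then 1 else 0 := by
    intro i l
    have e1 := hb' ((finCongr hd.symm).symm i) ((finCongr hd.symm).symm l)
    have e2 : toB hF h (c i) (c l) = if (finCongr hd.symm).symm i = (finCongr hd.symm).symm l then 1 else 0 := by
      rw [← e1]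
      simp only [c, Basis.reindex_apply]
      rfl
    rw [e2]
    simp only [EmbeddingLike.apply_eq_iff_eq]
  obtain ⟨g, hg, hgb⟩ := Cfsg.Agent.H91.U.witt_family hB (w := fun i => (b i : V)) (w' := fun i => (c i : V))
    (b.linearIndependent.map' W.subtype (Submodule.ker_subtype W))
    (c.linearIndependent.map' W'.subtype (Submodule.ker_subtype W')) (fun i j => (hb i j).trans (hc i j).symm)
  have hgI : g ∈ Φ.Iso := (iso_iff hF h).2 hg
  have hgood := Cfsg.Agent.H42.Bs.good_of_herm h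
  have hdet := Cfsg.Agent.H42.Bs.det_norm hgood hgI
  rw [h.s] at hdet
  set δ := LinearMap.det (g : V →ₗ[F] V) with hδ
  have hon : IsHerm r (Φ.on W) :=
    { nd := fun x hx => Subtype.ext (hW x x.2 fun y hy => hx ⟨y, hy⟩)
      card := h.card
      s := h.s
      q := fun x => h.q x
      symm := fun x y => h.symm x y }
  have hδ0 : δ ≠ 0 := by
    intro h0
    rw [h0, zero_mul] at hdet
    exact zero_ne_one hdet
  obtain ⟨w, hw, hwd⟩ := Cfsg.Agent.H42.Bs.exists_det hon hk (μ := δ⁻¹) (by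
    rw [inv_pow, ← mul_inv, hdet, inv_one])
  have hdec := Cfsg.Agent.H42.Bs.dec_perp hgood hW
  obtain ⟨κ, hκ⟩ := hgood.quad
  set z := glue hdec.compl w 1 with hz
  have hz1 : z ∈ Φ.Iso := Cfsg.Agent.H42.Bs.glue_mem_Iso hκ hdec hw (one_mem _)
  have hz2 : LinearMap.det (z : V →ₗ[F] V) = δ⁻¹ := by
    rw [hz, Cfsg.Agent.H42.Bs.det_glue, hwd]
    have : LinearMap.det ((1 : Cfsg.Agent.H42.Bs.perp Φ W ≃ₗ[F] Cfsg.Agent.H42.Bs.perp Φ W) :
        Cfsg.Agent.H42.Bs.perp Φ W →ₗ[F] Cfsg.Agent.H42.Bs.perp Φ W) = 1 := LinearMap.det_id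
    rw [this, mul_one]
  have hz3 : W.map (z : V →ₗ[F] V) = W := Cfsg.Agent.H440.Bs.Inv.map_eq (Cfsg.Agent.H440.Bs.glue_inv_left _ _ _)
  have hWs : W = Submodule.span F (Set.range fun i => (b i : V)) := by
    have h1 : Set.range (fun i => (b i : V)) = W.subtype '' Set.range b := by rw [← Set.range_comp]; rfl
    rw [h1, ← Submodule.map_span, b.span_eq, Submodule.map_top, Submodule.range_subtype]
  have hWs' : W' = Submodule.span F (Set.range fun i => (c i : V)) := by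
    have h1 : Set.range (fun i => (c i : V)) = W'.subtype '' Set.range c := by rw [← Set.range_comp]; rfl
    rw [h1, ← Submodule.map_span, c.span_eq, Submodule.map_top, Submodule.range_subtype]
  have hgW : W.map (g : V →ₗ[F] V) = W' := by
    rw [hWs, hWs', Submodule.map_span, ← Set.range_comp]
    congr 2
    funext i
    exact hgb i
  refine ⟨g * z, ⟨mul_mem hgI hz1, ?_⟩, ?_⟩
  · show LinearMap.det ((g : V →ₗ[F] V) ∘ₗ (z : V →ₗ[F] V)) = 1
    rw [LinearMap.det_comp, hz2, ← hδ, mul_inv_cancel₀ hδ0]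
  · show W.map ((g : V →ₗ[F] V) ∘ₗ (z : V →ₗ[F] V)) = W'
    rw [Submodule.map_comp, hz3, hgW]

/-- **UR2 for unitary groups** -/
theorem ur_su [Finite F] [Finite V] {Φ : Frm F V} {r : ℕ} (h : IsHerm r Φ) (ht : 4 ≤ r) (hn : 8 ≤ finrank F V)
    (x : V ≃ₗ[F] V) (hx : x ∈ Φ.Iso ⊓ slV F V) (hxs : ¬ Sca x) :
    (cnt (Φ.Iso ⊓ slV F V) (fun y => ¬ IrrG (Subgroup.closure {x, y})) : ℝ) * r ≤
      1224 * Nat.card (Φ.Iso ⊓ slV F V : Subgroup (V ≃ₗ[F] V)) := by
  have hfd : FiniteDimensional F V := Module.Finite.of_finite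
  exact red_kl (Or.inr (Or.inl ⟨r, h, rfl, rfl⟩)) inf_le_left (by rw [h.card, pow_two]) ht hn
    (fun k _ _ W W' hW hW' hd hd' => su_ti h (hd.trans hd'.symm) hW hW')
    (fun k hk _ W W' hW hW' hd hd' => su_nd h (by omega) (hd.trans hd'.symm) hW hW') x hx hxs

end herm

end Cfsg.Agent.H262.Rx
end

-- part: H262/Rx/UR2
section
/-!
# UR2 (helper262): reducible subgroups, groups with a form; assembly
-/

set_option autoImplicit false

namespace Cfsg.Agent.H262.Rx

open Module Cfsg.Agent.H847.Bs Cfsg.Agent.LieClassical.OrthCore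
open Cfsg.Agent.H141.Ux (cnt Sca)

/-- the orthogonal case of UR2 (helper888) -/
def UrOm : Prop := ∃ C : ℝ, ∀ (F V : Type) [Field F] [Finite F] [AddCommGroup V] [Module F V] [Module.Finite F V]
  (Q : QuadraticForm F V), (frmQ Q).Nd → 8 ≤ finrank F V → 4 ≤ Nat.card F → ∀ x ∈ E Q, ¬ Sca x →
  (cnt (E Q) (fun y => ¬ IrrG (Subgroup.closure {x, y})) : ℝ) * Nat.card F ≤ C * Nat.card (E Q)

/-- **UR2** -/
theorem ur2 (hom : UrOm) : Cfsg.Agent.H141.Ux.UR2 := by
  obtain ⟨C, hC⟩ := hom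
  refine ⟨max 1224 C, 8, ?_⟩
  intro F V _ _ _ _ _ Φ G N t hK hn ht x hx hxs
  have hfV : Finite V := Module.finite_of_finite F
  rcases hK with ⟨h, rfl, rfl, rfl⟩ | ⟨r, h, rfl, rfl, rfl⟩ | ⟨Q, h, rfl, rfl, rfl, rfl⟩
  · exact (ur_sp h ht hn x hx hxs).trans (mul_le_mul_of_nonneg_right (le_max_left _ _) (Nat.cast_nonneg _))
  · exact (ur_su h ht hn x hx hxs).trans (mul_le_mul_of_nonneg_right (le_max_left _ _) (Nat.cast_nonneg _))
  · exact (hC F V Q h hn ht x hx hxs).trans (mul_le_mul_of_nonneg_right (le_max_right _ _) (Nat.cast_nonneg _))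

end Cfsg.Agent.H262.Rx
end

-- part: H262/Rx/UROm
section
/-!
# UR2, orthogonal groups (helper262)
-/

set_option autoImplicit false

namespace Cfsg.Agent.H262.Rx

open Module QuadraticMap Cfsg.Agent.H847.Bs Cfsg.Agent.H847.Ux Cfsg.Agent.LieClassical.OrthCore
open Cfsg.Agent.H440.Bs (perp mem_perp)
open Cfsg.Agent.H141.Ux (cnt Sca)

/-- **UR2 for orthogonal groups** -/
theorem ur_om : UrOm := by
  refine ⟨4992, ?_⟩
  intro F V _ _ _ _ _ Q hQ hn ht x hx hxs
  classical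
  have hfV : Finite V := Module.finite_of_finite F
  have hfg := finite_gl (F := F) (V := V)
  have hfd : FiniteDimensional F V := Module.Finite.of_finite
  have hF0 : 0 < Nat.card F := Nat.card_pos
  have hK : Kl (frmQ Q) (E Q) (Nat.card F) := Or.inr (Or.inr ⟨Q, hQ, rfl, rfl, rfl⟩)
  have hV : Nat.card V = Nat.card F ^ finrank F V := Module.natCard_eq_pow_finrank
  let i : E Q →* O Q := Subgroup.inclusion E_le_O
  have hi : Function.Injective i := Subgroup.inclusion_injective E_le_O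
  have hcomp : (act (O Q)).comp i = act (E Q) := MonoidHom.ext fun _ => rfl
  have hm : (Nat.card (O Q) : ℝ) ≤ 4 * Nat.card (E Q) := by
    exact_mod_cast Cfsg.Agent.H765.Bs.card_O_le (Q := Q) hQ (by omega)
  -- one vector
  have h1 : ∀ v : V, v ≠ 0 → Nat.card F ^ (finrank F V - 1) ≤ 2 * Nat.card (Set.range fun y : O Q => act (O Q) y v) := by
    intro v hv
    have e1 := n4' hK (by omega) hv
    have e2 : Nat.card {p : V // ∃ g ∈ E Q, p = g v} ≤ Nat.card (Set.range fun y : O Q => act (O Q) y v) := by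
      refine Nat.card_mono (Set.toFinite _) ?_
      rintro p ⟨g, hg, rfl⟩
      exact ⟨⟨g, E_le_O hg⟩, rfl⟩
    rw [hV] at e1
    refine Nat.le_of_mul_le_mul_left ?_ hF0
    calc Nat.card F * Nat.card F ^ (finrank F V - 1) = Nat.card F ^ finrank F V := by
          rw [← pow_succ']; congr 1; omega
      _ ≤ 2 * Nat.card F * Nat.card {p : V // ∃ g ∈ E Q, p = g v} := e1
      _ ≤ 2 * Nat.card F * Nat.card (Set.range fun y : O Q => act (O Q) y v) := Nat.mul_le_mul_left _ e2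
      _ = _ := by ring
  -- the stabiliser of a vector
  have h2 : ∀ v u : V, v ≠ 0 → (¬ ∃ l : F, u = l • v) →
      Nat.card F ^ (finrank F V - 2) ≤ 2 * Nat.card (sOrb (act (O Q)) v u) := by
    intro v u hv hu
    obtain ⟨e, he, hee, heq, hev⟩ := exists_iso hK (k := 1) (by omega) ![v]
    have hr : Set.range ![v] = {v} := by simp
    rw [hr] at he
    have hev0 : (frmQ Q).B e v = 0 := hev 0
    have e1 := many2 hK (p := v) (e := e) hv he hev0 hee heq u ((frmQ Q).B u v)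
    have e2 : Nat.card {x : V // ((frmQ Q).B x v = (frmQ Q).B u v ∧ (frmQ Q).B x e ≠ 0) ∧
        (frmQ Q).B x x = (frmQ Q).B u u ∧ (frmQ Q).q x = (frmQ Q).q u} ≤ Nat.card (sOrb (act (O Q)) v u) := by
      refine Nat.card_mono (Set.toFinite _) ?_
      rintro p ⟨⟨hp1, hp2⟩, hp3, hp4⟩
      have hli : LinearIndependent F ![v, p] := by
        rw [LinearIndependent.pair_iff' hv]
        intro a ha
        apply hp2
        rw [← ha, (frmQ Q).smul_left, (frmQ Q).refl _ _ hev0, mul_zero]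
      have hli' : LinearIndependent F ![v, u] := by
        rw [LinearIndependent.pair_iff' hv]
        intro a ha
        exact hu ⟨a, ha.symm⟩
      obtain ⟨g, hg, h1, h2⟩ := n3 hK (by omega) hli' hli rfl (hK.swap hp1.symm) hp1.symm hp3.symm rfl hp4.symm
      exact ⟨⟨g, E_le_O hg⟩, h1, h2⟩
    rw [hV] at e1
    refine Nat.le_of_mul_le_mul_left ?_ (Nat.mul_pos hF0 hF0)
    calc Nat.card F * Nat.card F * Nat.card F ^ (finrank F V - 2) = Nat.card F ^ finrank F V := by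
          rw [← pow_two, ← pow_add]; congr 1; omega
      _ ≤ _ := e1
      _ ≤ 2 * Nat.card F * Nat.card F * Nat.card (sOrb (act (O Q)) v u) := Nat.mul_le_mul_left _ e2
      _ = _ := by ring
  have ht' : (4 : ℝ) ≤ Nat.card F := by exact_mod_cast ht
  -- the final form
  have key := red_of_kinds (act (O Q)) i hi hm hn (q := (Nat.card F : ℝ)) (C1 := 4) ht' le_rfl (by norm_num)
    (fun _ => Fin 4) (fun _ j W => Kd Q j W)
    (fun k hk => by
      have e1 : (1 : ℝ) ≤ ((Nat.card F : ℝ) / 2) ^ (k - 1) := one_le_pow₀ (by linarith only [ht'])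
      rw [Fintype.card_fin]
      norm_num only [_root_.ge_iff_le]
      linarith only [e1])
    (fun k hk => by
      have e1 : (1 : ℝ) ≤ 2 ^ k := one_le_pow₀ (by norm_num)
      rw [Fintype.card_fin]
      norm_num only [_root_.ge_iff_le]
      nlinarith only [ht', e1])
    (fun k hk1 hk2 j W W' hW hW' hd hd' => by
      obtain ⟨g, hg, e⟩ := om_trans hQ hW hW' (hd.trans hd'.symm) (by omega)
      exact ⟨⟨g, hg⟩, e⟩)
    h1 h2 (fun k hk1 hk2 j W _ hd c hc => om_three hQ (by omega) W hd hk2 c hc) ⟨x, hx⟩ hxs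
    (fun z hz => by
      obtain ⟨R, h0, hd, hRa, hRb, j, hj⟩ := om_cover hQ (a := i ⟨x, hx⟩) (b := i z) hz
      refine ⟨finrank F R, ?_, hd, j, R, rfl, hj, hRa, hRb⟩
      rw [Nat.one_le_iff_ne_zero, Ne, Submodule.finrank_eq_zero]
      exact h0)
  rw [hcomp] at key
  have e1 : (cnt (E Q) (fun y => ¬ IrrG (Subgroup.closure {x, y})) : ℝ) ≤
      (Nat.card {z : E Q // Red (act (E Q)) ⟨x, hx⟩ z} : ℝ) := by
    exact_mod_cast cnt_red (E Q) x hx
  have e2 := e1.trans key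
  have hF0' : (0 : ℝ) < Nat.card F := by exact_mod_cast hF0
  have e3 : (4 : ℝ) * ((12 * 4 + 1200) / (Nat.card F : ℝ)) * Nat.card (E Q) = 4992 * Nat.card (E Q) / Nat.card F := by ring
  rw [e3, le_div_iff₀ hF0'] at e2
  exact e2

/-- **UR2** -/
theorem ur2' : Cfsg.Agent.H141.Ux.UR2 := ur2 ur_om

end Cfsg.Agent.H262.Rx
end

-- part: H627/Ux/Cnt
section
/-!
# Counting with `SL(V)` (S5716, helper627)

* `slV_trans` : `SL(V)` is transitive on independent families of fewer than `dim V` vectors;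
* `cnt_le` : the number of `h ∈ SL(V)` mapping an independent family of `k` vectors into a set `S` of families is at most
  `2 ^ k |S| |SL(V)| / q ^ (k n)`;
* `cnt_eig` : `x (g v) ∈ g U` for at most `8 |SL(V)| / q` elements `g`, if `x` is not scalar, `v ≠ 0` and `U ≠ V`.
-/

set_option autoImplicit false

namespace Cfsg.Agent.H627.Ux

open Module Cfsg.Agent.H847.Bs Cfsg.Agent.H141.Ux

section

variable {F V : Type*} [Field F] [AddCommGroup V] [Module F V]

theorem exists_not_mem [FiniteDimensional F V] {W : Submodule F V} (h : finrank F W < finrank F V) : ∃ t, t ∉ W := by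
  by_contra hc
  push Not at hc
  have : W = ⊤ := Submodule.eq_top_iff'.2 hc
  rw [this, finrank_top] at h
  omega

/-- `SL(V)` is transitive on small families -/
theorem slV_trans [FiniteDimensional F V] {ι : Type*} [Fintype ι] {u v : ι → V} (hu : LinearIndependent F u)
    (hv : LinearIndependent F v) (h : Fintype.card ι < finrank F V) : ∃ g ∈ slV F V, ∀ i, g (u i) = v i := by
  obtain ⟨s, hs⟩ := exists_not_mem (F := F) (V := V) (W := Submodule.span F (Set.range u)) (by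
    rwa [finrank_span_eq_card hu])
  obtain ⟨t, ht⟩ := exists_not_mem (F := F) (V := V) (W := Submodule.span F (Set.range v)) (by
    rwa [finrank_span_eq_card hv])
  obtain ⟨g, c, -, hg⟩ := H105.exists_sl (u := fun o : Option ι => (o.casesOn' s u : V))
    (v := fun o : Option ι => (o.casesOn' t v : V)) ((linearIndependent_option'.2 ⟨hu, hs⟩ :))
    (linearIndependent_option'.2 ⟨hv, ht⟩) none
  refine ⟨g.1, ?_, fun i => hg (some i) (by simp)⟩
  have h1 : LinearEquiv.det g.1 = 1 := g.2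
  show LinearMap.det (g.1 : V →ₗ[F] V) = 1
  rw [← LinearEquiv.coe_det, h1, Units.val_one]

variable [Finite F] [Finite V]

omit [Finite F] in
instance instFiniteEquiv : Finite (V ≃ₗ[F] V) :=
  Finite.of_injective (fun g => (g : V → V)) DFunLike.coe_injective

/-- the number of elements mapping an independent family into a set -/
theorem cnt_mul_le {k : ℕ} (hk : k < finrank F V) {t : Fin k → V} (ht : LinearIndependent F t) (S : Set (Fin k → V)) :
    Nat.card {h : V ≃ₗ[F] V // h ∈ slV F V ∧ (fun i => h (t i)) ∈ S} *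
      Nat.card {s : Fin k → V // LinearIndependent F s} ≤ Nat.card S * Nat.card (slV F V) := by
  classical
  have hfd : FiniteDimensional F V := Module.Finite.of_finite
  have hex : ∀ s : Fin k → V, ∃ g : V ≃ₗ[F] V, LinearIndependent F s → g ∈ slV F V ∧ ∀ i, g (t i) = s i := by
    intro s
    by_cases hs : LinearIndependent F s
    · obtain ⟨g, hg, h1⟩ := slV_trans ht hs (by rwa [Fintype.card_fin])
      exact ⟨g, fun _ => ⟨hg, h1⟩⟩
    · exact ⟨1, fun h => absurd h hs⟩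
  choose g hg using hex
  have hli : ∀ h : V ≃ₗ[F] V, LinearIndependent F (fun i => h (t i)) := fun h =>
    ht.map' (h : V →ₗ[F] V) h.ker
  rw [← Nat.card_prod, ← Nat.card_prod]
  refine Nat.card_le_card_of_injective (fun p => (⟨fun i => p.1.1 (t i), p.1.2.2⟩,
    ⟨g p.2.1 * (g (fun i => p.1.1 (t i)))⁻¹ * p.1.1, ?_⟩)) ?_
  · exact mul_mem (mul_mem (hg _ p.2.2).1 (inv_mem (hg _ (hli _)).1)) p.1.2.1
  · rintro ⟨⟨h, h1, h2⟩, s, hs⟩ ⟨⟨h', h1', h2'⟩, s', hs'⟩ hab
    simp only [Prod.mk.injEq, Subtype.mk.injEq] at hab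
    obtain ⟨e1, e2⟩ := hab
    -- the value at `t`
    have key : ∀ (h : V ≃ₗ[F] V) (s : Fin k → V), LinearIndependent F s → ∀ i,
        (g s * (g (fun i => h (t i)))⁻¹ * h) (t i) = s i := by
      intro h s hs i
      have e3 : (g (fun i => h (t i)))⁻¹ (h (t i)) = t i := by
        have := (hg _ (hli h)).2 i
        rw [← this]
        exact (g (fun i => h (t i))).symm_apply_apply _
      show g s ((g (fun i => h (t i)))⁻¹ (h (t i))) = s i
      rw [e3]
      exact (hg s hs).2 i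
    have e4 : s = s' := by
      funext i
      rw [← key h s hs i, ← key h' s' hs' i, e2]
    subst e4
    have e5 : h = h' := by
      rw [← e1] at e2
      exact mul_left_cancel e2
    subst e5
    rfl

theorem card_li_ge {k : ℕ} (hk : k ≤ finrank F V) :
    Nat.card F ^ (k * finrank F V) ≤ 2 ^ k * Nat.card {s : Fin k → V // LinearIndependent F s} := by
  have := Fintype.ofFinite F
  have hfd : FiniteDimensional F V := Module.Finite.of_finite
  rw [card_linearIndependent hk, ← Nat.card_eq_fintype_card]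
  have h1 : ∀ i : Fin k, Nat.card F ^ finrank F V ≤ 2 * (Nat.card F ^ finrank F V - Nat.card F ^ (i : ℕ)) := by
    intro i
    have h2 : 2 ≤ Nat.card F := Finite.one_lt_card
    have h3 : Nat.card F ^ (i : ℕ) * 2 ≤ Nat.card F ^ finrank F V := by
      calc Nat.card F ^ (i : ℕ) * 2 ≤ Nat.card F ^ (i : ℕ) * Nat.card F := Nat.mul_le_mul_left _ h2
        _ = Nat.card F ^ ((i : ℕ) + 1) := (pow_succ _ _).symm
        _ ≤ _ := Nat.pow_le_pow_right (by omega) (by omega)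
    omega
  calc Nat.card F ^ (k * finrank F V) = ∏ _i : Fin k, Nat.card F ^ finrank F V := by
        rw [Finset.prod_const, Finset.card_univ, Fintype.card_fin, ← pow_mul, mul_comm]
    _ ≤ ∏ i : Fin k, 2 * (Nat.card F ^ finrank F V - Nat.card F ^ (i : ℕ)) := Finset.prod_le_prod' fun i _ => h1 i
    _ = _ := by rw [Finset.prod_mul_distrib, Finset.prod_const, Finset.card_univ, Fintype.card_fin]

/-- **counting** -/
theorem cnt_le {k : ℕ} (hk : k < finrank F V) {t : Fin k → V} (ht : LinearIndependent F t) (S : Set (Fin k → V)) :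
    Nat.card {h : V ≃ₗ[F] V // h ∈ slV F V ∧ (fun i => h (t i)) ∈ S} * Nat.card F ^ (k * finrank F V) ≤
      2 ^ k * (Nat.card S * Nat.card (slV F V)) := by
  calc _ ≤ Nat.card {h : V ≃ₗ[F] V // h ∈ slV F V ∧ (fun i => h (t i)) ∈ S} *
        (2 ^ k * Nat.card {s : Fin k → V // LinearIndependent F s}) := Nat.mul_le_mul_left _ (card_li_ge hk.le)
    _ = 2 ^ k * (Nat.card {h : V ≃ₗ[F] V // h ∈ slV F V ∧ (fun i => h (t i)) ∈ S} *
        Nat.card {s : Fin k → V // LinearIndependent F s}) := by ring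
    _ ≤ _ := Nat.mul_le_mul_left _ (cnt_mul_le hk ht S)

omit [Finite F] [Finite V] in
/-- double counting -/
theorem dbl {α β : Type*} [Finite α] [Finite β] (P : α → β → Prop) (E : Set α) (M A B : ℕ)
    (hE : ∀ a ∈ E, Nat.card {b // P a b} * M ≤ B) (hE' : ∀ a ∉ E, Nat.card {b // P a b} * M ≤ A) :
    Nat.card {p : α × β // P p.1 p.2} * M ≤ Nat.card α * A + Nat.card E * B := by
  classical
  have := Fintype.ofFinite α
  have e1 : {p : α × β // P p.1 p.2} ≃ Σ a, {b // P a b} :=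
    { toFun := fun p => ⟨p.1.1, p.1.2, p.2⟩
      invFun := fun p => ⟨(p.1, p.2.1), p.2.2⟩
      left_inv := fun _ => rfl
      right_inv := fun _ => rfl }
  rw [Nat.card_congr e1, Nat.card_sigma, Finset.sum_mul]
  have h1 : ∀ a ∈ (Finset.univ : Finset α), Nat.card {b // P a b} * M ≤ A + if a ∈ E then B else 0 := by
    intro a _
    split_ifs with h
    · exact (hE a h).trans (Nat.le_add_left _ _)
    · exact hE' a h
  refine (Finset.sum_le_sum h1).trans ?_
  rw [Finset.sum_add_distrib, Finset.sum_const, Finset.card_univ, smul_eq_mul, ← Nat.card_eq_fintype_card,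
    ← Finset.sum_filter, Finset.sum_const, smul_eq_mul]
  refine Nat.add_le_add_left (Nat.mul_le_mul_right _ (le_of_eq ?_)) _
  rw [Nat.card_coe_set_eq, Set.ncard_eq_toFinset_card']
  congr 1
  ext a
  simp only [_root_.Finset.mem_filter, _root_.Finset.mem_univ, _root_.true_and, _root_.Set.mem_toFinset]

omit [Finite F] [Finite V] in
theorem exists_not_eig [FiniteDimensional F V] {x : V ≃ₗ[F] V} (hx : ¬ Sca x) : ∃ u, ∀ c : F, x u ≠ c • u := by
  by_contra hcon
  push Not at hcon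
  apply hx
  obtain ⟨a, ha⟩ := LinearMap.exists_eq_smul_id_of_forall_notLinearIndependent (f := (x : V →ₗ[F] V)) (by
    intro v h
    obtain ⟨c, hc⟩ := hcon v
    have hv : v ≠ 0 := h.ne_zero 0
    rw [LinearIndependent.pair_iff' hv] at h
    exact h c hc.symm)
  exact ⟨a, fun v => by
    have := LinearMap.congr_fun ha v
    simpa only [_root_.LinearEquiv.coe_coe, _root_.LinearMap.smul_apply, _root_.Module.End.one_apply] using this⟩

/-- the number of eigenvectors -/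
theorem card_eig {x : V ≃ₗ[F] V} (hx : ¬ Sca x) :
    Nat.card {w : V | ∃ c : F, x w = c • w} ≤ Nat.card F ^ (finrank F V - 1) + Nat.card F ^ 2 := by
  classical
  have hfd : FiniteDimensional F V := Module.Finite.of_finite
  obtain ⟨u, hu⟩ := exists_not_eig hx
  have hu0 : u ≠ 0 := by
    rintro rfl
    exact hu 0 (by rw [map_zero, smul_zero])
  set P : Submodule F V := Submodule.span F {u} with hP
  set W : Submodule F V := Submodule.span F {u, x u} with hW
  have hP1 : finrank F P = 1 := finrank_span_singleton hu0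
  have hW2 : finrank F W ≤ 2 := by
    have h1 := finrank_span_finset_le_card (R := F) ({u, x u} : Finset V)
    rw [Finset.coe_pair] at h1
    exact h1.trans Finset.card_le_two
  have hq : 1 ≤ Nat.card F := Nat.card_pos
  have c1 : Nat.card W ≤ Nat.card F ^ 2 := by
    rw [Module.natCard_eq_pow_finrank (K := F) (V := W)]
    exact Nat.pow_le_pow_right hq hW2
  have c2 : Nat.card (V ⧸ P) = Nat.card F ^ (finrank F V - 1) := by
    rw [Module.natCard_eq_pow_finrank (K := F) (V := V ⧸ P)]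
    congr 1
    have := P.finrank_quotient_add_finrank
    omega
  have hun : (u : V) ∈ W := Submodule.subset_span (by simp)
  have hxun : x u ∈ W := Submodule.subset_span (by simp)
  have key : ∀ w w' : V, (∃ c : F, x w = c • w) → (∃ c : F, x w' = c • w') → w ∉ W → w - w' ∈ P → w = w' := by
    rintro w w' ⟨c, hc⟩ ⟨c', hc'⟩ hwW hww'
    obtain ⟨t, ht⟩ := Submodule.mem_span_singleton.1 hww'
    by_contra hne
    have ht0 : t ≠ 0 := by
      rintro rfl
      rw [zero_smul] at ht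
      exact hne (sub_eq_zero.1 ht.symm)
    have h1 : t • x u = (c - c') • w + (c' * t) • u := by
      have h2 : w' = w - t • u := by rw [ht, sub_sub_cancel]
      have h3 : x (t • u) = x w - x w' := by rw [ht, map_sub]
      rw [map_smul, hc, hc', h2] at h3
      rw [h3]
      module
    by_cases hcc : c - c' = 0
    · apply hu (t⁻¹ * (c' * t))
      rw [hcc, zero_smul, zero_add] at h1
      rw [mul_smul, ← h1, smul_smul, inv_mul_cancel₀ ht0, one_smul]
    · apply hwW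
      have h2 : (c - c') • w ∈ W := by
        have : (c - c') • w = t • x u - (c' * t) • u := by rw [h1]; abel
        rw [this]
        exact W.sub_mem (W.smul_mem _ hxun) (W.smul_mem _ hun)
      have h3 := W.smul_mem (c - c')⁻¹ h2
      rwa [smul_smul, inv_mul_cancel₀ hcc, one_smul] at h3
  have hfq : Finite (V ⧸ P) := Finite.of_surjective _ P.mkQ_surjective
  have h1 : Nat.card {w : V | ∃ c : F, x w = c • w} ≤ Nat.card ((V ⧸ P) ⊕ W) := by
    refine Nat.card_le_card_of_injective (fun w => if h : (w : V) ∈ W then Sum.inr ⟨w, h⟩ else Sum.inl (P.mkQ w)) ?_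
    rintro ⟨w, hw⟩ ⟨w', hw'⟩ hab
    by_cases h : w ∈ W
    · by_cases h' : w' ∈ W
      · simp only [h, h', dif_pos, Sum.inr.injEq, Subtype.mk.injEq] at hab
        exact Subtype.ext hab
      · simp only [h, h', dif_pos] at hab
        cases hab
    · by_cases h' : w' ∈ W
      · simp only [h, h', dif_pos] at hab
        cases hab
      · simp only [h, h', dif_neg, not_false_eq_true, Sum.inl.injEq] at hab
        apply Subtype.ext
        refine key w w' hw hw' h ?_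
        rw [← Submodule.ker_mkQ P, LinearMap.mem_ker, map_sub, sub_eq_zero]
        exact hab
  rw [Nat.card_sum, c2] at h1
  omega

/-- `x (g v) ∈ g U` is rare -/
theorem cnt_eig (hn : 3 ≤ finrank F V) {x : V ≃ₗ[F] V} (hx : ¬ Sca x) {v : V} (hv : v ≠ 0) {U : Submodule F V}
    (hU : finrank F U < finrank F V) :
    Nat.card {g : V ≃ₗ[F] V // g ∈ slV F V ∧ x (g v) ∈ U.map (g : V →ₗ[F] V)} * Nat.card F ≤
      8 * Nat.card (slV F V) := by
  classical
  have hfd : FiniteDimensional F V := Module.Finite.of_finite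
  set n := finrank F V with hn'
  set q := Nat.card F with hq'
  have hq : 2 ≤ q := Finite.one_lt_card
  have hUc : Nat.card U ≤ q ^ (n - 1) := by
    rw [Module.natCard_eq_pow_finrank (K := F) (V := U)]
    exact Nat.pow_le_pow_right (by omega) (by omega)
  have h1 : Nat.card {g : V ≃ₗ[F] V // g ∈ slV F V ∧ x (g v) ∈ U.map (g : V →ₗ[F] V)} ≤
      Nat.card {p : V × (V ≃ₗ[F] V) // p.2 ∈ slV F V ∧ p.2 p.1 = v ∧ p.2 (x p.1) ∈ U} := by
    refine Nat.card_le_card_of_injective (fun g => ⟨(g.1 v, g.1⁻¹), inv_mem g.2.1, ?_, ?_⟩) ?_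
    · exact g.1.symm_apply_apply v
    · obtain ⟨y, hy, h2⟩ := g.2.2
      have h3 : g.1⁻¹ (x (g.1 v)) = y := by
        rw [← h2]
        exact g.1.symm_apply_apply y
      show g.1⁻¹ (x (g.1 v)) ∈ U
      rw [h3]
      exact hy
    · intro g g' h
      have h2 := congrArg (fun p => p.1.2) h
      exact Subtype.ext (inv_injective h2)
  have h2 := dbl (fun (w : V) (h : V ≃ₗ[F] V) => h ∈ slV F V ∧ h w = v ∧ h (x w) ∈ U) {w : V | ∃ c : F, x w = c • w}
    (q ^ (n + 1)) (4 * Nat.card (slV F V)) (2 * (q * Nat.card (slV F V))) ?_ ?_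
  · -- conclusion
    have h3 := card_eig hx
    have h4 : Nat.card V = q ^ n := Module.natCard_eq_pow_finrank (K := F)
    rw [h4] at h2
    have h5 : Nat.card {g : V ≃ₗ[F] V // g ∈ slV F V ∧ x (g v) ∈ U.map (g : V →ₗ[F] V)} * q * q ^ n ≤
        8 * Nat.card (slV F V) * q ^ n := by
      calc _ = Nat.card {g : V ≃ₗ[F] V // g ∈ slV F V ∧ x (g v) ∈ U.map (g : V →ₗ[F] V)} * q ^ (n + 1) := by ring
        _ ≤ _ := Nat.mul_le_mul_right _ h1
        _ ≤ _ := h2
        _ ≤ q ^ n * (4 * Nat.card (slV F V)) + (q ^ (n - 1) + q ^ 2) * (2 * (q * Nat.card (slV F V))) :=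
          Nat.add_le_add_left (Nat.mul_le_mul_right _ h3) _
        _ = (4 * q ^ n + 2 * (q ^ (n - 1) * q) + 2 * q ^ 3) * Nat.card (slV F V) := by ring
        _ ≤ (4 * q ^ n + 2 * q ^ n + 2 * q ^ n) * Nat.card (slV F V) := by
          have h6 : q ^ (n - 1) * q = q ^ n := by
            rw [← pow_succ]
            congr 1
            omega
          have h7 : q ^ 3 ≤ q ^ n := Nat.pow_le_pow_right (by omega) hn
          rw [h6]
          exact Nat.mul_le_mul_right _ (by omega)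
        _ = _ := by ring
    exact Nat.le_of_mul_le_mul_right h5 (by positivity)
  · -- eigenvectors
    rintro w -
    by_cases hw : w = 0
    · have h3 : Nat.card {h : V ≃ₗ[F] V // h ∈ slV F V ∧ h w = v ∧ h (x w) ∈ U} = 0 := by
        rw [Nat.card_eq_zero]
        left
        refine ⟨fun h => hv ?_⟩
        have h4 := h.2.2.1
        subst hw
        rw [← h4, map_zero]
      rw [h3, zero_mul]
      exact Nat.zero_le _
    · have h3 := cnt_le (F := F) (k := 1) (t := fun _ => w) (by omega) (linearIndependent_unique_iff.2 hw) {s | s 0 = v}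
      have h4 : Nat.card {s : Fin 1 → V | s 0 = v} ≤ 1 := by
        rw [Finite.card_le_one_iff_subsingleton]
        refine ⟨fun a b => Subtype.ext ?_⟩
        funext i
        rw [Subsingleton.elim i 0]
        exact a.2.trans b.2.symm
      have h5 : Nat.card {h : V ≃ₗ[F] V // h ∈ slV F V ∧ h w = v ∧ h (x w) ∈ U} ≤
          Nat.card {h : V ≃ₗ[F] V // h ∈ slV F V ∧ (fun _ : Fin 1 => h w) ∈ {s : Fin 1 → V | s 0 = v}} :=
        Nat.card_le_card_of_injective (fun h => ⟨h.1, h.2.1, h.2.2.1⟩) fun a b hab =>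
          Subtype.ext (by have h := congrArg Subtype.val hab; exact h)
      rw [one_mul, pow_one, ← hn'] at h3
      calc _ ≤ Nat.card {h : V ≃ₗ[F] V // h ∈ slV F V ∧ (fun _ : Fin 1 => h w) ∈ {s : Fin 1 → V | s 0 = v}} *
            q ^ (n + 1) := Nat.mul_le_mul_right _ h5
        _ = (Nat.card {h : V ≃ₗ[F] V // h ∈ slV F V ∧ (fun _ : Fin 1 => h w) ∈ {s : Fin 1 → V | s 0 = v}} *
            q ^ n) * q := by ring
        _ ≤ (2 * (Nat.card {s : Fin 1 → V | s 0 = v} * Nat.card (slV F V))) * q := Nat.mul_le_mul_right _ h3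
        _ ≤ (2 * (1 * Nat.card (slV F V))) * q :=
          Nat.mul_le_mul_right _ (Nat.mul_le_mul_left _ (Nat.mul_le_mul_right _ h4))
        _ = _ := by ring
  · -- other vectors
    intro w hw
    have hw0 : w ≠ 0 := by
      rintro rfl
      exact hw ⟨0, by rw [map_zero, smul_zero]⟩
    have hli : LinearIndependent F ![w, x w] := by
      rw [LinearIndependent.pair_iff' hw0]
      intro a ha
      exact hw ⟨a, ha.symm⟩
    have h3 := cnt_le (k := 2) (by omega) hli {s | s 0 = v ∧ s 1 ∈ U}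
    have h4 : Nat.card {s : Fin 2 → V | s 0 = v ∧ s 1 ∈ U} ≤ q ^ (n - 1) := by
      refine le_trans (Nat.card_le_card_of_injective (β := U) (fun s => ⟨s.1 1, s.2.2⟩) ?_) hUc
      intro a b hab
      apply Subtype.ext
      funext i
      have h5 := congrArg Subtype.val hab
      fin_cases i
      · exact a.2.1.trans b.2.1.symm
      · exact h5
    have h5 : Nat.card {h : V ≃ₗ[F] V // h ∈ slV F V ∧ h w = v ∧ h (x w) ∈ U} ≤
        Nat.card {h : V ≃ₗ[F] V // h ∈ slV F V ∧ (fun i : Fin 2 => h ((![w, x w] : Fin 2 → V) i)) ∈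
          {s : Fin 2 → V | s 0 = v ∧ s 1 ∈ U}} :=
      Nat.card_le_card_of_injective (fun h => ⟨h.1, h.2.1, h.2.2.1, h.2.2.2⟩) fun a b hab =>
        Subtype.ext (by have h := congrArg Subtype.val hab; exact h)
    rw [← hn', ← hq'] at h3
    have h6 : Nat.card {h : V ≃ₗ[F] V // h ∈ slV F V ∧ h w = v ∧ h (x w) ∈ U} * q ^ (n + 1) * q ^ (n - 1) ≤
        4 * Nat.card (slV F V) * q ^ (n - 1) := by
      calc _ = Nat.card {h : V ≃ₗ[F] V // h ∈ slV F V ∧ h w = v ∧ h (x w) ∈ U} * q ^ (2 * n) := by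
            rw [mul_assoc, ← pow_add]
            congr 2
            omega
        _ ≤ _ := Nat.mul_le_mul_right _ h5
        _ ≤ _ := h3
        _ ≤ 2 ^ 2 * (q ^ (n - 1) * Nat.card (slV F V)) := Nat.mul_le_mul_left _ (Nat.mul_le_mul_right _ h4)
        _ = _ := by ring
    exact Nat.le_of_mul_le_mul_right h6 (by positivity)

end

end Cfsg.Agent.H627.Ux
end

-- part: H627/Ux/UG2
section
/-!
# General position, linear case (S5716, helper627)

`ug2 : H141.Ux.UG2`.
-/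

set_option autoImplicit false

namespace Cfsg.Agent.H627.Ux

open Module Cfsg.Agent.H847.Bs Cfsg.Agent.H141.Ux

section

variable {F V : Type*} [Field F] [AddCommGroup V] [Module F V]

/-- `V = E ⊕ E' ⊕ C₀` -/
structure Dc (e d : ℕ) (E E' C₀ : Submodule F V) : Prop where
  de : finrank F E = e
  de' : finrank F E' = d
  disj : Disjoint E E'
  compl : IsCompl (E ⊔ E') C₀

variable {e d : ℕ} {E E' C₀ : Submodule F V}

namespace Dc

variable (h : Dc e d E E' C₀)

include h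

theorem symm : Dc d e E' E C₀ := ⟨h.de', h.de, h.disj.symm, by rw [sup_comm]; exact h.compl⟩

theorem eq_zero {v : V} (h1 : v ∈ E) (h2 : v ∈ E' ⊔ C₀) : v = 0 := by
  obtain ⟨a, ha, c, hc, rfl⟩ := Submodule.mem_sup.1 h2
  have h3 : c ∈ E ⊔ E' := by
    have : c = (a + c) - a := by abel
    rw [this]
    exact Submodule.sub_mem _ (Submodule.mem_sup_left h1) (Submodule.mem_sup_right ha)
  have h4 : c = 0 := Submodule.disjoint_def.1 h.compl.disjoint c h3 hc
  subst h4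
  rw [add_zero] at h1 ⊢
  exact Submodule.disjoint_def.1 h.disj a h1 ha

theorem mem_of {v : V} (h1 : v ∈ E' ⊔ C₀) (h2 : v ∈ E ⊔ C₀) : v ∈ C₀ := by
  obtain ⟨a, ha, c, hc, rfl⟩ := Submodule.mem_sup.1 h1
  have h3 : a ∈ E ⊔ C₀ := by
    have : a = (a + c) - c := by abel
    rw [this]
    exact Submodule.sub_mem _ h2 (Submodule.mem_sup_right hc)
  have h4 := h.symm.eq_zero ha h3
  rw [h4, zero_add]
  exact hc

theorem map (g : V ≃ₗ[F] V) : Dc e d (E.map (g : V →ₗ[F] V)) (E'.map (g : V →ₗ[F] V)) (C₀.map (g : V →ₗ[F] V)) := by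
  refine ⟨?_, ?_, ?_, ?_⟩
  · rw [← h.de]; exact LinearEquiv.finrank_map_eq g E
  · rw [← h.de']; exact LinearEquiv.finrank_map_eq g E'
  · exact h.disj.map_orderIso (Submodule.orderIsoMapComap g)
  · rw [← Submodule.map_sup]
    exact OrderIso.isCompl (Submodule.orderIsoMapComap g) h.compl

variable [FiniteDimensional F V]

theorem finrank_sup : finrank F ↥(E ⊔ E') = e + d := by
  have h1 := Submodule.finrank_sup_add_finrank_inf_eq E E'
  rw [h.disj.eq_bot, finrank_bot, h.de, h.de'] at h1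
  omega

theorem finrank_C₀ : finrank F C₀ + (e + d) = finrank F V := by
  have h1 := Submodule.finrank_add_eq_of_isCompl h.compl
  rw [h.finrank_sup] at h1
  omega

theorem finrank_C : finrank F ↥(E' ⊔ C₀) + e = finrank F V := by
  have h1 := Submodule.finrank_sup_add_finrank_inf_eq E' C₀
  have h2 : E' ⊓ C₀ = ⊥ := by
    rw [eq_bot_iff, ← h.compl.inf_eq_bot]
    exact inf_le_inf_right _ le_sup_right
  rw [h2, finrank_bot, h.de'] at h1
  have := h.finrank_C₀
  omega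

/-- the deterministic part -/
theorem gpl {x : V ≃ₗ[F] V} (key : ∀ a ∈ E, ∀ b ∈ E', a + x b ∈ E' ⊔ C₀ → x.symm a + b ∈ E ⊔ C₀ → a = 0 ∧ b = 0) :
    Disjoint E (E'.map (x : V →ₗ[F] V)) ∧
      IsCompl (E ⊔ E'.map (x : V →ₗ[F] V)) ((E' ⊔ C₀) ⊓ (E ⊔ C₀).map (x : V →ₗ[F] V)) := by
  have h1 : Disjoint E (E'.map (x : V →ₗ[F] V)) := by
    rw [Submodule.disjoint_def]
    rintro _ h2 ⟨b, hb, rfl⟩
    have h3 := key _ h2 (-b) (E'.neg_mem hb) (by
      have : (x : V →ₗ[F] V) b + x (-b) = 0 := by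
        rw [map_neg]
        exact add_neg_cancel _
      rw [this]
      exact zero_mem _) (by
      have : x.symm ((x : V →ₗ[F] V) b) + -b = 0 := by
        rw [LinearEquiv.coe_coe, LinearEquiv.symm_apply_apply, add_neg_cancel]
      rw [this]
      exact zero_mem _)
    exact h3.1
  have h2 : Disjoint (E ⊔ E'.map (x : V →ₗ[F] V)) ((E' ⊔ C₀) ⊓ (E ⊔ C₀).map (x : V →ₗ[F] V)) := by
    rw [Submodule.disjoint_def]
    rintro v hv ⟨hv1, hv2⟩
    obtain ⟨a, ha, _, ⟨b, hb, rfl⟩, rfl⟩ := Submodule.mem_sup.1 hv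
    obtain ⟨c, hc, hc2⟩ := hv2
    have h3 := key a ha b hb hv1 (by
      have : x.symm a + b = c := by
        apply x.injective
        rw [map_add, LinearEquiv.apply_symm_apply]
        exact hc2.symm
      rw [this]
      exact hc)
    rw [h3.1, h3.2, map_zero, add_zero]
  refine ⟨h1, (Submodule.isCompl_iff_disjoint _ _ ?_).2 h2⟩
  have h3 := Submodule.finrank_sup_add_finrank_inf_eq E (E'.map (x : V →ₗ[F] V))
  have h4 := Submodule.finrank_sup_add_finrank_inf_eq (E' ⊔ C₀) ((E ⊔ C₀).map (x : V →ₗ[F] V))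
  rw [h1.eq_bot, finrank_bot, h.de, LinearEquiv.finrank_map_eq, h.de'] at h3
  rw [LinearEquiv.finrank_map_eq] at h4
  have h5 := h.finrank_C
  have h6 := h.symm.finrank_C
  have h7 := Submodule.finrank_le ((E' ⊔ C₀) ⊔ (E ⊔ C₀).map (x : V →ₗ[F] V))
  omega

end Dc

variable [Finite F] [Finite V]

omit [Finite F] in
theorem card_sub (W : Submodule F V) : Nat.card W = Nat.card F ^ finrank F W := Module.natCard_eq_pow_finrank

/-- the conditions -/
def Pd (E E' C₀ : Submodule F V) (x : V ≃ₗ[F] V) (p : V × V) (h : V ≃ₗ[F] V) : Prop :=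
  h ∈ slV F V ∧ p.1 ≠ 0 ∧ p.2 ≠ 0 ∧ h p.1 ∈ E ∧ h p.2 ∈ E' ∧ h (p.1 + x p.2) ∈ E' ⊔ C₀ ∧
    h (x.symm p.1 + p.2) ∈ E ⊔ C₀

/-- the special pairs -/
def Sp (x : V ≃ₗ[F] V) : Set (V × V) :=
  {p | (∃ μ : F, p.1 = μ • p.2 - x p.2) ∨ ∃ ρ : F, p.2 = ρ • p.1 - x.symm p.1}

theorem card_Sp (x : V ≃ₗ[F] V) : Nat.card (Sp x) ≤ 2 * Nat.card F ^ (finrank F V + 1) := by
  classical
  have hV : Nat.card V = Nat.card F ^ finrank F V := Module.natCard_eq_pow_finrank
  have h1 : Sp x ⊆ (Set.range fun p : F × V => ((p.1 • p.2 - x p.2, p.2) : V × V)) ∪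
      Set.range fun p : F × V => ((p.2, p.1 • p.2 - x.symm p.2) : V × V) := by
    rintro ⟨a, b⟩ (⟨μ, hμ⟩ | ⟨ρ, hρ⟩)
    · exact Or.inl ⟨(μ, b), by simp only at hμ; rw [hμ]⟩
    · exact Or.inr ⟨(ρ, a), by simp only at hρ; rw [hρ]⟩
  have h2 : ∀ f : F × V → V × V, (Set.range f).ncard ≤ Nat.card F ^ (finrank F V + 1) := by
    intro f
    rw [← Set.image_univ]
    refine (Set.ncard_image_le (Set.toFinite _)).trans (le_of_eq ?_)
    rw [Set.ncard_univ, Nat.card_prod, hV, pow_succ, mul_comm]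
  rw [Nat.card_coe_set_eq]
  calc _ ≤ _ := Set.ncard_le_ncard h1 (Set.toFinite _)
    _ ≤ _ := Set.ncard_union_le _ _
    _ ≤ _ := by
      have := h2 (fun p : F × V => ((p.1 • p.2 - x p.2, p.2) : V × V))
      have := h2 (fun p : F × V => ((p.2, p.1 • p.2 - x.symm p.2) : V × V))
      omega

variable (h : Dc e d E E' C₀) {x : V ≃ₗ[F] V}

include h

/-- pairs in `E × E'` -/
theorem cnt_two (hn : 3 ≤ finrank F V) {p : V × V} :
    Nat.card {g : V ≃ₗ[F] V // Pd E E' C₀ x p g} * Nat.card F ^ (2 * finrank F V) ≤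
      4 * Nat.card F ^ (e + d) * Nat.card (slV F V) := by
  classical
  have hfd : FiniteDimensional F V := Module.Finite.of_finite
  by_cases hli : LinearIndependent F ![p.1, p.2]
  · have h3 := cnt_le (k := 2) (by omega) hli {s | s 0 ∈ E ∧ s 1 ∈ E'}
    have h4 : Nat.card {s : Fin 2 → V | s 0 ∈ E ∧ s 1 ∈ E'} ≤ Nat.card F ^ (e + d) := by
      refine le_trans (Nat.card_le_card_of_injective (β := E × E') (fun s => (⟨s.1 0, s.2.1⟩, ⟨s.1 1, s.2.2⟩)) ?_) ?_
      · intro a b hab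
        simp only [Prod.mk.injEq, Subtype.mk.injEq] at hab
        apply Subtype.ext
        funext i
        fin_cases i
        · exact hab.1
        · exact hab.2
      · rw [Nat.card_prod, card_sub, card_sub, h.de, h.de', pow_add]
    have h5 : Nat.card {g : V ≃ₗ[F] V // Pd E E' C₀ x p g} ≤
        Nat.card {g : V ≃ₗ[F] V // g ∈ slV F V ∧ (fun i : Fin 2 => g ((![p.1, p.2] : Fin 2 → V) i)) ∈
          {s : Fin 2 → V | s 0 ∈ E ∧ s 1 ∈ E'}} :=
      Nat.card_le_card_of_injective (fun g => ⟨g.1, g.2.1, g.2.2.2.2.1, g.2.2.2.2.2.1⟩) fun a b hab =>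
        Subtype.ext (by have h := congrArg Subtype.val hab; exact h)
    calc _ ≤ _ := Nat.mul_le_mul_right _ h5
      _ ≤ _ := h3
      _ ≤ 2 ^ 2 * (Nat.card F ^ (e + d) * Nat.card (slV F V)) := Nat.mul_le_mul_left _ (Nat.mul_le_mul_right _ h4)
      _ = _ := by ring
  · have h0 : Nat.card {g : V ≃ₗ[F] V // Pd E E' C₀ x p g} = 0 := by
      rw [Nat.card_eq_zero]
      left
      refine ⟨fun g => hli ?_⟩
      obtain ⟨g, -, h1, h2, h3, h4, -, -⟩ := g
      rw [LinearIndependent.pair_iff' h1]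
      intro a ha
      apply h2
      have h5 : g p.2 ∈ E := by
        rw [← ha, map_smul]
        exact E.smul_mem _ h3
      have h6 := Submodule.disjoint_def.1 h.disj _ h5 h4
      exact (map_eq_zero_iff g g.injective).1 h6
    rw [h0, zero_mul]
    exact Nat.zero_le _

/-- generic pairs -/
theorem cnt_gen (hn : 5 ≤ finrank F V) {p : V × V} (hp : p ∉ Sp x) :
    Nat.card {g : V ≃ₗ[F] V // Pd E E' C₀ x p g} * Nat.card F ^ (2 * finrank F V) ≤ 16 * Nat.card (slV F V) := by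
  classical
  have hfd : FiniteDimensional F V := Module.Finite.of_finite
  set n := finrank F V with hn'
  set q := Nat.card F with hq'
  have hq : 2 ≤ q := Finite.one_lt_card
  obtain ⟨a, b⟩ := p
  by_cases h0 : IsEmpty {g : V ≃ₗ[F] V // Pd E E' C₀ x (a, b) g}
  · have h1 : Nat.card {g : V ≃ₗ[F] V // Pd E E' C₀ x (a, b) g} = 0 := Nat.card_eq_zero.2 (Or.inl h0)
    rw [h1, zero_mul]
    exact Nat.zero_le _
  rw [not_isEmpty_iff] at h0
  obtain ⟨g, hg, ha0, hb0, ha, hb, h1, h2⟩ := h0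
  simp only at ha0 hb0 ha hb h1 h2
  have hab : LinearIndependent F ![a, b] := by
    rw [LinearIndependent.pair_iff' ha0]
    intro t ht
    apply hb0
    have h5 : g b ∈ E := by
      rw [← ht, map_smul]
      exact E.smul_mem _ ha
    have h6 := Submodule.disjoint_def.1 h.disj _ h5 hb
    exact (map_eq_zero_iff g g.injective).1 h6
  -- three vectors
  have h3li : LinearIndependent F ![a, b, x b] := by
    have h4 : LinearIndependent F (Fin.snoc ![a, b] (x b) : Fin 3 → V) := by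
      rw [linearIndependent_finSnoc]
      refine ⟨hab, fun hmem => hp (Or.inl ?_)⟩
      rw [Matrix.range_cons, Matrix.range_cons, Matrix.range_empty, Set.union_empty, Set.singleton_union,
        Submodule.mem_span_pair] at hmem
      obtain ⟨l, μ, hlμ⟩ := hmem
      have h5 : (1 + l) • g a = 0 := by
        refine h.eq_zero (E.smul_mem _ ha) ?_
        have h6 : (1 + l) • g a = g (a + x b) - μ • g b := by
          rw [← hlμ]
          simp only [map_add, map_smul]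
          module
        rw [h6]
        exact Submodule.sub_mem _ h1 (Submodule.smul_mem _ _ (Submodule.mem_sup_left hb))
      have h6 : 1 + l = 0 := by
        rcases smul_eq_zero.1 h5 with h6 | h6
        · exact h6
        · exact absurd ((map_eq_zero_iff g g.injective).1 h6) ha0
      refine ⟨μ, ?_⟩
      have h7 : l = -1 := by linear_combination h6
      simp only
      rw [← hlμ, h7]
      module
    convert h4 using 1
    ext i
    fin_cases i <;> rfl
  by_cases h4 : x.symm a ∈ Submodule.span F {a, b, x b}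
  · -- dimension three
    obtain ⟨ρ, σ, τ, hρ⟩ := Submodule.mem_span_triple.1 h4
    have hτ : τ ≠ 0 := by
      rintro rfl
      apply hp
      right
      have h5 : (σ + 1) • g b = 0 := by
        refine h.symm.eq_zero (E'.smul_mem _ hb) ?_
        have h6 : (σ + 1) • g b = g (x.symm a + b) - ρ • g a := by
          rw [← hρ]
          simp only [map_add, map_smul]
          module
        rw [h6]
        exact Submodule.sub_mem _ h2 (Submodule.smul_mem _ _ (Submodule.mem_sup_left ha))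
      have h6 : σ + 1 = 0 := by
        rcases smul_eq_zero.1 h5 with h6 | h6
        · exact h6
        · exact absurd ((map_eq_zero_iff g g.injective).1 h6) hb0
      refine ⟨ρ, ?_⟩
      have h7 : σ = -1 := by linear_combination h6
      simp only
      rw [← hρ, h7]
      module
    have h5 := cnt_le (k := 3) (by omega) h3li
      {s | s 0 ∈ E ∧ s 1 ∈ E' ∧ s 0 + s 2 ∈ E' ⊔ C₀ ∧ ρ • s 0 + σ • s 1 + τ • s 2 + s 1 ∈ E ⊔ C₀}
    have h6 : Nat.card {s : Fin 3 → V | s 0 ∈ E ∧ s 1 ∈ E' ∧ s 0 + s 2 ∈ E' ⊔ C₀ ∧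
        ρ • s 0 + σ • s 1 + τ • s 2 + s 1 ∈ E ⊔ C₀} ≤ q ^ n := by
      have hmem : ∀ s : Fin 3 → V, s 0 ∈ E ∧ s 1 ∈ E' ∧ s 0 + s 2 ∈ E' ⊔ C₀ ∧
          ρ • s 0 + σ • s 1 + τ • s 2 + s 1 ∈ E ⊔ C₀ → s 0 + s 2 + (τ⁻¹ * (σ + 1)) • s 1 ∈ C₀ := by
        rintro s ⟨s1, s2, s3, s4⟩
        refine h.mem_of (Submodule.add_mem _ s3 (Submodule.smul_mem _ _ (Submodule.mem_sup_left s2))) ?_
        have h7 : s 0 + s 2 + (τ⁻¹ * (σ + 1)) • s 1 =
            τ⁻¹ • ((ρ • s 0 + σ • s 1 + τ • s 2 + s 1) + (τ - ρ) • s 0) := by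
          have h8 : s 0 + s 2 = τ⁻¹ • (τ • (s 0 + s 2)) := by rw [smul_smul, inv_mul_cancel₀ hτ, one_smul]
          rw [h8, mul_smul, ← smul_add]
          congr 1
          module
        rw [h7]
        exact Submodule.smul_mem _ _ (Submodule.add_mem _ s4 (Submodule.smul_mem _ _ (Submodule.mem_sup_left s1)))
      refine le_trans (Nat.card_le_card_of_injective (β := E × E' × C₀)
        (fun s => (⟨s.1 0, s.2.1⟩, ⟨s.1 1, s.2.2.1⟩, ⟨_, hmem s.1 s.2⟩)) ?_) ?_
      · intro s s' hss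
        simp only [Prod.mk.injEq, Subtype.mk.injEq] at hss
        obtain ⟨e0, e1, e2⟩ := hss
        apply Subtype.ext
        funext i
        fin_cases i
        · exact e0
        · exact e1
        · show s.1 2 = s'.1 2
          rw [e0, e1] at e2
          exact add_left_cancel (add_right_cancel e2)
      · rw [Nat.card_prod, Nat.card_prod, card_sub, card_sub, card_sub, h.de, h.de', ← pow_add, ← pow_add]
        refine Nat.pow_le_pow_right (by omega) ?_
        have := h.finrank_C₀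
        omega
    have h7 : Nat.card {g : V ≃ₗ[F] V // Pd E E' C₀ x (a, b) g} ≤
        Nat.card {g : V ≃ₗ[F] V // g ∈ slV F V ∧ (fun i : Fin 3 => g ((![a, b, x b] : Fin 3 → V) i)) ∈
          {s : Fin 3 → V | s 0 ∈ E ∧ s 1 ∈ E' ∧ s 0 + s 2 ∈ E' ⊔ C₀ ∧
            ρ • s 0 + σ • s 1 + τ • s 2 + s 1 ∈ E ⊔ C₀}} := by
      refine Nat.card_le_card_of_injective (fun g => ⟨g.1, g.2.1, g.2.2.2.2.1, g.2.2.2.2.2.1, ?_, ?_⟩) fun a b hab =>
        Subtype.ext (by have h := congrArg Subtype.val hab; exact h)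
      · have := g.2.2.2.2.2.2.1
        rw [map_add] at this
        exact this
      · have := g.2.2.2.2.2.2.2
        simp only at this
        rw [← hρ] at this
        simp only [map_add, map_smul] at this
        exact this
    rw [← hn', ← hq'] at h5
    have h8 : Nat.card {g : V ≃ₗ[F] V // Pd E E' C₀ x (a, b) g} * q ^ (2 * n) * q ^ n ≤
        16 * Nat.card (slV F V) * q ^ n := by
      calc _ = Nat.card {g : V ≃ₗ[F] V // Pd E E' C₀ x (a, b) g} * q ^ (3 * n) := by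
            rw [mul_assoc, ← pow_add]
            congr 2
            omega
        _ ≤ _ := Nat.mul_le_mul_right _ h7
        _ ≤ _ := h5
        _ ≤ 2 ^ 3 * (q ^ n * Nat.card (slV F V)) := Nat.mul_le_mul_left _ (Nat.mul_le_mul_right _ h6)
        _ = 8 * Nat.card (slV F V) * q ^ n := by ring
        _ ≤ _ := by gcongr; norm_num
    exact Nat.le_of_mul_le_mul_right h8 (by positivity)
  · -- dimension four
    have h4li : LinearIndependent F ![a, b, x b, x.symm a] := by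
      have h5 : LinearIndependent F (Fin.snoc ![a, b, x b] (x.symm a) : Fin 4 → V) := by
        rw [linearIndependent_finSnoc]
        refine ⟨h3li, fun hmem => h4 ?_⟩
        have e1 : Set.range ![a, b, x b] = {a, b, x b} := by
          rw [Matrix.range_cons, Matrix.range_cons, Matrix.range_cons, Matrix.range_empty, Set.union_empty]
          rfl
        rwa [e1] at hmem
      convert h5 using 1
      ext i
      fin_cases i <;> rfl
    have h5 := cnt_le (k := 4) (by omega) h4li {s | s 0 ∈ E ∧ s 1 ∈ E' ∧ s 0 + s 2 ∈ E' ⊔ C₀ ∧ s 3 + s 1 ∈ E ⊔ C₀}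
    have h6 : Nat.card {s : Fin 4 → V | s 0 ∈ E ∧ s 1 ∈ E' ∧ s 0 + s 2 ∈ E' ⊔ C₀ ∧ s 3 + s 1 ∈ E ⊔ C₀} ≤ q ^ (2 * n) := by
      refine le_trans (Nat.card_le_card_of_injective (β := E × E' × ↥(E' ⊔ C₀) × ↥(E ⊔ C₀))
        (fun s => (⟨s.1 0, s.2.1⟩, ⟨s.1 1, s.2.2.1⟩, ⟨_, s.2.2.2.1⟩, ⟨_, s.2.2.2.2⟩)) ?_) ?_
      · intro s s' hss
        simp only [Prod.mk.injEq, Subtype.mk.injEq] at hss
        obtain ⟨e0, e1, e2, e3⟩ := hss
        apply Subtype.ext
        funext i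
        fin_cases i
        · exact e0
        · exact e1
        · show s.1 2 = s'.1 2
          rw [e0] at e2
          exact add_left_cancel e2
        · show s.1 3 = s'.1 3
          rw [e1] at e3
          exact add_right_cancel e3
      · rw [Nat.card_prod, Nat.card_prod, Nat.card_prod, card_sub, card_sub, card_sub, card_sub, h.de, h.de', ← pow_add,
          ← pow_add, ← pow_add]
        refine Nat.pow_le_pow_right (by omega) ?_
        have := h.finrank_C
        have := h.symm.finrank_C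
        omega
    have h7 : Nat.card {g : V ≃ₗ[F] V // Pd E E' C₀ x (a, b) g} ≤
        Nat.card {g : V ≃ₗ[F] V // g ∈ slV F V ∧ (fun i : Fin 4 => g ((![a, b, x b, x.symm a] : Fin 4 → V) i)) ∈
          {s : Fin 4 → V | s 0 ∈ E ∧ s 1 ∈ E' ∧ s 0 + s 2 ∈ E' ⊔ C₀ ∧ s 3 + s 1 ∈ E ⊔ C₀}} := by
      refine Nat.card_le_card_of_injective (fun g => ⟨g.1, g.2.1, g.2.2.2.2.1, g.2.2.2.2.2.1, ?_, ?_⟩) fun a b hab =>
        Subtype.ext (by have h := congrArg Subtype.val hab; exact h)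
      · have := g.2.2.2.2.2.2.1
        rw [map_add] at this
        exact this
      · have := g.2.2.2.2.2.2.2
        rw [map_add] at this
        exact this
    rw [← hn', ← hq'] at h5
    have h8 : Nat.card {g : V ≃ₗ[F] V // Pd E E' C₀ x (a, b) g} * q ^ (2 * n) * q ^ (2 * n) ≤
        16 * Nat.card (slV F V) * q ^ (2 * n) := by
      calc _ = Nat.card {g : V ≃ₗ[F] V // Pd E E' C₀ x (a, b) g} * q ^ (4 * n) := by
            rw [mul_assoc, ← pow_add]
            congr 2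
            omega
        _ ≤ _ := Nat.mul_le_mul_right _ h7
        _ ≤ _ := h5
        _ ≤ 2 ^ 4 * (q ^ (2 * n) * Nat.card (slV F V)) := Nat.mul_le_mul_left _ (Nat.mul_le_mul_right _ h6)
        _ = _ := by ring
    exact Nat.le_of_mul_le_mul_right h8 (by positivity)

/-- the number of configurations -/
theorem cnt_pairs (hn : 5 ≤ finrank F V) (hn2 : e + d + 1 ≤ finrank F V) :
    Nat.card {p : (V × V) × (V ≃ₗ[F] V) // Pd E E' C₀ x p.1 p.2} ≤ 24 * Nat.card (slV F V) := by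
  have hfd : FiniteDimensional F V := Module.Finite.of_finite
  set n := finrank F V with hn'
  set q := Nat.card F with hq'
  have hq : 2 ≤ q := Finite.one_lt_card
  have h1 := dbl (Pd E E' C₀ x) (Sp x) (q ^ (2 * n)) (16 * Nat.card (slV F V))
    (4 * q ^ (e + d) * Nat.card (slV F V)) (fun p _ => cnt_two h (by omega)) (fun p hp => cnt_gen h hn hp)
  have h2 : Nat.card (V × V) = q ^ (2 * n) := by
    rw [Nat.card_prod, Module.natCard_eq_pow_finrank (K := F) (V := V), ← pow_add]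
    congr 1
    omega
  rw [h2] at h1
  refine Nat.le_of_mul_le_mul_right (c := q ^ (2 * n)) ?_ (by positivity)
  calc _ ≤ _ := h1
    _ ≤ q ^ (2 * n) * (16 * Nat.card (slV F V)) + 2 * q ^ (n + 1) * (4 * q ^ (e + d) * Nat.card (slV F V)) :=
      Nat.add_le_add_left (Nat.mul_le_mul_right _ (card_Sp x)) _
    _ = (16 * q ^ (2 * n) + 8 * q ^ (n + 1 + (e + d))) * Nat.card (slV F V) := by rw [pow_add q (n + 1)]; ring
    _ ≤ (16 * q ^ (2 * n) + 8 * q ^ (2 * n)) * Nat.card (slV F V) := by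
      have h3 : q ^ (n + 1 + (e + d)) ≤ q ^ (2 * n) := Nat.pow_le_pow_right (by omega) (by omega)
      exact Nat.mul_le_mul_right _ (by omega)
    _ = _ := by ring

/-- pairs of blocks in bad position -/
theorem cnt_bad (hn : 5 ≤ finrank F V) (hn2 : e + d + 1 ≤ finrank F V) :
    Nat.card {g : V ≃ₗ[F] V // g ∈ slV F V ∧ ∃ a b : V, (a ≠ 0 ∨ b ≠ 0) ∧ a ∈ E.map (g : V →ₗ[F] V) ∧
      b ∈ E'.map (g : V →ₗ[F] V) ∧ a + x b ∈ (E' ⊔ C₀).map (g : V →ₗ[F] V) ∧
      x.symm a + b ∈ (E ⊔ C₀).map (g : V →ₗ[F] V)} * (Nat.card F - 1) ≤ 24 * Nat.card (slV F V) := by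
  classical
  refine le_trans ?_ (cnt_pairs h (x := x) hn hn2)
  rw [← Nat.card_units, ← Nat.card_prod]
  have hmap : ∀ (g : V ≃ₗ[F] V) (W : Submodule F V) (v : V), v ∈ W.map (g : V →ₗ[F] V) ↔ g⁻¹ v ∈ W := by
    intro g W v
    constructor
    · rintro ⟨y, hy, rfl⟩
      have : g⁻¹ ((g : V →ₗ[F] V) y) = y := g.symm_apply_apply y
      rw [this]
      exact hy
    · intro hv
      exact ⟨g⁻¹ v, hv, g.apply_symm_apply v⟩
  have hex : ∀ g : {g : V ≃ₗ[F] V // g ∈ slV F V ∧ ∃ a b : V, (a ≠ 0 ∨ b ≠ 0) ∧ a ∈ E.map (g : V →ₗ[F] V) ∧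
      b ∈ E'.map (g : V →ₗ[F] V) ∧ a + x b ∈ (E' ⊔ C₀).map (g : V →ₗ[F] V) ∧
      x.symm a + b ∈ (E ⊔ C₀).map (g : V →ₗ[F] V)}, ∃ p : V × V, ∀ c : Fˣ,
      Pd E E' C₀ x ((c : F) • p.1, (c : F) • p.2) g.1⁻¹ := by
    rintro ⟨g, hg, a, b, h0, h1, h2, h3, h4⟩
    rw [hmap] at h1 h2 h3 h4
    have hb : b ≠ 0 := by
      rintro rfl
      have ha : a ≠ 0 := h0.resolve_right (fun h => h rfl)
      apply ha
      rw [map_zero, add_zero] at h3
      exact (map_eq_zero_iff _ (g⁻¹).injective).1 (h.eq_zero h1 h3)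
    have ha : a ≠ 0 := by
      rintro rfl
      apply hb
      rw [map_zero, zero_add] at h4
      exact (map_eq_zero_iff _ (g⁻¹).injective).1 (h.symm.eq_zero h2 h4)
    refine ⟨(a, b), fun c => ⟨inv_mem hg, ?_, ?_, ?_, ?_, ?_, ?_⟩⟩
    · exact smul_ne_zero c.ne_zero ha
    · exact smul_ne_zero c.ne_zero hb
    · simp only [map_smul]
      exact E.smul_mem _ h1
    · simp only [map_smul]
      exact E'.smul_mem _ h2
    · simp only [map_smul, ← smul_add]
      exact Submodule.smul_mem _ _ h3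
    · simp only [map_smul, ← smul_add]
      exact Submodule.smul_mem _ _ h4
  choose f hf using hex
  refine Nat.card_le_card_of_injective (fun p => ⟨(((p.2 : F) • (f p.1).1, (p.2 : F) • (f p.1).2), p.1.1⁻¹), hf p.1 p.2⟩) ?_
  rintro ⟨g, c⟩ ⟨g', c'⟩ hab
  simp only [Subtype.mk.injEq, Prod.mk.injEq] at hab
  obtain ⟨⟨h1, -⟩, h2⟩ := hab
  have h3 : g = g' := Subtype.ext (inv_injective h2)
  subst h3
  have h4 : (f g).1 ≠ 0 := by
    have := (hf g 1).2.1
    simpa using this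
  have h5 : c = c' := by
    apply Units.ext
    have h6 : ((c : F) - (c' : F)) • (f g).1 = 0 := by rw [sub_smul, h1, sub_self]
    rcases smul_eq_zero.1 h6 with h7 | h7
    · exact sub_eq_zero.1 h7
    · exact absurd h7 h4
  rw [h5]

end

/-- **General position, linear case.** -/
theorem ug2 : UG2 := by
  refine ⟨72, ?_⟩
  intro F V _ _ _ _ _ e d hF he hd hde hn E₀ E₀' C₀ h1 h2 h3 h4 x hx hxs
  classical
  have hfinV : Finite V := Module.finite_of_finite F
  have hD : Dc e d E₀ E₀' C₀ := ⟨h1, h2, h3, h4⟩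
  set q := Nat.card F with hq
  set N := Nat.card (slV F V) with hN
  obtain ⟨v, hv, hv0⟩ : ∃ v ∈ E₀, v ≠ 0 := Submodule.exists_mem_ne_zero_of_ne_bot (by
    rintro rfl
    rw [finrank_bot] at h1
    omega)
  obtain ⟨v', hv', hv0'⟩ : ∃ v ∈ E₀', v ≠ 0 := Submodule.exists_mem_ne_zero_of_ne_bot (by
    rintro rfl
    rw [finrank_bot] at h2
    omega)
  have hC := hD.finrank_C
  have hC' := hD.symm.finrank_C
  have hxs' : ¬ Sca x.symm := by
    rintro ⟨c, hc⟩
    have hc0 : c ≠ 0 := by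
      rintro rfl
      apply hv0
      have := hc v
      rw [zero_smul] at this
      exact (map_eq_zero_iff _ x.symm.injective).1 this
    apply hxs
    refine ⟨c⁻¹, fun w => ?_⟩
    have h5 := hc (x w)
    rw [LinearEquiv.symm_apply_apply] at h5
    rw [eq_inv_smul_iff₀ hc0]
    exact h5.symm
  have b1 := cnt_bad hD (x := x) (by omega) (by omega)
  have ba := cnt_eig (by omega) hxs hv0' (U := E₀' ⊔ C₀) (by omega)
  have bb := cnt_eig (by omega) hxs' hv0 (U := E₀ ⊔ C₀) (by omega)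
  have be := cnt_eig (by omega) hxs hv0 (U := E₀' ⊔ C₀) (by omega)
  rw [← hq, ← hN] at b1 ba bb be
  set B1 := Nat.card {g : V ≃ₗ[F] V // g ∈ slV F V ∧ ∃ a b : V, (a ≠ 0 ∨ b ≠ 0) ∧ a ∈ E₀.map (g : V →ₗ[F] V) ∧
      b ∈ E₀'.map (g : V →ₗ[F] V) ∧ a + x b ∈ (E₀' ⊔ C₀).map (g : V →ₗ[F] V) ∧
      x.symm a + b ∈ (E₀ ⊔ C₀).map (g : V →ₗ[F] V)} with hB1
  set Ba := Nat.card {g : V ≃ₗ[F] V // g ∈ slV F V ∧ x (g v') ∈ (E₀' ⊔ C₀).map (g : V →ₗ[F] V)} with hBa
  set Bb := Nat.card {g : V ≃ₗ[F] V // g ∈ slV F V ∧ x.symm (g v) ∈ (E₀ ⊔ C₀).map (g : V →ₗ[F] V)} with hBb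
  set Be := Nat.card {g : V ≃ₗ[F] V // g ∈ slV F V ∧ x (g v) ∈ (E₀' ⊔ C₀).map (g : V →ₗ[F] V)} with hBe
  have key : cnt (slV F V) (fun g => ¬ GPL x (E₀.map (g : V →ₗ[F] V)) (E₀'.map (g : V →ₗ[F] V))
      (C₀.map (g : V →ₗ[F] V))) ≤ B1 + Ba + Bb + Be := by
    have e1 : {g : V ≃ₗ[F] V | g ∈ slV F V ∧ ¬ GPL x (E₀.map (g : V →ₗ[F] V)) (E₀'.map (g : V →ₗ[F] V))
        (C₀.map (g : V →ₗ[F] V))} ⊆
        {g : V ≃ₗ[F] V | g ∈ slV F V ∧ ∃ a b : V, (a ≠ 0 ∨ b ≠ 0) ∧ a ∈ E₀.map (g : V →ₗ[F] V) ∧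
          b ∈ E₀'.map (g : V →ₗ[F] V) ∧ a + x b ∈ (E₀' ⊔ C₀).map (g : V →ₗ[F] V) ∧
          x.symm a + b ∈ (E₀ ⊔ C₀).map (g : V →ₗ[F] V)} ∪
        {g : V ≃ₗ[F] V | g ∈ slV F V ∧ x (g v') ∈ (E₀' ⊔ C₀).map (g : V →ₗ[F] V)} ∪
        {g : V ≃ₗ[F] V | g ∈ slV F V ∧ x.symm (g v) ∈ (E₀ ⊔ C₀).map (g : V →ₗ[F] V)} ∪
        {g : V ≃ₗ[F] V | g ∈ slV F V ∧ x (g v) ∈ (E₀' ⊔ C₀).map (g : V →ₗ[F] V)} := by
      rintro g ⟨hg, hgp⟩
      by_contra hcon
      simp only [Set.mem_union, Set.mem_ofPred_eq, not_or, not_and] at hcon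
      obtain ⟨⟨⟨c1, ca⟩, cb⟩, ce⟩ := hcon
      have c1 := c1 hg
      have ca := ca hg
      have cb := cb hg
      have ce := ce hg
      rw [Submodule.map_sup] at ca cb ce
      have hDg := hD.map g
      have h5 := hDg.gpl (x := x) (fun a ha b hb h6 h7 => by
        by_contra h8
        apply c1
        refine ⟨a, b, ?_, ha, hb, ?_, ?_⟩
        · by_contra h9
          push Not at h9
          exact h8 h9
        · rw [Submodule.map_sup]
          exact h6
        · rw [Submodule.map_sup]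
          exact h7)
      apply hgp
      refine ⟨h5.1, h5.2, ?_, ?_, ?_⟩
      · exact ⟨g v', ⟨v', hv', rfl⟩, ca⟩
      · refine ⟨g v, ⟨v, hv, rfl⟩, ?_⟩
        rintro ⟨y, hy, h6⟩
        apply cb
        rw [← h6]
        have : x.symm ((x : V →ₗ[F] V) y) = y := x.symm_apply_apply y
        rw [this]
        exact hy
      · exact ⟨g v, ⟨v, hv, rfl⟩, ce⟩
    have e2 := Set.ncard_le_ncard e1 (Set.toFinite _)
    have e3 := Set.ncard_union_le
      ({g : V ≃ₗ[F] V | g ∈ slV F V ∧ ∃ a b : V, (a ≠ 0 ∨ b ≠ 0) ∧ a ∈ E₀.map (g : V →ₗ[F] V) ∧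
          b ∈ E₀'.map (g : V →ₗ[F] V) ∧ a + x b ∈ (E₀' ⊔ C₀).map (g : V →ₗ[F] V) ∧
          x.symm a + b ∈ (E₀ ⊔ C₀).map (g : V →ₗ[F] V)} ∪
        {g : V ≃ₗ[F] V | g ∈ slV F V ∧ x (g v') ∈ (E₀' ⊔ C₀).map (g : V →ₗ[F] V)} ∪
        {g : V ≃ₗ[F] V | g ∈ slV F V ∧ x.symm (g v) ∈ (E₀ ⊔ C₀).map (g : V →ₗ[F] V)})
        {g : V ≃ₗ[F] V | g ∈ slV F V ∧ x (g v) ∈ (E₀' ⊔ C₀).map (g : V →ₗ[F] V)}
    have e4 := Set.ncard_union_le
      ({g : V ≃ₗ[F] V | g ∈ slV F V ∧ ∃ a b : V, (a ≠ 0 ∨ b ≠ 0) ∧ a ∈ E₀.map (g : V →ₗ[F] V) ∧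
          b ∈ E₀'.map (g : V →ₗ[F] V) ∧ a + x b ∈ (E₀' ⊔ C₀).map (g : V →ₗ[F] V) ∧
          x.symm a + b ∈ (E₀ ⊔ C₀).map (g : V →ₗ[F] V)} ∪
        {g : V ≃ₗ[F] V | g ∈ slV F V ∧ x (g v') ∈ (E₀' ⊔ C₀).map (g : V →ₗ[F] V)})
        {g : V ≃ₗ[F] V | g ∈ slV F V ∧ x.symm (g v) ∈ (E₀ ⊔ C₀).map (g : V →ₗ[F] V)}
    have e5 := Set.ncard_union_le
      {g : V ≃ₗ[F] V | g ∈ slV F V ∧ ∃ a b : V, (a ≠ 0 ∨ b ≠ 0) ∧ a ∈ E₀.map (g : V →ₗ[F] V) ∧
          b ∈ E₀'.map (g : V →ₗ[F] V) ∧ a + x b ∈ (E₀' ⊔ C₀).map (g : V →ₗ[F] V) ∧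
          x.symm a + b ∈ (E₀ ⊔ C₀).map (g : V →ₗ[F] V)}
        {g : V ≃ₗ[F] V | g ∈ slV F V ∧ x (g v') ∈ (E₀' ⊔ C₀).map (g : V →ₗ[F] V)}
    have e6 := e2.trans (e3.trans (Nat.add_le_add_right (e4.trans (Nat.add_le_add_right e5 _)) _))
    exact e6
  have h5 : B1 * q ≤ 48 * N := by
    have h6 : q ≤ 2 * (q - 1) := by omega
    calc B1 * q ≤ B1 * (2 * (q - 1)) := Nat.mul_le_mul_left _ h6
      _ = 2 * (B1 * (q - 1)) := by ring
      _ ≤ 2 * (24 * N) := Nat.mul_le_mul_left _ b1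
      _ = _ := by ring
  have h6 : cnt (slV F V) (fun g => ¬ GPL x (E₀.map (g : V →ₗ[F] V)) (E₀'.map (g : V →ₗ[F] V))
      (C₀.map (g : V →ₗ[F] V))) * q ≤ 72 * N := by
    calc _ ≤ (B1 + Ba + Bb + Be) * q := Nat.mul_le_mul_right _ key
      _ = B1 * q + Ba * q + Bb * q + Be * q := by ring
      _ ≤ 72 * N := by omega
  exact_mod_cast h6

end Cfsg.Agent.H627.Ux
end

-- part: H289/Ux/NoForm
section
/-!
# UX (S5716): no invariant form for an element which is irreducible on `E` and trivial on a complement (helper289)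
-/

set_option autoImplicit false

namespace Cfsg.Agent.H289.Ux

open Module Cfsg.Agent.H847.Bs Cfsg.Agent.H440.Bs

section

variable {F U : Type} [Field F] [AddCommGroup U] [Module F U] [Module.Finite F U]

omit [Module.Finite F U] in
/-- no eigenvectors on `E` -/
theorem no_eig {E : Submodule F U} {g : U ≃ₗ[F] U} (hirr : ∀ W ≤ E, _root_.Cfsg.Agent.H847.Bs.Inv g W → W = ⊥ ∨ W = E)
    (hd : 2 ≤ finrank F E) {u : U} (hu : u ∈ E) (c : F) (h : g u = c • u) : u = 0 := by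
  by_contra hne
  have h1 := hirr (Submodule.span F {u}) ((Submodule.span_singleton_le_iff_mem _ _).2 hu) (by
    intro v hv
    obtain ⟨a, rfl⟩ := Submodule.mem_span_singleton.1 hv
    rw [map_smul, h]
    exact Submodule.smul_mem _ _ (Submodule.smul_mem _ _ (Submodule.mem_span_singleton_self u)))
  rcases h1 with h1 | h1
  · exact hne (Submodule.span_singleton_eq_bot.1 h1)
  · have h2 := finrank_span_singleton (K := F) hne
    rw [h1] at h2
    omega

theorem surj_sub {E : Submodule F U} {g : U ≃ₗ[F] U} (hinv : _root_.Cfsg.Agent.H847.Bs.Inv g E) (hirr : ∀ W ≤ E, _root_.Cfsg.Agent.H847.Bs.Inv g W → W = ⊥ ∨ W = E)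
    (hd : 2 ≤ finrank F E) (c : F) {w : U} (hw : w ∈ E) : ∃ u ∈ E, g u - c • u = w := by
  let T : E →ₗ[F] E := ((restr g hinv : E ≃ₗ[F] E) : E →ₗ[F] E) - c • (LinearMap.id : E →ₗ[F] E)
  have hinj : Function.Injective T := by
    rw [← LinearMap.ker_eq_bot, LinearMap.ker_eq_bot']
    intro m hm
    have h1 : (T m : U) = 0 := by rw [hm]; rfl
    have h2 : g (m : U) - c • (m : U) = 0 := h1
    exact Subtype.ext (no_eig hirr hd m.2 c (sub_eq_zero.1 h2))
  obtain ⟨u, hu⟩ := LinearMap.injective_iff_surjective.1 hinj ⟨w, hw⟩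
  exact ⟨u, u.2, congrArg Subtype.val hu⟩

/-- the order of an element which is trivial on a complement -/
theorem orderOf_restr {E C : Submodule F U} (hc : IsCompl E C) {g : U ≃ₗ[F] U} (hinv : _root_.Cfsg.Agent.H847.Bs.Inv g E)
    (hfix : ∀ v ∈ C, g v = v) : orderOf (restr g hinv) = orderOf g := by
  have hC : _root_.Cfsg.Agent.H847.Bs.Inv g C := fun v hv => by rw [hfix v hv]; exact hv
  have h1 : restr g hC = 1 := by
    refine LinearEquiv.ext fun v => Subtype.ext ?_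
    exact hfix v v.2
  have h2 := exists_glue_lin hc hinv hC
  rw [h1] at h2
  have h3 : orderOf (glueHom hc (restr g hinv, 1)) = orderOf (restr g hinv, (1 : C ≃ₗ[F] C)) :=
    orderOf_injective (glueHom hc) (glueHom_injective hc) _
  rw [glueHom_apply] at h3
  rw [← h2, Prod.orderOf, orderOf_one, Nat.lcm_one_right] at h3
  exact h3.symm

theorem no_form [Finite F] {E C : Submodule F U} (hc : IsCompl E C) {g : U ≃ₗ[F] U} (hfix : ∀ v ∈ C, g v = v) (hC : C ≠ ⊥)
    (hinv : _root_.Cfsg.Agent.H847.Bs.Inv g E) (hirr : ∀ W ≤ E, _root_.Cfsg.Agent.H847.Bs.Inv g W → W = ⊥ ∨ W = E) {e : ℕ} (he : 2 ≤ e) (hdim : finrank F E = e)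
    {r : ℕ} (hr : r.Prime) (hrg : r ∣ orderOf g) (hord : orderOf ((Nat.card F : ℕ) : ZMod r) = e)
    (s : F → F) (hs : (∀ a, s a = a) ∧ Odd e ∨ (∃ t : ℕ, Nat.card F = t ^ 2 ∧ (∀ a, s a = a ^ t)) ∧ Even e)
    (B : U → U → F) (b1 : ∀ x y w, B (x + y) w = B x w + B y w) (b2 : ∀ x y w, B x (y + w) = B x y + B x w)
    (b3 : ∀ (a : F) (x y), B (a • x) y = a * B x y) (b4 : ∀ (a : F) (x y), B x (a • y) = s a * B x y)
    (brefl : ∀ x y, B x y = 0 → B y x = 0) (bnd : ∀ x, (∀ y, B x y = 0) → x = 0)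
    (c : F) (hsim : ∀ u v, B (g u) (g v) = c * B u v) : False := by
  have hd : 2 ≤ finrank F E := hdim ▸ he
  have bneg : ∀ x w, B (-x) w = - B x w := fun x w => by
    rw [← neg_one_smul F x, b3, neg_one_mul]
  have bsub : ∀ x y w, B (x - y) w = B x w - B y w := fun x y w => by
    rw [sub_eq_add_neg, b1, bneg, sub_eq_add_neg]
  -- `B (g u - c u) v = 0` for `v ∈ C`
  have h0 : ∀ u, ∀ v ∈ C, B (g u - c • u) v = 0 := by
    intro u v hv
    have h1 := hsim u v
    rw [hfix v hv] at h1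
    rw [bsub, h1, b3, sub_self]
  -- `E ⟂ C`
  have hEC : ∀ u ∈ E, ∀ v ∈ C, B u v = 0 := by
    intro u hu v hv
    obtain ⟨w, hw, rfl⟩ := surj_sub hinv hirr hd c hu
    exact h0 w v hv
  have hc1 : c = 1 := by
    by_contra hc1
    obtain ⟨v, hv, hv0⟩ := Submodule.exists_mem_ne_zero_of_ne_bot hC
    refine hv0 (bnd v fun w => brefl _ _ ?_)
    obtain ⟨a, ha, b, hb, rfl⟩ := exists_add hc w
    rw [b1, hEC a ha v hv, zero_add]
    have h1 := hsim b v
    rw [hfix v hv, hfix b hb] at h1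
    have h2 : (1 - c) * B b v = 0 := by rw [sub_mul, one_mul, ← h1, sub_self]
    rcases mul_eq_zero.1 h2 with h3 | h3
    · exact absurd (sub_eq_zero.1 h3).symm hc1
    · exact h3
  subst hc1
  have hEE : ∀ x y : E, B x y = 0 := by
    refine Cfsg.Agent.H84.RG.l10 F E e r (restr g hinv) he ?_ hr ?_ hord s hs (fun x y => B x y) ?_ ?_ ?_ ?_ ?_
    · refine ⟨fun _ _ => trivial, ?_, ?_⟩
      · intro h
        have h1 : finrank F (⊤ : Submodule F E) = finrank F E := finrank_top F E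
        rw [h, finrank_bot] at h1
        omega
      · intro Y _ hY
        rcases hirr (Y.map E.subtype) (Submodule.map_subtype_le E Y) (by
          rintro _ ⟨w, hw, rfl⟩
          exact ⟨restr g hinv w, hY w hw, rfl⟩) with h1 | h1
        · exact Or.inl (eq_bot_of_map h1)
        · right
          refine Submodule.map_injective_of_injective E.injective_subtype ?_
          rw [h1, Submodule.map_top, Submodule.range_subtype]
    · rw [orderOf_restr hc hinv hfix]; exact hrg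
    · intro x y w; exact b1 x y w
    · intro x y w; exact b2 x y w
    · intro a x y; exact b3 a x y
    · intro a x y; exact b4 a x y
    · intro x y
      have := hsim x y
      rw [one_mul] at this
      exact this
  have hE0 : E ≠ ⊥ := by
    intro h
    rw [h, finrank_bot] at hd
    omega
  obtain ⟨v, hv, hv0⟩ := Submodule.exists_mem_ne_zero_of_ne_bot hE0
  refine hv0 (bnd v fun w => ?_)
  obtain ⟨a, ha, b, hb, rfl⟩ := exists_add hc w
  rw [b2, hEC v hv b hb, add_zero]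
  exact hEE ⟨v, hv⟩ ⟨a, ha⟩

end

end Cfsg.Agent.H289.Ux
end

-- part: H289/Ux/Sub
section
/-!
# UX (S5716): restriction to the subspace generated by two blocks (helper289)
-/

set_option autoImplicit false

namespace Cfsg.Agent.H289.Ux

open Module Cfsg.Agent.H847.Bs Cfsg.Agent.H440.Bs

variable {F V : Type*} [Field F] [AddCommGroup V] [Module F V]

section

variable {D U : Submodule F V}

theorem det_glue (h : IsCompl D U) [FiniteDimensional F V] (x : D ≃ₗ[F] D) (y : U ≃ₗ[F] U) :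
    LinearMap.det (glue h x y : V →ₗ[F] V) = LinearMap.det (x : D →ₗ[F] D) * LinearMap.det (y : U →ₗ[F] U) := by
  have h1 : (glue h x y : V →ₗ[F] V) = (Submodule.prodEquivOfIsCompl D U h : (D × U) →ₗ[F] V) ∘ₗ
      ((x : D →ₗ[F] D).prodMap (y : U →ₗ[F] U)) ∘ₗ ((Submodule.prodEquivOfIsCompl D U h).symm : V →ₗ[F] D × U) := rfl
  rw [h1, LinearMap.det_conj]
  exact LinearMap.det_prodMap _ _

theorem glue_restr_one [FiniteDimensional F V] (h : IsCompl D U) {g : V ≃ₗ[F] V} (hD : _root_.Cfsg.Agent.H847.Bs.Inv g D) (hfix : ∀ v ∈ U, g v = v) :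
    glue h (restr g hD) 1 = g := by
  have hC : _root_.Cfsg.Agent.H847.Bs.Inv g U := fun v hv => by rw [hfix v hv]; exact hv
  have h1 : restr g hC = 1 := by
    refine LinearEquiv.ext fun v => Subtype.ext ?_
    exact hfix v v.2
  have h2 := exists_glue_lin h hD hC
  rw [h1] at h2
  exact h2.symm

end

/-- the elements of `H` which are trivial on the complement `W`, restricted to `U` -/
noncomputable def KU {U W : Submodule F V} (hc : IsCompl U W) (H : Subgroup (V ≃ₗ[F] V)) : Subgroup (U ≃ₗ[F] U) :=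
  H.comap ((glueHom hc).comp (MonoidHom.inl _ _))

theorem mem_KU {U W : Submodule F V} (hc : IsCompl U W) {H : Subgroup (V ≃ₗ[F] V)} {g : U ≃ₗ[F] U} :
    g ∈ KU hc H ↔ glue hc g 1 ∈ H := Iff.rfl

section

variable [FiniteDimensional F V] {E C U : Submodule F V}

theorem restr_mem_KU {W : Submodule F V} (hc : IsCompl U W) {H : Subgroup (V ≃ₗ[F] V)} {g : V ≃ₗ[F] V} (hg : g ∈ H)
    (hU : _root_.Cfsg.Agent.H847.Bs.Inv g U) (hfix : ∀ v ∈ W, g v = v) : restr g hU ∈ KU hc H := by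
  rw [mem_KU, glue_restr_one hc hU hfix]
  exact hg

theorem inv_zpowers {y z : V ≃ₗ[F] V} (hz : z ∈ Subgroup.zpowers y) (hy : _root_.Cfsg.Agent.H847.Bs.Inv y E) : _root_.Cfsg.Agent.H847.Bs.Inv z E := by
  obtain ⟨n, rfl⟩ := Subgroup.mem_zpowers_iff.1 hz
  have h1 : ∀ n : ℕ, _root_.Cfsg.Agent.H847.Bs.Inv (y ^ n) E := by
    intro n
    induction n with
    | zero => intro v hv; exact hv
    | succ n ih => rw [pow_succ]; exact Inv.mul ih hy
  obtain ⟨m, rfl | rfl⟩ := n.eq_nat_or_neg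
  · rw [zpow_natCast]; exact h1 m
  · rw [zpow_neg, zpow_natCast]; exact Cfsg.Agent.H440.Bs.Inv.inv (h1 m)

omit [FiniteDimensional F V] in
/-- `z w - w ∈ E` -/
theorem sub_mem (hc : IsCompl E C) {z : V ≃ₗ[F] V} (hinv : _root_.Cfsg.Agent.H847.Bs.Inv z E) (hfix : ∀ v ∈ C, z v = v) (w : V) : z w - w ∈ E := by
  obtain ⟨a, ha, b, hb, rfl⟩ := exists_add hc w
  rw [map_add, hfix b hb, add_sub_add_right_eq_sub]
  exact E.sub_mem (hinv a ha) ha

omit [FiniteDimensional F V] in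
/-- subspaces containing `E` are `z`-invariant -/
theorem inv_of_le (hc : IsCompl E C) {z : V ≃ₗ[F] V} (hinv : _root_.Cfsg.Agent.H847.Bs.Inv z E) (hfix : ∀ v ∈ C, z v = v) (hEU : E ≤ U) :
    _root_.Cfsg.Agent.H847.Bs.Inv z U := by
  intro w hw
  have h1 := U.add_mem (hEU (sub_mem hc hinv hfix w)) hw
  rwa [sub_add_cancel] at h1

omit [FiniteDimensional F V] in
theorem isCompl_comap (hc : IsCompl E C) (hEU : E ≤ U) : IsCompl (E.comap U.subtype) (C.comap U.subtype) := by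
  refine ⟨?_, ?_⟩
  · rw [Submodule.disjoint_def]
    intro v hv hv'
    exact Subtype.ext (Submodule.disjoint_def.1 hc.disjoint v hv hv')
  · rw [codisjoint_iff, eq_top_iff]
    intro v _
    obtain ⟨a, ha, b, hb, hab⟩ := exists_add hc (v : V)
    have hbU : b ∈ U := by
      have : b = v - a := by rw [hab]; abel
      rw [this]
      exact U.sub_mem v.2 (hEU ha)
    refine Submodule.mem_sup.2 ⟨⟨a, hEU ha⟩, ha, ⟨b, hbU⟩, hb, Subtype.ext hab.symm⟩

omit [FiniteDimensional F V] in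
theorem finrank_comap (hEU : E ≤ U) : finrank F (E.comap U.subtype) = finrank F E :=
  (Submodule.comapSubtypeEquivOfLe hEU).finrank_eq

theorem inv_comap {g : V ≃ₗ[F] V} (hU : _root_.Cfsg.Agent.H847.Bs.Inv g U) (hE : _root_.Cfsg.Agent.H847.Bs.Inv g E) : _root_.Cfsg.Agent.H847.Bs.Inv (restr g hU) (E.comap U.subtype) :=
  fun v hv => hE v hv

theorem irr_comap {g : V ≃ₗ[F] V} (hU : _root_.Cfsg.Agent.H847.Bs.Inv g U) (hirr : ∀ W ≤ E, _root_.Cfsg.Agent.H847.Bs.Inv g W → W = ⊥ ∨ W = E) :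
    ∀ W ≤ E.comap U.subtype, _root_.Cfsg.Agent.H847.Bs.Inv (restr g hU) W → W = ⊥ ∨ W = E.comap U.subtype := by
  intro W hW hWi
  rcases hirr (W.map U.subtype) (by
      rintro _ ⟨w, hw, rfl⟩
      exact hW hw) (by
      rintro _ ⟨w, hw, rfl⟩
      exact ⟨restr g hU w, hWi w hw, rfl⟩) with h1 | h1
  · exact Or.inl (eq_bot_of_map h1)
  · right
    refine le_antisymm hW fun v hv => ?_
    have h2 : (v : V) ∈ W.map U.subtype := by rw [h1]; exact hv
    obtain ⟨w, hw, hwv⟩ := h2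
    have : w = v := Subtype.ext hwv
    exact this ▸ hw

theorem fix_comap {g : V ≃ₗ[F] V} (hU : _root_.Cfsg.Agent.H847.Bs.Inv g U) (hfix : ∀ v ∈ C, g v = v) :
    ∀ v ∈ C.comap U.subtype, restr g hU v = v :=
  fun v hv => Subtype.ext (hfix v hv)

end

end Cfsg.Agent.H289.Ux
end

-- part: H289/Ux/UK4
section
/-!
# UK4 (S5716, unbounded rank): the group generated by the two blocks, linear case (helper289)
-/

set_option autoImplicit false

namespace Cfsg.Agent.H289.Ux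

open Module Cfsg.Agent.H847.Bs Cfsg.Agent.H440.Bs Cfsg.Agent.H141.Ux Cfsg.Agent.LieClassical.OrthCore
open Cfsg Subgroup QuadraticMap

/-- a quadratic form with trivial singular radical and an irreducible group of similitudes is nondegenerate -/
theorem quad_nd {F U : Type} [Field F] [Finite F] [AddCommGroup U] [Module F U] [Module.Finite F U]
    (K : Subgroup (U ≃ₗ[F] U)) (hK : IrrG K) (h2 : 2 ≤ finrank F U) (Q : QuadraticForm F U)
    (hQ : ∀ v, Q v = 0 → (∀ w, polar Q v w = 0) → v = 0) (hs : ∀ h ∈ K, ∃ c : F, ∀ v, Q (h v) = c * Q v) :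
    ∀ v, (∀ w, polar Q v w = 0) → v = 0 := by
  let R : Submodule F U :=
    { carrier := {v | ∀ w, polar Q v w = 0}
      zero_mem' := fun w => by rw [polar_zero_left]
      add_mem' := fun {a b} ha hb w => by rw [polar_add_left, ha w, hb w, add_zero]
      smul_mem' := fun c a ha w => by rw [polar_smul_left, ha w, smul_zero] }
  have hpol : ∀ h ∈ K, ∃ c : F, ∀ v w, polar Q (h v) (h w) = c * polar Q v w := by
    intro h hh
    obtain ⟨c, hc⟩ := hs h hh
    refine ⟨c, fun v w => ?_⟩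
    rw [polar, polar, ← map_add, hc, hc, hc]
    ring
  rcases hK R (by
      intro h hh v hv w
      obtain ⟨c, hc⟩ := hpol h hh
      have h1 : h (h⁻¹ w) = w := h.apply_symm_apply w
      rw [← h1, hc, hv, mul_zero]) with hR | hR
  · intro v hv
    have : v ∈ R := hv
    rw [hR] at this
    exact (Submodule.mem_bot F).1 this
  · exfalso
    have hp : ∀ v w, polar Q v w = 0 := fun v w => by
      have : v ∈ R := by rw [hR]; trivial
      exact this w
    have hadd : ∀ v w, Q (v + w) = Q v + Q w := fun v w => by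
      have := hp v w
      rw [polar, sub_sub, sub_eq_zero] at this
      exact this
    have hne : (⊤ : Submodule F U) ≠ ⊥ := by
      intro h
      have h1 : finrank F (⊤ : Submodule F U) = finrank F U := finrank_top F U
      rw [h, finrank_bot] at h1
      omega
    obtain ⟨u, -, hu⟩ := Submodule.exists_mem_ne_zero_of_ne_bot hne
    have hQu : Q u ≠ 0 := fun h => hu (hQ u h (hp u))
    by_cases h2F : (2 : F) = 0
    · have hch : ringChar F = 2 := CharP.ringChar_of_prime_eq_zero Nat.prime_two (by exact_mod_cast h2F)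
      have hex : ∃ v : U, v ∉ Submodule.span F {u} := by
        by_contra hcon
        push Not at hcon
        have h3 : Submodule.span F {u} = ⊤ := eq_top_iff.2 fun v _ => hcon v
        have h4 := finrank_span_singleton (K := F) hu
        rw [h3, finrank_top] at h4
        omega
      obtain ⟨v, hv⟩ := hex
      obtain ⟨a, ha⟩ := FiniteField.isSquare_of_char_two hch (Q v / Q u)
      have h5 : Q (a • u + v) = 0 := by
        rw [hadd, QuadraticMap.map_smul, smul_eq_mul, ← ha, div_mul_cancel₀ _ hQu, ← two_mul, h2F, zero_mul]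
      have h6 := hQ _ h5 (hp _)
      apply hv
      have h7 : v = (-a) • u := by
        rw [neg_smul]
        exact (neg_eq_of_add_eq_zero_right h6).symm
      rw [h7]
      exact Submodule.smul_mem _ _ (Submodule.mem_span_singleton_self u)
    · have h3 := polar_self Q u
      rw [hp u u, two_nsmul, ← two_mul] at h3
      rcases mul_eq_zero.1 h3.symm with h4 | h4
      · exact h2F h4
      · exact hQu h4

theorem exists_prime_Pq {F : Type*} [Field F] {e m : ℕ} (h : Pq F e m) :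
    ∃ r : ℕ, r.Prime ∧ r ∣ m ∧ orderOf ((Nat.card F : ℕ) : ZMod r) = e := by
  obtain ⟨r, hr, hrm⟩ := Nat.exists_prime_and_dvd h.1
  exact ⟨r, hr, hrm, h.2 r hr hrm⟩

theorem uk4 (hUN : UN) (hUK2 : UK2) : H141.Ux.UK4 := by
  intro F V _ _ _ _ _ e d x y z z' E C E' C' H hy hoe hed hd3 hde hcop he10 hE hPp hE' hGP hz hz'
  obtain ⟨⟨hdisj, hcompl, hCe, hC'e⟩, hirr2⟩ := hUK2 F V e d x y z z' E C E' C' (by omega) hE hE'
  have hirr3 := hirr2 hGP
  clear hirr2
  have hcU := hGP.compl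
  rw [← hCe, ← hC'e] at hcU
  -- notation
  obtain ⟨z1, hz1⟩ : ∃ z1, z1 = x * z' * x⁻¹ := ⟨_, rfl⟩
  obtain ⟨A, hA⟩ : ∃ A, A = E'.map (x : V →ₗ[F] V) := ⟨_, rfl⟩
  obtain ⟨B, hB⟩ : ∃ B, B = C'.map (x : V →ₗ[F] V) := ⟨_, rfl⟩
  have hzE : _root_.Cfsg.Agent.H847.Bs.Inv z E := inv_zpowers hE.mem hE.inv
  have hzE' : _root_.Cfsg.Agent.H847.Bs.Inv z' E' := inv_zpowers hE'.mem hE'.inv
  have hE'0 : E' ≠ ⊥ := by
    intro h
    have h1 := hE'.dim
    rw [h, finrank_bot] at h1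
    omega
  have hirrA : Irr z1 A := by
    rw [hz1, hA]
    exact Irr.conj ⟨hzE', hE'0, hE'.irr⟩
  have hcAB : IsCompl A B := by
    rw [hA, hB]
    exact (Submodule.orderIsoMapComap x).isCompl hE'.compl
  have hfixB : ∀ v ∈ B, z1 v = v := by
    rw [hB, hz1]
    rintro _ ⟨v, hv, rfl⟩
    have h1 : x⁻¹ ((x : V →ₗ[F] V) v) = v := x.symm_apply_apply v
    show x (z' (x⁻¹ ((x : V →ₗ[F] V) v))) = _
    rw [h1, hE'.fix v hv]
    rfl
  have hdimA : finrank F A = d := by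
    rw [hA, ← hE'.dim]
    exact LinearEquiv.finrank_map_eq x E'
  have hordz1 : orderOf z1 = orderOf z' := by
    rw [hz1]
    exact orderOf_injective (MulAut.conj x).toMonoidHom (MulAut.conj x).injective z'
  rw [← hz1] at hz' hirr3
  have hdisjA := hGP.disj
  rw [← hA] at hcU hirr3 hdisjA ⊢
  rw [← hB] at hcU ⊢
  obtain ⟨U, hU⟩ : ∃ U, U = E ⊔ A := ⟨_, rfl⟩
  obtain ⟨W, hW⟩ : ∃ W, W = C ⊓ B := ⟨_, rfl⟩
  rw [← hU] at hcU hirr3 ⊢
  rw [← hW] at hcU ⊢
  have hEU : E ≤ U := hU ▸ le_sup_left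
  have hAU : A ≤ U := hU ▸ le_sup_right
  have hdimU : finrank F U = e + d := by
    have h1 := Submodule.finrank_sup_add_finrank_inf_eq E A
    rw [disjoint_iff.1 hdisjA, finrank_bot, ← hU, hE.dim, hdimA] at h1
    exact h1
  have hzU : _root_.Cfsg.Agent.H847.Bs.Inv z U := inv_of_le hE.compl hzE hE.fix hEU
  have hz1U : _root_.Cfsg.Agent.H847.Bs.Inv z1 U := inv_of_le hcAB hirrA.inv hfixB hAU
  have hzW : ∀ v ∈ W, z v = v := fun v hv => hE.fix v (hW ▸ hv : v ∈ C ⊓ B).1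
  have hz1W : ∀ v ∈ W, z1 v = v := fun v hv => hfixB v (hW ▸ hv : v ∈ C ⊓ B).2
  have hzK : restr z hzU ∈ KU hcU H := restr_mem_KU hcU hz hzU hzW
  have hz1K : restr z1 hz1U ∈ KU hcU H := restr_mem_KU hcU hz' hz1U hz1W
  have hK : IrrG (KU hcU H) := by
    intro Y hY
    have h1 := hirr3 (Y.map U.subtype) (Submodule.map_subtype_le U Y) (by
      rintro _ ⟨w, hw, rfl⟩
      exact ⟨restr z hzU w, hY _ hzK w hw, rfl⟩) (by
      rintro _ ⟨w, hw, rfl⟩
      exact ⟨restr z1 hz1U w, hY _ hz1K w hw, rfl⟩)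
    rcases h1 with h1 | h1
    · exact Or.inl (eq_bot_of_map h1)
    · right
      refine Submodule.map_injective_of_injective U.injective_subtype ?_
      rw [h1, Submodule.map_top, Submodule.range_subtype]
  -- the blocks in `U`
  have hcE := isCompl_comap (U := U) hE.compl hEU
  have hcA := isCompl_comap (U := U) hcAB hAU
  have hdE : finrank F (E.comap U.subtype) = e := (finrank_comap hEU).trans hE.dim
  have hdA : finrank F (A.comap U.subtype) = d := (finrank_comap hAU).trans hdimA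
  have hdC : finrank F (C.comap U.subtype) = d := by
    have h1 := Submodule.finrank_add_eq_of_isCompl hcE
    rw [hdE, hdimU] at h1
    omega
  have hdB : finrank F (B.comap U.subtype) = e := by
    have h1 := Submodule.finrank_add_eq_of_isCompl hcA
    rw [hdA, hdimU] at h1
    omega
  have hC0 : C.comap U.subtype ≠ ⊥ := by
    intro h
    rw [h, finrank_bot] at hdC
    omega
  have hB0 : B.comap U.subtype ≠ ⊥ := by
    intro h
    rw [h, finrank_bot] at hdB
    omega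
  have hoz : orderOf (restr z hzU) = orderOf z := orderOf_restr hcU hzU hzW
  have hoz1 : orderOf (restr z1 hz1U) = orderOf z' := (orderOf_restr hcU hz1U hz1W).trans hordz1
  obtain ⟨r, hr, hrz, hrord⟩ := exists_prime_Pq hE.ord
  obtain ⟨r1, hr1, hrz1, hrord1⟩ := exists_prime_Pq hE'.ord
  rw [← hoz] at hrz
  rw [← hoz1] at hrz1
  -- no form for `z`
  have nf := no_form (s := fun a => a) hcE (fix_comap hzU hE.fix) hC0 (inv_comap hzU hzE) (irr_comap hzU hE.irr) (by omega) hdE hr hrz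
    hrord (Or.inl ⟨fun _ => rfl, hoe⟩)
  rcases hUN F U (KU hcU H) e (restr z hzU) (C.comap U.subtype) (by (clear * - he10 hdimU; omega)) (by (clear * - hde hdimU; omega)) hK hzK (by rw [hoz]; exact hPp) hC0
    (by omega) (fix_comap hzU hE.fix) with h | h | h | h | h
  · obtain ⟨p, T, hp, hpg, -⟩ := h
    exfalso
    rw [hdimU, Nat.gcd_self_add_left, Nat.Coprime.gcd_eq_one (Nat.Coprime.symm hcop)] at hpg
    exact hp.one_lt.ne' (Nat.dvd_one.1 hpg)
  · intro g hg hgU hgfix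
    have h1 := glue_restr_one hcU hgU hgfix
    have h2 : restr g hgU ∈ slV F U := by
      have h3 : LinearMap.det (g : V →ₗ[F] V) = 1 := hg
      rw [← h1, det_glue] at h3
      have h4 : LinearMap.det (((1 : W ≃ₗ[F] W) : W →ₗ[F] W)) = 1 := LinearMap.det_id
      rw [h4, mul_one] at h3
      exact h3
    have h5 := h h2
    rw [mem_KU, h1] at h5
    exact h5
  · exfalso
    obtain ⟨Φ, hΦ, -, hsim⟩ := h
    obtain ⟨c, hc⟩ := hsim _ hzK
    exact nf Φ.B Φ.add_left Φ.add_right Φ.smul_left (fun a x y => by rw [Φ.smul_right, hΦ.s]) Φ.refl hΦ.nd c hc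
  · exfalso
    obtain ⟨t, Φ, hΦ, -, hsim⟩ := h
    obtain ⟨c, hc⟩ := hsim _ hz1K
    exact no_form hcA (fix_comap hz1U hfixB) hB0 (inv_comap hz1U hirrA.inv) (irr_comap hz1U hirrA.min) (by (clear * - hd3; omega)) hdA hr1 hrz1
      hrord1 Φ.s (Or.inr ⟨⟨t, hΦ.card, hΦ.s⟩, hed⟩) Φ.B Φ.add_left Φ.add_right Φ.smul_left Φ.smul_right Φ.refl hΦ.nd c hc
  · exfalso
    obtain ⟨Q, hQ, -, hsim⟩ := h
    have hnd := quad_nd _ hK (by (clear * - hd3 hdimU; omega)) Q hQ hsim
    obtain ⟨c, hc⟩ := hsim _ hzK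
    refine nf (fun u v => polar Q u v) (frmQ Q).add_left (frmQ Q).add_right (frmQ Q).smul_left (frmQ Q).smul_right
      (frmQ Q).refl hnd c fun u v => ?_
    show polar Q _ _ = c * polar Q u v
    rw [polar, polar, ← map_add, hc, hc, hc]
    ring

end Cfsg.Agent.H289.Ux
end

private theorem dce_0818d52bb9d9 : _root_.True := by
  try have : _root_.True := by simp only [_root_.Cfsg.Agent.H450.Bs.toB.congr_simp]
  try have : _root_.True := by simp only [_root_.Cfsg.Agent.H262.Rx.TyA.eq_1]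
  exact _root_.True.intro
end

-- part: H141/Ux/Det_mg
section
prune_inst 0x24301000518002000000000430000000480000000040840084030004090800000042000000802001580200800004004810000020004001c004200000000400000000140400000008420008000308210000001800300000000000000000000000200000000
set_option linter.all false
open scoped Cfsg.Agent.FastGrp

-- part: H806/Bs/GenC
section
/-!
# BS30 of S5733 (helper806): `s30 : S30`

An irreducible subgroup of `SL(V)` containing `SL(W)`, `dim W ≥ 3` (trivial on a complement of `W`), is `SL(V)` or has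
a proper block of dimension at least `3`.
-/

set_option autoImplicit false
set_option linter.unusedSectionVars false

namespace Cfsg.Agent.H806.Bs

open Module Cfsg.Agent.H847.Bs Cfsg.Agent.H806.Bs.McL

theorem gen_sl_three {F V : Type*} [Field F] [AddCommGroup V] [Module F V] {H : Subgroup (V ≃ₗ[F] V)}
    [FiniteDimensional F V] (hI : IrrG H) {W U : Submodule F V} (hc : IsCompl W U)
    {d : ℕ} (hW : finrank F W = d) (hd : 3 ≤ d) (hon : HasOn (slV F V) H W U) :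
    slV F V ≤ H ∨ ∃ D : Submodule F V, BlkL H D ∧ d ≤ finrank F D := by
  -- the transvections of `W`
  have hT : ∀ (w : V) (φ : Dual F V), w ∈ W → (∀ u ∈ U, φ u = 0) → φ w = 0 → Tv H w φ := by
    intro w φ hw hU h0
    refine ⟨h0, fun c => ?_⟩
    have h1 : (c • φ) w = 0 := by rw [LinearMap.smul_apply, h0, smul_zero]
    refine ⟨LinearEquiv.transvection h1, hon _ ?_ ?_ ?_, fun x => ?_⟩
    · change LinearMap.det ((LinearEquiv.transvection h1 : V ≃ₗ[F] V) : V →ₗ[F] V) = 1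
      rw [← LinearEquiv.coe_det, LinearEquiv.transvection.det_eq_one h1, Units.val_one]
    · intro v hv
      rw [LinearEquiv.transvection.apply]
      exact W.add_mem hv (W.smul_mem _ hw)
    · intro u hu
      rw [LinearEquiv.transvection.apply, LinearMap.smul_apply, hU u hu, smul_zero, zero_smul, add_zero]
    · rw [LinearEquiv.transvection.apply, LinearMap.smul_apply, smul_eq_mul]
  have : FiniteDimensional F W := inferInstance
  let b : Basis (Fin d) F W := finBasisOfFinrankEq F W hW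
  let π : V →ₗ[F] W := W.projectionOnto U hc
  have hπW : ∀ w : W, π w = w := fun w => Submodule.projectionOnto_apply_left hc w
  have hπU : ∀ u ∈ U, π u = 0 := fun u hu => (Submodule.projectionOnto_apply_eq_zero_iff hc).2 hu
  have hTi : ∀ i j : Fin d, i ≠ j → Tv H (b i : V) (b.coord j ∘ₗ π) := by
    intro i j hij
    refine hT _ _ (b i).2 (fun u hu => ?_) ?_
    · rw [LinearMap.comp_apply, hπU u hu, map_zero]
    · rw [LinearMap.comp_apply, hπW, Basis.coord_apply, Basis.repr_self, Finsupp.single_eq_of_ne hij.symm]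
  have hval : ∀ i : Fin d, (b.coord i ∘ₗ π) (b i : V) = 1 := by
    intro i
    rw [LinearMap.comp_apply, hπW, Basis.coord_apply, Basis.repr_self, Finsupp.single_eq_same]
  have hval' : ∀ i j : Fin d, i ≠ j → (b.coord j ∘ₗ π) (b i : V) = 0 := fun i j hij => (hTi i j hij).1
  let i0 : Fin d := ⟨0, by omega⟩
  let i1 : Fin d := ⟨1, by omega⟩
  let i2 : Fin d := ⟨2, by omega⟩
  have h01 : i0 ≠ i1 := fun h => by simpa [i0, i1] using congrArg Fin.val h
  have h02 : i0 ≠ i2 := fun h => by simpa [i0, i2] using congrArg Fin.val h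
  have h12 : i1 ≠ i2 := fun h => by simpa [i1, i2] using congrArg Fin.val h
  have hrel : ∀ i j : Fin d, i ≠ j → _root_.Cfsg.Agent.H806.Bs.McL.Rel H (b i : V) (b j : V) := fun i j hij =>
    ⟨_, _, hTi i j hij, hTi j i hij.symm, by rw [hval]; exact one_ne_zero,
      by rw [hval]; exact one_ne_zero⟩
  have ha : Ctr H (b i0 : V) := ⟨_, hrel i0 i1 h01⟩
  have hWle : W ≤ Wcp H (b i0 : V) := by
    have h1 : ∀ i : Fin d, (b i : V) ∈ Wcp H (b i0 : V) := by
      intro i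
      by_cases hi : i0 = i
      · rw [← hi]; exact Submodule.subset_span (Cmp.refl _)
      · exact Submodule.subset_span (hrel i0 i hi).cmp
    intro w hw
    have h2 := b.sum_repr ⟨w, hw⟩
    have h3 : (∑ i, b.repr ⟨w, hw⟩ i • (b i : V)) = w := by
      have h4 := congrArg Subtype.val h2
      rw [AddSubmonoidClass.coe_finsetSum] at h4
      exact h4
    rw [← h3]
    exact Submodule.sum_mem _ fun i _ => Submodule.smul_mem _ _ (h1 i)
  have h2 : d ≤ finrank F (Wcp H (b i0 : V)) := le_of_eq_of_le hW.symm (Submodule.finrank_mono hWle)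
  have hm : 2 ≤ finrank F (Phi (full H) (b i0 : V)) := by
    have hli : LinearIndependent F ![b.coord i1 ∘ₗ π, b.coord i2 ∘ₗ π] := by
      rw [LinearIndependent.pair_iff]
      intro s t h3
      have h4 := LinearMap.congr_fun h3 (b i1 : V)
      have h5 := LinearMap.congr_fun h3 (b i2 : V)
      rw [LinearMap.add_apply, LinearMap.smul_apply, LinearMap.smul_apply, hval, hval' i1 i2 h12] at h4
      rw [LinearMap.add_apply, LinearMap.smul_apply, LinearMap.smul_apply, hval, hval' i2 i1 h12.symm] at h5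
      simp only [smul_eq_mul, mul_one, mul_zero, add_zero, zero_add, LinearMap.zero_apply] at h4 h5
      exact ⟨h4, h5⟩
    have h3 := finrank_span_eq_card hli
    rw [Fintype.card_fin] at h3
    refine le_of_eq_of_le h3.symm (Submodule.finrank_mono ?_)
    rw [Submodule.span_le]
    rintro _ ⟨i, rfl⟩
    fin_cases i
    · exact hTi i0 i1 h01
    · exact hTi i0 i2 h02
  by_cases htop : Wcp H (b i0 : V) = ⊤
  · left
    refine sl_of_two hI ha hm htop ?_
    rw [htop, finrank_top] at h2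
    omega
  · right
    exact ⟨_, blk hI ha htop, h2⟩

/-- **BS30.** -/
theorem s30 : S30 := by
  intro F V _ _ _ _ _ H W U _ hI hc hW hon
  rcases gen_sl_three hI hc rfl hW hon with h | ⟨D, h1, h2⟩
  · exact Or.inl h
  · exact Or.inr ⟨D, h1, hW.trans h2⟩

end Cfsg.Agent.H806.Bs
end

-- part: H141/Ux/Det
section
/-!
# UX (S5716, unbounded rank): the deterministic part (helper141)

* `ud1 : UK2 → UK4 → UB2 → UD1`;
* `ud2 : UK3 → UB1 → UF1 → UF2 → UD2`.
-/

set_option autoImplicit false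
set_option linter.unusedSectionVars false

namespace Cfsg.Agent.H141.Ux

open Module Cfsg.Agent.H847.Bs Cfsg.Agent.LieClassical.OrthCore
open Cfsg.Agent.H440.Bs (perp mem_perp dec_perp)
open Cfsg Subgroup

theorem E_le_iso {F V : Type*} [Field F] [AddCommGroup V] [Module F V] {Q : QuadraticForm F V} : E Q ≤ (frmQ Q).Iso := by
  intro g hg
  have h : ∀ v, Q (g v) = Q v := mem_O.1 (E_le_O hg)
  refine ⟨fun u v => ?_, h⟩
  change QuadraticMap.polar Q (g u) (g v) = QuadraticMap.polar Q u v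
  rw [QuadraticMap.polar, QuadraticMap.polar, ← map_add, h, h, h]

theorem ud1 (hK2 : UK2) (hK4 : UK4) (hB2 : UB2) : UD1 := by
  intro F V _ _ _ _ _ e d x y z z' E C E' C' hx hy hoe hed h3 hlt hcop h10 hE hPp hE' hgp hirr
  have hcl : _root_.Subgroup.closure {x, y} ≤ slV F V := by
    rw [closure_le]
    rintro g (rfl | rfl)
    · exact hx
    · exact hy
  have hxH : x ∈ _root_.Subgroup.closure {x, y} := _root_.Subgroup.subset_closure (Or.inl rfl)
  have hyH : y ∈ closure {x, y} := _root_.Subgroup.subset_closure (Or.inr rfl)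
  have hzp : zpowers y ≤ closure {x, y} := by
    rw [zpowers_le]
    exact hyH
  have hz : z ∈ closure {x, y} := hzp hE.mem
  have hz' : x * z' * x⁻¹ ∈ closure {x, y} := mul_mem (mul_mem hxH (hzp hE'.mem)) (inv_mem hxH)
  have hon := hK4 F V e d x y z z' E C E' C' (closure {x, y}) hy hoe hed h3 hlt hcop h10 hE hPp hE' hgp hz hz'
  obtain ⟨⟨h1, h2, h4, h5⟩, -⟩ := hK2 F V e d x y z z' E C E' C' (by omega) hE hE'
  have hc := hgp.compl
  rw [← h4, ← h5] at hc
  have hW : 3 ≤ finrank F ↥(E ⊔ E'.map (x : V →ₗ[F] V)) := by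
    have h6 : finrank F E ≤ finrank F ↥(E ⊔ E'.map (x : V →ₗ[F] V)) := Submodule.finrank_mono le_sup_left
    rw [hE.dim] at h6
    omega
  refine le_antisymm hcl ?_
  rcases H806.Bs.s30 F V (_root_.Subgroup.closure {x, y}) _ _ hcl hirr hc hW hon with h | ⟨D, hD, hD3⟩
  · exact h
  · obtain ⟨a, ha, hxa⟩ := hgp.e
    rw [← h4] at hxa
    exact absurd hD3 (hB2 F V e x y z E C hE hPp ⟨a, ha, hxa⟩ hirr D hD)

theorem ud2 (hK3 : UK3) (hB1 : UB1) (hF1 : UF1) (hF2 : UF2) : UD2 := by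
  intro F V _ _ _ _ _ Φ G e d x y z z' E A A' h hirr hcom
  have hGI : G ≤ Φ.Iso := by
    obtain ⟨N, t, hKl⟩ := h.kl
    rcases hKl with ⟨-, rfl, -⟩ | ⟨r, -, rfl, -⟩ | ⟨Q, -, rfl, rfl, -⟩
    · exact le_rfl
    · exact inf_le_left
    · exact E_le_iso
  have hN : Φ.Nd := by
    obtain ⟨N, t, hKl⟩ := h.kl
    rcases hKl with ⟨h1, -⟩ | ⟨r, h1, -⟩ | ⟨Q, h1, rfl, -⟩
    · exact h1.nd
    · exact h1.nd
    · exact h1
  have hcl : _root_.Subgroup.closure {x, y} ≤ G := by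
    rw [closure_le]
    rintro g (rfl | rfl)
    · exact h.hx
    · exact h.hy
  have hxH : x ∈ closure {x, y} := _root_.Subgroup.subset_closure (Or.inl rfl)
  have hyH : y ∈ closure {x, y} := _root_.Subgroup.subset_closure (Or.inr rfl)
  have hzp : zpowers y ≤ closure {x, y} := by
    rw [zpowers_le]
    exact hyH
  have hz : z ∈ closure {x, y} := hzp h.sE.mem
  have hz' : x * z' * x⁻¹ ∈ closure {x, y} := mul_mem (mul_mem hxH (hzp h.sA.mem)) (inv_mem hxH)
  set W := E ⊔ (A ⊔ A').map (x : V →ₗ[F] V) with hWdef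
  obtain ⟨k1, k2, k3, k4⟩ := hK3 F V Φ G e d x y z z' E A A' W (_root_.Subgroup.closure {x, y}) h hWdef hz hz'
  have hW : e + 2 * d ≤ finrank F W := by
    have h6 : finrank F ↥(E ⊔ (A ⊔ A').map (x : V →ₗ[F] V)) = finrank F E + finrank F ↥((A ⊔ A').map (x : V →ₗ[F] V)) := by
      have h7 := Submodule.finrank_sup_add_finrank_inf_eq E ((A ⊔ A').map (x : V →ₗ[F] V))
      rw [h.gp.disj.eq_bot, finrank_bot] at h7
      omega
    have h8 : finrank F ↥((A ⊔ A').map (x : V →ₗ[F] V)) = finrank F ↥(A ⊔ A') := LinearEquiv.finrank_map_eq x _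
    have h9 := Submodule.finrank_sup_add_finrank_inf_eq A A'
    rw [h.sA.disj.eq_bot, finrank_bot, h.sA.dim, h.sA.dim'] at h9
    rw [hWdef, h6, h8, h.sE.dim]
    omega
  have hpos := h.pos
  have hten := h.ten
  have hdec : Φ.Dec W (perp Φ W) := dec_perp Φ hN h.gp.nd
  have noB : ∀ D : Submodule F V, Blk Φ (_root_.Subgroup.closure {x, y}) D → ¬ 3 ≤ finrank F D :=
    hB1 F V Φ e hN x (hGI h.hx) y (hGI h.hy) E z h.sE h.gp.e hirr
  refine le_antisymm hcl ?_
  obtain ⟨N, t, hKl⟩ := h.kl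
  rcases hKl with ⟨hsp, hG, -⟩ | ⟨r, hher, hG, -⟩ | ⟨Q, hQ, hΦ, hG, -⟩
  · rw [hG] at hcl ⊢
    by_cases h2 : (2 : F) = 0
    · obtain ⟨q, hq⟩ := k4 hsp h2
      rcases hF1 F V Φ q (_root_.Subgroup.closure {x, y}) W hsp h2 hcl hirr h.gp.nd (by omega) hq with ⟨Q, hpol, hE⟩ | ⟨D, hD, hD3⟩
      · rcases hF2 F V Φ Q (_root_.Subgroup.closure {x, y}) hsp h2 (by
          have := Submodule.finrank_le W
          omega) hcl hpol hE with h5 | h5
        · exact absurd ⟨Q, hpol, fun v => h5 x hxH v, fun v => h5 y hyH v⟩ (hcom hsp h2)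
        · rw [h5]
      · exact absurd hD3 (noB D hD)
    · rcases H24.Bs.s31 F V Φ (_root_.Subgroup.closure {x, y}) W (perp Φ W) hsp hcl hirr hdec (by omega) (k1 hsp h2) with h5 | ⟨D, hD, hD3⟩
      · exact h5
      · exact absurd (by omega) (noB D hD)
  · rw [hG] at hcl ⊢
    rcases H450.Bs.gen_su' hher hcl hirr hdec (by omega) (k2 r hher) with h5 | ⟨D, hD, hD3⟩
    · exact h5
    · exact absurd (by omega) (noB D hD)
  · subst hΦ
    rw [hG] at hcl ⊢
    rcases H984.Bs.gen_omega hQ (hcl.trans E_le_O) hirr (W₀ := W) h.gp.nd (by omega) (k3 Q rfl) with h5 | ⟨D, hD, hD3⟩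
    · exact h5
    · exact absurd (by omega) (noB D hD)

end Cfsg.Agent.H141.Ux
end

-- part: H541/Ux/Cnt
section
/-!
# S5716 (UM1): counting lemmas (helper541)

* `count` : elements attached to bad configurations of one orbit;
* `card_pre` : the preimage of a set under a surjective homomorphism.
-/

set_option autoImplicit false

namespace Cfsg.Agent.H541.Ux

/-- **first moment**: `P w y` is a relation between configurations and elements of `G`, compatible with conjugation, and all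
configurations which occur are in the orbit of `w₀`. -/
theorem count {Γ W : Type*} [Group Γ] [Finite Γ] (act : Γ → W → W) (hmul : ∀ g h w, act (g * h) w = act g (act h w))
    (hone : ∀ w, act 1 w = w) (G : Subgroup Γ) (w₀ : W) (P : W → Γ → Prop) (Bad : W → Prop)
    (hP : ∀ g ∈ G, ∀ w y, P w y → P (act g w) (g * y * g⁻¹)) (horb : ∀ y ∈ G, ∀ w, P w y → ∃ g ∈ G, w = act g w₀) :
    Nat.card {y // y ∈ G ∧ ∃ w, P w y ∧ Bad w} * Nat.card {h // h ∈ G ∧ act h w₀ = w₀} ≤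
      Nat.card {g // g ∈ G ∧ Bad (act g w₀)} * Nat.card {y // y ∈ G ∧ P w₀ y} := by
  rw [← Nat.card_prod, ← Nat.card_prod]
  have h1 : ∀ y : {y // y ∈ G ∧ ∃ w, P w y ∧ Bad w}, ∃ g ∈ G, P (act g w₀) y ∧ Bad (act g w₀) := by
    rintro ⟨y, hy, w, hw, hb⟩
    obtain ⟨g, hg, rfl⟩ := horb y hy w hw
    exact ⟨g, hg, hw, hb⟩
  choose g hg hgP hgB using h1
  have h2 : ∀ (y : {y // y ∈ G ∧ ∃ w, P w y ∧ Bad w}) (h : {h // h ∈ G ∧ act h w₀ = w₀}),
      act (g y * h) w₀ = act (g y) w₀ := fun y h => by rw [hmul, h.2.2]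
  refine Nat.card_le_card_of_injective (fun p =>
    (⟨g p.1 * p.2, G.mul_mem (hg _) p.2.2.1, by rw [h2]; exact hgB _⟩,
      ⟨(g p.1 * p.2)⁻¹ * p.1 * (g p.1 * p.2), ?_, ?_⟩)) ?_
  · exact G.mul_mem (G.mul_mem (G.inv_mem (G.mul_mem (hg _) p.2.2.1)) p.1.2.1) (G.mul_mem (hg _) p.2.2.1)
  · have h3 := hP (g p.1 * p.2)⁻¹ (G.inv_mem (G.mul_mem (hg _) p.2.2.1)) _ _ (hgP p.1)
    rw [inv_inv, ← h2 p.1 p.2, ← hmul, inv_mul_cancel, hone] at h3
    exact h3
  · rintro ⟨y, h⟩ ⟨y', h'⟩ he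
    have e1 : g y * h = g y' * h' := congrArg Subtype.val (congrArg Prod.fst he)
    have e2 : (g y * h)⁻¹ * y * (g y * h) = (g y' * h')⁻¹ * y' * (g y' * h') :=
      congrArg Subtype.val (congrArg Prod.snd he)
    rw [← e1] at e2
    have e3 : (y : Γ) = y' := by simpa only [_root_.mul_inv_rev, _root_.mul_left_inj, _root_.mul_right_inj] using e2
    have e4 : y = y' := Subtype.ext e3
    subst e4
    have e5 : (h : Γ) = h' := mul_left_cancel e1
    exact Prod.ext rfl (Subtype.ext e5)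

/-- the preimage of a set under a surjective homomorphism -/
theorem card_pre {S T : Type*} [Group S] [Group T] [Finite S] [Finite T] (f : S →* T) (hf : Function.Surjective f)
    (X : Set T) : Nat.card {s // f s ∈ X} * Nat.card T ≤ Nat.card X * Nat.card S := by
  rw [← Nat.card_prod, ← Nat.card_prod]
  choose σ hσ using hf
  refine Nat.card_le_card_of_injective (fun p => (⟨f p.1, p.1.2⟩, σ p.2 * ((σ (f p.1))⁻¹ * p.1))) ?_
  rintro ⟨⟨s, hs⟩, t⟩ ⟨⟨s', hs'⟩, t'⟩ he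
  have e1 : f s = f s' := congrArg Subtype.val (congrArg Prod.fst he)
  have e2 : σ t * ((σ (f s))⁻¹ * s) = σ t' * ((σ (f s'))⁻¹ * s') := congrArg Prod.snd he
  have e3 := congrArg f e2
  rw [map_mul, map_mul, map_mul, map_mul, map_inv, map_inv, hσ, hσ, hσ, hσ, inv_mul_cancel, inv_mul_cancel, mul_one,
    mul_one] at e3
  subst e3
  rw [e1] at e2
  have e4 : s = s' := mul_left_cancel (mul_left_cancel e2)
  subst e4
  rfl

end Cfsg.Agent.H541.Ux
end

-- part: H541/Ux/UM1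
section
/-!
# S5716, task UM1: first moment of pairs of blocks (helper541)

`um1_of` : `UM1` from the upper bound for the number of irreducible isometries (UT2b).
-/

set_option autoImplicit false

namespace Cfsg.Agent.H541.Ux

open Module Cfsg.Agent.H847.Bs Cfsg.Agent.H141.Ux Cfsg.Agent.LieClassical.OrthCore
open Cfsg.Agent.H440.Bs (perp mem_perp restr restr_apply)
open Cfsg.Agent.H50.RG (IrrM II)

/-- UT2b: upper bound for the number of irreducible isometries -/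
def IrrB : Prop := ∃ C : ℝ, ∀ (F X : Type) [Field F] [Finite F] [AddCommGroup X] [Module F X] [Module.Finite F X]
  (Φ : Frm F X), (IsSp Φ ∨ (∃ r, IsHerm r Φ) ∨ ∃ Q : QuadraticForm F X, (frmQ Q).Nd ∧ Φ = frmQ Q) →
  2 ≤ finrank F X → (Nat.card {s : X ≃ₗ[F] X // s ∈ Φ.Iso ∧ Irr s ⊤} : ℝ) * finrank F X ≤ C * Nat.card Φ.Iso

/-- the number of irreducible automorphisms -/
theorem card_irr_gl {F X : Type} [Field F] [Finite F] [AddCommGroup X] [Module F X] [Module.Finite F X] {d : ℕ}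
    (hd : 1 ≤ d) (hX : finrank F X = d) :
    d * Nat.card {g : X ≃ₗ[F] X // Irr g ⊤} ≤ Nat.card (X ≃ₗ[F] X) := by
  have h1 := Cfsg.Agent.H383.RG.rg_L02 F d hd
  let e : X ≃ₗ[F] (Fin d → F) := LinearEquiv.ofFinrankEq _ _ (by rw [hX, finrank_fintype_fun_eq_card, Fintype.card_fin])
  have h2 : Nat.card {g : X ≃ₗ[F] X // Irr g ⊤} = Nat.card {g : GL (Fin d) F // IrrM F g} := by
    rw [Cfsg.Agent.H50.RG.card_II]
    refine Nat.card_congr ((Cfsg.Agent.H440.Bs.tr e).toEquiv.subtypeEquiv fun g => ?_)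
    have h3 : (⊤ : Submodule F X).map (e : X →ₗ[F] (Fin d → F)) = ⊤ := by
      rw [Submodule.map_top, LinearEquiv.range]
    constructor
    · intro h
      have h4 := Cfsg.Agent.H440.Bs.Irr.tr (e := e) h
      rw [h3] at h4
      exact h4
    · intro h
      have h4 : Irr (Cfsg.Agent.H440.Bs.tr e g) ⊤ := h
      have h5 := Cfsg.Agent.H440.Bs.Irr.tr' (e := e) h4
      rw [Submodule.map_top, LinearEquiv.range] at h5
      exact h5
  have h3 : Nat.card (X ≃ₗ[F] X) = Nat.card (GL (Fin d) F) :=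
    Nat.card_congr ((Cfsg.Agent.H440.Bs.tr e).toEquiv.trans (Cfsg.Agent.H50.RG.mE F d).symm.toEquiv)
  rw [h2, h3]
  exact h1

section act

variable {F V : Type*} [Field F] [AddCommGroup V] [Module F V]

/-- the action on triples of subspaces -/
def act (g : V ≃ₗ[F] V) (w : Submodule F V × Submodule F V × Submodule F V) :
    Submodule F V × Submodule F V × Submodule F V :=
  (w.1.map (g : V →ₗ[F] V), w.2.1.map (g : V →ₗ[F] V), w.2.2.map (g : V →ₗ[F] V))

theorem act_mul (g h : V ≃ₗ[F] V) (w : Submodule F V × Submodule F V × Submodule F V) :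
    act (g * h) w = act g (act h w) := by
  have h1 : ∀ X : Submodule F V, X.map ((g * h : V ≃ₗ[F] V) : V →ₗ[F] V) =
      (X.map (h : V →ₗ[F] V)).map (g : V →ₗ[F] V) := fun X => by
    rw [← Submodule.map_comp]
    rfl
  exact Prod.ext (h1 _) (Prod.ext (h1 _) (h1 _))

theorem act_one (w : Submodule F V × Submodule F V × Submodule F V) : act (1 : V ≃ₗ[F] V) w = w := by
  have h1 : ∀ X : Submodule F V, X.map ((1 : V ≃ₗ[F] V) : V →ₗ[F] V) = X := fun X => Submodule.map_id X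
  exact Prod.ext (h1 _) (Prod.ext (h1 _) (h1 _))

/-- the stabiliser of a triple -/
def stab (G : Subgroup (V ≃ₗ[F] V)) (w : Submodule F V × Submodule F V × Submodule F V) : Subgroup (V ≃ₗ[F] V) where
  carrier := {h | h ∈ G ∧ act h w = w}
  mul_mem' := fun {a b} ha hb => ⟨G.mul_mem ha.1 hb.1, by rw [act_mul, hb.2, ha.2]⟩
  one_mem' := ⟨G.one_mem, act_one w⟩
  inv_mem' := fun {a} ha => ⟨G.inv_mem ha.1, by
    conv_lhs => rw [← ha.2]
    rw [← act_mul, inv_mul_cancel, act_one]⟩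

theorem stab_inv {G : Subgroup (V ≃ₗ[F] V)} {E A A' : Submodule F V} {h : V ≃ₗ[F] V} (hh : h ∈ stab G (E, A, A')) :
    _root_.Cfsg.Agent.H847.Bs.Inv h E ∧ _root_.Cfsg.Agent.H847.Bs.Inv h A := by
  have h1 : E.map (h : V →ₗ[F] V) = E := congrArg Prod.fst hh.2
  have h2 : A.map (h : V →ₗ[F] V) = A := congrArg (fun p => p.2.1) hh.2
  refine ⟨fun v hv => ?_, fun v hv => ?_⟩
  · rw [← h1]
    exact ⟨v, hv, rfl⟩
  · rw [← h2]
    exact ⟨v, hv, rfl⟩

variable [FiniteDimensional F V] {Φ : Frm F V} {G : Subgroup (V ≃ₗ[F] V)}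

theorem restr_mem {g : V ≃ₗ[F] V} (hg : g ∈ Φ.Iso) {D : Submodule F V} (h : _root_.Cfsg.Agent.H847.Bs.Inv g D) : restr g h ∈ (Φ.on D).Iso :=
  ⟨fun x y => hg.1 _ _, fun x => hg.2 _⟩

/-- restriction of the stabiliser to `E` and `A` -/
noncomputable def res (hG : G ≤ Φ.Iso) (E A A' : Submodule F V) :
    stab G (E, A, A') →* ((Φ.on E).Iso × (A ≃ₗ[F] A)) where
  toFun h := (⟨restr h.1 (stab_inv h.2).1, restr_mem (hG h.2.1) _⟩, restr h.1 (stab_inv h.2).2)
  map_one' := Prod.ext (Subtype.ext (LinearEquiv.ext fun _ => rfl)) (LinearEquiv.ext fun _ => rfl)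
  map_mul' := fun _ _ => Prod.ext (Subtype.ext (LinearEquiv.ext fun _ => rfl)) (LinearEquiv.ext fun _ => rfl)

end act

section

variable {F V : Type} [Field F] [Finite F] [AddCommGroup V] [Module F V] [Module.Finite F V] {Φ : Frm F V}
  {G : Subgroup (V ≃ₗ[F] V)} {N t e d : ℕ}

theorem res_surj (hK : Kl Φ G N t) (hn : 2 * (e + 2 * d) + 3 ≤ finrank F V) (hd : 1 ≤ d) {E A A' : Submodule F V}
    (h : Cfg Φ e d E A A') : Function.Surjective (res (kl_le hK) E A A') := by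
  rintro ⟨⟨x, hx⟩, a⟩
  obtain ⟨g, hg, h1, h2, h3, h4, h5⟩ := key (kl_of hK) hn hd h h x hx.1 hx.2 a
  refine ⟨⟨g, hg, Prod.ext h3 (Prod.ext h4 h5)⟩, ?_⟩
  refine Prod.ext (Subtype.ext (LinearEquiv.ext fun v => Subtype.ext (h1 v))) (LinearEquiv.ext fun v => Subtype.ext (h2 v))

theorem irr_of_z {y z : V ≃ₗ[F] V} {D : Submodule F V} (hz : z ∈ Subgroup.zpowers y) (hy : _root_.Cfsg.Agent.H847.Bs.Inv y D) (hD : D ≠ ⊥)
    (h : ∀ W ≤ D, _root_.Cfsg.Agent.H847.Bs.Inv z W → W = ⊥ ∨ W = D) : Irr (restr y hy) ⊤ :=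
  irr_top_of hy hD fun W hW hWi => h W hW (inv_of_mem hz hWi)

/-- the elements attached to a fixed configuration -/
theorem fib_le (hK : Kl Φ G N t) (hn : 2 * (e + 2 * d) + 3 ≤ finrank F V) (h3 : 3 ≤ d) (hlt : d < e)
    {E A A' : Submodule F V} (h : Cfg Φ e d E A A') {C : ℝ}
    (hC : (Nat.card {s : E ≃ₗ[F] E // s ∈ (Φ.on E).Iso ∧ Irr s ⊤} : ℝ) * e ≤ C * Nat.card (Φ.on E).Iso) :
    (Nat.card {y // y ∈ G ∧ (∃ z, StE Φ e y E z) ∧ ∃ z', StA Φ d y A A' z'} : ℝ) * (e * d) ≤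
      C * Nat.card (stab G (E, A, A')) := by
  have hfin : ∀ (X : Type) [AddCommGroup X] [Module F X] [Module.Finite F X], Finite (X ≃ₗ[F] X) :=
    fun X _ _ _ => Cfsg.Agent.H440.Bs.finite_lin
  have hf1 := hfin V
  have hf2 := hfin E
  have hf3 := hfin A
  have hG := kl_le hK
  have hE : E ≠ ⊥ := ne_bot_of_pos (by rw [h.dim]; omega)
  have hA : A ≠ ⊥ := ne_bot_of_pos (by rw [h.dimA]; omega)
  let X : Set ((Φ.on E).Iso × (A ≃ₗ[F] A)) := {p | Irr (p.1 : E ≃ₗ[F] E) ⊤ ∧ Irr p.2 ⊤}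
  have h1 := card_pre (res hG E A A') (res_surj hK hn (by omega) h) X
  -- the elements are in the preimage
  have h2 : Nat.card {y // y ∈ G ∧ (∃ z, StE Φ e y E z) ∧ ∃ z', StA Φ d y A A' z'} ≤
      Nat.card {s // res hG E A A' s ∈ X} := by
    refine Nat.card_le_card_of_injective (fun y => ⟨⟨y.1, y.2.1, ?_⟩, ?_, ?_⟩) ?_
    · obtain ⟨y, hy, ⟨z, hz⟩, z', hz'⟩ := y
      exact Prod.ext (Cfsg.Agent.H440.Bs.Inv.map_eq hz.inv) (Prod.ext (Cfsg.Agent.H440.Bs.Inv.map_eq hz'.inv)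
        (Cfsg.Agent.H440.Bs.Inv.map_eq hz'.inv'))
    · obtain ⟨y, hy, ⟨z, hz⟩, z', hz'⟩ := y
      exact irr_of_z hz.mem hz.inv hE hz.irr
    · obtain ⟨y, hy, ⟨z, hz⟩, z', hz'⟩ := y
      exact irr_of_z hz'.mem hz'.inv hA hz'.irr
    · intro y y' hyy
      exact Subtype.ext (congrArg (fun s => (s.1.1 : V ≃ₗ[F] V)) hyy)
  have h4 : Nat.card X = Nat.card {s : E ≃ₗ[F] E // s ∈ (Φ.on E).Iso ∧ Irr s ⊤} * Nat.card {g : A ≃ₗ[F] A // Irr g ⊤} := by
    rw [← Nat.card_prod]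
    refine Nat.card_congr
      { toFun := fun p => (⟨p.1.1, p.1.1.2, p.2.1⟩, ⟨p.1.2, p.2.2⟩)
        invFun := fun p => ⟨(⟨p.1.1, p.1.2.1⟩, p.2.1), p.1.2.2, p.2.2⟩
        left_inv := fun p => rfl
        right_inv := fun p => rfl }
  have h5 := card_irr_gl (F := F) (X := A) (d := d) (by omega) h.dimA
  rw [Nat.card_prod, h4] at h1
  set s := Nat.card {y // y ∈ G ∧ (∃ z, StE Φ e y E z) ∧ ∃ z', StA Φ d y A A' z'} with hs
  set P := Nat.card {s // res hG E A A' s ∈ X} with hP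
  set I := Nat.card (Φ.on E).Iso with hI
  set L := Nat.card (A ≃ₗ[F] A) with hL
  set i := Nat.card {s : E ≃ₗ[F] E // s ∈ (Φ.on E).Iso ∧ Irr s ⊤} with hi
  set l := Nat.card {g : A ≃ₗ[F] A // Irr g ⊤} with hl
  have hI0 : 0 < I := Nat.card_pos
  have hL0 : 0 < L := Nat.card_pos
  have h1' : (P : ℝ) * (I * L) ≤ i * l * Nat.card (stab G (E, A, A')) := by exact_mod_cast h1
  have h2' : (s : ℝ) ≤ P := by exact_mod_cast h2
  have h5' : (d : ℝ) * l ≤ L := by exact_mod_cast h5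
  have hIL : (0 : ℝ) < I * L := by (clear * - hI0 hL0; positivity)
  set S : ℝ := ((Nat.card (stab G (E, A, A')) : ℕ) : ℝ) with hS
  have hS0 : 0 ≤ S := Nat.cast_nonneg _
  have hCI : 0 ≤ C * I := le_trans (by (clear * -; positivity)) hC
  refine le_of_mul_le_mul_right ?_ hIL
  calc (s : ℝ) * (e * d) * (I * L) = (s * (I * L)) * (e * d) := by ring
    _ ≤ (P * (I * L)) * (e * d) := by
        refine mul_le_mul_of_nonneg_right (mul_le_mul_of_nonneg_right h2' hIL.le) (by (clear * -; positivity))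
    _ ≤ (i * l * S) * (e * d) := mul_le_mul_of_nonneg_right h1' (by (clear * -; positivity))
    _ = (i * e) * (d * l) * S := by ring
    _ ≤ (C * I) * L * S := by
        refine mul_le_mul_of_nonneg_right ?_ hS0
        exact mul_le_mul hC h5' (by (clear * -; positivity)) hCI
    _ = C * S * (I * L) := by ring

end

/-- **UM1** from the upper bound for the number of irreducible isometries -/
theorem um1_of (hB : IrrB) : UM1 := by
  obtain ⟨C, hC⟩ := hB
  refine ⟨C, ?_⟩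
  intro F V _ _ _ _ _ Φ G N t e d hK hn h3 hlt y₀ hy₀ E₀ A₀ A₀' z₀ z₀' hE₀ hA₀
  have hcfg := cfg_of hK hlt hy₀ hE₀ hA₀
  refine ⟨hcfg, fun Bad => ?_⟩
  have hfin : Finite (V ≃ₗ[F] V) := Cfsg.Agent.H440.Bs.finite_lin
  have hG := kl_le hK
  let P : Submodule F V × Submodule F V × Submodule F V → (V ≃ₗ[F] V) → Prop := fun w y =>
    (∃ z, StE Φ e y w.1 z) ∧ ∃ z', StA Φ d y w.2.1 w.2.2 z'
  have hfrm : IsSp (Φ.on E₀) ∨ (∃ r, IsHerm r (Φ.on E₀)) ∨
      ∃ Q : QuadraticForm F E₀, (frmQ Q).Nd ∧ Φ.on E₀ = frmQ Q := by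
    rcases hK with ⟨h1, -, -, -⟩ | ⟨r, h1, -, -, -⟩ | ⟨Q, h1, rfl, -, -, -⟩
    · exact Or.inl (Cfsg.Agent.H42.Bs.isSp_on h1 hE₀.nd)
    · exact Or.inr (Or.inl ⟨r, Cfsg.Agent.H42.Bs.isHerm_on h1 hE₀.nd⟩)
    · exact Or.inr (Or.inr ⟨Q.comp E₀.subtype, Cfsg.Agent.H42.Bs.nondeg_comp hE₀.nd, rfl⟩)
  have h1 := hC F E₀ (Φ.on E₀) hfrm (by rw [hE₀.dim]; omega)
  rw [hE₀.dim] at h1
  have h2 := fib_le hK hn h3 hlt hcfg h1
  have h4 := count act act_mul act_one G (E₀, A₀, A₀') P (fun w => Bad w.1 w.2.1 w.2.2)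
    (by
      rintro g hg w y ⟨⟨z, hz⟩, z', hz'⟩
      exact ⟨⟨_, stE_conj (hG hg) hz⟩, _, stA_conj (hG hg) hz'⟩)
    (by
      rintro y hy ⟨E, A, A'⟩ ⟨⟨z, hz⟩, z', hz'⟩
      have hcfg' := cfg_of hK hlt hy hz hz'
      obtain ⟨j, hj1, hj2⟩ := exists_isoE hK (by omega) hy₀ hy hE₀ hz
      let a : A₀ ≃ₗ[F] A := LinearEquiv.ofFinrankEq _ _ (hcfg.dimA.trans hcfg'.dimA.symm)
      obtain ⟨g, hg, -, -, h5, h6, h7⟩ := key (kl_of hK) hn (by omega) hcfg hcfg' j hj1 hj2 a
      exact ⟨g, hg, (Prod.ext h5 (Prod.ext h6 h7)).symm⟩)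
  have e1 : Nat.card {y // y ∈ G ∧ ∃ w, P w y ∧ (fun w : Submodule F V × Submodule F V × Submodule F V =>
      Bad w.1 w.2.1 w.2.2) w} = cnt G (fun y => ∃ E A A' z z', StE Φ e y E z ∧ StA Φ d y A A' z' ∧ Bad E A A') := by
    refine Nat.card_congr (Equiv.subtypeEquivRight fun y => and_congr_right fun _ => ?_)
    constructor
    · rintro ⟨⟨E, A, A'⟩, ⟨⟨z, hz⟩, z', hz'⟩, hb⟩
      exact ⟨E, A, A', z, z', hz, hz', hb⟩
    · rintro ⟨E, A, A', z, z', hz, hz', hb⟩
      exact ⟨⟨E, A, A'⟩, ⟨⟨z, hz⟩, z', hz'⟩, hb⟩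
  rw [e1] at h4
  have e2 : Nat.card {g // g ∈ G ∧ (fun w : Submodule F V × Submodule F V × Submodule F V =>
      Bad w.1 w.2.1 w.2.2) (act g (E₀, A₀, A₀'))} =
      cnt G (fun g => Bad (E₀.map (g : V →ₗ[F] V)) (A₀.map (g : V →ₗ[F] V)) (A₀'.map (g : V →ₗ[F] V))) := rfl
  rw [e2] at h4
  have e3 : Nat.card {h // h ∈ G ∧ act h (E₀, A₀, A₀') = (E₀, A₀, A₀')} = Nat.card (stab G (E₀, A₀, A₀')) := rfl
  rw [e3] at h4
  have e4 : Nat.card {y // y ∈ G ∧ P (E₀, A₀, A₀') y} =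
      Nat.card {y // y ∈ G ∧ (∃ z, StE Φ e y E₀ z) ∧ ∃ z', StA Φ d y A₀ A₀' z'} := rfl
  rw [e4] at h4
  set L := cnt G (fun y => ∃ E A A' z z', StE Φ e y E z ∧ StA Φ d y A A' z' ∧ Bad E A A') with hL
  set R := cnt G (fun g => Bad (E₀.map (g : V →ₗ[F] V)) (A₀.map (g : V →ₗ[F] V)) (A₀'.map (g : V →ₗ[F] V))) with hR
  have hS : 0 < Nat.card (stab G (E₀, A₀, A₀')) := Nat.card_pos
  set S := Nat.card (stab G (E₀, A₀, A₀')) with hSd
  set s := Nat.card {y // y ∈ G ∧ (∃ z, StE Φ e y E₀ z) ∧ ∃ z', StA Φ d y A₀ A₀' z'} with hs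
  have h4' : (L : ℝ) * S ≤ R * s := by exact_mod_cast h4
  have hS' : (0 : ℝ) < S := by exact_mod_cast hS
  refine le_of_mul_le_mul_right ?_ hS'
  calc (L : ℝ) * (e * d) * S = (L * S) * (e * d) := by ring
    _ ≤ (R * s) * (e * d) := mul_le_mul_of_nonneg_right h4' (by (clear * - h3; positivity))
    _ = R * (s * (e * d)) := by ring
    _ ≤ R * (C * S) := mul_le_mul_of_nonneg_left h2 (Nat.cast_nonneg _)
    _ = C * R * S := by ring

end Cfsg.Agent.H541.Ux
end

-- part: H232/Ux/Irr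
section
/-!
# UX (S5716), UT2b: irreducible automorphisms of a space over a finite field (helper232)

`exists_frame` : an irreducible automorphism `s` of `V` is multiplication by an element `u` of the field `L`, `[L : F] = dim V`;
`card_frames` : there are at least `dim V * |Lˣ|` such identifications `V ≃ L`.
-/

set_option autoImplicit false
set_option linter.unusedSectionVars false

namespace Cfsg.Agent.H232.Ux

open Module Polynomial Cfsg.Agent.H847.Bs Cfsg.Agent.H881.Bs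

section

variable {F V : Type*} [Field F] [Finite F] [AddCommGroup V] [Module F V] [FiniteDimensional F V]

/-- the kernel of a polynomial in an irreducible automorphism -/
theorem ker_cases {s : V ≃ₗ[F] V} (h : Irr s (⊤ : Submodule F V)) (p : F[X]) :
    aeval (s : V →ₗ[F] V) p = 0 ∨ ∀ v, aeval (s : V →ₗ[F] V) p v = 0 → v = 0 := by
  have hcomm : (s : V →ₗ[F] V) * aeval (s : V →ₗ[F] V) p = aeval (s : V →ₗ[F] V) p * (s : V →ₗ[F] V) := by
    have h1 : aeval (s : V →ₗ[F] V) ((X : F[X]) * p) = aeval (s : V →ₗ[F] V) (p * X) := by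
      rw [mul_comm]
    rwa [map_mul, map_mul, aeval_X] at h1
  rcases h.min (LinearMap.ker (aeval (s : V →ₗ[F] V) p)) le_top (by
    intro v hv
    rw [LinearMap.mem_ker] at hv ⊢
    have h1 := LinearMap.congr_fun hcomm v
    rw [Module.End.mul_apply, Module.End.mul_apply, hv, map_zero] at h1
    exact h1.symm) with h1 | h1
  · right
    intro v hv
    have h2 : v ∈ LinearMap.ker (aeval (s : V →ₗ[F] V) p) := hv
    rw [h1] at h2
    exact (Submodule.mem_bot F).1 h2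
  · left
    exact LinearMap.ker_eq_top.1 h1

theorem minpoly_irreducible {s : V ≃ₗ[F] V} (h : Irr s (⊤ : Submodule F V)) :
    Irreducible (minpoly F (s : V →ₗ[F] V)) := by
  have hnt : Nontrivial V := by
    by_contra hn
    rw [not_nontrivial_iff_subsingleton] at hn
    exact h.ne_bot (Subsingleton.elim _ _)
  have hint : IsIntegral F (s : V →ₗ[F] V) := Algebra.IsIntegral.isIntegral _
  have hmon := minpoly.monic hint
  have hne1 : minpoly F (s : V →ₗ[F] V) ≠ 1 := minpoly.ne_one F _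
  rw [hmon.irreducible_iff_natDegree' ]
  refine ⟨hne1, fun a b ha hb hab hm => ?_⟩
  rw [Finset.mem_Ioc] at hm
  have hdeg : a.natDegree + b.natDegree = (minpoly F (s : V →ₗ[F] V)).natDegree := by
    rw [← hab, ha.natDegree_mul hb]
  have key : ∀ c : F[X], c.Monic → c.natDegree < (minpoly F (s : V →ₗ[F] V)).natDegree →
      aeval (s : V →ₗ[F] V) c ≠ 0 := by
    intro c hc hlt h0
    have h1 := minpoly.min F (s : V →ₗ[F] V) hc h0
    have h2 := Polynomial.natDegree_le_natDegree h1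
    omega
  have h1 := (ker_cases h a).resolve_left (key a ha (by omega))
  have h2 := key b hb (by omega)
  apply h2
  apply LinearMap.ext
  intro v
  rw [LinearMap.zero_apply]
  apply h1
  rw [← Module.End.mul_apply, ← map_mul, hab, minpoly.aeval, LinearMap.zero_apply]

variable {L : Type*} [Field L] [Finite L] [Algebra F L]

/-- **An irreducible automorphism is multiplication by an element of the field `L`.** -/
theorem exists_frame (hL : finrank F L = finrank F V) {s : V ≃ₗ[F] V} (h : Irr s (⊤ : Submodule F V)) :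
    ∃ (e : V ≃ₗ[F] L) (u : L), ∀ v, e (s v) = u * e v := by
  obtain ⟨v₀, -, hv₀⟩ := Submodule.exists_mem_ne_zero_of_ne_bot h.ne_bot
  set f := minpoly F (s : V →ₗ[F] V) with hf
  have hirr : Irreducible f := minpoly_irreducible h
  have hfact : Fact (Irreducible f) := ⟨hirr⟩
  let pb := AdjoinRoot.powerBasis hirr.ne_zero
  have hfin : Module.Finite F (AdjoinRoot f) := pb.finite
  have hfin' : Finite (AdjoinRoot f) := Module.finite_of_finite F
  have hint : IsIntegral F (s : V →ₗ[F] V) := Algebra.IsIntegral.isIntegral _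
  have hg : pb.gen = AdjoinRoot.root f := AdjoinRoot.powerBasis_gen hirr.ne_zero
  let φ : AdjoinRoot f →ₐ[F] Module.End F V := pb.lift (s : V →ₗ[F] V) (by
    rw [hg, AdjoinRoot.minpoly_root hirr.ne_zero, (minpoly.monic hint).leadingCoeff, inv_one, map_one, mul_one,
      minpoly.aeval])
  have hφ : φ (AdjoinRoot.root f) = (s : V →ₗ[F] V) := by
    rw [← hg]
    exact pb.lift_gen _ _
  let T : AdjoinRoot f →ₗ[F] V :=
    { toFun := fun k => φ k v₀
      map_add' := fun x y => by rw [map_add, LinearMap.add_apply]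
      map_smul' := fun c x => by rw [map_smul, LinearMap.smul_apply, RingHom.id_apply] }
  have hinj : Function.Injective T := by
    rw [← LinearMap.ker_eq_bot, LinearMap.ker_eq_bot']
    intro k hk
    by_contra hk0
    apply hv₀
    have h1 : φ k v₀ = 0 := hk
    have h2 : (φ k⁻¹ * φ k) v₀ = 0 := by rw [Module.End.mul_apply, h1, map_zero]
    rw [← map_mul, inv_mul_cancel₀ hk0, map_one, Module.End.one_apply] at h2
    exact h2
  have hsurj : Function.Surjective T := by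
    rw [← LinearMap.range_eq_top]
    refine (h.min _ le_top ?_).resolve_left ?_
    · rintro _ ⟨k, rfl⟩
      refine ⟨AdjoinRoot.root f * k, ?_⟩
      show φ (_ * k) v₀ = s (φ k v₀)
      rw [map_mul, hφ, Module.End.mul_apply]
      rfl
    · intro h0
      have h1 : T 1 ∈ LinearMap.range T := ⟨1, rfl⟩
      rw [h0, Submodule.mem_bot] at h1
      have h2 : φ 1 v₀ = 0 := h1
      rw [map_one, Module.End.one_apply] at h2
      exact hv₀ h2
  let T' : AdjoinRoot f ≃ₗ[F] V := LinearEquiv.ofBijective T ⟨hinj, hsurj⟩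
  have hT' : ∀ k, T' (AdjoinRoot.root f * k) = s (T' k) := by
    intro k
    show φ (_ * k) v₀ = s (φ k v₀)
    rw [map_mul, hφ, Module.End.mul_apply]
    rfl
  obtain ⟨ψ⟩ := FiniteField.nonempty_algHom_of_finrank_dvd (F := F) (K := AdjoinRoot f) (L := L)
    (by rw [T'.finrank_eq, hL])
  have hfdL : FiniteDimensional F L := Module.Finite.of_finite
  let ψ' : AdjoinRoot f ≃ₗ[F] L := LinearEquiv.ofInjectiveOfFinrankEq ψ.toLinearMap ψ.toRingHom.injective
    (by rw [T'.finrank_eq, hL])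
  have hψ : ∀ k, ψ' k = ψ k := fun k => rfl
  refine ⟨T'.symm ≪≫ₗ ψ', ψ (AdjoinRoot.root f), fun v => ?_⟩
  obtain ⟨k, rfl⟩ := T'.surjective v
  rw [LinearEquiv.trans_apply, LinearEquiv.trans_apply, ← hT', T'.symm_apply_apply, T'.symm_apply_apply, hψ, hψ, map_mul]

/-- the element generates `L` -/
theorem gen_of_frame {s : V ≃ₗ[F] V} (h : Irr s (⊤ : Submodule F V)) (e : V ≃ₗ[F] L) (u : L)
    (hu : ∀ v, e (s v) = u * e v) : Gen F u := by
  have h1 := (h.min ((Subalgebra.toSubmodule (Algebra.adjoin F {u})).comap (e : V →ₗ[F] L)) le_top (by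
    intro v hv
    rw [Submodule.mem_comap] at hv ⊢
    show e (s v) ∈ _
    rw [hu]
    exact (Algebra.adjoin F {u}).mul_mem (Algebra.self_mem_adjoin_singleton F u) hv)).resolve_left (by
      intro h0
      have h2 : e.symm 1 ∈ (Subalgebra.toSubmodule (Algebra.adjoin F {u})).comap (e : V →ₗ[F] L) := by
        rw [Submodule.mem_comap]
        show e (e.symm 1) ∈ _
        rw [e.apply_symm_apply]
        exact (Algebra.adjoin F {u}).one_mem
      rw [h0, Submodule.mem_bot, LinearEquiv.map_eq_zero_iff] at h2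
      exact one_ne_zero h2)
  show Algebra.adjoin F {u} = ⊤
  rw [eq_top_iff]
  intro x _
  have h2 : e.symm x ∈ (Subalgebra.toSubmodule (Algebra.adjoin F {u})).comap (e : V →ₗ[F] L) := by
    rw [h1]; exact Submodule.mem_top
  rw [Submodule.mem_comap] at h2
  have h3 : e (e.symm x) ∈ Algebra.adjoin F {u} := h2
  rwa [e.apply_symm_apply] at h3

/-- **The number of identifications.** -/
theorem card_frames (hL : finrank F L = finrank F V) {s : V ≃ₗ[F] V} (h : Irr s (⊤ : Submodule F V)) :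
    finrank F V * Nat.card Lˣ ≤ Nat.card {e : V ≃ₗ[F] L // ∃ u : L, ∀ v, e (s v) = u * e v} := by
  have hfdL : FiniteDimensional F L := Module.Finite.of_finite
  have hVfin : Finite V := Module.finite_of_finite F
  have hfin : Finite (V ≃ₗ[F] L) := Finite.of_injective (fun g : V ≃ₗ[F] L => (g : V → L)) DFunLike.coe_injective
  obtain ⟨e, u, hu⟩ := exists_frame hL h
  have h1 : Nat.card (L ≃ₐ[F] L) = finrank F V := by
    rw [IsGalois.card_aut_eq_finrank, hL]
  rw [← h1, ← Nat.card_prod]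
  refine Nat.card_le_card_of_injective (fun z : (L ≃ₐ[F] L) × Lˣ =>
    (⟨e ≪≫ₗ z.1.toLinearEquiv ≪≫ₗ mul F z.2, z.1 u, fun v => ?_⟩ :
      {e : V ≃ₗ[F] L // ∃ u : L, ∀ v, e (s v) = u * e v})) ?_
  · show (z.2 : L) * z.1 (e (s v)) = z.1 u * ((z.2 : L) * z.1 (e v))
    rw [hu, map_mul]
    ring
  · rintro ⟨τ, c⟩ ⟨τ', c'⟩ hz
    have h2 : ∀ v, (c : L) * τ (e v) = (c' : L) * τ' (e v) := fun v =>
      LinearEquiv.congr_fun (congrArg Subtype.val hz) v
    have h3 : ∀ x, (c : L) * τ x = (c' : L) * τ' x := fun x => by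
      have := h2 (e.symm x)
      rwa [e.apply_symm_apply] at this
    have h4 : (c : L) = c' := by
      have := h3 1
      rwa [map_one, map_one, mul_one, mul_one] at this
    have h5 : τ = τ' := by
      ext x
      have := h3 x
      rw [← h4] at this
      exact mul_left_cancel₀ c.ne_zero this
    rw [h5, Units.ext h4]

end

end Cfsg.Agent.H232.Ux
end

-- part: H232/Ux/Adj
section
/-!
# UX (S5716), UT2b: the adjoint involution of the field of an irreducible isometry (helper232)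

`Ty Φ ε r` : the three types of forms, uniformly; `ty_of` : they are of this form.
`exists_sigma` : the involution `σ x = x ^ Q₀`, `Q₀ ^ 2 = |L|`, `σ u = u⁻¹`, of the field `L` of the irreducible isometry `s`.
-/

set_option autoImplicit false
set_option linter.unusedSectionVars false

namespace Cfsg.Agent.H232.Ux

open Module Polynomial Cfsg.Agent.H847.Bs Cfsg.Agent.H881.Bs

/-- powers of the Frobenius automorphism which are involutions -/
theorem frob_unique {L : Type*} [Field L] [Finite L] (p : ℕ) [Fact p.Prime] [CharP L p] (n j : ℕ)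
    (hn : Nat.card L = p ^ n) (h2 : ∀ x : L, x ^ p ^ (2 * j) = x) (h1 : ∃ x : L, x ^ p ^ j ≠ x) :
    ∃ m, n = 2 * m ∧ ∀ x : L, x ^ p ^ j = x ^ p ^ m := by
  have := Fintype.ofFinite L
  have hp := (Fact.out : p.Prime)
  have hpn : ∀ (l : ℕ) (x : L), x ^ p ^ (n * l) = x := by
    intro l x
    rw [pow_mul, ← hn, Nat.card_eq_fintype_card, FiniteField.pow_card_pow]
  have hdvd : n ∣ 2 * j := by
    obtain ⟨g, hg⟩ := IsCyclic.exists_generator (α := Lˣ)
    have ho : orderOf g = p ^ n - 1 := by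
      rw [orderOf_eq_card_of_forall_mem_zpowers hg, Nat.card_units, hn]
    have h3 : g ^ (p ^ (2 * j) - 1) = 1 := by
      have h4 : g ^ (p ^ (2 * j)) = g := Units.ext (by rw [Units.val_pow_eq_pow_val, h2])
      have h5 : g ^ (p ^ (2 * j) - 1) * g = g := by
        rw [← pow_succ, Nat.sub_add_cancel (Nat.one_le_iff_ne_zero.2 (pow_ne_zero _ hp.ne_zero)), h4]
      exact mul_eq_right.1 h5
    have h4 := orderOf_dvd_of_pow_eq_one h3
    rw [ho] at h4
    have h5 := Nat.gcd_eq_left h4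
    rw [Nat.pow_sub_one_gcd_pow_sub_one] at h5
    have h6 : p ^ Nat.gcd n (2 * j) = p ^ n := by
      have h7 : 1 ≤ p ^ Nat.gcd n (2 * j) := Nat.one_le_iff_ne_zero.2 (pow_ne_zero _ hp.ne_zero)
      have h8 : 1 ≤ p ^ n := Nat.one_le_iff_ne_zero.2 (pow_ne_zero _ hp.ne_zero)
      omega
    have h7 := Nat.pow_right_injective hp.two_le h6
    exact Nat.gcd_eq_left_iff_dvd.1 h7
  obtain ⟨c, hc⟩ := hdvd
  rcases Nat.even_or_odd' c with ⟨l, rfl | rfl⟩
  · exfalso
    obtain ⟨x, hx⟩ := h1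
    apply hx
    have h3 : j = n * l := by
      have : 2 * j = 2 * (n * l) := by rw [hc]; ring
      omega
    rw [h3, hpn]
  · have hev : Even n := by
      have h3 : Even (n * (2 * l + 1)) := by rw [← hc]; exact even_two_mul j
      rcases Nat.even_mul.1 h3 with h4 | h4
      · exact h4
      · exact absurd h4 (by simp only [_root_.Nat.not_even_bit1, _root_.not_false_eq_true])
    obtain ⟨m, hm⟩ := hev
    refine ⟨m, by omega, fun x => ?_⟩
    have h3 : j = n * l + m := by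
      have : 2 * j = 2 * (n * l + m) := by rw [hc, hm]; ring
      omega
    rw [h3, pow_add, pow_mul, hpn]

section

variable {F V : Type*} [Field F] [AddCommGroup V] [Module F V]

/-- the three types of forms, uniformly -/
structure Ty (Φ : Frm F V) (ε : F) (r : ℕ) : Prop where
  nd : Φ.Nd
  s : ∀ a, Φ.s a = a ^ r
  symm : ∀ x y, Φ.B y x = ε * Φ.B x y ^ r
  eps : ε = 1 ∨ ε = -1
  ty : r = 1 ∨ Nat.card F = r ^ 2
  q : (∀ x, Φ.q x = 0) ∨ ((∀ x y, Φ.q (x + y) = Φ.q x + Φ.q y + Φ.B x y) ∧ ∀ (a : F) (x), Φ.q (a • x) = a ^ 2 * Φ.q x)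

theorem ty_of {Φ : Frm F V} (h : IsSp Φ ∨ (∃ r, IsHerm r Φ) ∨ ∃ Q : QuadraticForm F V, Φ.Nd ∧ Φ = frmQ Q) :
    ∃ ε r, Ty Φ ε r := by
  rcases h with h | ⟨r, h⟩ | ⟨Q, hn, rfl⟩
  · refine ⟨-1, 1, h.nd, fun a => by rw [h.s, pow_one], fun x y => ?_, Or.inr rfl, Or.inl rfl, Or.inl h.q⟩
    have h1 := h.alt (x + y)
    rw [Φ.add_left, Φ.add_right, Φ.add_right, h.alt, h.alt] at h1
    rw [pow_one]
    linear_combination h1
  · exact ⟨1, r, h.nd, h.s, fun x y => by rw [h.symm x y, one_mul], Or.inl rfl, Or.inr h.card, Or.inl h.q⟩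
  · refine ⟨1, 1, hn, fun a => (pow_one a).symm, fun x y => ?_, Or.inl rfl, Or.inl rfl, Or.inr ⟨fun x y => ?_, fun a x => ?_⟩⟩
    · rw [one_mul, pow_one]
      exact QuadraticMap.polar_comm _ _ _
    · show Q (x + y) = Q x + Q y + QuadraticMap.polar Q x y
      rw [QuadraticMap.polar]
      ring
    · show Q (a • x) = a ^ 2 * Q x
      rw [QuadraticMap.map_smul, smul_eq_mul, pow_two]

variable [Finite F] [FiniteDimensional F V] {L : Type*} [Field L] [Finite L] [Algebra F L] {Φ : Frm F V} {ε : F} {r : ℕ}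

/-- the adjoint of a polynomial in an isometry -/
theorem B_aeval (hΦ : Ty Φ ε r) {s : V ≃ₗ[F] V} (hs : s ∈ Φ.Iso) (φ : F →+* F) (hφ : ∀ a, φ a = a ^ r) (P : F[X]) (x y : V) :
    Φ.B x (aeval (s : V →ₗ[F] V) P y) = Φ.B (aeval ((s⁻¹ : V ≃ₗ[F] V) : V →ₗ[F] V) (P.map φ) x) y := by
  induction P using Polynomial.induction_on' with
  | add P P' hP hP' =>
    rw [Polynomial.map_add, map_add, map_add, LinearMap.add_apply, LinearMap.add_apply, Φ.add_left, Φ.add_right, hP, hP']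
  | monomial n a =>
    rw [Polynomial.map_monomial, aeval_monomial, aeval_monomial, Module.End.mul_apply, Module.End.mul_apply,
      Module.algebraMap_end_apply, Module.algebraMap_end_apply, Φ.smul_left, Φ.smul_right, hΦ.s, hφ]
    congr 1
    induction n generalizing x with
    | zero => simp
    | succ n ih =>
      rw [pow_succ', Module.End.mul_apply, pow_succ, Module.End.mul_apply, ← ih]
      have h1 : x = s (s⁻¹ x) := (s.apply_symm_apply x).symm
      conv_lhs => rw [h1]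
      exact hs.1 _ _

/-- **The adjoint involution.** -/
theorem exists_sigma (hΦ : Ty Φ ε r) (h2 : 2 ≤ finrank F L) {s : V ≃ₗ[F] V} (hs : s ∈ Φ.Iso) (e : V ≃ₗ[F] L)
    {u : L} (hu : ∀ v, e (s v) = u * e v) (hg : Gen F u) :
    ∃ (σ : L →+* L) (Q : ℕ), Q ^ 2 = Nat.card L ∧ (∀ x, σ x = x ^ Q) ∧
      (∀ a : F, σ (algebraMap F L a) = algebraMap F L (a ^ r)) ∧ σ u = u⁻¹ := by
  have hfdL : FiniteDimensional F L := Module.Finite.of_finite
  have := Fintype.ofFinite F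
  obtain ⟨p, hpF⟩ := CharP.exists F
  have hp : Fact p.Prime := ⟨CharP.char_is_prime F p⟩
  have hpL : CharP L p := charP_of_injective_algebraMap (algebraMap F L).injective p
  obtain ⟨m, hm⟩ : ∃ m, Nat.card F = p ^ m := by
    obtain ⟨m, -, hm⟩ := FiniteField.card F p
    exact ⟨m, by rw [Nat.card_eq_fintype_card, hm]⟩
  obtain ⟨k, hk⟩ : ∃ k, r = p ^ k := by
    rcases hΦ.ty with h | h
    · exact ⟨0, by rw [h, pow_zero]⟩
    · have h3 : r ∣ p ^ m := by rw [← hm, h]; exact dvd_pow_self r two_ne_zero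
      obtain ⟨k, -, hk⟩ := (Nat.dvd_prime_pow hp.out).1 h3
      exact ⟨k, hk⟩
  let φ : F →+* F := iterateFrobenius F p k
  let ψ : L →+* L := iterateFrobenius L p k
  have hφ : ∀ a, φ a = a ^ r := fun a => by rw [hk]; exact iterateFrobenius_def p k a
  have hψ : ∀ a, ψ a = a ^ r := fun a => by rw [hk]; exact iterateFrobenius_def p k a
  have hu0 : u ≠ 0 := by
    rintro rfl
    have h3 : e (s (e.symm 1)) = 0 := by rw [hu, zero_mul]
    rw [LinearEquiv.map_eq_zero_iff, LinearEquiv.map_eq_zero_iff, LinearEquiv.map_eq_zero_iff] at h3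
    exact one_ne_zero h3
  let t : Lˣ := Units.mk0 u hu0
  have hs' : ∀ v, e (s⁻¹ v) = (t⁻¹ : Lˣ) * e v := by
    intro v
    have h3 := hu (s⁻¹ v)
    have h4 : s (s⁻¹ v) = v := s.apply_symm_apply v
    rw [h4] at h3
    rw [h3, Units.val_inv_eq_inv_val, ← mul_assoc]
    show _ = u⁻¹ * u * _
    rw [inv_mul_cancel₀ hu0, one_mul]
  -- the polynomial of `u⁻¹`
  have hpoly : ∀ P : F[X], aeval u P = 0 → aeval u⁻¹ (P.map φ) = 0 := by
    intro P hP
    have h3 : ∀ y, aeval (s : V →ₗ[F] V) P y = 0 := by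
      intro y
      have h4 := _root_.Cfsg.Agent.H881.Bs.aeval_conj e (s : V →ₗ[F] V) (mul F t : L →ₗ[F] L) (fun v => hu v) P y
      rw [Cfsg.Agent.H881.Bs.aeval_mul] at h4
      have h5 : aeval (t : L) P = 0 := hP
      rw [h5, zero_mul, LinearEquiv.map_eq_zero_iff] at h4
      exact h4
    have h4 : aeval ((s⁻¹ : V ≃ₗ[F] V) : V →ₗ[F] V) (P.map φ) (e.symm 1) = 0 := by
      apply hΦ.nd
      intro y
      rw [← B_aeval hΦ hs φ hφ, h3]
      have h5 := Φ.smul_right 0 (e.symm 1) (0 : V)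
      rw [zero_smul] at h5
      have h6 : Φ.B (e.symm 1) (0 + 0) = Φ.B (e.symm 1) 0 + Φ.B (e.symm 1) 0 := Φ.add_right _ _ _
      rw [add_zero] at h6
      exact left_eq_add.1 h6
    have h5 := aeval_conj e ((s⁻¹ : V ≃ₗ[F] V) : V →ₗ[F] V) (mul F t⁻¹ : L →ₗ[F] L) (fun v => hs' v) (P.map φ) (e.symm 1)
    rw [Cfsg.Agent.H881.Bs.aeval_mul, h4, map_zero, e.apply_symm_apply, mul_one, Units.val_inv_eq_inv_val] at h5
    exact h5.symm
  -- the root `w`
  obtain ⟨w, hw⟩ : ∃ w : L, ψ w = u⁻¹ := (Finite.injective_iff_surjective.1 ψ.injective) _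
  have hw0 : aeval w (minpoly F u) = 0 := by
    have h3 := hpoly (minpoly F u) (minpoly.aeval F u)
    rw [← hw, aeval_def, eval₂_map] at h3
    have h4 : (algebraMap F L).comp φ = ψ.comp (algebraMap F L) := by
      ext a
      rw [RingHom.comp_apply, RingHom.comp_apply, hφ, hψ, map_pow]
    rw [h4, ← Polynomial.hom_eval₂, ← aeval_def] at h3
    exact (map_eq_zero_iff ψ ψ.injective).1 h3
  have hint : ∀ x : L, IsIntegral F x := fun x => Algebra.IsIntegral.isIntegral x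
  have hmin : minpoly F u = minpoly F w :=
    minpoly.eq_of_irreducible_of_monic (minpoly.irreducible (hint u)) hw0 (minpoly.monic (hint u))
  obtain ⟨i, hi⟩ := eq_pow_of_minpoly_eq hmin
  -- the involution
  let σ : L →+* L := iterateFrobenius L p (m * i + k)
  have hσ : ∀ x, σ x = (x ^ (Nat.card F ^ i)) ^ r := by
    intro x
    have h3 : σ x = x ^ p ^ (m * i + k) := iterateFrobenius_def p _ x
    rw [h3, hm, hk, ← pow_mul, ← pow_mul, ← pow_add]
  have hσF : ∀ a : F, σ (algebraMap F L a) = algebraMap F L (a ^ r) := by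
    intro a
    rw [hσ, ← map_pow, ← map_pow, Nat.card_eq_fintype_card, FiniteField.pow_card_pow]
  have hσu : σ u = u⁻¹ := by rw [hσ, ← hi, ← hψ, hw]
  have hrr : ∀ a : F, (a ^ r) ^ r = a := by
    intro a
    rcases hΦ.ty with h | h
    · rw [h, pow_one, pow_one]
    · rw [← pow_mul, ← pow_two, ← h, Nat.card_eq_fintype_card, FiniteField.pow_card]
  have hσσ : ∀ x, σ (σ x) = x := by
    refine hg.mem (fun x => σ (σ x) = x) (fun a => ?_) ?_ (fun x y hx hy => ?_) (fun x y hx hy => ?_)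
    · rw [hσF, hσF, hrr]
    · rw [hσu, map_inv₀, hσu, inv_inv]
    · rw [map_add, map_add, hx, hy]
    · rw [map_mul, map_mul, hx, hy]
  have hne : ∃ x, σ x ≠ x := by
    by_contra hcon
    push Not at hcon
    rcases hΦ.ty with h | h
    · -- `u = ± 1`
      have h3 : u⁻¹ = u := by rw [← hσu, hcon]
      have h4 : u * u = 1 := by
        have h5 := inv_mul_cancel₀ hu0
        rwa [h3] at h5
      have h5 : ∃ a : F, algebraMap F L a = u := by
        rcases mul_self_eq_one_iff.1 h4 with h5 | h5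
        · exact ⟨1, by rw [map_one, h5]⟩
        · exact ⟨-1, by rw [map_neg, map_one, h5]⟩
      obtain ⟨a, ha⟩ := h5
      have h6 : ∀ x : L, ∃ b : F, algebraMap F L b = x := by
        refine hg.mem _ (fun b => ⟨b, rfl⟩) ⟨a, ha⟩ ?_ ?_
        · rintro _ _ ⟨b, rfl⟩ ⟨c, rfl⟩
          exact ⟨b + c, map_add _ _ _⟩
        · rintro _ _ ⟨b, rfl⟩ ⟨c, rfl⟩
          exact ⟨b * c, map_mul _ _ _⟩
      have h7 : finrank F L ≤ 1 := by
        refine finrank_le_one (1 : L) fun x => ?_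
        obtain ⟨b, hb⟩ := h6 x
        exact ⟨b, by rw [Algebra.smul_def, mul_one, hb]⟩
      omega
    · have h3 : ∀ a : F, a ^ r = a := by
        intro a
        apply (algebraMap F L).injective
        rw [← hσF, hcon]
      exact sig_ne h (RingHom.ext fun a => by rw [sig_apply, h3]; rfl)
  obtain ⟨n, hn⟩ : ∃ n, Nat.card L = p ^ n := by
    have := Fintype.ofFinite L
    obtain ⟨n, -, hn⟩ := FiniteField.card L p
    exact ⟨n, by rw [Nat.card_eq_fintype_card, hn]⟩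
  have hσp : ∀ x, σ x = x ^ p ^ (m * i + k) := fun x => iterateFrobenius_def p _ x
  obtain ⟨l, hl, hl'⟩ := frob_unique (L := L) p n (m * i + k) hn (fun x => by
    rw [two_mul, pow_add, pow_mul, ← hσp, ← hσp, hσσ]) (by
    obtain ⟨x, hx⟩ := hne
    exact ⟨x, by rwa [← hσp]⟩)
  refine ⟨σ, p ^ l, ?_, fun x => ?_, hσF, hσu⟩
  · rw [hn, hl, ← pow_mul, mul_comm]
  · rw [hσp, hl']

end

end Cfsg.Agent.H232.Ux
end

-- part: H232/Ux/UpBm
section
/-!
# UX (S5716), UT2b: upper bound for the number of irreducible isometries (helper232)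

`card_Bm_le` : `dim V * |Bm| ≤ |Iso|` for every nondegenerate space of dimension at least two (symplectic, hermitian, quadratic).
-/

set_option autoImplicit false
set_option linter.unusedSectionVars false

namespace Cfsg.Agent.H232.Ux

open Module Polynomial Cfsg.Agent.H847.Bs Cfsg.Agent.H881.Bs

theorem card_roots_le {L : Type*} [Field L] {n : ℕ} (hn : 0 < n) (a : L) : Nat.card {x : L // x ^ n = a} ≤ n := by
  classical
  have h1 : Nat.card {x : L // x ^ n = a} = (nthRoots n a).toFinset.card := by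
    rw [← Nat.card_eq_finsetCard]
    exact Nat.card_congr (Equiv.subtypeEquivRight fun x => by rw [Multiset.mem_toFinset, mem_nthRoots hn])
  rw [h1]
  exact (Multiset.toFinset_card_le _).trans (card_nthRoots n a)

section

variable {F V : Type*} [Field F] [Finite F] [AddCommGroup V] [Module F V] [FiniteDimensional F V]
  {L : Type*} [Field L] [Finite L] [Algebra F L] {Φ : Frm F V} {ε : F} {r : ℕ}

/-- functionals on `L` -/
theorem exists_trace_eq (l : L →ₗ[F] F) : ∃ κ : L, ∀ a, l a = Algebra.trace F L (κ * a) := by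
  have hfdL : FiniteDimensional F L := Module.Finite.of_finite
  have h1 := traceForm_nondegenerate F L
  obtain ⟨κ, hκ⟩ := ((Algebra.traceForm F L).toDual h1).surjective l
  refine ⟨κ, fun a => ?_⟩
  rw [← hκ, LinearMap.BilinForm.toDual_def, Algebra.traceForm_apply]

theorem eq_of_trace {x y : L} (h : ∀ b, Algebra.trace F L (x * b) = Algebra.trace F L (y * b)) : x = y := by
  have hfdL : FiniteDimensional F L := Module.Finite.of_finite
  by_contra hne
  obtain ⟨z, hz⟩ := exists_trace_ne (F := F) (sub_ne_zero.2 hne)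
  apply hz
  rw [sub_mul, map_sub, h, sub_self]

/-- **The form of an irreducible isometry.** -/
theorem exists_kappa (hΦ : Ty Φ ε r) (h2 : 2 ≤ finrank F L) {s : V ≃ₗ[F] V} (hs : s ∈ Φ.Iso) (e : V ≃ₗ[F] L)
    {u : L} (hu : ∀ v, e (s v) = u * e v) (hg : Gen F u) :
    ∃ (Q : ℕ) (κ : L), Q ^ 2 = Nat.card L ∧ u ^ (Q + 1) = 1 ∧ κ ≠ 0 ∧ κ ^ Q = algebraMap F L ε * κ ∧
      ∀ a b, Φ.B (e.symm a) (e.symm b) = Algebra.trace F L (κ * (b ^ Q * a)) := by
  have hfdL : FiniteDimensional F L := Module.Finite.of_finite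
  obtain ⟨σ, Q, hQ, hσ, hσF, hσu⟩ := exists_sigma hΦ h2 hs e hu hg
  have hu0 : u ≠ 0 := by
    rintro rfl
    have h3 : e (s (e.symm 1)) = 0 := by rw [hu, zero_mul]
    rw [LinearEquiv.map_eq_zero_iff, LinearEquiv.map_eq_zero_iff, LinearEquiv.map_eq_zero_iff] at h3
    exact one_ne_zero h3
  have hadj : ∀ c a b : L, Φ.B (e.symm a) (e.symm (c * b)) = Φ.B (e.symm (σ c * a)) (e.symm b) := by
    refine hg.mem (fun c => ∀ a b : L, Φ.B (e.symm a) (e.symm (c * b)) = Φ.B (e.symm (σ c * a)) (e.symm b)) ?_ ?_ ?_ ?_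
    · intro c a b
      rw [hσF, ← Algebra.smul_def, ← Algebra.smul_def, map_smul, map_smul, Φ.smul_left, Φ.smul_right, hΦ.s]
    · intro a b
      have h3 : s (e.symm (u⁻¹ * a)) = e.symm a := by
        apply e.injective
        rw [hu, e.apply_symm_apply, e.apply_symm_apply, ← mul_assoc, mul_inv_cancel₀ hu0, one_mul]
      have h4 : s (e.symm b) = e.symm (u * b) := by
        apply e.injective
        rw [hu, e.apply_symm_apply, e.apply_symm_apply]
      rw [hσu, ← h4, ← h3]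
      exact hs.1 _ _
    · intro c c' hc hc' a b
      rw [add_mul, map_add, Φ.add_right, hc, hc', map_add σ, add_mul, map_add, Φ.add_left]
    · intro c c' hc hc' a b
      rw [mul_assoc, hc, hc', map_mul σ, ← mul_assoc, mul_comm (σ c')]
  let l : L →ₗ[F] F :=
    { toFun := fun a => Φ.B (e.symm a) (e.symm 1)
      map_add' := fun a b => by rw [map_add, Φ.add_left]
      map_smul' := fun c a => by rw [map_smul, Φ.smul_left, RingHom.id_apply, smul_eq_mul] }
  obtain ⟨κ, hκ⟩ := exists_trace_eq l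
  have hκ' : ∀ a, Φ.B (e.symm a) (e.symm 1) = Algebra.trace F L (κ * a) := hκ
  have hB : ∀ a b, Φ.B (e.symm a) (e.symm b) = Algebra.trace F L (κ * (σ b * a)) := by
    intro a b
    have h3 := hadj b a 1
    rw [mul_one] at h3
    rw [h3, hκ']
  have hκ0 : κ ≠ 0 := by
    rintro rfl
    have h3 := hΦ.nd (e.symm 1) (fun y => by
      have h4 := hB 1 (e y)
      rw [e.symm_apply_apply, zero_mul, map_zero] at h4
      exact h4)
    rw [LinearEquiv.map_eq_zero_iff] at h3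
    exact one_ne_zero h3
  have htr : ∀ x, Algebra.trace F L (σ x) = Algebra.trace F L x ^ r := by
    intro x
    apply (algebraMap F L).injective
    rw [← hσF, FiniteField.algebraMap_trace_eq_sum_pow, FiniteField.algebraMap_trace_eq_sum_pow, map_sum]
    exact Finset.sum_congr rfl fun i _ => (map_pow _ _ _).symm
  have hσσ : ∀ x, σ (σ x) = x := by
    intro x
    have := Fintype.ofFinite L
    rw [hσ, hσ, ← pow_mul, ← pow_two, hQ, Nat.card_eq_fintype_card, FiniteField.pow_card]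
  have hεε : algebraMap F L ε * algebraMap F L ε = 1 := by
    rcases hΦ.eps with h | h
    · rw [h, map_one, one_mul]
    · rw [h, map_neg, map_one]; ring
  have hsym : κ = algebraMap F L ε * σ κ := by
    apply eq_of_trace (F := F)
    intro b
    have h3 := hΦ.symm (e.symm 1) (e.symm b)
    rw [hB, hB, mul_one, map_one, one_mul, ← htr, map_mul σ, hσσ] at h3
    rw [h3, mul_assoc, ← Algebra.smul_def, map_smul, smul_eq_mul]
  refine ⟨Q, κ, hQ, ?_, hκ0, ?_, fun a b => ?_⟩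
  · rw [pow_succ, ← hσ, hσu, inv_mul_cancel₀ hu0]
  · rw [← hσ]
    conv_rhs => rw [hsym]
    rw [← mul_assoc, hεε, one_mul]
  · rw [hB, hσ]

/-- two identifications with the same form and the same element differ by an isometry -/
theorem mem_iso_of_eq (hΦ : Ty Φ ε r) (h2 : 2 ≤ finrank F V) {s s' : V ≃ₗ[F] V} (hs : s ∈ Φ.Bm) (hs' : s' ∈ Φ.Iso)
    (e e' : V ≃ₗ[F] L) {u : L} (hu : ∀ v, e (s v) = u * e v) (hu' : ∀ v, e' (s' v) = u * e' v)
    (hB : ∀ a b, Φ.B (e.symm a) (e.symm b) = Φ.B (e'.symm a) (e'.symm b)) : e ≪≫ₗ e'.symm ∈ Φ.Iso := by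
  have hBg : ∀ x y, Φ.B (e'.symm (e x)) (e'.symm (e y)) = Φ.B x y := by
    intro x y
    rw [← hB, e.symm_apply_apply, e.symm_apply_apply]
  refine ⟨fun x y => hBg x y, fun x => ?_⟩
  show Φ.q (e'.symm (e x)) = Φ.q x
  rcases hΦ.q with hq | ⟨hq1, hq2⟩
  · rw [hq, hq]
  · let D : V → F := fun x => Φ.q (e'.symm (e x)) - Φ.q x
    have hD1 : ∀ x y, D (x + y) = D x + D y := by
      intro x y
      show Φ.q (e'.symm (e (x + y))) - Φ.q (x + y) = (Φ.q (e'.symm (e x)) - Φ.q x) + (Φ.q (e'.symm (e y)) - Φ.q y)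
      rw [map_add, map_add, hq1, hq1, hBg]
      ring
    have hD2 : ∀ (a : F) (x), D (a • x) = a ^ 2 * D x := by
      intro a x
      show Φ.q (e'.symm (e (a • x))) - Φ.q (a • x) = a ^ 2 * (Φ.q (e'.symm (e x)) - Φ.q x)
      rw [map_smul, map_smul, hq2, hq2]
      ring
    have hD3 : ∀ x, D (s x) = D x := by
      intro x
      show Φ.q (e'.symm (e (s x))) - Φ.q (s x) = Φ.q (e'.symm (e x)) - Φ.q x
      have h3 : e'.symm (e (s x)) = s' (e'.symm (e x)) := by
        apply e'.injective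
        rw [e'.apply_symm_apply, hu', e'.apply_symm_apply, hu]
      rw [h3, hs'.2, hs.1.2]
    let K : Submodule F V :=
      { carrier := {x | D x = 0}
        add_mem' := fun {x y} hx hy => by
          have hx' : D x = 0 := hx
          have hy' : D y = 0 := hy
          show D (x + y) = 0
          rw [hD1, hx', hy', add_zero]
        zero_mem' := by
          show D 0 = 0
          have h3 := hD2 0 0
          rw [zero_smul, zero_pow two_ne_zero, zero_mul] at h3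
          exact h3
        smul_mem' := fun a x hx => by
          have hx' : D x = 0 := hx
          show D (a • x) = 0
          rw [hD2, hx', mul_zero] }
    rcases hs.2.min K le_top (fun x hx => by
      have hx' : D x = 0 := hx
      show D (s x) = 0
      rw [hD3, hx']) with h3 | h3
    · exfalso
      have hinj : Function.Injective D := by
        intro x y hxy
        have h4 : x - y ∈ K := by
          show D (x - y) = 0
          have h5 := hD1 (x - y) y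
          rw [sub_add_cancel, hxy] at h5
          exact right_eq_add.1 h5
        rw [h3, Submodule.mem_bot, sub_eq_zero] at h4
        exact h4
      have h4 := Nat.card_le_card_of_injective D hinj
      rw [Module.natCard_eq_pow_finrank (K := F) (V := V)] at h4
      have h5 : 1 < Nat.card F := Finite.one_lt_card
      have h6 : Nat.card F ^ 2 ≤ Nat.card F ^ finrank F V := Nat.pow_le_pow_right h5.le h2
      nlinarith
    · have h4 : x ∈ K := by rw [h3]; exact Submodule.mem_top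
      have h5 : Φ.q (e'.symm (e x)) - Φ.q x = 0 := h4
      exact sub_eq_zero.1 h5

/-- the counting argument -/
theorem card_Bm_le_aux (hΦ : Ty Φ ε r) (h2 : 2 ≤ finrank F V) (hL : finrank F L = finrank F V) :
    finrank F V * Nat.card Φ.Bm ≤ Nat.card Φ.Iso := by
  classical
  have hfdL : FiniteDimensional F L := Module.Finite.of_finite
  have hVfin : Finite V := Module.finite_of_finite F
  have hfin : Finite (V ≃ₗ[F] V) := finite_equiv' F V
  have hfin' : Finite (V ≃ₗ[F] L) := Finite.of_injective (fun g : V ≃ₗ[F] L => (g : V → L)) DFunLike.coe_injective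
  have h2L : 2 ≤ finrank F L := by rw [hL]; exact h2
  rcases (Φ.Bm).eq_empty_or_nonempty with hem | ⟨s₀, hs₀⟩
  · rw [hem]; simp only [_root_.Nat.card_eq_fintype_card, _root_.Fintype.card_eq_zero, _root_.MulZeroClass.mul_zero, _root_.zero_le]
  obtain ⟨Q, hQ⟩ : ∃ Q : ℕ, Q ^ 2 = Nat.card L := by
    obtain ⟨e, u, hu⟩ := exists_frame hL hs₀.2
    obtain ⟨Q, κ, hQ, -⟩ := exists_kappa hΦ h2L hs₀.1 e hu (gen_of_frame hs₀.2 e u hu)
    exact ⟨Q, hQ⟩
  have hL1 : 1 < Nat.card L := Finite.one_lt_card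
  have hQ2 : 2 ≤ Q := by
    by_contra hlt
    have h3 : Q ≤ 1 := by omega
    have h4 : Q ^ 2 ≤ 1 ^ 2 := Nat.pow_le_pow_left h3 2
    omega
  have hex : ∀ z : {z : (V ≃ₗ[F] V) × (V ≃ₗ[F] L) // z.1 ∈ Φ.Bm ∧ ∃ u : L, ∀ v, z.2 (z.1 v) = u * z.2 v},
      ∃ c : L × L, (∀ v, z.1.2 (z.1.1 v) = c.1 * z.1.2 v) ∧ c.1 ^ (Q + 1) = 1 ∧ c.2 ^ (Q - 1) = algebraMap F L ε ∧
        ∀ a b, Φ.B (z.1.2.symm a) (z.1.2.symm b) = Algebra.trace F L (c.2 * (b ^ Q * a)) := by
    rintro ⟨⟨s, e⟩, hs, u, hu⟩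
    obtain ⟨Q', κ, hQ', h3, h4, h5, h6⟩ := exists_kappa hΦ h2L hs.1 e hu (gen_of_frame hs.2 e u hu)
    have hQQ : Q' = Q := Nat.pow_left_injective two_ne_zero (hQ'.trans hQ.symm)
    subst hQQ
    refine ⟨(u, κ), hu, h3, ?_, h6⟩
    apply mul_right_cancel₀ h4
    show κ ^ (Q' - 1) * κ = _
    rw [← pow_succ, Nat.sub_add_cancel (by omega), h5]
  choose c hc1 hc2 hc3 hc4 using hex
  have hup : Nat.card {z : (V ≃ₗ[F] V) × (V ≃ₗ[F] L) // z.1 ∈ Φ.Bm ∧ ∃ u : L, ∀ v, z.2 (z.1 v) = u * z.2 v} ≤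
      Nat.card Φ.Iso * Nat.card ({x : L // x ^ (Q + 1) = 1} × {x : L // x ^ (Q - 1) = algebraMap F L ε}) := by
    refine card_le_of_fiber (fun z => (⟨(c z).1, hc2 z⟩, ⟨(c z).2, hc3 z⟩)) _ ?_
    intro b
    by_cases hb : ∃ z₀, (fun z => ((⟨(c z).1, hc2 z⟩, ⟨(c z).2, hc3 z⟩) :
      {x : L // x ^ (Q + 1) = 1} × {x : L // x ^ (Q - 1) = algebraMap F L ε})) z₀ = b
    · obtain ⟨z₀, rfl⟩ := hb
      have hcc : ∀ z, (((⟨(c z).1, hc2 z⟩, ⟨(c z).2, hc3 z⟩) :
          {x : L // x ^ (Q + 1) = 1} × {x : L // x ^ (Q - 1) = algebraMap F L ε}) =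
          (⟨(c z₀).1, hc2 z₀⟩, ⟨(c z₀).2, hc3 z₀⟩)) → (c z).1 = (c z₀).1 ∧ (c z).2 = (c z₀).2 := by
        intro z hz
        have h3 := (Prod.mk.inj hz).1
        have h4 := (Prod.mk.inj hz).2
        exact ⟨congrArg Subtype.val h3, congrArg Subtype.val h4⟩
      refine Nat.card_le_card_of_injective (fun z => (⟨z.1.1.2 ≪≫ₗ z₀.1.2.symm, ?_⟩ : Φ.Iso)) ?_
      · obtain ⟨h3, h4⟩ := hcc z.1 z.2
        refine mem_iso_of_eq hΦ h2 z.1.2.1 z₀.2.1.1 z.1.1.2 z₀.1.2 (hc1 z.1) ?_ ?_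
        · rw [h3]; exact hc1 z₀
        · intro a b
          rw [hc4 z.1, hc4 z₀, h4]
      · intro z z' hzz
        have h3 : z.1.1.2 ≪≫ₗ z₀.1.2.symm = z'.1.1.2 ≪≫ₗ z₀.1.2.symm := congrArg Subtype.val hzz
        have h4 : z.1.1.2 = z'.1.1.2 := by
          ext v
          have h5 := LinearEquiv.congr_fun h3 v
          exact z₀.1.2.symm.injective h5
        have h5 : z.1.1.1 = z'.1.1.1 := by
          ext v
          apply z.1.1.2.injective
          rw [hc1 z.1, (hcc z.1 z.2).1, h4, hc1 z'.1, (hcc z'.1 z'.2).1]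
        exact Subtype.ext (Subtype.ext (Prod.ext h5 h4))
    · have h3 : IsEmpty {z // (fun z => ((⟨(c z).1, hc2 z⟩, ⟨(c z).2, hc3 z⟩) :
          {x : L // x ^ (Q + 1) = 1} × {x : L // x ^ (Q - 1) = algebraMap F L ε})) z = b} :=
        ⟨fun z => hb ⟨z.1, z.2⟩⟩
      rw [Nat.card_of_isEmpty]
      exact Nat.zero_le _
  have hlow : Nat.card Φ.Bm * (finrank F V * Nat.card Lˣ) ≤
      Nat.card {z : (V ≃ₗ[F] V) × (V ≃ₗ[F] L) // z.1 ∈ Φ.Bm ∧ ∃ u : L, ∀ v, z.2 (z.1 v) = u * z.2 v} := by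
    have h3 : Nat.card {z : (V ≃ₗ[F] V) × (V ≃ₗ[F] L) // z.1 ∈ Φ.Bm ∧ ∃ u : L, ∀ v, z.2 (z.1 v) = u * z.2 v} =
        Nat.card (Σ s : Φ.Bm, {e : V ≃ₗ[F] L // ∃ u : L, ∀ v, e ((s : V ≃ₗ[F] V) v) = u * e v}) :=
      Nat.card_congr
        { toFun := fun z => ⟨⟨z.1.1, z.2.1⟩, z.1.2, z.2.2⟩
          invFun := fun z => ⟨(z.1.1, z.2.1), z.1.2, z.2.2⟩
          left_inv := fun z => rfl
          right_inv := fun z => rfl }
    have := Fintype.ofFinite Φ.Bm
    rw [h3, Nat.card_sigma]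
    calc Nat.card Φ.Bm * (finrank F V * Nat.card Lˣ) = ∑ _s : Φ.Bm, finrank F V * Nat.card Lˣ := by
          rw [Finset.sum_const, Finset.card_univ, smul_eq_mul, Nat.card_eq_fintype_card]
      _ ≤ _ := Finset.sum_le_sum fun s _ => card_frames hL s.2.2
  have hβ : Nat.card ({x : L // x ^ (Q + 1) = 1} × {x : L // x ^ (Q - 1) = algebraMap F L ε}) ≤ Nat.card Lˣ := by
    rw [Nat.card_prod, Nat.card_units, ← hQ]
    refine (Nat.mul_le_mul (card_roots_le (by omega) _) (card_roots_le (by omega) _)).trans (le_of_eq ?_)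
    obtain ⟨k, rfl⟩ : ∃ k, Q = k + 1 := ⟨Q - 1, by omega⟩
    rw [Nat.add_sub_cancel]
    have h3 : (k + 1) ^ 2 = (k + 1 + 1) * k + 1 := by ring
    rw [h3, Nat.add_sub_cancel]
  have hpos : 0 < Nat.card Lˣ := Nat.card_pos
  have h3 : (finrank F V * Nat.card Φ.Bm) * Nat.card Lˣ ≤ Nat.card Φ.Iso * Nat.card Lˣ := by
    calc (finrank F V * Nat.card Φ.Bm) * Nat.card Lˣ = Nat.card Φ.Bm * (finrank F V * Nat.card Lˣ) := by ring
      _ ≤ _ := hlow.trans (hup.trans (Nat.mul_le_mul_left _ hβ))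
  exact Nat.le_of_mul_le_mul_right h3 hpos

end

section

variable {F V : Type*} [Field F] [Finite F] [AddCommGroup V] [Module F V] [FiniteDimensional F V]

/-- **UT2b.** The number of irreducible isometries of a nondegenerate space of dimension `d ≥ 1` is at most `|Iso| / d`. -/
theorem card_Bm_le {Φ : Frm F V} (h : IsSp Φ ∨ (∃ r, IsHerm r Φ) ∨ ∃ Q : QuadraticForm F V, Φ.Nd ∧ Φ = frmQ Q) :
    finrank F V * Nat.card Φ.Bm ≤ Nat.card Φ.Iso := by
  have hfin : Finite (V ≃ₗ[F] V) := by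
    have hVfin : Finite V := Module.finite_of_finite F
    exact finite_equiv' F V
  rcases Nat.lt_or_ge (finrank F V) 2 with hlt | h2
  · have h1 : Nat.card Φ.Bm ≤ Nat.card Φ.Iso :=
      Nat.card_le_card_of_injective (fun z : Φ.Bm => (⟨z.1, z.2.1⟩ : Φ.Iso)) (by
        intro a b hab
        exact Subtype.ext (congrArg (fun w : Φ.Iso => (w : V ≃ₗ[F] V)) hab))
    calc finrank F V * Nat.card Φ.Bm ≤ 1 * Nat.card Φ.Bm := Nat.mul_le_mul_right _ (by omega)
      _ ≤ _ := by rw [one_mul]; exact h1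
  · obtain ⟨ε, r, hΦ⟩ := ty_of h
    obtain ⟨p, hp⟩ := CharP.exists F
    have hpf : Fact p.Prime := ⟨CharP.char_is_prime F p⟩
    have hd0 : NeZero (finrank F V) := ⟨by omega⟩
    exact card_Bm_le_aux (L := FiniteField.Extension F p (finrank F V)) hΦ h2 (FiniteField.finrank_extension F p _)

end

end Cfsg.Agent.H232.Ux
end

-- part: H232/Ux/UTb
section
/-!
# UX (S5716), UT2b in the form used by UM1 (helper232)
-/

set_option autoImplicit false

namespace Cfsg.Agent.H232.Ux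

open Module Cfsg.Agent.H847.Bs

/-- UT2b as in the request of helper541 -/
theorem ut2b : ∃ C : ℝ, ∀ (F X : Type) [Field F] [Finite F] [AddCommGroup X] [Module F X] [Module.Finite F X] (Φ : Frm F X),
    (IsSp Φ ∨ (∃ r, IsHerm r Φ) ∨ ∃ Q : QuadraticForm F X, (frmQ Q).Nd ∧ Φ = frmQ Q) → 2 ≤ finrank F X →
    (Nat.card {s : X ≃ₗ[F] X // s ∈ Φ.Iso ∧ Irr s ⊤} : ℝ) * finrank F X ≤ C * Nat.card Φ.Iso := by
  refine ⟨1, fun F X _ _ _ _ _ Φ h _ => ?_⟩
  have h1 := card_Bm_le (Φ := Φ) (by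
    rcases h with h | h | ⟨Q, hQ, rfl⟩
    · exact Or.inl h
    · exact Or.inr (Or.inl h)
    · exact Or.inr (Or.inr ⟨Q, hQ, rfl⟩))
  rw [one_mul, mul_comm]
  exact_mod_cast h1

end Cfsg.Agent.H232.Ux
end

-- part: H541/Ux/Final
section
/-!
# S5716, task UM1 (helper541)
-/

set_option autoImplicit false

namespace Cfsg.Agent.H541.Ux

/-- **UM1**: the first moment of pairs of blocks in bad position -/
theorem um1 : Cfsg.Agent.H141.Ux.UM1 := um1_of Cfsg.Agent.H232.Ux.ut2b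

end Cfsg.Agent.H541.Ux
end

-- part: H50/RG/Small
section
/-!
# S5714, layer L: the small pieces `L04`, `L09`, `L12`
-/

set_option autoImplicit false
set_option linter.unusedSectionVars false

namespace Cfsg.Agent.H50.RG

open Module Cfsg.Agent.H847.Bs
open Cfsg.Agent.H440.Bs (perp mem_perp mem_perp' finrank_perp)

theorem l12 : L12 := by
  intro F V _ _ _ _ _ e M he hlt y s hs
  rw [Finset.card_le_one]
  intro A hA A' hA'
  by_contra hne
  have h1 := hs A hA
  have h2 := hs A' hA'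
  have hdis : A ⊓ A' = ⊥ := by
    rcases h1.irr.min (A ⊓ A') inf_le_left (fun v hv => ⟨h1.irr.inv v hv.1, h2.irr.inv v hv.2⟩) with h | h
    · exact h
    · exfalso
      apply hne
      refine Submodule.eq_of_le_of_finrank_eq (inf_eq_left.1 h) (by rw [h1.dim, h2.dim])
  have hd : finrank F ↥(A ⊔ A') = 2 * e := by
    have h := Submodule.finrank_sup_add_finrank_inf_eq A A'
    rw [hdis, finrank_bot, h1.dim, h2.dim] at h
    omega
  refine h1.no (A ⊔ A') ?_ ?_ ?_ ?_ ?_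
  · unfold Prp
    omega
  · intro v hv
    obtain ⟨a, ha, b, hb, rfl⟩ := Submodule.mem_sup.1 hv
    rw [map_add]
    exact Submodule.add_mem_sup (h1.irr.inv a ha) (h2.irr.inv b hb)
  · refine lt_of_le_of_ne le_sup_left fun h => ?_
    rw [← h, h1.dim] at hd
    omega
  · intro C hC hAC hCB
    rcases h2.irr.min (A' ⊓ C) inf_le_left (fun v hv => ⟨h2.irr.inv v hv.1, hC v hv.2⟩) with h | h
    · left
      refine le_antisymm ?_ hAC
      intro v hv
      obtain ⟨a, ha, b, hb, rfl⟩ := Submodule.mem_sup.1 (hCB hv)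
      have hb' : b ∈ A' ⊓ C := ⟨hb, by
        have := C.sub_mem hv (hAC ha)
        rwa [add_sub_cancel_left] at this⟩
      rw [h, Submodule.mem_bot] at hb'
      rw [hb', add_zero]
      exact ha
    · right
      exact le_antisymm hCB (sup_le hAC (inf_eq_left.1 h))
  · rw [hd]
    exact Dvd.intro_left 2 rfl

theorem l09 : L09 := by
  intro F V _ _ _ _ _ Φ hN y hy A A' hA hA' hi hi' hne
  -- one of the two is orthogonal to the other
  have key : ∀ X Y : Submodule F V, Irr y X → Irr y Y → (∀ x ∈ X, ∀ z ∈ Y, Φ.B x z = 0) ∨ finrank F X ≤ finrank F Y := by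
    intro X Y hX hY
    have hinv : _root_.Cfsg.Agent.H847.Bs.Inv y (X ⊓ perp Φ Y) := by
      intro v hv
      refine ⟨hX.inv v hv.1, fun z hz => ?_⟩
      -- `y` maps `Y` onto `Y`
      have hsurj : ∃ z' ∈ Y, y z' = z := by
        have h1 : Y.map (y : V →ₗ[F] V) ≤ Y := by
          rintro _ ⟨w, hw, rfl⟩
          exact hY.inv w hw
        have h2 : Y.map (y : V →ₗ[F] V) = Y := Submodule.eq_of_le_of_finrank_eq h1 (LinearEquiv.finrank_map_eq y Y)
        rw [← h2] at hz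
        obtain ⟨z', hz', e⟩ := hz
        exact ⟨z', hz', e⟩
      obtain ⟨z', hz', rfl⟩ := hsurj
      rw [hy.1]
      exact hv.2 z' hz'
    rcases hX.min _ inf_le_left hinv with h | h
    · right
      have h1 := Submodule.finrank_sup_add_finrank_inf_eq X (perp Φ Y)
      have h2 := finrank_perp Φ hN Y
      have h3 := Submodule.finrank_le (X ⊔ perp Φ Y)
      rw [h, finrank_bot] at h1
      omega
    · left
      intro x hx z hz
      exact (inf_eq_left.1 h hx) z hz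
  have horth : ∀ x ∈ A, ∀ z ∈ A', Φ.B x z = 0 := by
    rcases key A A' hi hi' with h | h
    · exact h
    · rcases key A' A hi' hi with h' | h'
      · exact fun x hx z hz => Φ.refl _ _ (h' z hz x hx)
      · exact absurd (le_antisymm h h') hne
  constructor
  · intro x hx z hz
    obtain ⟨a, ha, b, hb, rfl⟩ := Submodule.mem_sup.1 hx
    obtain ⟨c, hc, d, hd, rfl⟩ := Submodule.mem_sup.1 hz
    rw [Φ.add_left, Φ.add_right, Φ.add_right, hA.1 a ha c hc, horth a ha d hd, hA'.1 b hb d hd,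
      Φ.refl _ _ (horth c hc b hb)]
    simp
  · intro x hx
    obtain ⟨a, ha, b, hb, rfl⟩ := Submodule.mem_sup.1 hx
    rw [Φ.q_add _ _ (horth a ha b hb), hA.2 a ha, hA'.2 b hb, add_zero]

theorem sumExtend_inl {F V ι : Type*} [Field F] [AddCommGroup V] [Module F V] {v : ι → V}
    (hs : LinearIndependent F v) (i : ι) : Basis.sumExtend hs (Sum.inl i) = v i := by
  classical
  unfold Basis.sumExtend
  rw [Basis.reindex_apply, Basis.extend_apply_self]
  rfl

theorem l04 : L04 := by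
  classical
  intro F V _ _ _ _ _ hn k hk b b' hb hb' _ _
  let B := Basis.sumExtend hb
  let B' := Basis.sumExtend hb'
  have hBf : Finite (Fin k ⊕ Basis.sumExtendIndex hb) := Module.Finite.finite_basis B
  have hBf' : Finite (Fin k ⊕ Basis.sumExtendIndex hb') := Module.Finite.finite_basis B'
  have hJ : Finite (Basis.sumExtendIndex hb) := Finite.of_injective (Sum.inr : _ → Fin k ⊕ Basis.sumExtendIndex hb)
    Sum.inr_injective
  have hJ' : Finite (Basis.sumExtendIndex hb') := Finite.of_injective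
    (Sum.inr : _ → Fin k ⊕ Basis.sumExtendIndex hb') Sum.inr_injective
  have := Fintype.ofFinite (Basis.sumExtendIndex hb)
  have := Fintype.ofFinite (Basis.sumExtendIndex hb')
  have hc : finrank F V = k + Fintype.card (Basis.sumExtendIndex hb) := by
    rw [Module.finrank_eq_card_basis B, Fintype.card_sum, Fintype.card_fin]
  have hc' : finrank F V = k + Fintype.card (Basis.sumExtendIndex hb') := by
    rw [Module.finrank_eq_card_basis B', Fintype.card_sum, Fintype.card_fin]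
  have hBb : ∀ i, B (Sum.inl i) = b i := fun i => sumExtend_inl hb i
  have hBb' : ∀ i, B' (Sum.inl i) = b' i := fun i => sumExtend_inl hb' i
  obtain ⟨e⟩ : Nonempty (Basis.sumExtendIndex hb ≃ Basis.sumExtendIndex hb') :=
    ⟨Fintype.equivOfCardEq (by omega)⟩
  let g : V ≃ₗ[F] V := B.equiv B' (Equiv.sumCongr (Equiv.refl _) e)
  have hg : ∀ i, g (b i) = b' i := by
    intro i
    rw [← hBb, ← hBb']
    exact B.equiv_apply _ _ _
  have hpos : 0 < Fintype.card (Basis.sumExtendIndex hb) := by omega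
  obtain ⟨j₀⟩ : Nonempty (Basis.sumExtendIndex hb) := Fintype.card_pos_iff.1 hpos
  let d : Fˣ := LinearEquiv.det g
  let w : Fin k ⊕ Basis.sumExtendIndex hb → Fˣ := Function.update 1 (Sum.inr j₀) d⁻¹
  let s : V ≃ₗ[F] V := B.equiv (B.unitsSMul w) (Equiv.refl _)
  have hs : ∀ i, s (B i) = (w i : F) • B i := by
    intro i
    rw [show s (B i) = (B.unitsSMul w) i from B.equiv_apply _ _ _, Basis.unitsSMul_apply]
    rfl
  have hdet : LinearMap.det (s : V →ₗ[F] V) = ((d⁻¹ : Fˣ) : F) := by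
    rw [← LinearMap.det_toMatrix B]
    have h1 : LinearMap.toMatrix B B (s : V →ₗ[F] V) = Matrix.diagonal fun i => (w i : F) := by
      ext i j
      rw [LinearMap.toMatrix_apply]
      show B.repr (s (B j)) i = _
      rw [hs, map_smul, Basis.repr_self, Finsupp.smul_single, smul_eq_mul, mul_one, Matrix.diagonal_apply,
        Finsupp.single_apply]
      by_cases h : j = i
      · subst h
        simp
      · rw [if_neg h, if_neg fun h' => h h'.symm]
    rw [h1, Matrix.det_diagonal, Finset.prod_eq_single (Sum.inr j₀)]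
    · simp [w]
    · intro i _ hi
      simp [w, hi]
    · intro h
      exact absurd (Finset.mem_univ _) h
  refine ⟨g * s, ?_, fun i => ?_⟩
  · show LinearMap.det ((g : V →ₗ[F] V) ∘ₗ (s : V →ₗ[F] V)) = 1
    rw [LinearMap.det_comp, hdet]
    have : LinearMap.det (g : V →ₗ[F] V) = (d : F) := (LinearEquiv.coe_det g).symm
    rw [this]
    exact Units.mul_inv d
  · show g (s (b i)) = b' i
    rw [← hBb i, hs, hBb]
    have : w (Sum.inl i) = 1 := by simp [w]
    rw [this, Units.val_one, one_smul, hg]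

end Cfsg.Agent.H50.RG
end
end

-- part: H847/Ux/Gp1
section
prune_inst 0x1800300000000000000000000000000000000
set_option linter.all false
open scoped Cfsg.Agent.FastGrp

/-!
# S5716, unbounded rank, UG1 (general position), part 1 (helper847)

Counting lemmas; the pointwise stabiliser `fixD G D` of a nondegenerate subspace; its orbits on `D^⊥`.
-/

set_option autoImplicit false
set_option linter.unusedSectionVars false

namespace Cfsg.Agent.H847.Ux

open Module QuadraticMap Cfsg.Agent.LieClassical.OrthCore Cfsg.Agent.H847.Bs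
open Cfsg.Agent.H440.Bs (perp mem_perp mem_perp' perp_disjoint dec_perp)

/-! ### counting -/

/-- double counting, upper bound -/
theorem count_le {α β : Type*} [Finite α] [Finite β] (P : β → Prop) (S : α → Prop) (R : α → β → Prop) (X c : ℕ)
    (hw : ∀ b, P b → ∃ a, S a ∧ R a b) (h : ∀ a, S a → Nat.card {b // R a b} * X ≤ c) :
    Nat.card {b // P b} * X ≤ Nat.card {a // S a} * c := by
  classical
  have := Fintype.ofFinite {a // S a}
  choose f hfS hfR using hw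
  have h1 : Nat.card {b // P b} ≤ Nat.card (Σ a : {a // S a}, {b // R a.1 b}) := by
    refine Nat.card_le_card_of_injective (fun b => ⟨⟨f b.1 b.2, hfS b.1 b.2⟩, ⟨b.1, hfR b.1 b.2⟩⟩) ?_
    intro b b' hbb
    have h2 := congrArg (fun s : (Σ a : {a // S a}, {b // R a.1 b}) => (s.2 : β)) hbb
    exact Subtype.ext h2
  rw [Nat.card_sigma] at h1
  refine (Nat.mul_le_mul_right X h1).trans ?_
  rw [Finset.sum_mul]
  refine (Finset.sum_le_card_nsmul _ _ c fun (a : {a // S a}) _ => h a.1 a.2).trans ?_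
  rw [Finset.card_univ, Nat.card_eq_fintype_card (α := {a // S a}), smul_eq_mul]

/-- double counting, lower bound -/
theorem le_count {α β : Type*} [Finite α] [Finite β] (P : β → Prop) (R : α → β → Prop) (m : ℕ)
    (h : ∀ b, P b → m ≤ Nat.card {a // R a b}) :
    m * Nat.card {b // P b} ≤ Nat.card {p : α × β // R p.1 p.2} := by
  classical
  have := Fintype.ofFinite {b // P b}
  have h1 : Nat.card (Σ b : {b // P b}, {a // R a b.1}) ≤ Nat.card {p : α × β // R p.1 p.2} := by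
    refine Nat.card_le_card_of_injective (fun s => ⟨(s.2.1, s.1.1), s.2.2⟩) ?_
    rintro ⟨⟨b, hb⟩, ⟨a, ha⟩⟩ ⟨⟨b', hb'⟩, ⟨a', ha'⟩⟩ hs
    have h2 := congrArg Subtype.val hs
    have h3 : a = a' := congrArg Prod.fst h2
    have h4 : b = b' := congrArg Prod.snd h2
    subst h3 h4
    rfl
  refine le_trans ?_ h1
  rw [Nat.card_sigma]
  refine le_trans ?_ (Finset.card_nsmul_le_sum _ _ m fun (b : {b // P b}) _ => h b.1 b.2)
  rw [Finset.card_univ, Nat.card_eq_fintype_card (α := {b // P b}), smul_eq_mul, mul_comm]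

/-- union bound -/
theorem card_or_le {α : Type*} [Finite α] (P P' P'' : α → Prop) (h : ∀ a, P a → P' a ∨ P'' a) :
    Nat.card {a // P a} ≤ Nat.card {a // P' a} + Nat.card {a // P'' a} := by
  classical
  rw [← Nat.card_sum]
  refine Nat.card_le_card_of_injective
    (fun a => if h' : P' a.1 then Sum.inl ⟨a.1, h'⟩ else Sum.inr ⟨a.1, (h a.1 a.2).resolve_left h'⟩) ?_
  rintro ⟨a, ha⟩ ⟨b, hb⟩ hab
  by_cases h1 : P' a <;> by_cases h2 : P' b
  · simp only [h1, h2, dif_pos] at hab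
    exact Subtype.ext (congrArg (fun z : {a // P' a} ⊕ {a // P'' a} => Sum.elim Subtype.val Subtype.val z) hab)
  · simp only [h1, h2, dif_pos] at hab
    exact absurd hab (by simp)
  · simp only [h1, h2, dif_pos] at hab
    exact absurd hab (by simp)
  · simp only [h1, h2, dif_neg, not_false_eq_true] at hab
    exact Subtype.ext (congrArg (fun z : {a // P' a} ⊕ {a // P'' a} => Sum.elim Subtype.val Subtype.val z) hab)

theorem card_mono' {α : Type*} [Finite α] {P P' : α → Prop} (h : ∀ a, P a → P' a) :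
    Nat.card {a // P a} ≤ Nat.card {a // P' a} :=
  Nat.card_mono (Set.toFinite _) fun a ha => h a ha

/-- averaging over the cosets of a subgroup -/
theorem avg {Γ : Type*} [Group Γ] [Finite Γ] (G G₀ : Subgroup Γ) (hle : G₀ ≤ G) (P : Γ → Prop) (t c : ℕ)
    (h : ∀ g ∈ G, Nat.card {k // k ∈ G₀ ∧ P (g * k)} * t ≤ c * Nat.card G₀) :
    Nat.card {g // g ∈ G ∧ P g} * t ≤ c * Nat.card G := by
  have h0 : 0 < Nat.card G₀ := Nat.card_pos
  have h1 : Nat.card G₀ * Nat.card {g // g ∈ G ∧ P g} ≤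
      Nat.card {p : Γ × Γ // p.1 ∈ G ∧ p.2 ∈ G₀ ∧ P (p.1 * p.2)} := by
    rw [← Nat.card_prod]
    refine Nat.card_le_card_of_injective (fun p => ⟨(p.2.1 * (p.1.1)⁻¹, p.1.1),
      G.mul_mem p.2.2.1 (G.inv_mem (hle p.1.2)), p.1.2, by
        show P (p.2.1 * (p.1.1)⁻¹ * p.1.1)
        rw [inv_mul_cancel_right]; exact p.2.2.2⟩) ?_
    rintro ⟨⟨a, ha⟩, ⟨b, hb⟩⟩ ⟨⟨a', ha'⟩, ⟨b', hb'⟩⟩ hs
    have h2 := congrArg Subtype.val hs
    have h3 : a = a' := congrArg Prod.snd h2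
    have h4 : b * a⁻¹ = b' * a'⁻¹ := congrArg Prod.fst h2
    subst h3
    have h5 : b = b' := mul_right_cancel h4
    subst h5
    rfl
  have h2 : Nat.card {p : Γ × Γ // p.1 ∈ G ∧ p.2 ∈ G₀ ∧ P (p.1 * p.2)} * t ≤
      Nat.card {g : Γ // g ∈ G} * (c * Nat.card G₀) := by
    refine count_le _ (fun g : Γ => g ∈ G) (fun g p => p.1 = g ∧ p.2 ∈ G₀ ∧ P (g * p.2)) t (c * Nat.card G₀)
      (fun p hp => ⟨p.1, hp.1, rfl, hp.2⟩) ?_
    intro g hg
    refine (Nat.mul_le_mul_right t ?_).trans (h g hg)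
    refine Nat.card_le_card_of_injective (fun p => ⟨p.1.2, p.2.2⟩) ?_
    rintro ⟨⟨a, b⟩, h1, h2⟩ ⟨⟨a', b'⟩, h1', h2'⟩ hs
    have h3 : b = b' := congrArg Subtype.val hs
    have h4 : a = g := h1
    have h5 : a' = g := h1'
    subst h3 h4 h5
    rfl
  refine Nat.le_of_mul_le_mul_left ?_ h0
  calc Nat.card G₀ * (Nat.card {g // g ∈ G ∧ P g} * t) = Nat.card G₀ * Nat.card {g // g ∈ G ∧ P g} * t := by ring
    _ ≤ _ := Nat.mul_le_mul_right t h1
    _ ≤ _ := h2
    _ = _ := by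
      show Nat.card G * (c * Nat.card G₀) = _
      ring

variable {F V : Type*} [Field F] [AddCommGroup V] [Module F V]

/-! ### fibres and orbits -/

/-- fibres times orbit is at most the order of the group -/
theorem fib_mul {Γ X : Type*} [Group Γ] [Finite Γ] [Finite X] (G : Subgroup Γ) (f : Γ → X)
    (hf : ∀ a b c : Γ, f b = f c → f (a * b) = f (a * c)) (y : X) :
    Nat.card {g // g ∈ G ∧ f g = y} * Nat.card {p : X // ∃ g ∈ G, p = f g} ≤ Nat.card G := by
  classical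
  by_cases h0 : IsEmpty {g // g ∈ G ∧ f g = y}
  · rw [Nat.card_of_isEmpty, zero_mul]; exact Nat.zero_le _
  rw [not_isEmpty_iff] at h0
  obtain ⟨⟨g₀, hg₀, hy⟩⟩ := h0
  rw [← Nat.card_prod]
  choose c hcG hc using fun p : {p : X // ∃ g ∈ G, p = f g} => p.2
  refine Nat.card_le_card_of_injective (fun s => (⟨c s.2 * (g₀⁻¹ * s.1.1),
    G.mul_mem (hcG _) (G.mul_mem (G.inv_mem hg₀) s.1.2.1)⟩ : G)) ?_
  rintro ⟨⟨a, ha, ha'⟩, p⟩ ⟨⟨b, hb, hb'⟩, p'⟩ hs
  have h2 : c p * (g₀⁻¹ * a) = c p' * (g₀⁻¹ * b) := congrArg Subtype.val hs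
  have h3 : ∀ a : Γ, f a = y → ∀ p, f (c p * (g₀⁻¹ * a)) = p := by
    intro a ha p
    have h4 : f (g₀⁻¹ * a) = f (g₀⁻¹ * g₀) := hf _ _ _ (by rw [ha, hy])
    rw [hf _ _ _ h4, inv_mul_cancel, mul_one]
    exact (hc p).symm
  have h5 : (p : X) = p' := by rw [← h3 a ha' p, h2, h3 b hb' p']
  have h6 : p = p' := Subtype.ext h5
  subst h6
  have h7 : a = b := mul_left_cancel (mul_left_cancel h2)
  subst h7
  rfl

/-- the pointwise stabiliser of `D` in `G` -/
def fixD (G : Subgroup (V ≃ₗ[F] V)) (D : Submodule F V) : Subgroup (V ≃ₗ[F] V) where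
  carrier := {g | g ∈ G ∧ ∀ v ∈ D, g v = v}
  mul_mem' := by
    rintro a b ⟨ha, ha'⟩ ⟨hb, hb'⟩
    exact ⟨G.mul_mem ha hb, fun v hv => by rw [LinearEquiv.mul_apply, hb' v hv, ha' v hv]⟩
  one_mem' := ⟨G.one_mem, fun v _ => rfl⟩
  inv_mem' := by
    rintro a ⟨ha, ha'⟩
    refine ⟨G.inv_mem ha, fun v hv => ?_⟩
    have h1 : a⁻¹ (a v) = v := a.symm_apply_apply v
    rwa [ha' v hv] at h1

theorem mem_fixD {G : Subgroup (V ≃ₗ[F] V)} {D : Submodule F V} {g : V ≃ₗ[F] V} :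
    g ∈ fixD G D ↔ g ∈ G ∧ ∀ v ∈ D, g v = v := Iff.rfl

theorem Kl.iso {Φ : Frm F V} {G : Subgroup (V ≃ₗ[F] V)} {N : ℕ} (h : Kl Φ G N) {g : V ≃ₗ[F] V} (hg : g ∈ G) :
    (∀ x y, Φ.B (g x) (g y) = Φ.B x y) ∧ ∀ x, Φ.q (g x) = Φ.q x := by
  rcases h with ⟨-, rfl, -⟩ | ⟨r, -, rfl, -⟩ | ⟨Q, -, rfl, rfl, -⟩
  · exact hg
  · exact hg.1
  · have h1 : g ∈ (frmQ Q).Iso := by
      rw [Cfsg.Agent.H42.Bs.Iso_frmQ]
      exact E_le_O hg
    exact h1

/-- restriction to a nondegenerate subspace -/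
theorem Kl.on [Finite F] {Φ : Frm F V} {G : Subgroup (V ≃ₗ[F] V)} {N : ℕ} (h : Kl Φ G N) {D : Submodule F V}
    (hD : Φ.NdOn D) : ∃ K, Kl (Φ.on D) K N := by
  rcases h with ⟨h, rfl, hN⟩ | ⟨r, h, rfl, hN⟩ | ⟨Q, h, rfl, rfl, hN⟩
  · exact ⟨_, Or.inl ⟨Cfsg.Agent.H42.Bs.isSp_on h hD, rfl, hN⟩⟩
  · exact ⟨_, Or.inr (Or.inl ⟨r, Cfsg.Agent.H42.Bs.isHerm_on h hD, rfl, hN⟩)⟩
  · refine ⟨_, Or.inr (Or.inr ⟨Q.comp D.subtype, ?_, Cfsg.Agent.H42.Bs.frmQ_on Q D, rfl, hN⟩)⟩
    exact Cfsg.Agent.H42.Bs.nondeg_comp hD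

/-- **Witt's theorem relative to a nondegenerate subspace** -/
theorem witt_rel [Finite F] [Module.Finite F V] {Φ : Frm F V} {G : Subgroup (V ≃ₗ[F] V)} {N : ℕ} (h : Kl Φ G N)
    {D : Submodule F V} (hD : Φ.NdOn D) {m : ℕ} (hn : 2 * (finrank F D + m) + 3 ≤ finrank F V)
    (h5 : 5 ≤ finrank F V) {c c' : Fin m → V} (hc : ∀ i, c i ∈ perp Φ D) (hc' : ∀ i, c' i ∈ perp Φ D)
    (hcl : LinearIndependent F c) (hcl' : LinearIndependent F c') (h1 : ∀ i j, Φ.B (c i) (c j) = Φ.B (c' i) (c' j))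
    (h2 : ∀ i, Φ.q (c i) = Φ.q (c' i)) : ∃ k ∈ fixD G D, ∀ i, k (c i) = c' i := by
  have : Finite V := Module.finite_of_finite F
  let b := Module.finBasis F D
  have hb : LinearIndependent F (fun i => (b i : V)) := b.linearIndependent.map' D.subtype D.ker_subtype
  have hs : ∀ c : Fin m → V, (∀ i, c i ∈ perp Φ D) →
      Disjoint (Submodule.span F (Set.range fun i => (b i : V))) (Submodule.span F (Set.range c)) := by
    intro c hc
    refine (perp_disjoint Φ hD).mono ?_ ?_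
    · rw [Submodule.span_le]
      rintro _ ⟨i, rfl⟩
      exact (b i).2
    · rw [Submodule.span_le]
      rintro _ ⟨i, rfl⟩
      exact hc i
  have e : Fin (finrank F D + m) ≃ Fin (finrank F D) ⊕ Fin m := finSumFinEquiv.symm
  obtain ⟨k, hk, hku⟩ := witt h (k := finrank F D + m) hn h5
    (u := Sum.elim (fun i => (b i : V)) c ∘ e) (u' := Sum.elim (fun i => (b i : V)) c' ∘ e)
    ((LinearIndependent.sum_type hb hcl (hs c hc)).comp _ e.injective)
    ((LinearIndependent.sum_type hb hcl' (hs c' hc')).comp _ e.injective)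
    (by
      intro i j
      rw [Function.comp_apply, Function.comp_apply, Function.comp_apply, Function.comp_apply]
      rcases e i with i | i <;> rcases e j with j | j
      · rfl
      · rw [Sum.elim_inl, Sum.elim_inr, Sum.elim_inl, Sum.elim_inr, (mem_perp' Φ).1 (hc j) _ (b i).2,
          (mem_perp' Φ).1 (hc' j) _ (b i).2]
      · rw [Sum.elim_inl, Sum.elim_inr, Sum.elim_inl, Sum.elim_inr, (mem_perp Φ).1 (hc i) _ (b j).2,
          (mem_perp Φ).1 (hc' i) _ (b j).2]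
      · exact h1 i j)
    (by
      intro i
      rw [Function.comp_apply, Function.comp_apply]
      rcases e i with i | i
      · rfl
      · exact h2 i)
  refine ⟨k, ⟨hk, ?_⟩, ?_⟩
  · have h3 : ∀ i, k (b i : V) = b i := by
      intro i
      have := hku (e.symm (Sum.inl i))
      rwa [Function.comp_apply, Function.comp_apply, Equiv.apply_symm_apply] at this
    intro v hv
    have h4 : (⟨v, hv⟩ : D) ∈ Submodule.span F (Set.range b) := by rw [b.span_eq]; trivial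
    have h5 : Submodule.span F (Set.range b) ≤ (LinearMap.eqLocus (k : V →ₗ[F] V) LinearMap.id).comap D.subtype := by
      rw [Submodule.span_le]
      rintro _ ⟨i, rfl⟩
      exact h3 i
    exact h5 h4
  · intro i
    have := hku (e.symm (Sum.inr i))
    rwa [Function.comp_apply, Function.comp_apply, Equiv.apply_symm_apply] at this

/-- orbits of vectors of `D^⊥` -/
theorem orb1 [Finite F] [Module.Finite F V] {Φ : Frm F V} {G : Subgroup (V ≃ₗ[F] V)} {N : ℕ} (h : Kl Φ G N)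
    {D : Submodule F V} (hD : Φ.NdOn D) (hn : 2 * finrank F D + 10 ≤ finrank F V) {w : V} (hw : w ∈ perp Φ D)
    (hw0 : w ≠ 0) : Nat.card (perp Φ D) ≤ 2 * N * Nat.card {p : V // ∃ k ∈ fixD G D, p = k w} := by
  have : Finite V := Module.finite_of_finite F
  have hf := Cfsg.Agent.H440.Bs.finrank_perp Φ h.good.nd D
  have hP : Φ.NdOn (perp Φ D) := (Cfsg.Agent.H440.Bs.Dec.ndOn' (dec_perp Φ h.good.nd hD)) h.good.nd
  obtain ⟨K, hK⟩ := h.on hP
  refine (n4' hK (by omega) (w := ⟨w, hw⟩) (fun h0 => hw0 (congrArg Subtype.val h0))).trans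
    (Nat.mul_le_mul_left _ ?_)
  refine Nat.card_le_card_of_injective (fun p => ⟨(p.1 : V), ?_⟩) ?_
  · obtain ⟨p, g, hg, rfl⟩ := p
    have hi := hK.iso hg
    have hne : ((g ⟨w, hw⟩ : perp Φ D) : V) ≠ 0 := by
      intro h0
      have h1 : g ⟨w, hw⟩ = 0 := Subtype.ext h0
      have h2 : (⟨w, hw⟩ : perp Φ D) = 0 := (LinearEquiv.map_eq_zero_iff g).1 h1
      exact hw0 (congrArg Subtype.val h2)
    obtain ⟨k, hk, hkc⟩ := witt_rel h hD (m := 1) (by omega) (by omega) (c := ![w])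
      (c' := ![((g ⟨w, hw⟩ : perp Φ D) : V)])
      (by intro i; fin_cases i; exact hw) (by intro i; fin_cases i; exact (g ⟨w, hw⟩).2)
      (LinearIndependent.of_subsingleton (v := ![w]) 0 hw0)
      (LinearIndependent.of_subsingleton (v := ![((g ⟨w, hw⟩ : perp Φ D) : V)]) 0 hne)
      (by intro i j; fin_cases i; fin_cases j; exact (hi.1 ⟨w, hw⟩ ⟨w, hw⟩).symm)
      (by intro i; fin_cases i; exact (hi.2 ⟨w, hw⟩).symm)
    exact ⟨k, hk, (hkc 0).symm⟩
  · intro p p' hpp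
    have h1 := congrArg Subtype.val hpp
    exact Subtype.ext (Subtype.ext h1)

/-- orbits of pairs of vectors of `D^⊥` -/
theorem orb2 [Finite F] [Module.Finite F V] {Φ : Frm F V} {G : Subgroup (V ≃ₗ[F] V)} {N : ℕ} (h : Kl Φ G N)
    {D : Submodule F V} (hD : Φ.NdOn D) (hn : 2 * finrank F D + 10 ≤ finrank F V) {w v : V} (hw : w ∈ perp Φ D)
    (hv : v ∈ perp Φ D) (hw0 : w ≠ 0) (hvw : v ∉ Submodule.span F {w}) :
    Nat.card (perp Φ D) ^ 2 ≤
      4 * N ^ 2 * Nat.card F * Nat.card {p : V × V // ∃ k ∈ fixD G D, p = (k w, k v)} := by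
  have : Finite V := Module.finite_of_finite F
  have hf := Cfsg.Agent.H440.Bs.finrank_perp Φ h.good.nd D
  have hP : Φ.NdOn (perp Φ D) := (Cfsg.Agent.H440.Bs.Dec.ndOn' (dec_perp Φ h.good.nd hD)) h.good.nd
  obtain ⟨K, hK⟩ := h.on hP
  have hwv : LinearIndependent F ![(⟨w, hw⟩ : perp Φ D), ⟨v, hv⟩] := by
    rw [LinearIndependent.pair_iff' (fun h0 => hw0 (congrArg Subtype.val h0))]
    intro a ha
    exact hvw (Submodule.mem_span_singleton.2 ⟨a, congrArg Subtype.val ha⟩)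
  refine (n4_nat hK (by omega) (w := ⟨w, hw⟩) (v := ⟨v, hv⟩) (fun h0 => hw0 (congrArg Subtype.val h0)) ?_).trans
    (Nat.mul_le_mul_left _ ?_)
  · intro h0
    obtain ⟨a, ha⟩ := Submodule.mem_span_singleton.1 h0
    exact hvw (Submodule.mem_span_singleton.2 ⟨a, congrArg Subtype.val ha⟩)
  refine Nat.card_le_card_of_injective (fun p => ⟨((p.1.1 : V), (p.1.2 : V)), ?_⟩) ?_
  · obtain ⟨p, g, hg, rfl⟩ := p
    have hi := hK.iso hg
    have e1 : ![w, v] = fun i => ((![(⟨w, hw⟩ : perp Φ D), ⟨v, hv⟩] i : perp Φ D) : V) := by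
      funext i; fin_cases i <;> rfl
    obtain ⟨k, hk, hkc⟩ := witt_rel h hD (m := 2) (by omega) (by omega)
      (c := fun i => ((![(⟨w, hw⟩ : perp Φ D), ⟨v, hv⟩] i : perp Φ D) : V))
      (c' := fun i => ((g (![(⟨w, hw⟩ : perp Φ D), ⟨v, hv⟩] i) : perp Φ D) : V))
      (fun i => Subtype.property _) (fun i => Subtype.property _)
      (hwv.map' (perp Φ D).subtype (Submodule.ker_subtype _))
      ((hwv.map' (g : perp Φ D →ₗ[F] perp Φ D) (LinearEquiv.ker g)).map' (perp Φ D).subtype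
        (Submodule.ker_subtype _))
      (fun i j => (hi.1 _ _).symm) (fun i => (hi.2 _).symm)
    exact ⟨k, hk, Prod.ext (hkc 0).symm (hkc 1).symm⟩
  · intro p p' hpp
    have h1 := congrArg Subtype.val hpp
    exact Subtype.ext (Prod.ext (Subtype.ext (congrArg Prod.fst h1)) (Subtype.ext (congrArg Prod.snd h1)))

theorem finite_lin [Finite V] : Finite (V ≃ₗ[F] V) :=
  Finite.of_injective (fun g : V ≃ₗ[F] V => (g : V → V)) DFunLike.coe_injective

/-- fibres, one vector -/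
theorem fib1 [Finite F] [Module.Finite F V] {Φ : Frm F V} {G : Subgroup (V ≃ₗ[F] V)} {N : ℕ} (h : Kl Φ G N)
    {D : Submodule F V} (hD : Φ.NdOn D) (hn : 2 * finrank F D + 10 ≤ finrank F V) {w : V} (hw : w ∈ perp Φ D)
    (hw0 : w ≠ 0) (w₁ : V) :
    Nat.card {k // k ∈ fixD G D ∧ k w = w₁} * Nat.card (perp Φ D) ≤ 2 * N * Nat.card (fixD G D) := by
  have : Finite V := Module.finite_of_finite F
  have : Finite (V ≃ₗ[F] V) := finite_lin
  have h1 := orb1 h hD hn hw hw0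
  have h2 := fib_mul (fixD G D) (fun k : V ≃ₗ[F] V => k w)
    (fun a b c hbc => by
      show (a * b) w = (a * c) w
      rw [LinearEquiv.mul_apply, LinearEquiv.mul_apply]; exact congrArg a hbc) w₁
  calc _ ≤ Nat.card {k // k ∈ fixD G D ∧ k w = w₁} * (2 * N * Nat.card {p : V // ∃ k ∈ fixD G D, p = k w}) :=
        Nat.mul_le_mul_left _ h1
    _ = 2 * N * (Nat.card {k // k ∈ fixD G D ∧ k w = w₁} * Nat.card {p : V // ∃ k ∈ fixD G D, p = k w}) := by ring
    _ ≤ _ := Nat.mul_le_mul_left _ h2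

/-- fibres, two vectors -/
theorem fib2 [Finite F] [Module.Finite F V] {Φ : Frm F V} {G : Subgroup (V ≃ₗ[F] V)} {N : ℕ} (h : Kl Φ G N)
    {D : Submodule F V} (hD : Φ.NdOn D) (hn : 2 * finrank F D + 10 ≤ finrank F V) {w v : V} (hw : w ∈ perp Φ D)
    (hv : v ∈ perp Φ D) (hw0 : w ≠ 0) (hvw : v ∉ Submodule.span F {w}) (w₁ v₁ : V) :
    Nat.card {k // k ∈ fixD G D ∧ k w = w₁ ∧ k v = v₁} * Nat.card (perp Φ D) ^ 2 ≤
      4 * N ^ 2 * Nat.card F * Nat.card (fixD G D) := by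
  have : Finite V := Module.finite_of_finite F
  have : Finite (V ≃ₗ[F] V) := finite_lin
  have h1 := orb2 h hD hn hw hv hw0 hvw
  have h2 := fib_mul (fixD G D) (fun k : V ≃ₗ[F] V => (k w, k v))
    (fun a b c hbc => by
      show ((a * b) w, (a * b) v) = ((a * c) w, (a * c) v)
      rw [LinearEquiv.mul_apply, LinearEquiv.mul_apply, LinearEquiv.mul_apply, LinearEquiv.mul_apply]
      rw [Prod.mk.injEq] at hbc
      exact Prod.ext (congrArg a hbc.1) (congrArg a hbc.2)) (w₁, v₁)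
  have h3 : Nat.card {k // k ∈ fixD G D ∧ k w = w₁ ∧ k v = v₁} =
      Nat.card {k // k ∈ fixD G D ∧ (k w, k v) = (w₁, v₁)} := by
    refine Nat.card_congr (Equiv.subtypeEquivRight fun k => ?_)
    rw [Prod.mk.injEq]
  rw [h3]
  calc _ ≤ Nat.card {k // k ∈ fixD G D ∧ (k w, k v) = (w₁, v₁)} *
        (4 * N ^ 2 * Nat.card F * Nat.card {p : V × V // ∃ k ∈ fixD G D, p = (k w, k v)}) :=
        Nat.mul_le_mul_left _ h1
    _ = 4 * N ^ 2 * Nat.card F * (Nat.card {k // k ∈ fixD G D ∧ (k w, k v) = (w₁, v₁)} *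
        Nat.card {p : V × V // ∃ k ∈ fixD G D, p = (k w, k v)}) := by ring
    _ ≤ _ := Nat.mul_le_mul_left _ h2

end Cfsg.Agent.H847.Ux
end

-- part: H847/Ux/Gp2
section
prune_inst 0x3570754475e2020000000516622000647c000502004084006c6307460b49826289c2a8410e80251f5a2298812805002813000030425001c00e2004000006000000811606b13c0f0868009e00030c210000001800300000000000000000000000200000000
set_option linter.all false
open scoped Cfsg.Agent.FastGrp

/-!
# S5716, unbounded rank, UG1 (general position), part 2 (helper847)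

Counts with norms; singular eigenvectors; the conditions `GPF.e`, `GPF.a`, `GPF.a'`.
-/

set_option autoImplicit false
set_option linter.unusedSectionVars false

namespace Cfsg.Agent.H847.Ux

open Module QuadraticMap Cfsg.Agent.LieClassical.OrthCore Cfsg.Agent.H847.Bs
open Cfsg.Agent.H440.Bs (perp mem_perp mem_perp' perp_disjoint dec_perp)

variable {F V : Type*} [Field F] [AddCommGroup V] [Module F V]

theorem card_sub [Finite F] [Module.Finite F V] (W : Submodule F V) : Nat.card W = Nat.card F ^ finrank F W :=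
  Module.natCard_eq_pow_finrank (K := F) (V := W)

theorem card_V [Finite F] [Module.Finite F V] : Nat.card V = Nat.card F ^ finrank F V :=
  Module.natCard_eq_pow_finrank (K := F) (V := V)

/-! ### nonsingular vectors in large subspaces -/

theorem herm_orth [Finite F] {Φ : Frm F V} {r : ℕ} (h : IsHerm r Φ) (R : Submodule F V) (hR : ∀ x ∈ R, Φ.B x x = 0) :
    ∀ x ∈ R, ∀ y ∈ R, Φ.B x y = 0 := by
  have := Fintype.ofFinite F
  intro x hx y hy
  by_contra h0
  have hF : Fintype.card F = r ^ 2 := by rw [← Nat.card_eq_fintype_card]; exact h.card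
  have h2 : 2 ≤ r := Cfsg.Agent.LieClassical.HermBasic.two_le hF
  have h1 : ∀ z : F, z + z ^ r = 0 := by
    intro z
    have e := hR _ (R.add_mem (R.smul_mem (z / Φ.B x y) hx) hy)
    have e1 : Φ.B y x = Φ.B x y ^ r := h.symm x y
    rw [Φ.add_left, Φ.add_right, Φ.add_right, Φ.smul_left, Φ.smul_left, Φ.smul_right, Φ.smul_right, hR x hx, hR y hy,
      h.s, e1, ← mul_pow, div_mul_cancel₀ _ h0] at e
    linear_combination e
  have h3 := card_trace_zero hF
  rw [Nat.card_congr (Equiv.subtypeUnivEquiv h1), h.card] at h3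
  nlinarith

theorem quad_orth {Q : QuadraticForm F V} (R : Submodule F V) (hR : ∀ x ∈ R, Q x = 0) :
    ∀ x ∈ R, ∀ y ∈ R, polar Q x y = 0 := by
  intro x hx y hy
  rw [polar, hR x hx, hR y hy, hR _ (R.add_mem hx hy)]
  ring

/-- a large subspace contains a nonsingular vector -/
theorem nonsing_of_large [Finite F] [Module.Finite F V] {Φ : Frm F V} {G : Subgroup (V ≃ₗ[F] V)} {N : ℕ}
    (h : Kl Φ G N) (R : Submodule F V) (hR : finrank F V < 2 * finrank F R) :
    ∃ ρ ∈ R, N = 1 ∨ Φ.B ρ ρ ≠ 0 ∨ Φ.q ρ ≠ 0 := by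
  by_contra hcon
  push Not at hcon
  have h1 : ∀ x ∈ R, ∀ y ∈ R, Φ.B x y = 0 := by
    rcases h with ⟨h, -, rfl⟩ | ⟨r, h, -, rfl⟩ | ⟨Q, h, rfl, -, rfl⟩
    · exact absurd rfl (hcon 0 R.zero_mem).1
    · exact herm_orth h R fun x hx => (hcon x hx).2.1
    · exact quad_orth R fun x hx => (hcon x hx).2.2
  have h2 := Cfsg.Agent.H440.Bs.two_mul_finrank_le Φ h.good.nd h1
  omega

/-- a large subspace contains a vector which is not isotropic, unless the form is alternating -/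
theorem aniso_of_large [Finite F] [Module.Finite F V] {Φ : Frm F V} {G : Subgroup (V ≃ₗ[F] V)} {N : ℕ}
    (h : Kl Φ G N) (hna : ∃ ρ, Φ.B ρ ρ ≠ 0) (R : Submodule F V) (hR : finrank F V < 2 * finrank F R) :
    ∃ ρ ∈ R, Φ.B ρ ρ ≠ 0 := by
  by_contra hcon
  push Not at hcon
  have h1 : ∀ x ∈ R, ∀ y ∈ R, Φ.B x y = 0 := by
    rcases h with ⟨h, -, rfl⟩ | ⟨r, h, -, rfl⟩ | ⟨Q, h, rfl, -, rfl⟩
    · obtain ⟨ρ, hρ⟩ := hna
      exact absurd (h.alt ρ) hρ
    · exact herm_orth h R hcon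
    · refine quad_orth R fun x hx => ?_
      obtain ⟨ρ, hρ⟩ := hna
      have h3 : polar Q x x = 0 := hcon x hx
      rw [polar_self_eq] at h3
      refine (mul_eq_zero.1 h3).resolve_left fun h2 => hρ ?_
      show polar Q ρ ρ = 0
      rw [polar_self_eq, h2, zero_mul]
  have h2 := Cfsg.Agent.H440.Bs.two_mul_finrank_le Φ h.good.nd h1
  omega

/-! ### fibres over sets of vectors of the same norm -/

/-- `k` maps `E` to a subspace containing `w` -/
theorem cnt1 [Finite F] [Module.Finite F V] {Φ : Frm F V} {G : Subgroup (V ≃ₗ[F] V)} {N : ℕ} (h : Kl Φ G N)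
    {D : Submodule F V} (hD : Φ.NdOn D) (hn : 2 * finrank F D + 10 ≤ finrank F V) {E : Submodule F V}
    (hE : Φ.NdOn E) (hED : E ≤ perp Φ D) (hE0 : E ≠ ⊥) {w : V} (hw0 : w ≠ 0) :
    Nat.card {k // k ∈ fixD G D ∧ ∃ w₀ ∈ E, k w₀ = w} * Nat.card (perp Φ D) ≤
      4 * Nat.card E * Nat.card (fixD G D) := by
  have : Finite V := Module.finite_of_finite F
  have : Finite (V ≃ₗ[F] V) := finite_lin
  have h1 := count_le (fun k : V ≃ₗ[F] V => k ∈ fixD G D ∧ ∃ w₀ ∈ E, k w₀ = w)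
    (fun w₀ : V => w₀ ∈ E ∧ Φ.B w₀ w₀ = Φ.B w w ∧ Φ.q w₀ = Φ.q w) (fun w₀ k => k ∈ fixD G D ∧ k w₀ = w)
    (Nat.card (perp Φ D)) (2 * N * Nat.card (fixD G D))
    (by
      rintro k ⟨hk, w₀, hw₀, rfl⟩
      have hi := h.iso hk.1
      exact ⟨w₀, ⟨hw₀, (hi.1 _ _).symm, (hi.2 _).symm⟩, hk, rfl⟩)
    (by
      rintro w₀ ⟨hw₀, -, -⟩
      by_cases hz : w₀ = 0
      · have : IsEmpty {k // k ∈ fixD G D ∧ k w₀ = w} := by
          refine ⟨?_⟩
          rintro ⟨k, -, hk⟩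
          exact hw0 (by rw [← hk, hz, map_zero])
        rw [Nat.card_of_isEmpty, zero_mul]
        exact Nat.zero_le _
      · exact fib1 h hD hn (hED hw₀) hz w)
  have h2 := n1 h E hE hE0 (Φ.B w w) (Φ.q w)
  calc _ ≤ _ := h1
    _ = 2 * (N * Nat.card {w₀ : V // w₀ ∈ E ∧ Φ.B w₀ w₀ = Φ.B w w ∧ Φ.q w₀ = Φ.q w}) * Nat.card (fixD G D) := by ring
    _ ≤ 2 * (2 * Nat.card E) * Nat.card (fixD G D) := Nat.mul_le_mul_right _ (Nat.mul_le_mul_left _ h2)
    _ = _ := by ring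

/-- `k` maps `E` to a subspace containing `w` and `E'` to a subspace containing `v` -/
theorem cnt2 [Finite F] [Module.Finite F V] {Φ : Frm F V} {G : Subgroup (V ≃ₗ[F] V)} {N : ℕ} (h : Kl Φ G N)
    {D : Submodule F V} (hD : Φ.NdOn D) (hn : 2 * finrank F D + 10 ≤ finrank F V) {E E' : Submodule F V}
    (hE : Φ.NdOn E) (hED : E ≤ perp Φ D) (hE0 : E ≠ ⊥) (hE' : Φ.NdOn E') (hED' : E' ≤ perp Φ D) (hE0' : E' ≠ ⊥)
    (hdj : Disjoint E E') {w v : V} (hw0 : w ≠ 0) (hv0 : v ≠ 0) :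
    Nat.card {k // k ∈ fixD G D ∧ (∃ w₀ ∈ E, k w₀ = w) ∧ ∃ v₀ ∈ E', k v₀ = v} * Nat.card (perp Φ D) ^ 2 ≤
      16 * (Nat.card E * Nat.card E') * Nat.card F * Nat.card (fixD G D) := by
  have : Finite V := Module.finite_of_finite F
  have : Finite (V ≃ₗ[F] V) := finite_lin
  let S : V × V → Prop := fun p => (p.1 ∈ E ∧ Φ.B p.1 p.1 = Φ.B w w ∧ Φ.q p.1 = Φ.q w) ∧
    (p.2 ∈ E' ∧ Φ.B p.2 p.2 = Φ.B v v ∧ Φ.q p.2 = Φ.q v)
  have h1 := count_le (fun k : V ≃ₗ[F] V => k ∈ fixD G D ∧ (∃ w₀ ∈ E, k w₀ = w) ∧ ∃ v₀ ∈ E', k v₀ = v)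
    S (fun p k => k ∈ fixD G D ∧ k p.1 = w ∧ k p.2 = v)
    (Nat.card (perp Φ D) ^ 2) (4 * N ^ 2 * Nat.card F * Nat.card (fixD G D))
    (by
      rintro k ⟨hk, ⟨w₀, hw₀, rfl⟩, ⟨v₀, hv₀, rfl⟩⟩
      have hi := h.iso hk.1
      exact ⟨(w₀, v₀), ⟨⟨hw₀, (hi.1 _ _).symm, (hi.2 _).symm⟩, ⟨hv₀, (hi.1 _ _).symm, (hi.2 _).symm⟩⟩, hk, rfl, rfl⟩)
    (by
      rintro ⟨w₀, v₀⟩ ⟨⟨hw₀, -, -⟩, hv₀, -, -⟩
      by_cases hz : w₀ = 0
      · have : IsEmpty {k // k ∈ fixD G D ∧ k (w₀, v₀).1 = w ∧ k (w₀, v₀).2 = v} := by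
          refine ⟨?_⟩
          rintro ⟨k, -, hk, -⟩
          apply hw0
          rw [← hk]
          show k w₀ = 0
          rw [hz, map_zero]
        rw [Nat.card_of_isEmpty, zero_mul]
        exact Nat.zero_le _
      by_cases hz' : v₀ = 0
      · have : IsEmpty {k // k ∈ fixD G D ∧ k (w₀, v₀).1 = w ∧ k (w₀, v₀).2 = v} := by
          refine ⟨?_⟩
          rintro ⟨k, -, -, hk⟩
          apply hv0
          rw [← hk]
          show k v₀ = 0
          rw [hz', map_zero]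
        rw [Nat.card_of_isEmpty, zero_mul]
        exact Nat.zero_le _
      refine fib2 h hD hn (hED hw₀) (hED' hv₀) hz ?_ w v
      intro h0
      have h3 : Submodule.span F {w₀} ≤ E := by
        rw [Submodule.span_le]
        rintro _ rfl
        exact hw₀
      exact hz' ((Submodule.disjoint_def.1 hdj) v₀ (h3 h0) hv₀))
  have h2 := n1 h E hE hE0 (Φ.B w w) (Φ.q w)
  have h3 := n1 h E' hE' hE0' (Φ.B v v) (Φ.q v)
  have h4 : Nat.card {p : V × V // S p} ≤ Nat.card {w₀ : V // w₀ ∈ E ∧ Φ.B w₀ w₀ = Φ.B w w ∧ Φ.q w₀ = Φ.q w} *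
      Nat.card {w₀ : V // w₀ ∈ E' ∧ Φ.B w₀ w₀ = Φ.B v v ∧ Φ.q w₀ = Φ.q v} := by
    rw [← Nat.card_prod]
    refine Nat.card_le_card_of_injective (fun p => (⟨p.1.1, p.2.1⟩, ⟨p.1.2, p.2.2⟩)) ?_
    intro p p' hpp
    rw [Prod.mk.injEq] at hpp
    exact Subtype.ext (Prod.ext (congrArg Subtype.val hpp.1) (congrArg Subtype.val hpp.2))
  set a := Nat.card {w₀ : V // w₀ ∈ E ∧ Φ.B w₀ w₀ = Φ.B w w ∧ Φ.q w₀ = Φ.q w}
  set b := Nat.card {w₀ : V // w₀ ∈ E' ∧ Φ.B w₀ w₀ = Φ.B v v ∧ Φ.q w₀ = Φ.q v}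
  calc _ ≤ _ := h1
    _ ≤ a * b * (4 * N ^ 2 * Nat.card F * Nat.card (fixD G D)) := Nat.mul_le_mul_right _ h4
    _ = 4 * ((N * a) * (N * b)) * Nat.card F * Nat.card (fixD G D) := by ring
    _ ≤ 4 * ((2 * Nat.card E) * (2 * Nat.card E')) * Nat.card F * Nat.card (fixD G D) :=
      Nat.mul_le_mul_right _ (Nat.mul_le_mul_right _ (Nat.mul_le_mul_left _ (Nat.mul_le_mul h2 h3)))
    _ = _ := by ring

/-! ### the whole group -/

theorem fixD_bot (G : Subgroup (V ≃ₗ[F] V)) : fixD G ⊥ = G := by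
  ext g
  rw [mem_fixD]
  refine ⟨fun h => h.1, fun h => ⟨h, fun v hv => ?_⟩⟩
  rw [Submodule.mem_bot] at hv
  rw [hv, map_zero]

theorem perp_bot (Φ : Frm F V) : perp Φ ⊥ = ⊤ := by
  rw [eq_top_iff]
  intro v _ x hx
  rw [Submodule.mem_bot] at hx
  rw [hx]
  exact Cfsg.Agent.H42.Bs.B_zero_right v

theorem card_perp_bot (Φ : Frm F V) : Nat.card (perp Φ ⊥) = Nat.card V := by
  rw [perp_bot]
  exact Nat.card_congr Submodule.topEquiv.toEquiv

theorem fibG1 [Finite F] [Module.Finite F V] {Φ : Frm F V} {G : Subgroup (V ≃ₗ[F] V)} {N : ℕ} (h : Kl Φ G N)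
    (hn : 10 ≤ finrank F V) {w : V} (hw0 : w ≠ 0) (w₁ : V) :
    Nat.card {k // k ∈ G ∧ k w = w₁} * Nat.card V ≤ 2 * N * Nat.card G := by
  have h1 := fib1 h (D := ⊥) Cfsg.Agent.H42.Bs.ndOn_bot (by rw [finrank_bot]; omega) (w := w)
    (by rw [perp_bot]; trivial) hw0 w₁
  rwa [fixD_bot, card_perp_bot] at h1

theorem fibG2 [Finite F] [Module.Finite F V] {Φ : Frm F V} {G : Subgroup (V ≃ₗ[F] V)} {N : ℕ} (h : Kl Φ G N)
    (hn : 10 ≤ finrank F V) {w v : V} (hw0 : w ≠ 0) (hvw : v ∉ Submodule.span F {w}) (w₁ v₁ : V) :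
    Nat.card {k // k ∈ G ∧ k w = w₁ ∧ k v = v₁} * Nat.card V ^ 2 ≤ 4 * N ^ 2 * Nat.card F * Nat.card G := by
  have h1 := fib2 h (D := ⊥) Cfsg.Agent.H42.Bs.ndOn_bot (by rw [finrank_bot]; omega) (w := w) (v := v)
    (by rw [perp_bot]; trivial) (by rw [perp_bot]; trivial) hw0 hvw w₁ v₁
  rwa [fixD_bot, card_perp_bot] at h1

/-- `x (g a) = g u` with `u ∈ U` not in `⟨a⟩` -/
theorem cntU [Finite F] [Module.Finite F V] {Φ : Frm F V} {G : Subgroup (V ≃ₗ[F] V)} {N : ℕ} (h : Kl Φ G N)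
    (hn : 10 ≤ finrank F V) (x : V ≃ₗ[F] V) {a : V} (ha : a ≠ 0) (U : Submodule F V) :
    Nat.card {g // g ∈ G ∧ ∃ u ∈ U, u ∉ Submodule.span F {a} ∧ x (g a) = g u} * Nat.card V ≤
      4 * N ^ 2 * Nat.card U * Nat.card F * Nat.card G := by
  have : Finite V := Module.finite_of_finite F
  have : Finite (V ≃ₗ[F] V) := finite_lin
  have h1 := count_le (fun g : V ≃ₗ[F] V => g ∈ G ∧ ∃ u ∈ U, u ∉ Submodule.span F {a} ∧ x (g a) = g u)
    (fun p : V × V => p.2 ∈ U ∧ p.2 ∉ Submodule.span F {a}) (fun p g => g ∈ G ∧ g a = p.1 ∧ g p.2 = x p.1)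
    (Nat.card V ^ 2) (4 * N ^ 2 * Nat.card F * Nat.card G)
    (by
      rintro g ⟨hg, u, hu, hua, hx⟩
      exact ⟨(g a, u), ⟨hu, hua⟩, hg, rfl, hx.symm⟩)
    (by
      rintro ⟨w, u⟩ ⟨-, hua⟩
      exact fibG2 h hn ha hua w (x w))
  have h2 : Nat.card {p : V × V // p.2 ∈ U ∧ p.2 ∉ Submodule.span F {a}} ≤ Nat.card V * Nat.card U := by
    rw [← Nat.card_prod]
    refine Nat.card_le_card_of_injective (fun p => (p.1.1, ⟨p.1.2, p.2.1⟩)) ?_
    intro p p' hpp
    rw [Prod.mk.injEq] at hpp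
    exact Subtype.ext (Prod.ext hpp.1 (congrArg Subtype.val hpp.2))
  have h0 : 0 < Nat.card V := Nat.card_pos
  refine Nat.le_of_mul_le_mul_left ?_ h0
  calc _ = Nat.card {g // g ∈ G ∧ ∃ u ∈ U, u ∉ Submodule.span F {a} ∧ x (g a) = g u} * Nat.card V ^ 2 := by ring
    _ ≤ _ := h1
    _ ≤ (Nat.card V * Nat.card U) * (4 * N ^ 2 * Nat.card F * Nat.card G) := Nat.mul_le_mul_right _ h2
    _ = _ := by ring

/-- the eigenspace of `x` -/
def eig (x : V ≃ₗ[F] V) (c : F) : Submodule F V := LinearMap.eqLocus (x : V →ₗ[F] V) (c • LinearMap.id)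

theorem mem_eig {x : V ≃ₗ[F] V} {c : F} {v : V} : v ∈ eig x c ↔ x v = c • v := Iff.rfl

theorem eig_disjoint (x : V ≃ₗ[F] V) {c c' : F} (hcc : c ≠ c') : Disjoint (eig x c) (eig x c') := by
  rw [Submodule.disjoint_def]
  intro v hv hv'
  rw [mem_eig] at hv hv'
  rw [hv, ← sub_eq_zero, ← sub_smul, smul_eq_zero] at hv'
  exact hv'.resolve_left (sub_ne_zero.2 hcc)

theorem eig_large (x : V ≃ₗ[F] V) [Module.Finite F V] {c c' : F} (hc : finrank F V < 2 * finrank F (eig x c))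
    (hc' : finrank F V < 2 * finrank F (eig x c')) : c = c' := by
  by_contra hcc
  have h1 := Submodule.finrank_add_finrank_le_of_disjoint (eig_disjoint x hcc)
  omega

theorem cntE [Finite F] [Module.Finite F V] {Φ : Frm F V} {G : Subgroup (V ≃ₗ[F] V)} {N : ℕ} (h : Kl Φ G N)
    (hn : 10 ≤ finrank F V) (x : V ≃ₗ[F] V) {a : V} (ha : a ≠ 0) (c : F) :
    Nat.card {g // g ∈ G ∧ x (g a) = c • g a} * Nat.card V ≤
      Nat.card {w : V // w ∈ eig x c ∧ Φ.B w w = Φ.B a a ∧ Φ.q w = Φ.q a} * (2 * N * Nat.card G) := by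
  have : Finite V := Module.finite_of_finite F
  have : Finite (V ≃ₗ[F] V) := finite_lin
  refine count_le (fun g : V ≃ₗ[F] V => g ∈ G ∧ x (g a) = c • g a)
    (fun w : V => w ∈ eig x c ∧ Φ.B w w = Φ.B a a ∧ Φ.q w = Φ.q a) (fun w g => g ∈ G ∧ g a = w)
    (Nat.card V) (2 * N * Nat.card G) ?_ ?_
  · rintro g ⟨hg, hx⟩
    have hi := h.iso hg
    exact ⟨g a, ⟨hx, hi.1 _ _, hi.2 _⟩, hg, rfl⟩
  · rintro w -
    exact fibG1 h hn ha w

/-- `g a` is an eigenvector of `x` -/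
theorem cntEig [Finite F] [Module.Finite F V] {Φ : Frm F V} {G : Subgroup (V ≃ₗ[F] V)} {N : ℕ} (h : Kl Φ G N)
    (hNq : N ≤ Nat.card F) (hn : 10 ≤ finrank F V) (x : V ≃ₗ[F] V) (hx : ¬ ∃ c : F, ∀ v, x v = c • v) {a : V}
    (ha : a ≠ 0) :
    Nat.card {g // g ∈ G ∧ ∃ c : F, x (g a) = c • g a} * Nat.card F ≤ 6 * Nat.card G := by
  have : Finite V := Module.finite_of_finite F
  have : Finite (V ≃ₗ[F] V) := finite_lin
  have hq0 : 0 < Nat.card F := Nat.card_pos
  -- small eigenspaces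
  have h1 : Nat.card {g // g ∈ G ∧ ∃ c : F, 2 * finrank F (eig x c) ≤ finrank F V ∧ x (g a) = c • g a} * Nat.card F ≤
      2 * Nat.card G := by
    have h2 := count_le
      (fun g : V ≃ₗ[F] V => g ∈ G ∧ ∃ c : F, 2 * finrank F (eig x c) ≤ finrank F V ∧ x (g a) = c • g a)
      (fun c : F => 2 * finrank F (eig x c) ≤ finrank F V) (fun c g => g ∈ G ∧ x (g a) = c • g a)
      (Nat.card F ^ 2) (2 * Nat.card G)
      (by
        rintro g ⟨hg, c, hc, hxg⟩
        exact ⟨c, hc, hg, hxg⟩)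
      (by
        intro c hc
        have h3 := cntE h hn x ha c
        have h4 : Nat.card {w : V // w ∈ eig x c ∧ Φ.B w w = Φ.B a a ∧ Φ.q w = Φ.q a} ≤ Nat.card (eig x c) :=
          card_mono' fun w hw => hw.1
        have h5 : Nat.card (eig x c) * Nat.card F ^ 3 ≤ Nat.card V := by
          rw [card_sub, card_V (F := F) (V := V), ← pow_add]
          exact Nat.pow_le_pow_right hq0 (by omega)
        have h6 : 0 < Nat.card (eig x c) * Nat.card F := Nat.mul_pos Nat.card_pos hq0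
        refine Nat.le_of_mul_le_mul_left ?_ h6
        set M := Nat.card {g // g ∈ G ∧ x (g a) = c • g a}
        calc Nat.card (eig x c) * Nat.card F * (M * Nat.card F ^ 2) = M * (Nat.card (eig x c) * Nat.card F ^ 3) := by ring
          _ ≤ M * Nat.card V := Nat.mul_le_mul_left _ h5
          _ ≤ _ := h3
          _ ≤ Nat.card (eig x c) * (2 * Nat.card F * Nat.card G) :=
            Nat.mul_le_mul h4 (Nat.mul_le_mul_right _ (Nat.mul_le_mul_left _ hNq))
          _ = _ := by ring)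
    have h3 : Nat.card {c : F // 2 * finrank F (eig x c) ≤ finrank F V} ≤ Nat.card F := Finite.card_subtype_le _
    refine Nat.le_of_mul_le_mul_left ?_ hq0
    calc _ = Nat.card {g // g ∈ G ∧ ∃ c : F, 2 * finrank F (eig x c) ≤ finrank F V ∧ x (g a) = c • g a} *
          Nat.card F ^ 2 := by ring
      _ ≤ _ := h2
      _ ≤ _ := Nat.mul_le_mul_right _ h3
  by_cases hbig : ∃ c, finrank F V < 2 * finrank F (eig x c)
  · obtain ⟨c, hc⟩ := hbig
    have h2 : Nat.card {g // g ∈ G ∧ x (g a) = c • g a} * Nat.card F ≤ 4 * Nat.card G := by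
      have h3 := cntE h hn x ha c
      obtain ⟨ρ, hρ, hρ'⟩ := nonsing_of_large h (eig x c) hc
      have h4 := n2q h (eig x c) hρ hρ' 0 (Φ.B a a) (Φ.q a)
      have e1 : Nat.card {w : V // w - 0 ∈ eig x c ∧ Φ.B w w = Φ.B a a ∧ Φ.q w = Φ.q a} =
          Nat.card {w : V // w ∈ eig x c ∧ Φ.B w w = Φ.B a a ∧ Φ.q w = Φ.q a} := by
        refine Nat.card_congr (Equiv.subtypeEquivRight fun w => ?_)
        rw [sub_zero]
      rw [e1] at h4
      have h5 : Nat.card (eig x c) * Nat.card F ≤ Nat.card V := by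
        have h6 : finrank F (eig x c) < finrank F V := by
          apply Submodule.finrank_lt
          intro h7
          apply hx
          refine ⟨c, fun v => ?_⟩
          have h8 : v ∈ eig x c := by rw [h7]; trivial
          exact h8
        rw [card_sub, card_V (F := F) (V := V), ← pow_succ]
        exact Nat.pow_le_pow_right hq0 h6
      have h6 : 0 < Nat.card (eig x c) := Nat.card_pos
      refine Nat.le_of_mul_le_mul_left ?_ h6
      set M := Nat.card {g // g ∈ G ∧ x (g a) = c • g a}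
      set T := Nat.card {w : V // w ∈ eig x c ∧ Φ.B w w = Φ.B a a ∧ Φ.q w = Φ.q a}
      calc Nat.card (eig x c) * (M * Nat.card F) = M * (Nat.card (eig x c) * Nat.card F) := by ring
        _ ≤ M * Nat.card V := Nat.mul_le_mul_left _ h5
        _ ≤ T * (2 * N * Nat.card G) := h3
        _ = 2 * (N * T) * Nat.card G := by ring
        _ ≤ 2 * (2 * Nat.card (eig x c)) * Nat.card G := Nat.mul_le_mul_right _ (Nat.mul_le_mul_left _ h4)
        _ = _ := by ring
    have h3 := card_or_le (fun g : V ≃ₗ[F] V => g ∈ G ∧ ∃ c : F, x (g a) = c • g a)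
      (fun g => g ∈ G ∧ x (g a) = c • g a)
      (fun g => g ∈ G ∧ ∃ c : F, 2 * finrank F (eig x c) ≤ finrank F V ∧ x (g a) = c • g a)
      (by
        rintro g ⟨hg, c', hc'⟩
        by_cases h4 : c' = c
        · left
          rw [h4] at hc'
          exact ⟨hg, hc'⟩
        · right
          refine ⟨hg, c', ?_, hc'⟩
          by_contra h5
          exact h4 (eig_large x (by omega) hc))
    calc _ ≤ _ := Nat.mul_le_mul_right _ h3
      _ = _ := Nat.add_mul _ _ _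
      _ ≤ 4 * Nat.card G + 2 * Nat.card G := Nat.add_le_add h2 h1
      _ = _ := by ring
  · push Not at hbig
    have h2 : Nat.card {g // g ∈ G ∧ ∃ c : F, x (g a) = c • g a} ≤
        Nat.card {g // g ∈ G ∧ ∃ c : F, 2 * finrank F (eig x c) ≤ finrank F V ∧ x (g a) = c • g a} := by
      refine card_mono' ?_
      rintro g ⟨hg, c, hc⟩
      exact ⟨hg, c, hbig c, hc⟩
    calc _ ≤ _ := Nat.mul_le_mul_right _ h2
      _ ≤ _ := h1
      _ ≤ _ := Nat.mul_le_mul_right _ (by norm_num)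

end Cfsg.Agent.H847.Ux
end

-- part: H847/Ux/Gp3
section
prune_inst 0x1800300000000000000000000000000000000
set_option linter.all false
open scoped Cfsg.Agent.FastGrp

/-!
# S5716, unbounded rank, UG1 (general position), part 3 (helper847)

The conditions `GPF.disj`, `GPF.nd`: average over the pointwise stabiliser of `D = A + A'`.
-/

set_option autoImplicit false
set_option linter.unusedSectionVars false

namespace Cfsg.Agent.H847.Ux

open Module QuadraticMap Cfsg.Agent.LieClassical.OrthCore Cfsg.Agent.H847.Bs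
open Cfsg.Agent.H440.Bs (perp mem_perp mem_perp' perp_disjoint dec_perp)
open Cfsg.Agent.H42.Bs (B_zero_left B_zero_right B_sub_left B_sub_right B_neg_left B_neg_right)

variable {F V : Type*} [Field F] [AddCommGroup V] [Module F V]

theorem exists_proj [FiniteDimensional F V] {Φ : Frm F V} (hN : Φ.Nd) {E : Submodule F V} (hE : Φ.NdOn E) :
    ∃ π : V →ₗ[F] V, (∀ v, π v ∈ E) ∧ ∀ v, v - π v ∈ perp Φ E := by
  have h1 := dec_perp Φ hN hE
  refine ⟨E.subtype ∘ₗ Cfsg.Agent.H440.Bs.pD h1.compl, fun v => (Cfsg.Agent.H440.Bs.pD h1.compl v).2, fun v => ?_⟩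
  have h2 := Cfsg.Agent.H440.Bs.pD_add_pU h1.compl v
  have h3 : v - (E.subtype ∘ₗ Cfsg.Agent.H440.Bs.pD h1.compl) v = Cfsg.Agent.H440.Bs.pU h1.compl v := by
    rw [sub_eq_iff_eq_add']
    exact h2.symm
  rw [h3]
  exact (Cfsg.Agent.H440.Bs.pU h1.compl v).2

theorem map_perp {Φ : Frm F V} {G : Subgroup (V ≃ₗ[F] V)} {N : ℕ} (h : Kl Φ G N) {D : Submodule F V}
    {k : V ≃ₗ[F] V} (hk : k ∈ fixD G D) {v : V} (hv : v ∈ perp Φ D) : k v ∈ perp Φ D := by
  intro d hd
  have h1 := (h.iso hk.1).1 v d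
  rw [hk.2 d hd] at h1
  rw [h1]
  exact hv d hd

/-! ### the second factor `E' = (D + E)^⊥` -/

theorem perp_sup_le {Φ : Frm F V} {D E : Submodule F V} : perp Φ (D ⊔ E) ≤ perp Φ D :=
  fun _ hv x hx => hv x (Submodule.mem_sup_left hx)

theorem mem_perp_sup {Φ : Frm F V} {D E : Submodule F V} {v : V} (h1 : v ∈ perp Φ D) (h2 : v ∈ perp Φ E) :
    v ∈ perp Φ (D ⊔ E) := by
  intro x hx
  obtain ⟨d, hd, e, he, rfl⟩ := Submodule.mem_sup.1 hx
  rw [Φ.add_right, h1 d hd, h2 e he, add_zero]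

theorem ndOn_sup' {Φ : Frm F V} {D E : Submodule F V} (hD : Φ.NdOn D) (hE : Φ.NdOn E) (hED : E ≤ perp Φ D) :
    Φ.NdOn (D ⊔ E) := by
  intro x hx hx0
  obtain ⟨d, hd, p, hp, rfl⟩ := Submodule.mem_sup.1 hx
  have h1 : d = 0 := by
    apply hD d hd
    intro y hy
    have h2 := hx0 y (Submodule.mem_sup_left hy)
    rw [Φ.add_left, hED hp y hy, add_zero] at h2
    exact h2
  have h3 : p = 0 := by
    apply hE p hp
    intro y hy
    have h2 := hx0 y (Submodule.mem_sup_right hy)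
    rw [h1, zero_add] at h2
    exact h2
  rw [h1, h3, add_zero]

theorem disj_sup {Φ : Frm F V} {D E : Submodule F V} (hE : Φ.NdOn E) : Disjoint E (perp Φ (D ⊔ E)) := by
  rw [Submodule.disjoint_def]
  intro v hv hv'
  exact hE v hv fun y hy => hv' y (Submodule.mem_sup_right hy)

theorem finrank_sup' [FiniteDimensional F V] {Φ : Frm F V} {D E : Submodule F V} (hD : Φ.NdOn D)
    (hED : E ≤ perp Φ D) : finrank F (D ⊔ E : Submodule F V) = finrank F D + finrank F E := by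
  have h1 := Submodule.finrank_sup_add_finrank_inf_eq D E
  have h2 : D ⊓ E = ⊥ := ((perp_disjoint Φ hD).mono_right hED).eq_bot
  rw [h2, finrank_bot, add_zero] at h1
  exact h1

/-! ### the radical -/

/-- the vectors `u ∈ D` with `B (π (T u)) (T u₁) = B u u₁` for all `u₁ ∈ D` -/
def rad (Φ : Frm F V) (D : Submodule F V) (π : V →ₗ[F] V) (T : V ≃ₗ[F] V) : Submodule F V where
  carrier := {u | u ∈ D ∧ ∀ u₁ ∈ D, Φ.B (π (T u)) (T u₁) = Φ.B u u₁}
  add_mem' := by
    rintro a b ⟨ha, ha'⟩ ⟨hb, hb'⟩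
    refine ⟨D.add_mem ha hb, fun u₁ hu₁ => ?_⟩
    rw [map_add, map_add, Φ.add_left, Φ.add_left, ha' u₁ hu₁, hb' u₁ hu₁]
  zero_mem' := by
    refine ⟨D.zero_mem, fun u₁ _ => ?_⟩
    rw [map_zero, map_zero, B_zero_left, B_zero_left]
  smul_mem' := by
    rintro c a ⟨ha, ha'⟩
    refine ⟨D.smul_mem c ha, fun u₁ hu₁ => ?_⟩
    rw [map_smul, map_smul, Φ.smul_left, Φ.smul_left, ha' u₁ hu₁]

theorem card_le_ne [Finite V] (R : Submodule F V) : Nat.card R ≤ Nat.card {u : V // u ∈ R ∧ u ≠ 0} + 1 := by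
  have h1 := card_or_le (fun u : V => u ∈ R) (fun u => u ∈ R ∧ u ≠ 0) (fun u => u = 0) (fun u hu => by
    by_cases h0 : u = 0
    · exact Or.inr h0
    · exact Or.inl ⟨hu, h0⟩)
  have h2 : Nat.card {u : V // u = 0} = 1 := by
    rw [Nat.card_eq_one_iff_unique]
    exact ⟨⟨fun a b => Subtype.ext (a.2.trans b.2.symm)⟩, ⟨⟨0, rfl⟩⟩⟩
  rw [h2] at h1
  exact h1

/-- the orthogonal projection -/
theorem B_proj {Φ : Frm F V} {E : Submodule F V} {π : V →ₗ[F] V} (h1 : ∀ v, π v ∈ E)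
    (h2 : ∀ v, v - π v ∈ perp Φ E) (v w : V) : Φ.B (π v) w = Φ.B (π v) (π w) := by
  have h3 : Φ.B (π v) (w - π w) = 0 := (mem_perp' Φ).1 (h2 w) _ (h1 v)
  rw [B_sub_right] at h3
  exact sub_eq_zero.1 h3

theorem even_rad [FiniteDimensional F V] {Φ : Frm F V} (hs : ∀ a, Φ.s a = a) (halt : ∀ v, Φ.B v v = 0)
    {D E : Submodule F V} (hD : Even (finrank F D)) {π : V →ₗ[F] V} (h1 : ∀ v, π v ∈ E)
    (h2 : ∀ v, v - π v ∈ perp Φ E) (T : V ≃ₗ[F] V) : Even (finrank F (rad Φ D π T)) := by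
  let β : LinearMap.BilinForm F D := LinearMap.mk₂ F
    (fun u u₁ => Φ.B (u : V) (u₁ : V) - Φ.B (π (T (u : V))) (T (u₁ : V)))
    (fun a b c => by
      show Φ.B ((a : V) + b) c - Φ.B (π (T ((a : V) + b))) (T c) = _
      rw [map_add, map_add, Φ.add_left, Φ.add_left]; ring)
    (fun a b c => by
      show Φ.B (a • (b : V)) c - Φ.B (π (T (a • (b : V)))) (T c) = _
      rw [map_smul, map_smul, Φ.smul_left, Φ.smul_left, smul_eq_mul]; ring)
    (fun a b c => by
      show Φ.B (a : V) ((b : V) + c) - Φ.B (π (T (a : V))) (T ((b : V) + c)) = _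
      rw [map_add, Φ.add_right, Φ.add_right]; ring)
    (fun a b c => by
      show Φ.B (b : V) (a • (c : V)) - Φ.B (π (T (b : V))) (T (a • (c : V))) = _
      rw [map_smul, Φ.smul_right, Φ.smul_right, hs, smul_eq_mul]; ring)
  have hβ : β.IsAlt := by
    intro u
    show Φ.B (u : V) (u : V) - Φ.B (π (T (u : V))) (T (u : V)) = 0
    rw [halt, B_proj h1 h2, halt, sub_zero]
  obtain ⟨m, hm⟩ := Cfsg.Agent.ClassicalGeometry.TwoFamilies.exists_finrank_eq_ker_add β hβ
  have h3 : rad Φ D π T = (LinearMap.ker β).map D.subtype := by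
    ext u
    constructor
    · rintro ⟨hu, hu'⟩
      refine ⟨⟨u, hu⟩, ?_, rfl⟩
      show (⟨u, hu⟩ : D) ∈ LinearMap.ker β
      rw [LinearMap.mem_ker]
      ext u₁
      show Φ.B u u₁ - Φ.B (π (T u)) (T u₁) = 0
      rw [hu' u₁ u₁.2, sub_self]
    · rintro ⟨u, hu, rfl⟩
      refine ⟨u.2, fun u₁ hu₁ => ?_⟩
      have h4 : β u ⟨u₁, hu₁⟩ = 0 := by
        have h5 : β u = 0 := hu
        rw [h5]; rfl
      have h6 : Φ.B (u : V) u₁ - Φ.B (π (T (u : V))) (T u₁) = 0 := h4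
      exact (sub_eq_zero.1 h6).symm
  have h4 : finrank F (rad Φ D π T) = finrank F (LinearMap.ker β) := by
    rw [h3]
    exact (Submodule.equivMapOfInjective D.subtype D.subtype_injective (LinearMap.ker β)).finrank_eq.symm
  rw [h4]
  rw [hm] at hD
  have h5 : Even (m + m) := ⟨m, rfl⟩
  exact (Nat.even_add.1 hD).2 h5

/-! ### the pairs `(u, w)` -/

/-- the pairs `(u, w)` which can occur -/
def SS (Φ : Frm F V) (D : Submodule F V) (y : V ≃ₗ[F] V) (p : V × V) : Prop :=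
  p.1 ∈ D ∧ p.2 ∈ perp Φ D ∧ (∀ u₁ ∈ D, Φ.B p.2 (y u₁) = Φ.B p.1 u₁) ∧ Φ.B p.2 p.2 = Φ.B p.1 p.1

theorem SS_alt [Finite V] {Φ : Frm F V} {D : Submodule F V} (hD : Φ.NdOn D) (y : V ≃ₗ[F] V) :
    Nat.card {p // SS Φ D y p} ≤ Nat.card (perp Φ D) := by
  refine Nat.card_le_card_of_injective (fun p => ⟨p.1.2, p.2.2.1⟩) ?_
  rintro ⟨⟨u, w⟩, hu, hw, h1, hx⟩ ⟨⟨u', w'⟩, hu', hw', h1', hx'⟩ hpp
  have h2 : w = w' := congrArg Subtype.val hpp
  subst h2
  have h3 : u - u' = 0 := by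
    apply hD _ (D.sub_mem hu hu')
    intro u₁ hu₁
    have e1 : Φ.B w (y u₁) = Φ.B u u₁ := h1 u₁ hu₁
    have e2 : Φ.B w (y u₁) = Φ.B u' u₁ := h1' u₁ hu₁
    rw [B_sub_left, ← e1, ← e2, sub_self]
  have h4 : u = u' := sub_eq_zero.1 h3
  subst h4
  rfl

theorem SS_fib [Finite F] [Module.Finite F V] {Φ : Frm F V} {G : Subgroup (V ≃ₗ[F] V)} {N : ℕ} (h : Kl Φ G N)
    (hna : ∃ ρ, Φ.B ρ ρ ≠ 0) {D : Submodule F V} (hn : 4 * finrank F D < finrank F V) (y : V ≃ₗ[F] V) (u : V) :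
    N * Nat.card {w : V // (w ∈ perp Φ D ∧ ∀ u₁ ∈ D, Φ.B w (y u₁) = Φ.B u u₁) ∧ Φ.B w w = Φ.B u u} ≤
      2 * Nat.card {w : V // w ∈ perp Φ D ∧ ∀ u₁ ∈ D, Φ.B w (y u₁) = Φ.B u u₁} := by
  have : Finite V := Module.finite_of_finite F
  by_cases h0 : ∃ w₀, w₀ ∈ perp Φ D ∧ ∀ u₁ ∈ D, Φ.B w₀ (y u₁) = Φ.B u u₁
  · obtain ⟨w₀, hw₀, hw₀'⟩ := h0
    let R : Submodule F V := perp Φ (D ⊔ D.map (y : V →ₗ[F] V))
    have hR : finrank F V < 2 * finrank F R := by
      have h1 := Cfsg.Agent.H440.Bs.finrank_perp Φ h.good.nd (D ⊔ D.map (y : V →ₗ[F] V))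
      have h2 := Submodule.finrank_add_le_finrank_add_finrank D (D.map (y : V →ₗ[F] V))
      have h3 : finrank F (D.map (y : V →ₗ[F] V)) ≤ finrank F D := Submodule.finrank_map_le _ _
      show finrank F V < 2 * finrank F (perp Φ (D ⊔ D.map (y : V →ₗ[F] V)))
      omega
    have hR' : ∀ w, w - w₀ ∈ R ↔ (w ∈ perp Φ D ∧ ∀ u₁ ∈ D, Φ.B w (y u₁) = Φ.B u u₁) := by
      intro w
      constructor
      · intro hw
        have h1 : w - w₀ ∈ perp Φ D := perp_sup_le hw
        refine ⟨?_, fun u₁ hu₁ => ?_⟩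
        · have := (perp Φ D).add_mem h1 hw₀
          rwa [sub_add_cancel] at this
        · have h2 : Φ.B (w - w₀) (y u₁) = 0 := hw _ (Submodule.mem_sup_right ⟨u₁, hu₁, rfl⟩)
          rw [B_sub_left, hw₀' u₁ hu₁] at h2
          exact sub_eq_zero.1 h2
      · rintro ⟨h1, h2⟩
        refine mem_perp_sup ((perp Φ D).sub_mem h1 hw₀) ?_
        rintro _ ⟨u₁, hu₁, rfl⟩
        show Φ.B (w - w₀) (y u₁) = 0
        rw [B_sub_left, hw₀' u₁ hu₁, h2 u₁ hu₁, sub_self]
    have h1 := n2 h R (aniso_of_large h hna R hR) w₀ (Φ.B u u)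
    have h2 : Nat.card R = Nat.card {w : V // w ∈ perp Φ D ∧ ∀ u₁ ∈ D, Φ.B w (y u₁) = Φ.B u u₁} := by
      refine Nat.card_congr ((Equiv.subRight w₀).subtypeEquiv fun w => ?_).symm
      exact (hR' w).symm
    rw [h2] at h1
    refine le_trans (Nat.mul_le_mul_left _ (card_mono' ?_)) h1
    rintro w ⟨hw, hw'⟩
    exact ⟨(hR' w).2 hw, hw'⟩
  · have : IsEmpty {w : V // (w ∈ perp Φ D ∧ ∀ u₁ ∈ D, Φ.B w (y u₁) = Φ.B u u₁) ∧ Φ.B w w = Φ.B u u} :=
      ⟨fun w => h0 ⟨w.1, w.2.1⟩⟩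
    rw [Nat.card_of_isEmpty, mul_zero]
    exact Nat.zero_le _

theorem SS_na [Finite F] [Module.Finite F V] {Φ : Frm F V} {G : Subgroup (V ≃ₗ[F] V)} {N : ℕ} (h : Kl Φ G N)
    (hna : ∃ ρ, Φ.B ρ ρ ≠ 0) {D : Submodule F V} (hD : Φ.NdOn D) (hn : 4 * finrank F D < finrank F V)
    (y : V ≃ₗ[F] V) : N * Nat.card {p // SS Φ D y p} ≤ 2 * Nat.card (perp Φ D) := by
  classical
  have : Finite V := Module.finite_of_finite F
  have := Fintype.ofFinite D
  have h1 : Nat.card {p // SS Φ D y p} ≤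
      Nat.card (Σ u : D, {w : V // (w ∈ perp Φ D ∧ ∀ u₁ ∈ D, Φ.B w (y u₁) = Φ.B (u : V) u₁) ∧ Φ.B w w = Φ.B (u : V) u}) := by
    refine Nat.card_le_card_of_injective (fun p => ⟨⟨p.1.1, p.2.1⟩, ⟨p.1.2, ⟨p.2.2.1, p.2.2.2.1⟩, p.2.2.2.2⟩⟩) ?_
    rintro ⟨⟨u, w⟩, hp⟩ ⟨⟨u', w'⟩, hp'⟩ hpp
    have h2 : u = u' := congrArg (fun s : (Σ u : D, {w : V // (w ∈ perp Φ D ∧ ∀ u₁ ∈ D, Φ.B w (y u₁) = Φ.B (u : V) u₁) ∧
      Φ.B w w = Φ.B (u : V) u}) => (s.1 : V)) hpp
    have h3 : w = w' := congrArg (fun s : (Σ u : D, {w : V // (w ∈ perp Φ D ∧ ∀ u₁ ∈ D, Φ.B w (y u₁) = Φ.B (u : V) u₁) ∧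
      Φ.B w w = Φ.B (u : V) u}) => (s.2 : V)) hpp
    subst h2 h3
    rfl
  have h2 : Nat.card (Σ u : D, {w : V // w ∈ perp Φ D ∧ ∀ u₁ ∈ D, Φ.B w (y u₁) = Φ.B (u : V) u₁}) ≤
      Nat.card (perp Φ D) := by
    refine Nat.card_le_card_of_injective (fun s => ⟨s.2.1, s.2.2.1⟩) ?_
    rintro ⟨⟨u, hu⟩, ⟨w, hw, h1⟩⟩ ⟨⟨u', hu'⟩, ⟨w', hw', h1'⟩⟩ hpp
    have h2 : w = w' := congrArg Subtype.val hpp
    subst h2
    have h3 : u - u' = 0 := by
      apply hD _ (D.sub_mem hu hu')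
      intro u₁ hu₁
      have e1 : Φ.B w (y u₁) = Φ.B u u₁ := h1 u₁ hu₁
      have e2 : Φ.B w (y u₁) = Φ.B u' u₁ := h1' u₁ hu₁
      rw [B_sub_left, ← e1, ← e2, sub_self]
    have h4 : u = u' := sub_eq_zero.1 h3
    subst h4
    rfl
  rw [Nat.card_sigma] at h1 h2
  calc _ ≤ N * _ := Nat.mul_le_mul_left _ h1
    _ ≤ 2 * _ := by
      rw [Finset.mul_sum, Finset.mul_sum]
      exact Finset.sum_le_sum fun u _ => SS_fib h hna hn y u
    _ ≤ _ := Nat.mul_le_mul_left _ h2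

end Cfsg.Agent.H847.Ux
end
end
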